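import Cfsg.Agent.Cusp.C
import Cfsg.Agent.Char.Induce

/-!
Rank 3 actions of `SL_n(q)`: definitions and basic lemmas.
Node `i` joins the coordinates `i` and `i + 1`.
-/

set_option autoImplicit false
open Matrix MulAction Cfsg

namespace CF.Rk

/-- The special linear group. -/
abbrev GG (n : ℕ) (F : Type*) [Field F] := SpecialLinearGroup (Fin n) F

/-- Complex linear characters of the multiplicative group. -/
abbrev Ch (F : Type*) [Field F] := Fˣ →* ℂˣ

variable {n : ℕ} {F : Type*} [Field F]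

theorem val_mul (g h : GG n F) : (g * h).1 = g.1 * h.1 := rfl

theorem val_one : (1 : GG n F).1 = 1 := rfl

theorem tri_inv {c : Fin n → ℕ} {g : GG n F} (h : g.1.BlockTriangular c) :
    (g⁻¹).1.BlockTriangular c := by
  have e : (g⁻¹).1 = (g.1)⁻¹ := (inv_eq_left_inv (congr_arg (·.1) (inv_mul_cancel g))).symm
  rw [e]
  have : Invertible g.1 := (SpecialLinearGroup.toGL g).invertible
  exact blockTriangular_inv_of_blockTriangular h

open _root_.Classical in
variable (n F) in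
/-- The standard parabolic subgroup: the nodes in `J` are merged. -/
def PJ (J : Set ℕ) : Subgroup (GG n F) where
  carrier := {g | g.1.BlockTriangular fun k => Nat.count (· ∉ J) k.1}
  mul_mem' := fun ha hb => BlockTriangular.mul ha hb
  one_mem' := blockTriangular_one
  inv_mem' := fun ha => tri_inv ha

theorem mem_PJ {J : Set ℕ} {g : GG n F} :
    g ∈ PJ n F J ↔ ∀ a b : Fin n, (∃ m, b.1 ≤ m ∧ m < a.1 ∧ m ∉ J) → g.1 a b = 0 := by
  classical
  have key : ∀ a b : ℕ, Nat.count (· ∉ J) b < Nat.count (· ∉ J) a ↔ ∃ m, b ≤ m ∧ m < a ∧ m ∉ J := by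
    intro a b
    induction a with
    | zero => simp
    | succ a ih =>
      rw [Nat.count_succ]
      constructor
      · intro h
        by_cases h1 : a ∉ J
        · by_cases h2 : b ≤ a
          · exact ⟨a, h2, by omega, h1⟩
          · have := Nat.count_monotone (· ∉ J) (show a + 1 ≤ b by omega)
            rw [Nat.count_succ] at this
            omega
        · rw [if_neg h1] at h
          obtain ⟨m, a1, a2, a3⟩ := ih.1 h
          exact ⟨m, a1, by omega, a3⟩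
      · rintro ⟨m, a1, a2, a3⟩
        by_cases h1 : m = a
        · subst h1
          have := Nat.count_monotone (· ∉ J) a1
          rw [if_pos a3]; omega
        · have := ih.2 ⟨m, a1, by omega, a3⟩
          omega
  constructor
  · intro h a b e
    exact h ((by convert key a.1 b.1 : _ ↔ _).2 e)
  · intro h a b e
    exact h a b ((by convert key a.1 b.1 : _ ↔ _).1 e)

theorem PJ_mono {J J' : Set ℕ} (h : J ⊆ J') : PJ n F J ≤ PJ n F J' := fun _ hg =>
  mem_PJ.2 fun a b ⟨m, a1, a2, a3⟩ => mem_PJ.1 hg a b ⟨m, a1, a2, fun e => a3 (h e)⟩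

variable (n F) in
/-- The Borel subgroup. -/
def Bo : Subgroup (GG n F) := PJ n F ∅

theorem mem_Bo {g : GG n F} : g ∈ Bo n F ↔ ∀ a b : Fin n, b < a → g.1 a b = 0 := by
  rw [Bo, mem_PJ]
  exact forall₂_congr fun a b => ⟨fun h e => h ⟨b.1, le_rfl, e, by simp⟩,
    fun h ⟨m, a1, a2, _⟩ => h (Fin.lt_def.2 (by omega))⟩

theorem mem_Bo' {g : GG n F} : g ∈ Bo n F ↔ g.1.BlockTriangular id :=
  mem_Bo.trans ⟨fun h a b e => h a b e, fun h _ _ e => h e⟩

theorem Bo_le (J : Set ℕ) : Bo n F ≤ PJ n F J := PJ_mono (Set.empty_subset _)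

theorem mul_diag {g h : GG n F} (hg : g ∈ Bo n F) (hh : h ∈ Bo n F) (a : Fin n) :
    (g * h).1 a a = g.1 a a * h.1 a a := Cusp.tri_diag (mem_Bo'.1 hg) (mem_Bo'.1 hh) a

theorem diag_ne {g : GG n F} (hg : g ∈ Bo n F) (a : Fin n) : g.1 a a ≠ 0 := fun e => by
  have := mul_diag hg (inv_mem hg) a
  rw [mul_inv_cancel, e, zero_mul] at this
  simp at this

variable (n F) in
/-- The diagonal part. -/
noncomputable def dv : Bo n F →* (Fin n → Fˣ) where
  toFun g := fun a => Units.mk0 (g.1.1 a a) (diag_ne g.2 a)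
  map_one' := by ext a; simp
  map_mul' g h := by ext a; simpa using mul_diag g.2 h.2 a

theorem dv_val (g : Bo n F) (a : Fin n) : (dv n F g a : F) = g.1.1 a a := rfl

theorem prod_dv (g : Bo n F) : ∏ a, dv n F g a = 1 := by
  apply Units.ext
  rw [Units.coe_prod, Units.val_one, ← g.1.2, det_of_isUpperTriangular (mem_Bo'.1 g.2)]
  rfl

variable (n F) in
/-- The unitriangular group. -/
noncomputable def Un : Subgroup (GG n F) := (dv n F).ker.map (Bo n F).subtype

theorem mem_Un {g : GG n F} : g ∈ Un n F ↔ g ∈ Bo n F ∧ ∀ a, g.1 a a = 1 := by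
  constructor
  · rintro ⟨x, hx, rfl⟩
    exact ⟨x.2, fun a => congr_arg Units.val (congrFun hx a)⟩
  · rintro ⟨h1, h2⟩
    exact ⟨⟨g, h1⟩, funext fun a => Units.ext (h2 a), rfl⟩

theorem Un_le : Un n F ≤ Bo n F := fun _ h => (mem_Un.1 h).1

theorem conj_Un {b u : GG n F} (hb : b ∈ Bo n F) (hu : u ∈ Un n F) : b * u * b⁻¹ ∈ Un n F := by
  have h1 := Un_le hu
  refine mem_Un.2 ⟨mul_mem (mul_mem hb h1) (inv_mem hb), fun a => ?_⟩
  rw [mul_diag (mul_mem hb h1) (inv_mem hb), mul_diag hb h1, (mem_Un.1 hu).2, mul_one,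
    ← mul_diag hb (inv_mem hb), mul_inv_cancel]
  simp

/-- Root elements. -/
abbrev xr {a b : Fin n} (h : a ≠ b) (t : F) : GG n F := SpecialLinearGroup.transvection h t

theorem xr_apply {a b : Fin n} (h : a ≠ b) (t : F) (i j : Fin n) :
    (xr h t).1 i j = (if i = j then 1 else 0) + if a = i ∧ b = j then t else 0 := by
  change ((1 : Matrix (Fin n) (Fin n) F) + single a b t) i j = _
  simp [one_apply, single]

theorem xr_mem {a b : Fin n} (h : a < b) (t : F) : xr h.ne t ∈ Un n F := by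
  refine mem_Un.2 ⟨mem_Bo.2 fun i j e => ?_, fun i => ?_⟩
  · rw [xr_apply, if_neg e.ne', if_neg, add_zero]
    rintro ⟨rfl, rfl⟩
    exact absurd h e.not_gt
  · rw [xr_apply, if_pos rfl, if_neg, add_zero]
    rintro ⟨rfl, rfl⟩
    exact absurd h (lt_irrefl _)

/-- Monomial elements: `e j ↦ c j • e (w j)`. -/
noncomputable def mo (w : Equiv.Perm (Fin n)) (c : Fin n → Fˣ)
    (h : ((Equiv.Perm.sign w : ℤ) : F) * ∏ j, (c j : F) = 1) : GG n F :=
  ⟨(Cusp.mono w c).1, by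
    have e : (Cusp.mono w c).1 = (w⁻¹.permMatrix F) * diagonal fun j => (c j : F) := by
      ext i j
      rw [Cusp.mono_apply, mul_diagonal]
      simp [PEquiv.toMatrix_apply, Equiv.toPEquiv_apply, Equiv.symm_apply_eq]
    rw [e, det_mul, det_permutation, det_diagonal, Equiv.Perm.sign_inv, h]⟩

theorem mo_apply (w : Equiv.Perm (Fin n)) (c : Fin n → Fˣ) (h) (i j : Fin n) :
    (mo w c h).1 i j = if i = w j then (c j : F) else 0 := Cusp.mono_apply w c i j

/-- Diagonal elements. -/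
noncomputable def dg (t : Fin n → Fˣ) (h : ∏ j, t j = 1) : GG n F :=
  mo 1 t (by rw [← Units.coe_prod, h]; simp)

theorem dg_apply (t : Fin n → Fˣ) (h) (i j : Fin n) :
    (dg t h).1 i j = if i = j then (t j : F) else 0 := mo_apply _ _ _ i j

theorem dg_mem (t : Fin n → Fˣ) (h) : dg t h ∈ Bo n F :=
  mem_Bo.2 fun a b e => by rw [dg_apply, if_neg e.ne']

theorem dv_dg (t : Fin n → Fˣ) (h) : dv n F ⟨dg t h, dg_mem t h⟩ = t := by
  ext a; rw [dv_val, dg_apply, if_pos rfl]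

/-- The signs of the chosen representative of a permutation. -/
def sg (F : Type*) [Field F] (w : Equiv.Perm (Fin n)) (j : Fin n) : Fˣ :=
  if j.1 = 0 then (if Equiv.Perm.sign w = 1 then 1 else -1) else 1

variable (F) in
/-- The chosen monomial representative of a permutation. -/
noncomputable def wd (w : Equiv.Perm (Fin n)) : GG n F :=
  mo w (sg F w) (by
    rcases n with _ | n
    · simp [Subsingleton.elim w 1]
    · rw [Fin.prod_univ_succ, Finset.prod_eq_one fun i _ => by simp [sg]]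
      rcases Int.units_eq_one_or (Equiv.Perm.sign w) with e | e <;> simp [sg, e])

theorem wd_apply (w : Equiv.Perm (Fin n)) (i j : Fin n) :
    (wd F w).1 i j = if i = w j then (sg F w j : F) else 0 := mo_apply _ _ _ i j

theorem wd_one : wd F (1 : Equiv.Perm (Fin n)) = 1 := by
  ext i j
  rw [wd_apply]
  simp [sg, one_apply]

theorem mul_mo (M : Matrix (Fin n) (Fin n) F) (w : Equiv.Perm (Fin n)) (c : Fin n → Fˣ) (h)
    (i j : Fin n) : (M * (mo w c h).1) i j = M i (w j) * c j := Cusp.mul_mono M w c i j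

theorem mo_mul (M : Matrix (Fin n) (Fin n) F) (w : Equiv.Perm (Fin n)) (c : Fin n → Fˣ) (h)
    (i j : Fin n) : ((mo w c h).1 * M) (w i) j = c i * M i j := Cusp.mono_mul M w c i j

theorem mul_dg (M : Matrix (Fin n) (Fin n) F) (t : Fin n → Fˣ) (h) (i j : Fin n) :
    (M * (dg t h).1) i j = M i j * t j := mul_mo M 1 _ _ i j

theorem dg_mul (M : Matrix (Fin n) (Fin n) F) (t : Fin n → Fˣ) (h) (i j : Fin n) :
    ((dg t h).1 * M) i j = t i * M i j := mo_mul M 1 _ _ i j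

theorem mul_wd (M : Matrix (Fin n) (Fin n) F) (w : Equiv.Perm (Fin n)) (i j : Fin n) :
    (M * (wd F w).1) i j = M i (w j) * sg F w j := mul_mo M w _ _ i j

theorem wd_mul' (M : Matrix (Fin n) (Fin n) F) (w : Equiv.Perm (Fin n)) (i j : Fin n) :
    ((wd F w).1 * M) (w i) j = sg F w i * M i j := mo_mul M w _ _ i j

theorem dg_dg (t t' : Fin n → Fˣ) (h h') :
    dg t h * dg t' h' = dg (t * t') (by simp [Finset.prod_mul_distrib, h, h']) := by
  ext a c
  rw [val_mul, mul_dg, dg_apply, dg_apply]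
  split_ifs <;> simp

theorem dg_one (h) : dg (1 : Fin n → Fˣ) h = 1 := by
  ext a c
  rw [dg_apply]
  simp [one_apply]

theorem dg_inv (t : Fin n → Fˣ) (h) : (dg t h)⁻¹ = dg t⁻¹ (by simp [h]) := by
  rw [inv_eq_iff_mul_eq_one, dg_dg]
  simp only [mul_inv_cancel]
  exact dg_one _

/-- Entries of a conjugate by a monomial element. -/
theorem mo_conj (w : Equiv.Perm (Fin n)) (c : Fin n → Fˣ) (h) (g : GG n F) (i j : Fin n) :
    (mo w c h * g * (mo w c h)⁻¹).1 (w i) (w j) = c i * g.1 i j * (c j)⁻¹.1 := by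
  have e : (mo w c h * g * (mo w c h)⁻¹).1 * (mo w c h).1 = (mo w c h).1 * g.1 := by
    rw [← val_mul, ← val_mul, inv_mul_cancel_right]
  have := congrFun (congrFun e (w i)) j
  rw [mul_mo, mo_mul] at this
  rw [← this, Units.mul_inv_cancel_right]

theorem wd_conj (w : Equiv.Perm (Fin n)) (g : GG n F) (i j : Fin n) :
    (wd F w * g * (wd F w)⁻¹).1 (w i) (w j) = sg F w i * g.1 i j * (sg F w j)⁻¹.1 :=
  mo_conj _ _ _ g i j

theorem dg_conj (t : Fin n → Fˣ) (h) (g : GG n F) (i j : Fin n) :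
    (dg t h * g * (dg t h)⁻¹).1 i j = t i * g.1 i j * (t j)⁻¹.1 := mo_conj 1 _ _ g i j

/-- A matrix with monomial pattern `w` is `wd w` times a diagonal element. -/
theorem exists_dg {g : GG n F} {w : Equiv.Perm (Fin n)} (h : ∀ i j, i ≠ w j → g.1 i j = 0) :
    ∃ t ht, g = wd F w * dg t ht := by
  have h1 : ∀ i j, i ≠ j → ((wd F w)⁻¹ * g).1 i j = 0 := fun i j e => by
    have e1 : (wd F w).1 * ((wd F w)⁻¹ * g).1 = g.1 := by
      rw [← val_mul, mul_inv_cancel_left]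
    have := congrFun (congrFun e1 (w i)) j
    rw [wd, mo_mul, h _ _ (fun e' => e (w.injective e'))] at this
    exact (mul_eq_zero.1 this).resolve_left (Units.ne_zero _)
  have h2 : (wd F w)⁻¹ * g ∈ Bo n F := mem_Bo.2 fun a b e => h1 a b e.ne'
  refine ⟨dv n F ⟨_, h2⟩, prod_dv _, ?_⟩
  rw [← inv_mul_eq_iff_eq_mul]
  ext i j
  rw [dg_apply]
  split_ifs with e
  · subst e; rfl
  · exact h1 i j e

theorem wd_mul (w w' : Equiv.Perm (Fin n)) :
    ∃ t ht, wd F w * wd F w' = wd F (w * w') * dg t ht := by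
  refine exists_dg fun i j e => ?_
  rw [val_mul, wd, wd, mul_mo, mo_apply, if_neg (show ¬i = w (w' j) from e), zero_mul]

theorem dg_wd (w : Equiv.Perm (Fin n)) (t : Fin n → Fˣ) (h) :
    ∃ h', dg t h * wd F w = wd F w * dg (t ∘ w) h' := by
  refine ⟨by rw [← h]; exact Equiv.prod_comp w t, ?_⟩
  ext i j
  rw [val_mul, val_mul, mul_wd, mul_dg, dg_apply, wd_apply]
  split_ifs <;> simp [mul_comm]

/-- Every element of `B` is unitriangular times diagonal. -/
theorem exists_un {b : GG n F} (hb : b ∈ Bo n F) :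
    ∃ u ∈ Un n F, b = u * dg (dv n F ⟨b, hb⟩) (prod_dv _) := by
  refine ⟨b * (dg _ (prod_dv ⟨b, hb⟩))⁻¹, ⟨⟨b, hb⟩ * ⟨_, dg_mem _ (prod_dv ⟨b, hb⟩)⟩⁻¹, ?_, rfl⟩,
    by simp⟩
  simp [dv_dg]

/-- Bruhat decomposition. -/
theorem bruhat (g : GG n F) : ∃ u ∈ Un n F, ∃ w, ∃ b ∈ Bo n F, g = u * wd F w * b := by
  obtain ⟨a, b, w, c, e⟩ := Cusp.bruhat (SpecialLinearGroup.toGL g)
  obtain ⟨a1, a2⟩ := Cusp.inU_zero.1 a.2
  obtain ⟨b1, b2⟩ := Cusp.inU_zero.1 b.2
  let a' : GG n F := ⟨a.1.1, by rw [det_of_isUpperTriangular a1]; simp [a2]⟩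
  let b' : GG n F := ⟨b.1.1, by rw [det_of_isUpperTriangular b1]; simp [b2]⟩
  have e1 : (a'⁻¹ * g * b'⁻¹).1 = (Cusp.mono w c).1 := by
    have e2 : g.1 = a'.1 * (Cusp.mono w c).1 * b'.1 := congr_arg (·.1) e
    rw [val_mul, val_mul, e2, ← mul_assoc, ← mul_assoc,
      ← val_mul, inv_mul_cancel, mul_assoc, mul_assoc,
      ← val_mul, mul_inv_cancel]
    simp
  obtain ⟨t, ht, e3⟩ := exists_dg (g := a'⁻¹ * g * b'⁻¹) (w := w) fun i j h => by
    rw [e1, Cusp.mono_apply, if_neg h]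
  refine ⟨a', mem_Un.2 ⟨mem_Bo'.2 a1, a2⟩, w, dg t ht * b', mul_mem (dg_mem _ _) (mem_Bo'.2 b1), ?_⟩
  rw [← mul_assoc, mul_assoc a', ← e3]
  group

theorem bruhat_uniq {w w' : Equiv.Perm (Fin n)} {b b' : GG n F} (hb : b ∈ Bo n F)
    (hb' : b' ∈ Bo n F) (e : wd F w' = b * wd F w * b') : w = w' := by
  obtain ⟨u, hu, e1⟩ := exists_un hb
  obtain ⟨u', hu', e2⟩ := exists_un (inv_mem hb')
  obtain ⟨u1, u2⟩ := mem_Un.1 hu
  obtain ⟨v1, v2⟩ := mem_Un.1 (inv_mem hu')
  set t := dv n F ⟨b, hb⟩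
  set t' := dv n F ⟨b'⁻¹, inv_mem hb'⟩
  obtain ⟨s, hs, e4⟩ := exists_dg (g := dg t (prod_dv _) * wd F w * (dg t' (prod_dv _))⁻¹) (w := w)
    fun i j h => by
      rw [dg_inv, val_mul, val_mul, mul_dg, dg_mul, wd_apply, if_neg h]
      simp
  have e6 : wd F w' = u * (wd F w * dg s hs) * u'⁻¹ := by
    have e9 : b' = (dg t' (prod_dv _))⁻¹ * u'⁻¹ := by rw [← _root_.mul_inv_rev, ← e2, inv_inv]
    rw [e, ← e4]
    calc b * wd F w * b' = (u * dg t (prod_dv _)) * wd F w * ((dg t' (prod_dv _))⁻¹ * u'⁻¹) := by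
          rw [← e1, ← e9]
      _ = _ := by simp only [mul_assoc]
  have e7 : Cusp.mono w' (sg F w') =
      (⟨SpecialLinearGroup.toGL u, Cusp.inU_zero.2 ⟨mem_Bo'.1 u1, u2⟩⟩ : Cusp.Uni n F) *
      Cusp.mono w (sg F w * s) *
      (⟨SpecialLinearGroup.toGL u'⁻¹, Cusp.inU_zero.2 ⟨mem_Bo'.1 v1, v2⟩⟩ : Cusp.Uni n F) := by
    apply Units.ext
    have e8 : (wd F w * dg s hs).1 = (Cusp.mono w (sg F w * s)).1 := by
      ext a c
      rw [val_mul, mul_dg, wd_apply, Cusp.mono_apply]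
      split_ifs <;> simp
    have : (wd F w').1 = u.1 * (wd F w * dg s hs).1 * (u'⁻¹).1 := congr_arg (·.1) e6
    rw [e8] at this
    exact this
  exact (Cusp.bruhat_uniq e7).1

/-! ### Torus characters -/

/-- The linear character `∏ b i (t i)` of `B`. -/
noncomputable def mu (b : Fin n → Ch F) : Bo n F →* ℂˣ :=
  ∏ i, (b i).comp ((Pi.evalMonoidHom (fun _ => Fˣ) i).comp (dv n F))

theorem mu_apply (b : Fin n → Ch F) (g : Bo n F) : mu b g = ∏ i, b i (dv n F g i) := by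
  simp [mu]

/-- Constant vectors (they give the trivial character). -/
def Cst (b : Fin n → Ch F) : Prop := ∀ i j, b i = b j

/-- Conjugate under the Weyl group. -/
def Eqv (b b' : Fin n → Ch F) : Prop :=
  ∃ (w : Equiv.Perm (Fin n)) (c : Ch F), ∀ i, b' i = c * b (w i)

/-- `ν` composed with the root `t a / t b`. -/
def rt (a b : Fin n) (ν : Ch F) : Fin n → Ch F :=
  fun i => if i = a then ν else if i = b then ν⁻¹ else 1

/-- The principal series character. -/
noncomputable def Ib [Fintype F] [DecidableEq F] (b : Fin n → Ch F) : GG n F → ℂ :=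
  indFun (Bo n F) fun y => mu b y

/-! ### Actions -/

variable {Ω : Type*} [MulAction (GG n F) Ω]

variable (n F Ω) in
/-- A primitive rank 3 action with irreducible point stabilisers. -/
structure R3 : Prop where
  n5 : 5 ≤ n
  fin : Finite Ω
  tr : IsPretransitive (GG n F) Ω
  co : ∀ ω : Ω, IsCoatom (stabilizer (GG n F) ω)
  rk : ∀ ω : Ω, Nat.card (orbitRel.Quotient (stabilizer (GG n F) ω) Ω) = 3
  ne : Nonempty Ω
  irr : ∀ (ω : Ω) (W : Submodule F (Fin n → F)),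
    (∀ g : GG n F, g • ω = ω → ∀ v ∈ W, g • v ∈ W) → W = ⊥ ∨ W = ⊤

variable (n F) in
/-- The diagonal parts of the elements of `B` fixing `ω`. -/
noncomputable def Hs (ω : Ω) : Subgroup (Fin n → Fˣ) :=
  ((stabilizer (GG n F) ω).subgroupOf (Bo n F)).map (dv n F)

theorem mem_Hs {ω : Ω} {t : Fin n → Fˣ} :
    t ∈ Hs n F ω ↔ ∃ g : Bo n F, g.1 • ω = ω ∧ dv n F g = t := Iff.rfl

variable (n F) in
/-- The characters trivial on `Hs ω`. -/
def Es (ω : Ω) : Set (Fin n → Ch F) := {b | ∀ t ∈ Hs n F ω, ∏ i, b i (t i) = 1}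

variable (F) in
/-- The values of the root `t a / t b` on `Hs ω`. -/
noncomputable def Al (ω : Ω) (a b : Fin n) : Subgroup Fˣ :=
  (Hs n F ω).map (Pi.evalMonoidHom (fun _ => Fˣ) a / Pi.evalMonoidHom (fun _ => Fˣ) b)

theorem mem_Al {ω : Ω} {a b : Fin n} {c : Fˣ} :
    c ∈ Al F ω a b ↔ ∃ t ∈ Hs n F ω, t a / t b = c := Iff.rfl

variable (n F Ω)

/-- All roots are onto. -/
def Full : Prop := ∀ (ω : Ω) (a b : Fin n), a ≠ b → Al F ω a b = ⊤

/-- All roots are nontrivial with additively irreducible image. -/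
def Irr : Prop := ∀ (ω : Ω) (a b : Fin n), a ≠ b → Al F ω a b ≠ ⊥ ∧
  ∀ S : AddSubgroup F, (∀ c ∈ Al F ω a b, ∀ s ∈ S, (c : F) * s ∈ S) → S = ⊥ ∨ S = ⊤

/-- Different roots are separated. -/
def Sep : Prop := ∀ (ω : Ω) (a b c d : Fin n), a ≠ b → c ≠ d → s(a, b) ≠ s(c, d) →
  ∃ t ∈ Hs n F ω, t a = t b ∧ t c ≠ t d

/-- `B` is transitive. -/
def CA : Prop := ∀ ω ω' : Ω, ∃ b ∈ Bo n F, b • ω = ω'

variable {n Ω}

/-- The unitriangular stabiliser covers the root group at `(a, b)`. -/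
def Top (ω : Ω) (a b : Fin n) : Prop := ∀ t : F, ∃ u ∈ Un n F, u • ω = ω ∧ u.1 a b = t

/-- The unitriangular stabiliser covers the `3 × 3` block at `a, b, c`. -/
def Top2 (ω : Ω) (a b c : Fin n) : Prop :=
  ∀ s t z : F, ∃ u ∈ Un n F, u • ω = ω ∧ u.1 a b = s ∧ u.1 b c = t ∧ u.1 a c = z

variable (n Ω)

/-- Every panel is full or parabolic. -/
def PF : Prop :=
  ∀ (ω : Ω) (a b : Fin n), b.1 = a.1 + 1 → ∃ h ∈ PJ n F {a.1}, Top F (h • ω) a b

/-- The condition on planes. -/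
def A2 : Prop := ∀ (ω : Ω) (a b c : Fin n), b.1 = a.1 + 1 → c.1 = b.1 + 1 →
  Top F ω a b → Top F ω b c → Top2 F ω a b c

/-- The permutation character. -/
noncomputable def pc : GG n F → ℂ := fun g => Nat.card (fixedBy Ω g)

variable {n F Ω}

variable (Ω) in
/-- The number of `Y`-orbits on whose stabilisers `l` is trivial. -/
noncomputable def nO (Y : Subgroup (GG n F)) (l : Y →* ℂˣ) : ℕ :=
  Nat.card {o : orbitRel.Quotient Y Ω // ∀ y : Y, y • o.out = o.out → l y = 1}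

variable (Ω) in
/-- The decomposition of the permutation character. -/
structure Dc (χ₁ χ₂ : GG n F → ℂ) : Prop where
  i1 : IsIrrCharacter (GG n F) χ₁
  i2 : IsIrrCharacter (GG n F) χ₂
  n1 : χ₁ ≠ fun _ => 1
  n2 : χ₂ ≠ fun _ => 1
  ne : χ₁ ≠ χ₂
  eq : pc n F Ω = (fun _ => 1) + χ₁ + χ₂

variable (Ω) in
/-- Exactly one nontrivial constituent has `B`-fixed vectors. -/
structure CB [Fintype F] [DecidableEq F] (χ₁ χ₂ : GG n F → ℂ) : Prop extends Dc Ω χ₁ χ₂ where
  p1 : classInner χ₁ (Ib 1) ≠ 0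
  p2 : classInner χ₂ (Ib 1) = 0
  dg : ∃ k : ℕ, χ₂ 1 + 1 = ringChar F * k

end CF.Rk
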