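import Cfsg.Agent.Rk.C

/-!
Rank 3 actions of `SL_n(q)`: the condition on planes.
-/

set_option autoImplicit false
open Matrix MulAction Cfsg

namespace CF.Rk

variable {n : ℕ} {F : Type*} [Field F]

namespace A2pl

variable {R : Subgroup (GL (Fin 3) F)} {c : F} {g : GL (Fin 3) F}

theorem ent (g : GL (Fin 3) F) (i j : Fin 3) :
    g.1 i 0 * (g⁻¹).1 0 j + g.1 i 1 * (g⁻¹).1 1 j + g.1 i 2 * (g⁻¹).1 2 j = if i = j then 1 else 0 := by
  rw [← Fin.sum_univ_three fun k => g.1 i k * (g⁻¹).1 k j, ← mul_apply, Units.mul_inv, one_apply]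

theorem cj {Z : GL (Fin 3) F} (hZ : Z.1 = !![1, 0, 1; 0, 1, 0; 0, 0, 1]) (g : GL (Fin 3) F) (i j : Fin 3) :
    (g * Z * g⁻¹).1 i j = (if i = j then 1 else 0) + g.1 i 0 * (g⁻¹).1 2 j := by
  rw [← ent g, Units.val_mul, Units.val_mul, hZ]
  simp [mul_apply, Fin.sum_univ_three]
  ring

variable (hc : c ≠ 0) (h1 : ∀ s z : F, ∃ u ∈ R, u.1 = !![1, s, z; 0, 1, c * s; 0, 0, 1])
  (h2 : ∀ u ∈ R, ∀ s t z : F, u.1 = !![1, s, z; 0, 1, t; 0, 0, 1] → t = c * s) (hg : g ∈ R)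
include h1 h2 hg

theorem s1 (a : g.1 2 0 = 0) (b : g.1 2 1 = 0) : g.1 1 0 = 0 := by
  obtain ⟨Z, hZ, e⟩ := h1 0 1
  rw [mul_zero] at e
  have k0 := ent g 2 0
  have k1 := ent g 2 1
  have k2 := ent g 2 2
  simp only [a, b, zero_mul, zero_add, Fin.reduceEq, if_false, if_true] at k0 k1 k2
  have n2 := left_ne_zero_of_mul_eq_one k2
  have := h2 _ (mul_mem (mul_mem hg hZ) (inv_mem hg)) 0 (g.1 1 0 * (g⁻¹).1 2 2) (g.1 0 0 * (g⁻¹).1 2 2) (by
    ext i j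
    rw [cj e]
    fin_cases i <;> fin_cases j <;>
      simp [-Matrix.coe_units_inv, a, (mul_eq_zero.1 k0).resolve_left n2, (mul_eq_zero.1 k1).resolve_left n2])
  rw [mul_zero] at this
  exact (mul_eq_zero.1 this).resolve_right (right_ne_zero_of_mul_eq_one k2)

include hc

theorem s2 (a : g.1 1 0 = 0) (b : g.1 2 0 = 0) : g.1 2 1 = 0 := by
  obtain ⟨Z, hZ, e⟩ := h1 0 1
  rw [mul_zero] at e
  have k0 := ent g⁻¹ 0 0
  have k1 := ent g⁻¹ 1 0
  have k2 := ent g⁻¹ 2 0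
  simp only [inv_inv, a, b, mul_zero, add_zero, Fin.reduceEq, if_false, if_true] at k0 k1 k2
  have n2 := right_ne_zero_of_mul_eq_one k0
  have := h2 _ (mul_mem (mul_mem (inv_mem hg) hZ) (inv_mem (inv_mem hg))) ((g⁻¹).1 0 0 * g.1 2 1) 0
    ((g⁻¹).1 0 0 * g.1 2 2) (by
    ext i j
    rw [cj e, inv_inv]
    fin_cases i <;> fin_cases j <;>
      simp [-Matrix.coe_units_inv, b, (mul_eq_zero.1 k1).resolve_right n2, (mul_eq_zero.1 k2).resolve_right n2])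
  exact (mul_eq_zero.1 ((mul_eq_zero.1 this.symm).resolve_left hc)).resolve_left (left_ne_zero_of_mul_eq_one k0)

theorem s3 (a : g.1 2 0 = 0) : g.1 1 0 = 0 := by
  obtain ⟨Z, hZ, e⟩ := h1 0 1
  rw [mul_zero] at e
  have := s2 hc h1 h2 (mul_mem (mul_mem (inv_mem hg) hZ) (inv_mem (inv_mem hg)))
    (by rw [cj e, inv_inv]; simp [a]) (by rw [cj e, inv_inv]; simp [a])
  rw [cj e, inv_inv, if_neg (by decide), zero_add] at this
  by_cases b : g.1 2 1 = 0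
  · exact s1 h1 h2 hg a b
  have k := (mul_eq_zero.1 this).resolve_right b
  have k0 := ent g 0 0
  have k1 := ent g 1 0
  have k2 := ent g 2 0
  simp only [a, k, zero_mul, zero_add, mul_zero, add_zero, Fin.reduceEq, if_false, if_true] at k0 k1 k2
  have l := (mul_eq_zero.1 k2).resolve_left b
  rw [l, mul_zero, add_zero] at k0 k1
  exact (mul_eq_zero.1 k1).resolve_right (right_ne_zero_of_mul_eq_one k0)

theorem s4 : g.1 2 0 = 0 := by
  by_contra a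
  obtain ⟨x, hx⟩ : ∃ x, g.1 2 0 * x + g.1 2 1 ≠ 0 := by
    by_cases b : g.1 2 1 = 0
    · exact ⟨1, by simpa [b]⟩
    · exact ⟨0, by simpa⟩
  set l := g.1 2 0 / (g.1 2 0 * x + g.1 2 1)
  set s := (l * (g.1 1 0 * x + g.1 1 1) - g.1 1 0) / (c * g.1 2 0) with hs
  obtain ⟨u, hu, e⟩ := h1 s ((l * (g.1 0 0 * x + g.1 0 1) - g.1 0 0 - s * g.1 1 0) / g.1 2 0)
  have k : ∀ i, (u * g).1 i 0 = l * (g.1 i 0 * x + g.1 i 1) := fun i => by
    rw [Units.val_mul, e]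
    fin_cases i <;> simp [mul_apply, Fin.sum_univ_three]
    · field_simp; ring
    · rw [hs]; field_simp; ring
    · exact (div_mul_cancel₀ _ hx).symm
  have m : ∀ i, (g⁻¹ * (u * g)).1 i 0 = l * ((if i = 0 then 1 else 0) * x + if i = 1 then 1 else 0) := fun i => by
    rw [Units.val_mul, mul_apply, Fin.sum_univ_three, k, k, k, ← ent g⁻¹, ← ent g⁻¹, inv_inv]
    ring
  have := s3 hc h1 h2 (mul_mem (inv_mem hg) (mul_mem hu hg)) (by rw [m]; simp)
  rw [m] at this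
  have e : l = 0 := by simpa using this
  exact div_ne_zero a hx e

end A2pl

open A2pl in
theorem a2pl (R : Subgroup (GL (Fin 3) F)) {c : F} (hc : c ≠ 0)
    (h1 : ∀ s z : F, ∃ u ∈ R, u.1 = !![1, s, z; 0, 1, c * s; 0, 0, 1])
    (h2 : ∀ u ∈ R, ∀ s t z : F, u.1 = !![1, s, z; 0, 1, t; 0, 0, 1] → t = c * s)
    (h3 : ∀ g : GL (Fin 3) F, ∃ k : GL (Fin 3) F, k.1 2 0 = 0 ∧ k.1 2 1 = 0 ∧ ∀ s : F, ∃ u ∈ R,
      ∃ t z : F, (k * g * u * (k * g)⁻¹).1 = !![1, s, z; 0, 1, t; 0, 0, 1]) : False := by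
  have w : (!![0, 0, 1; 0, 1, 0; 1, 0, 0] * !![0, 0, 1; 0, 1, 0; 1, 0, 0] : Matrix (Fin 3) (Fin 3) F) = 1 := by
    simp [one_fin_three]
  obtain ⟨k, k0, k1, h⟩ := h3 ⟨_, _, w, w⟩
  obtain ⟨u, hu, t, z, e⟩ := h 1
  have k2 := ent k 2 2
  simp only [k0, k1, zero_mul, zero_add, if_true] at k2
  have n2 := left_ne_zero_of_mul_eq_one k2
  set m := k * ⟨_, _, w, w⟩ with hm
  have r : ∀ j, m.1 2 j = if j = 0 then k.1 2 2 else 0 := fun j => by
    rw [hm, Units.val_mul]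
    fin_cases j <;> simp [mul_apply, Fin.sum_univ_three, k0, k1]
  have e1 : m.1 * u.1 = !![1, 1, z; 0, 1, t; 0, 0, 1] * m.1 := by
    rw [← e, ← Units.val_mul, ← Units.val_mul, inv_mul_cancel_right]
  have q : ∀ j, k.1 2 2 * u.1 0 j = if j = 0 then k.1 2 2 else 0 := fun j => by
    simpa [mul_apply, Fin.sum_univ_three, r] using congrFun (congrFun e1 2) j
  have a := s4 hc h1 h2 hu
  have b := s3 hc h1 h2 hu a
  have d := s2 hc h1 h2 hu b a
  have q0 : u.1 0 0 = 1 := by simpa [n2] using q 0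
  have q1 : u.1 0 1 = 0 := by simpa [n2] using q 1
  have q2 : u.1 0 2 = 0 := by simpa [n2] using q 2
  have t1 := trace_units_conj m u.1
  have t2 := det_units_conj m u.1
  rw [← Units.val_mul, ← Units.val_mul, e] at t1 t2
  simp [trace_fin_three, det_fin_three, a, b, d, q0, q1, q2] at t1 t2
  have p1 : u.1 1 1 = 1 := sub_eq_zero.1 (pow_eq_zero_iff two_ne_zero |>.1 (by
    linear_combination t2 - u.1 1 1 * t1))
  have p2 : u.1 2 2 = 1 := by rwa [p1, one_mul, eq_comm] at t2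
  have f : u.1 = !![1, 0, 0; 0, 1, u.1 1 2; 0, 0, 1] := by
    ext i j
    fin_cases i <;> fin_cases j <;> simp [a, b, d, q0, q1, q2, p1, p2]
  have f1 := h2 u hu _ _ _ f
  rw [f1, mul_zero, ← one_fin_three] at f
  rw [show u = 1 from Units.ext f, mul_one, mul_inv_cancel] at e
  simpa using congrFun (congrFun e 0) 1

namespace A2a

variable {Ω : Type*} [MulAction (GG n F) Ω] {a : ℕ} (ha : a + 3 ≤ n) (ω : Ω)

/-- The entries of the block of an element of the unitriangular stabiliser. -/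
def E (s t z : F) : Prop := ∃ u ∈ Un n F, u • ω = ω ∧ u.1 (ix ha 0) (ix ha 1) = s ∧
  u.1 (ix ha 1) (ix ha 2) = t ∧ u.1 (ix ha 0) (ix ha 2) = z

theorem blk_un {u : GG n F} (hu : u ∈ Un n F) (k : u ∈ PI n F a 3) : (blk F ha ⟨u, k⟩).1 =
    !![1, u.1 (ix ha 0) (ix ha 1), u.1 (ix ha 0) (ix ha 2); 0, 1, u.1 (ix ha 1) (ix ha 2); 0, 0, 1] := by
  obtain ⟨h1, h2⟩ := mem_Un.1 hu
  ext i j
  rw [blk_apply]
  fin_cases i <;> fin_cases j <;> first | rfl | exact h2 _ | exact mem_Bo.1 h1 _ _ (Fin.lt_def.2 (by simp))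

theorem mul3 {u v : GG n F} (hu : u ∈ Un n F) (hv : v ∈ Un n F) :
    (u * v).1 (ix ha 0) (ix ha 1) = u.1 (ix ha 0) (ix ha 1) + v.1 (ix ha 0) (ix ha 1) ∧
    (u * v).1 (ix ha 1) (ix ha 2) = u.1 (ix ha 1) (ix ha 2) + v.1 (ix ha 1) (ix ha 2) ∧
    (u * v).1 (ix ha 0) (ix ha 2) = u.1 (ix ha 0) (ix ha 2) + v.1 (ix ha 0) (ix ha 2) +
      u.1 (ix ha 0) (ix ha 1) * v.1 (ix ha 1) (ix ha 2) := by
  rw [adj_mul rfl (Un_le hu) (Un_le hv), adj_mul rfl (Un_le hu) (Un_le hv),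
    blk_mul ha (Bo_le_PI _ _ (Un_le hu)) (Bo_le_PI _ _ (Un_le hv)), Fin.sum_univ_three]
  simp only [(mem_Un.1 hu).2, (mem_Un.1 hv).2]
  exact ⟨by ring, by ring, by ring⟩

variable {ha ω} {s t z s' t' z' : F}

theorem E.mul (h : E ha ω s t z) (k : E ha ω s' t' z') : E ha ω (s + s') (t + t') (z + z' + s * t') := by
  obtain ⟨u, hu, e, rfl, rfl, rfl⟩ := h
  obtain ⟨v, hv, e', rfl, rfl, rfl⟩ := k
  exact ⟨u * v, mul_mem hu hv, by rw [mul_smul, e', e], mul3 ha hu hv⟩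

theorem E.inv (h : E ha ω s t z) : E ha ω (-s) (-t) (s * t - z) := by
  obtain ⟨u, hu, e, rfl, rfl, rfl⟩ := h
  obtain ⟨h1, h2, h3⟩ := mul3 ha hu (inv_mem hu)
  have k : ∀ i j : Fin 3, i ≠ j → (u * u⁻¹).1 (ix ha i) (ix ha j) = 0 := fun i j e => by
    rw [mul_inv_cancel, val_one, one_apply_ne ((ix_inj ha).ne e)]
  rw [k _ _ (by decide)] at h1 h2 h3
  exact ⟨u⁻¹, inv_mem hu, inv_smul_eq_iff.2 e.symm, by linear_combination -h1, by linear_combination -h2,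
    by linear_combination -h3 + u.1 (ix ha 0) (ix ha 1) * h2⟩

theorem E.sc (h : E ha ω s t z) {τ : Fin n → Fˣ} (hτ : τ ∈ Hs n F ω) :
    ∃ z, E ha ω ((τ (ix ha 0) / τ (ix ha 1) : Fˣ) * s) ((τ (ix ha 1) / τ (ix ha 2) : Fˣ) * t) z := by
  obtain ⟨u, hu, e, rfl, rfl, rfl⟩ := h
  obtain ⟨g, e', rfl⟩ := mem_Hs.1 hτ
  have k : ∀ {i j : Fin n}, j.1 = i.1 + 1 → (g.1 * u * g.1⁻¹).1 i j = (dv n F g i / dv n F g j : Fˣ) * u.1 i j :=
    fun l => by
      rw [Units.val_div_eq_div_val, dv_val, dv_val, div_mul_eq_mul_div, eq_div_iff (diag_ne g.2 _),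
        adj_conj l g.2 hu]
  exact ⟨_, _, conj_Un g.2 hu, by rw [mul_smul, mul_smul, inv_smul_eq_iff.2 e'.symm, e, e'], k rfl, k rfl, rfl⟩

theorem E.cen (h : E ha ω s t z) (k : ∀ z : F, E ha ω 0 0 z) (z' : F) : E ha ω s t z' := by
  simpa using h.mul (k (z' - z))

theorem full (h : ∀ s t : F, ∃ z, E ha ω s t z) (s t z : F) : E ha ω s t z := by
  refine (h s t).elim fun _ e => e.cen (fun z => ?_) z
  obtain ⟨x, h1⟩ := h z 0
  obtain ⟨y, h2⟩ := h 0 1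
  convert ((h1.mul h2).mul h1.inv).mul h2.inv using 1 <;> ring

theorem pow_adj {g : GG n F} (hg : g ∈ Bo n F) {i j : Fin n} (l : j.1 = i.1 + 1) (h1 : g.1 i i = 1)
    (h2 : g.1 j j = 1) (k : ℕ) : (g ^ k).1 i j = k * g.1 i j ∧ (g ^ k).1 i i = 1 := by
  induction k with
  | zero => simpa using one_apply_ne (fun e => by simp [e] at l)
  | succ k ih =>
    rw [pow_succ, adj_mul l (pow_mem hg k) hg, mul_diag (pow_mem hg k) hg, ih.1, ih.2, h1, h2]
    exact ⟨by push_cast; ring, one_mul _⟩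

variable [Fintype F] [DecidableEq F]

theorem graph (hq : Fintype.card F ≤ 4) (hf : Full n F Ω) (h1 : ∀ s : F, ∃ t z, E ha ω s t z)
    (k1 : ∀ t z : F, E ha ω 0 t z → t = 0) (k2 : ∀ s z : F, E ha ω s 0 z → s = 0) :
    (2 : F) = 0 ∧ ∃ c : F, c ≠ 0 ∧ ∀ s t z, E ha ω s t z → t = c * s := by
  choose σ ζ hσ using h1
  have u : ∀ {s t z}, E ha ω s t z → t = σ s := fun {s _ _} e =>
    add_neg_eq_zero.1 (k1 _ _ (add_neg_cancel s ▸ e.mul (hσ s).inv))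
  have ad : ∀ s t, σ (s + t) = σ s + σ t := fun s t => (u ((hσ s).mul (hσ t))).symm
  have ng : ∀ s, σ (-s) = -σ s := fun s => (u (hσ s).inv).symm
  have nz : ∀ {s}, s ≠ 0 → σ s ≠ 0 := fun e l => e (k2 _ _ (l ▸ hσ _))
  have c := nz one_ne_zero
  have sc : ∀ τ ∈ Hs n F ω, ∀ s, σ ((τ (ix ha 0) / τ (ix ha 1) : Fˣ) * s) =
      (τ (ix ha 1) / τ (ix ha 2) : Fˣ) * σ s := fun τ hτ s => ((hσ s).sc hτ).elim fun _ e => (u e).symm
  have ml : ∀ x s, σ (x * s) * σ 1 = σ x * σ s := fun x s => by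
    by_cases e : x = 0
    · simp [e, k1 _ _ (hσ 0)]
    obtain ⟨τ, hτ, l⟩ := mem_Al.1 ((hf ω (ix ha 0) (ix ha 1) ((ix_inj ha).ne (by decide))).ge
      (Subgroup.mem_top (Units.mk0 x e)))
    have := sc τ hτ
    rw [l, Units.val_mk0] at this
    rw [this, ← mul_one x, this]
    ring
  have inj : Function.Injective fun x => x * σ x / σ 1 := Finite.injective_iff_surjective.2 fun y => by
    by_cases e : y = 0
    · exact ⟨0, by simp [e]⟩
    obtain ⟨τ, hτ, l⟩ := mem_Al.1 ((hf ω (ix ha 0) (ix ha 2) ((ix_inj ha).ne (by decide))).ge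
      (Subgroup.mem_top (Units.mk0 y e)))
    refine ⟨(τ (ix ha 0) / τ (ix ha 1) : Fˣ), ?_⟩
    have := sc τ hτ 1
    rw [mul_one] at this
    simp only [this]
    rw [← mul_assoc, mul_div_cancel_right₀ _ c, ← Units.val_mul, div_mul_div_cancel, l, Units.val_mk0]
  have two : (2 : F) = 0 := by
    have : (-1 : F) = 1 := inj (by simp [ng])
    linear_combination -this
  refine ⟨two, σ 1, c, fun s t z e => (u e).trans ?_⟩
  by_cases e0 : s = 0
  · simp [e0, k1 _ _ (hσ 0)]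
  by_cases e1 : s = 1
  · simp [e1]
  have p : s ^ 3 = 1 := by
    have := FiniteField.pow_card_sub_one_eq_one s e0
    have l := Fintype.one_lt_card (α := F)
    rcases (by omega : Fintype.card F - 1 = 1 ∨ Fintype.card F - 1 = 2 ∨ Fintype.card F - 1 = 3) with e | e | e <;>
      rw [e] at this
    · exact absurd (by simpa using this) e1
    · exact absurd (sub_eq_zero.1 (pow_eq_zero_iff two_ne_zero |>.1 (by
        linear_combination this + (1 - s) * two))) e1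
    · exact this
  have p1 : s * s = -(s + 1) := by
    have : (s - 1) * (s * s + (s + 1)) = 0 := by linear_combination p
    exact eq_neg_of_add_eq_zero_left ((mul_eq_zero.1 this).resolve_left (sub_ne_zero.2 e1))
  have p2 := ml s s
  rw [p1, ng, ad] at p2
  have : (σ s - σ 1 * s) * (σ s - σ 1 * (s * s)) = 0 := by
    linear_combination -p2 + σ 1 ^ 2 * p - σ s * σ 1 * p1
  refine (mul_eq_zero.1 this).elim sub_eq_zero.1 fun l => absurd (inj ?_) e1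
  simp only [sub_eq_zero.1 l]
  field_simp
  linear_combination p

theorem sub {p : F → Prop} (h : ∀ s, p s → ∀ x : Fˣ, p (x * s)) {s : F} (e : p s) (n : s ≠ 0) (h0 : p 0)
    (t : F) : p t := by
  by_cases l : t = 0
  · rwa [l]
  · simpa [n] using h s e (Units.mk0 _ (div_ne_zero l n))

theorem main (hn : 3 < n) (hq : Fintype.card F ≤ 4) (hP : PF n F Ω) (hf : Full n F Ω)
    (h1 : ∀ s : F, ∃ t z, E ha ω s t z) (h2 : ∀ t : F, ∃ s z, E ha ω s t z) (s t z : F) : E ha ω s t z := by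
  have z0 : ∃ z : F, E ha ω 0 0 z := (h1 0).elim fun _ e => e.elim fun _ e => ⟨_, by simpa using e.mul e.inv⟩
  have al : ∀ {i j : Fin 3}, i ≠ j → ∀ x : Fˣ, ∃ τ ∈ Hs n F ω, τ (ix ha i) / τ (ix ha j) = x := fun e x =>
    mem_Al.1 ((hf ω _ _ ((ix_inj ha).ne e)).ge (Subgroup.mem_top x))
  by_contra hE
  have nf : ¬ ∀ s t : F, ∃ z, E ha ω s t z := fun l => hE (full l s t z)
  obtain ⟨two, c, hc, k⟩ := graph hq hf h1 (fun t z e => by_contra fun l => nf fun s' t' => by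
      obtain ⟨x, y, e1⟩ := h1 s'
      obtain ⟨w, e2⟩ := sub (p := fun t => ∃ z, E ha ω 0 t z) (fun s ⟨_, e⟩ x => by
        obtain ⟨τ, hτ, rfl⟩ := al (i := 1) (j := 2) (by decide) x
        simpa using e.sc hτ) ⟨z, e⟩ l z0 (t' - x)
      exact ⟨_, by simpa using e1.mul e2⟩)
    fun s z e => by_contra fun l => nf fun s' t' => by
      obtain ⟨x, y, e1⟩ := h2 t'
      obtain ⟨w, e2⟩ := sub (p := fun s => ∃ z, E ha ω s 0 z) (fun s ⟨_, e⟩ x => by
        obtain ⟨τ, hτ, rfl⟩ := al (i := 0) (j := 1) (by decide) x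
        simpa using e.sc hτ) ⟨z, e⟩ l z0 (s' - x)
      exact ⟨_, by simpa using e1.mul e2⟩
  have cen : ∀ z : F, E ha ω 0 0 z := fun z => by
    obtain ⟨r, hr⟩ := FiniteField.isSquare_of_char_two (CharP.ringChar_of_prime_eq_zero Nat.prime_two two) (z / c)
    obtain ⟨t, y, e⟩ := h1 r
    obtain rfl := k _ _ _ e
    rw [div_eq_iff hc] at hr
    convert e.mul e using 1
    · linear_combination -r * two
    · linear_combination -c * r * two
    · linear_combination hr - y * two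
  refine a2pl (Kb F ha {a, a + 1} ω) hc (fun s z => ?_) ?_ fun g => ?_
  · obtain ⟨t, y, e⟩ := h1 s
    obtain rfl := k _ _ _ e
    obtain ⟨u, hu, e0, e1, e2, e3⟩ := e.cen cen z
    exact ⟨_, mem_Kb.2 ⟨⟨u, Bo_le_PI _ _ (Un_le hu)⟩, ⟨Bo_le _ (Un_le hu), e0⟩, rfl⟩, by
      rw [blk_un ha hu, e1, e2, e3]⟩
  · rintro _ ⟨g, ⟨g1, g2⟩, rfl⟩ s t z e
    have v : ∀ i j, g.1.1 (ix ha i) (ix ha j) = !![1, s, z; 0, 1, t; 0, 0, 1] i j := fun i j =>
      congrFun (congrFun e i) j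
    have b : g.1 ∈ Bo n F := mem_Bo.2 fun i j l => by
      have l' : j.1 < i.1 := l
      by_cases m : a ≤ j.1 ∧ i.1 < a + 3
      · obtain ⟨i, rfl⟩ : ∃ i', i = ix ha i' := ⟨⟨i.1 - a, by omega⟩, Fin.ext (by simp; omega)⟩
        obtain ⟨j, rfl⟩ : ∃ j', j = ix ha j' := ⟨⟨j.1 - a, by omega⟩, Fin.ext (by simp; omega)⟩
        rw [v]
        fin_cases i <;> fin_cases j <;> simp at l' ⊢
      · exact mem_PJ.1 g1 i j ⟨if j.1 < a then j.1 else max j.1 (a + 2), by split_ifs <;> omega,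
          by split_ifs <;> omega, by simp; split_ifs <;> omega⟩
    have := k _ _ _ ⟨_, pow_mem_Un b, (stabilizer (GG n F) ω).pow_mem g2 _,
      (pow_adj b rfl (v 0 0) (v 1 1) _).1, (pow_adj b rfl (v 1 1) (v 2 2) _).1, rfl⟩
    rw [Nat.cast_sub Fintype.card_pos, FiniteField.cast_card_eq_zero, v, v] at this
    simpa using this
  · obtain ⟨G, hG, rfl⟩ := exists_blk ha hn (J := {a, a + 1}) (fun m _ _ => by simp; omega) g
    obtain ⟨H, hH, tp⟩ := hP (G.1 • ω) (ix ha 0) (ix ha 1) rfl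
    have hH' : H ∈ PJ n F {a, a + 1} := PJ_mono (by simp) hH
    refine ⟨blk F ha ⟨H, two_le_PI a hH'⟩, mem_PJ_one.1 hH _ _ (Fin.lt_def.2 (by simp)) (by simp),
      mem_PJ_one.1 hH _ _ (Fin.lt_def.2 (by simp)) (by simp), fun s => ?_⟩
    obtain ⟨v, hv, e1, e2⟩ := tp s
    have m := Bo_le_PI a 3 (Un_le hv)
    refine ⟨_, mem_Kb.2 ⟨(⟨H, two_le_PI a hH'⟩ * G)⁻¹ * ⟨v, m⟩ * (⟨H, two_le_PI a hH'⟩ * G),
      ⟨mul_mem (mul_mem (inv_mem (mul_mem hH' hG)) (Bo_le _ (Un_le hv))) (mul_mem hH' hG), ?_⟩, rfl⟩,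
      v.1 (ix ha 1) (ix ha 2), v.1 (ix ha 0) (ix ha 2), ?_⟩
    · change ((H * G.1)⁻¹ * v * (H * G.1)) • ω = ω
      rw [mul_smul, mul_smul, mul_smul H, e1, ← mul_smul H, inv_smul_smul]
    · rw [← e2, ← blk_un ha hv m, ← map_mul, ← map_mul, ← map_inv, ← map_mul]
      congr 2
      group

end A2a

theorem R3.a2 [Fintype F] [DecidableEq F] {Ω : Type*} [MulAction (GG n F) Ω] (h : R3 n F Ω)
    (hq : Fintype.card F ≤ 4) (hP : PF n F Ω) (hf : Full n F Ω) : A2 n F Ω := fun ω a b c hab hbc h1 h2 => by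
  have ha : a.1 + 3 ≤ n := by have := c.2; omega
  obtain rfl : b = ix ha 1 := Fin.ext hab
  obtain rfl : c = ix ha 2 := Fin.ext hbc
  exact A2a.main (ha := ha) (by have := h.n5; omega) hq hP hf
    (fun s => (h1 s).elim fun u e => ⟨_, _, u, e.1, e.2.1, e.2.2, rfl, rfl⟩)
    fun t => (h2 t).elim fun u e => ⟨_, _, u, e.1, e.2.1, rfl, e.2.2, rfl⟩

end CF.Rk
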