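import Cfsg.Agent.Rk.A

/-!
Rank 3 actions of `SL_n(q)`: blocks, Young subgroups, signs.
-/

set_option autoImplicit false
open Matrix MulAction Cfsg

namespace CF.Rk

variable {n : ℕ} {F : Type*} [Field F]

/-- The coordinate `a + i`. -/
def ix {a k : ℕ} (h : a + k ≤ n) (i : Fin k) : Fin n := ⟨a + i.1, by omega⟩

@[simp] theorem ix_val {a k : ℕ} (h : a + k ≤ n) (i : Fin k) : (ix h i).1 = a + i.1 := rfl

theorem ix_inj {a k : ℕ} (h : a + k ≤ n) : Function.Injective (ix h) := fun i j e => by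
  have := congr_arg Fin.val e
  simp only [ix_val] at this
  exact Fin.ext (by omega)

variable (n F) in
/-- The stabiliser of the spans of the first `a` and of the first `a + k` basis vectors. -/
def PI (a k : ℕ) : Subgroup (GG n F) := PJ n F {m | m + 1 ≠ a ∧ m + 1 ≠ a + k}

theorem mem_PI {a k : ℕ} {g : GG n F} : g ∈ PI n F a k ↔ ∀ i j : Fin n,
    (j.1 < a ∧ a ≤ i.1) ∨ (j.1 < a + k ∧ a + k ≤ i.1) → g.1 i j = 0 := by
  rw [PI, mem_PJ]
  refine forall₂_congr fun i j => ⟨fun h e => h ?_, fun h ⟨m, a1, a2, a3⟩ => h ?_⟩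
  · rcases e with e | e
    · exact ⟨a - 1, by omega, by omega, by simp only [Set.mem_ofPred_eq]; omega⟩
    · exact ⟨a + k - 1, by omega, by omega, by simp only [Set.mem_ofPred_eq]; omega⟩
  · simp only [Set.mem_ofPred_eq] at a3
    omega

theorem PJ_le_PI {a k : ℕ} {J : Set ℕ} (h : ∀ m ∈ J, m + 1 ≠ a ∧ m + 1 ≠ a + k) :
    PJ n F J ≤ PI n F a k := PJ_mono h

theorem Bo_le_PI (a k : ℕ) : Bo n F ≤ PI n F a k := Bo_le _

theorem one_le_PI (a : ℕ) : PJ n F {a} ≤ PI n F a 2 := PJ_le_PI fun m hm => by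
  rw [Set.mem_singleton_iff] at hm; omega

theorem two_le_PI (a : ℕ) : PJ n F {a, a + 1} ≤ PI n F a 3 := PJ_le_PI fun m hm => by
  simp only [Set.mem_insert_iff, Set.mem_singleton_iff] at hm; omega

theorem line_le_PI : PJ n F {1}ᶜ ≤ PI n F 0 2 := PJ_le_PI fun m hm => by
  simp only [Set.mem_compl_iff, Set.mem_singleton_iff] at hm; omega

theorem mem_PJ_one {a : ℕ} {g : GG n F} :
    g ∈ PJ n F {a} ↔ ∀ i j : Fin n, j < i → ¬(j.1 = a ∧ i.1 = a + 1) → g.1 i j = 0 := by
  rw [mem_PJ]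
  refine forall₂_congr fun i j => ⟨fun h e e' => h ?_, fun h ⟨m, a1, a2, a3⟩ => h ?_ ?_⟩
  · have : j.1 < i.1 := e
    by_cases e1 : j.1 = a
    · exact ⟨a + 1, by omega, by omega, by simp⟩
    · exact ⟨j.1, le_rfl, this, e1⟩
  · exact Fin.lt_def.2 (by omega)
  · simp only [Set.mem_singleton_iff] at a3
    omega

theorem blk_mul {a k : ℕ} (h : a + k ≤ n) {g g' : GG n F} (hg : g ∈ PI n F a k)
    (hg' : g' ∈ PI n F a k) (i j : Fin k) :
    (g * g').1 (ix h i) (ix h j) = ∑ m, g.1 (ix h i) (ix h m) * g'.1 (ix h m) (ix h j) := by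
  rw [val_mul, mul_apply, ← Finset.sum_subset (Finset.subset_univ (Finset.univ.map ⟨_, ix_inj h⟩)),
    Finset.sum_map]
  · rfl
  · intro m _ hm
    have h1 : m.1 < a ∨ a + k ≤ m.1 := by
      by_contra h2
      exact hm (Finset.mem_map.2 ⟨⟨m.1 - a, by omega⟩, Finset.mem_univ _,
        Fin.ext (by simp only [Function.Embedding.coeFn_mk, ix_val]; omega)⟩)
    have := j.2
    rcases h1 with h1 | h1
    · rw [mem_PI.1 hg _ _ (Or.inl ⟨h1, by simp⟩), zero_mul]
    · rw [mem_PI.1 hg' _ _ (Or.inr ⟨by simp only [ix_val]; omega, h1⟩), mul_zero]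

variable (F) in
/-- The diagonal block on the coordinates `a, …, a + k - 1`. -/
noncomputable def blk {a k : ℕ} (h : a + k ≤ n) : PI n F a k →* GL (Fin k) F :=
  MonoidHom.toHomUnits
    { toFun := fun g => of fun i j => g.1.1 (ix h i) (ix h j)
      map_one' := by
        ext i j
        simp [one_apply, (ix_inj h).eq_iff]
      map_mul' := fun g g' => by
        ext i j
        rw [mul_apply]
        exact blk_mul h g.2 g'.2 i j }

theorem blk_apply {a k : ℕ} (h : a + k ≤ n) (g : PI n F a k) (i j : Fin k) :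
    (blk F h g).1 i j = g.1.1 (ix h i) (ix h j) := rfl

open _root_.Classical in
variable (n) in
/-- The Young subgroup: the nodes in `J` are merged. -/
def YJ (J : Set ℕ) : Subgroup (Equiv.Perm (Fin n)) where
  carrier := {w | ∀ i, Nat.count (· ∉ J) (w i).1 = Nat.count (· ∉ J) i.1}
  mul_mem' := fun {a b} ha hb i => (ha (b i)).trans (hb i)
  one_mem' := fun _ => rfl
  inv_mem' := fun {a} ha i => by simpa using (ha (a⁻¹ i)).symm

variable (n F) in
/-- The permutation character of a parabolic subgroup. -/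
noncomputable def IP [Fintype F] [DecidableEq F] (J : Set ℕ) : GG n F → ℂ :=
  indFun (PJ n F J) fun _ => 1

variable (n) in
/-- The permutation character of a Young subgroup. -/
noncomputable def IY (J : Set ℕ) : Equiv.Perm (Fin n) → ℂ := indFun (YJ n J) fun _ => 1

theorem Ib_one [Fintype F] [DecidableEq F] : Ib (1 : Fin n → Ch F) = IP n F ∅ := by
  unfold Ib IP
  congr 1
  funext y
  simp [mu_apply]

/-- The number of inversions. -/
def ninv (w : Equiv.Perm (Fin n)) : ℕ :=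
  (Finset.univ.filter fun p : Fin n × Fin n => p.1 < p.2 ∧ w⁻¹ p.2 < w⁻¹ p.1).card

/-- The number of orbits of a subgroup. -/
noncomputable def nB {G : Type*} [Group G] (Ω : Type*) [MulAction G Ω] (Y : Subgroup G) : ℕ :=
  Nat.card (orbitRel.Quotient Y Ω)

theorem nO_one {Ω : Type*} [MulAction (GG n F) Ω] (Y : Subgroup (GG n F)) :
    nO Ω Y 1 = nB Ω Y := Nat.card_congr (Equiv.subtypeUnivEquiv fun _ _ _ => rfl)

variable {Ω : Type*} [MulAction (GG n F) Ω]

variable (n F) in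
/-- The unitriangular stabiliser. -/
noncomputable def Us (ω : Ω) : Subgroup (GG n F) := Un n F ⊓ stabilizer (GG n F) ω

theorem mem_Us {ω : Ω} {u : GG n F} : u ∈ Us n F ω ↔ u ∈ Un n F ∧ u • ω = ω := Iff.rfl

variable (n F) in
/-- The diagonal parts lift to diagonal elements fixing `ω`. -/
def Tor (ω : Ω) : Prop := ∀ t ∈ Hs n F ω, ∀ h, dg t h • ω = ω

variable (F) in
/-- The root group at `(a, b)` fixes `ω`. -/
def Ar (ω : Ω) (a b : Fin n) : Prop := ∃ h : a ≠ b, ∀ t : F, xr h t • ω = ω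

variable (n F) in
/-- `ω` and `ω'` lie in one orbit of the parabolic subgroup. -/
def Cl (J : Set ℕ) (ω ω' : Ω) : Prop := ∃ g ∈ PJ n F J, g • ω = ω'

variable (F) in
/-- The image of the stabiliser of `ω` in the parabolic subgroup of `J` in a diagonal block. -/
noncomputable def Kb {a k : ℕ} (h : a + k ≤ n) (J : Set ℕ) (ω : Ω) : Subgroup (GL (Fin k) F) :=
  ((PJ n F J ⊓ stabilizer (GG n F) ω).subgroupOf (PI n F a k)).map (blk F h)

theorem mem_Kb {a k : ℕ} {h : a + k ≤ n} {J : Set ℕ} {ω : Ω} {M : GL (Fin k) F} :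
    M ∈ Kb F h J ω ↔ ∃ g : PI n F a k, (g.1 ∈ PJ n F J ∧ g.1 • ω = ω) ∧ blk F h g = M := Iff.rfl

/-- Mackey compatibility of two linear characters along `g`. -/
def Cp {G : Type*} [Group G] {Y Y' : Subgroup G} (l : Y →* ℂˣ) (l' : Y' →* ℂˣ) (g : G) : Prop :=
  ∀ (y : Y) (hy : g⁻¹ * y * g ∈ Y'), l y = l' ⟨_, hy⟩

/-- `l` is trivial on the stabiliser of `ω`. -/
def Gd {Y : Subgroup (GG n F)} (l : Y →* ℂˣ) (ω : Ω) : Prop := ∀ y : Y, y.1 • ω = ω → l y = 1

theorem mem_Es {ω : Ω} {b : Fin n → Ch F} : b ∈ Es n F ω ↔ Gd (mu b) ω := by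
  refine ⟨fun h y hy => ?_, ?_⟩
  · rw [mu_apply]; exact h _ ⟨y, hy, rfl⟩
  · rintro h _ ⟨y, hy, rfl⟩
    rw [← mu_apply]; exact h y hy

/-! ### The field with two elements -/

/-- The sign of a `2 × 2` matrix over the field with two elements. -/
def ep (M : Matrix (Fin 2) (Fin 2) (ZMod 2)) : ℤˣ := if M * M * M = 1 then 1 else -1

theorem ep_mul : ∀ M N : Matrix (Fin 2) (Fin 2) (ZMod 2), M.det = 1 → N.det = 1 →
    ep (M * N) = ep M * ep N := by
  intro M N
  rw [eta_fin_two M, eta_fin_two N]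
  generalize M 0 0 = a, M 0 1 = b, M 1 0 = c, M 1 1 = d, N 0 0 = a', N 0 1 = b', N 1 0 = c',
    N 1 1 = d'
  simp only [ep, mul_fin_two, det_fin_two_of, one_fin_two, EmbeddingLike.apply_eq_iff_eq,
    vecCons_inj, and_true]
  revert a b c d a' b' c' d'
  decide +kernel

theorem det_two {k : ℕ} (M : GL (Fin k) (ZMod 2)) : M.1.det = 1 := by
  have h : ∀ x : ZMod 2, x ≠ 0 → x = 1 := by decide
  exact h _ (GeneralLinearGroup.det M).ne_zero

/-- The sign character of `GL₂(2)`. -/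
noncomputable def eps : GL (Fin 2) (ZMod 2) →* ℂˣ where
  toFun M := Units.map (Int.castRingHom ℂ).toMonoidHom (ep M.1)
  map_one' := by simp [ep]
  map_mul' M N := by rw [Units.val_mul, ep_mul _ _ (det_two M) (det_two N), map_mul]

theorem eps_eq_one {M : GL (Fin 2) (ZMod 2)} : eps M = 1 ↔ M.1 * M.1 * M.1 = 1 := by
  change Units.map _ (ep M.1) = 1 ↔ _
  unfold ep
  split_ifs with h
  · simp [h]
  · simp only [h, iff_false]
    intro e
    have := congr_arg Units.val e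
    norm_num at this

theorem eps_val (M : GL (Fin 2) (ZMod 2)) :
    (eps M : ℂ) = if M.1 * M.1 * M.1 = 1 then 1 else -1 := by
  change ((ep M.1 : ℤ) : ℂ) = _
  unfold ep
  split_ifs <;> simp

/-- The sign on the block at `a, a + 1`, on a subgroup `Y` of its stabiliser. -/
noncomputable def sn {a : ℕ} (h : a + 2 ≤ n) (Y : Subgroup (GG n (ZMod 2)))
    (hY : Y ≤ PI n (ZMod 2) a 2) : Y →* ℂˣ :=
  (eps.comp (blk (ZMod 2) h)).comp (Subgroup.inclusion hY)

theorem sn_apply {a : ℕ} (h : a + 2 ≤ n) (Y : Subgroup (GG n (ZMod 2))) (hY) (y : Y) :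
    sn h Y hY y = eps (blk (ZMod 2) h ⟨y.1, hY y.2⟩) := rfl

end CF.Rk
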