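import Cfsg.Agent.Rk.GR1

/-!
Rank 3 actions of `SL_n(q)`: inner products and indices of maximal parabolic subgroups.
-/

set_option autoImplicit false
set_option linter.unusedSectionVars false
open Matrix MulAction Cfsg Finset CF.Classical

namespace CF.Rk

variable {n : ℕ}

theorem mem_YJ_compl {k : ℕ} {w : Equiv.Perm (Fin n)} :
    w ∈ YJ n {k}ᶜ ↔ ∀ j, (w j).1 ≤ k ↔ j.1 ≤ k := by
  constructor
  · intro h j
    refine ⟨fun e => not_lt.1 fun e' => mem_YJ' h j k e e' rfl, fun e => not_lt.1 fun e' => ?_⟩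
    exact mem_YJ.1 h j k e e' rfl
  · intro h
    refine mem_YJ.2 fun j m a1 a2 e => ?_
    rw [Set.mem_singleton_iff] at e
    have := (h j).2 (by omega)
    omega

theorem card_le_fin {k : ℕ} (h : k < n) : #{j : Fin n | j.1 ≤ k} = k + 1 := by
  rw [← Fin.card_Iic ⟨k, h⟩]
  congr 1
  ext j
  simp [Fin.le_def]

theorem card_le_perm {k : ℕ} (h : k < n) (w : Equiv.Perm (Fin n)) :
    #{j : Fin n | (w j).1 ≤ k} = k + 1 := by
  rw [← card_le_fin h]
  exact card_equiv w (by simp)

theorem exists_perm_le {k : ℕ} (h : k < n) {s : Finset (Fin n)} (hs : #s = k + 1) :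
    ∃ w : Equiv.Perm (Fin n), ∀ j, (w j).1 ≤ k ↔ j ∈ s := by
  obtain ⟨w, hw⟩ := Equiv.Perm.exists_map_finset_eq s {j : Fin n | j.1 ≤ k}
    (hs.trans (card_le_fin h).symm)
  refine ⟨w, fun j => ?_⟩
  rw [← mem_map' w.toEmbedding, hw]
  simp

theorem iy_kl {k l : ℕ} (hk : k + 1 < n) (hl : l + 1 < n) :
    classInner (IY n {k}ᶜ) (IY n {l}ᶜ) = (min k l + 2 - (k + l + 2 - n) : ℕ) := by
  have hc : ∀ w : Equiv.Perm (Fin n), ∀ c : Bool × Bool,
      #{j | (decide ((w j).1 ≤ k), decide (j.1 ≤ l)) = c} =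
        if c = (true, true) then #{j | (w j).1 ≤ k ∧ j.1 ≤ l}
        else if c = (true, false) then k + 1 - #{j | (w j).1 ≤ k ∧ j.1 ≤ l}
        else if c = (false, true) then l + 1 - #{j | (w j).1 ≤ k ∧ j.1 ≤ l}
        else n + #{j | (w j).1 ≤ k ∧ j.1 ≤ l} - (k + 1) - (l + 1) := fun w c => by
    have h1 := card_le_perm (k := k) (by omega) w
    have h2 := card_le_fin (n := n) (k := l) (by omega)
    have h3 := card_filter_add_card_filter_not (s := {j : Fin n | (w j).1 ≤ k}) (fun j => j.1 ≤ l)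
    have h4 := card_filter_add_card_filter_not (s := {j : Fin n | j.1 ≤ l}) (fun j => (w j).1 ≤ k)
    have h5 := card_filter_add_card_filter_not (s := (univ : Finset (Fin n))) (fun j => (w j).1 ≤ k)
    have h6 := card_filter_add_card_filter_not (s := {j : Fin n | ¬(w j).1 ≤ k}) (fun j => j.1 ≤ l)
    simp only [filter_filter, Finset.card_fin, and_comm (a := _ ≤ l)] at h3 h4 h5 h6
    rcases c with ⟨_ | _, _ | _⟩ <;>
      simp only [Prod.mk.injEq, decide_eq_true_eq, decide_eq_false_iff_not, Bool.false_eq_true,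
        Bool.true_eq_false, and_false, false_and, and_self, if_true, if_false, and_true] <;> omega
  rw [IY_eq, IY_eq, inner_fix_eq_ncard _ _ id (fun w => #{j | (w j).1 ≤ k ∧ j.1 ≤ l})
    (fun g => ⟨g, 1, one_mem _, 1, one_mem _, by simp⟩) fun w w' => ⟨?_, fun e => ?_⟩]
  · congr 1
    rw [show min k l + 2 - (k + l + 2 - n) = #(Icc (k + l + 2 - n) (min k l + 1)) by simp,
      ← Set.ncard_coe_finset]
    congr 1
    ext m
    rw [mem_coe, mem_Icc]
    constructor
    · rintro ⟨w, rfl⟩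
      have h1 := card_le_perm (k := k) (by omega) w
      have h2 := card_le_fin (n := n) (k := l) (by omega)
      have h3 := card_union_add_card_inter ({j : Fin n | (w j).1 ≤ k} : Finset _) {j | j.1 ≤ l}
      have h4 := card_le_univ (({j : Fin n | (w j).1 ≤ k} : Finset _) ∪
        ({j : Fin n | j.1 ≤ l} : Finset _))
      have h5 := card_le_card (inter_subset_left (s₁ := ({j : Fin n | (w j).1 ≤ k} : Finset _))
        (s₂ := {j | j.1 ≤ l}))
      have h6 := card_le_card (inter_subset_right (s₁ := ({j : Fin n | (w j).1 ≤ k} : Finset _))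
        (s₂ := {j | j.1 ≤ l}))
      rw [← filter_and] at h3 h5 h6
      rw [Fintype.card_fin] at h4
      dsimp only
      omega
    · rintro ⟨h1, h2⟩
      obtain ⟨s, s1, s2⟩ := exists_subset_card_eq (s := ({j : Fin n | j.1 ≤ l} : Finset _)) (n := m)
        (by rw [card_le_fin (by omega)]; omega)
      obtain ⟨t, t1, t2⟩ := exists_subset_card_eq (s := ({j : Fin n | j.1 ≤ l} : Finset _)ᶜ)
        (n := k + 1 - m) (by rw [card_compl, card_le_fin (by omega), Fintype.card_fin]; omega)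
      obtain ⟨w, hw⟩ := exists_perm_le (k := k) (s := s ∪ t) (by omega) (by
        rw [card_union_of_disjoint (disjoint_compl_right.mono s1 t1)]; omega)
      refine ⟨w, s2 ▸ congr_arg card ?_⟩
      ext j
      have a1 := @s1 j
      have a2 := @t1 j
      simp only [mem_filter, mem_univ, true_and, hw, mem_union, mem_compl] at a1 a2 ⊢
      tauto
  · rintro ⟨h, hh, k', hk', e⟩
    rw [show w = h * w' * k' from e]
    exact card_equiv k' fun j => by simp [mem_YJ_compl.1 hh, mem_YJ_compl.1 hk']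
  · obtain ⟨σ, hσ⟩ := exists_equiv_of_fiber
      (f := fun j => (decide ((w j).1 ≤ k), decide (j.1 ≤ l)))
      (g := fun j => (decide ((w' j).1 ≤ k), decide (j.1 ≤ l))) fun c => by
        rw [hc, hc, show #{j | (w j).1 ≤ k ∧ j.1 ≤ l} = _ from e]
    simp only [Prod.mk.injEq, decide_eq_decide] at hσ
    refine ⟨w * (w' * σ)⁻¹, mem_YJ_compl.2 fun i => ?_, σ, mem_YJ_compl.2 fun j => (hσ j).2,
      by simp only [id]; group⟩
    obtain ⟨i, rfl⟩ := (w' * σ).surjective i
    simpa using (hσ i).1.symm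

theorem iy_B2 (h : 3 ≤ n) : classInner (IY n {1}ᶜ) (IY n ∅) = n.choose 2 := by
  rw [IY_eq, IY_eq, YJ_eq_bot (J := ∅) (by simp), inner_fix_eq_ncard _ _ id
    (fun w => ({j | (w j).1 ≤ 1} : Finset (Fin n)))
    (fun g => ⟨g, 1, one_mem _, 1, one_mem _, by simp⟩) fun w w' => ⟨?_, fun e => ?_⟩]
  · congr 1
    rw [show n.choose 2 = #(powersetCard 2 (univ : Finset (Fin n))) by simp, ← Set.ncard_coe_finset]
    congr 1
    ext s
    rw [mem_coe, mem_powersetCard]
    constructor
    · rintro ⟨w, rfl⟩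
      exact ⟨subset_univ _, card_le_perm (by omega) w⟩
    · rintro ⟨-, hs⟩
      obtain ⟨w, hw⟩ := exists_perm_le (k := 1) (by omega) hs
      exact ⟨w, by ext j; simp [hw]⟩
  · rintro ⟨h, hh, k', hk', e⟩
    rw [show w = h * w' * k' from e, Subgroup.mem_bot.1 hk']
    ext j
    simp [mem_YJ_compl.1 hh]
  · refine ⟨w * w'⁻¹, mem_YJ_compl.2 fun i => ?_, 1, one_mem _, by simp⟩
    obtain ⟨i, rfl⟩ := w'.surjective i
    simpa using Finset.ext_iff.1 e i

theorem IY_node {a b : ℕ} (ha : a + 1 < n) (hb : b + 1 < n) : IY n {a} = IY n {b} := by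
  classical
  let a0 : Fin n := ⟨a, by omega⟩
  let a1 : Fin n := ⟨a + 1, ha⟩
  let b0 : Fin n := ⟨b, by omega⟩
  let b1 : Fin n := ⟨b + 1, hb⟩
  obtain ⟨σ, hσ⟩ := Equiv.Perm.exists_extending_pair ![a0, a1] ![b0, b1]
    (by intro i j; fin_cases i <;> fin_cases j <;> simp [a0, a1])
    (by intro i j; fin_cases i <;> fin_cases j <;> simp [b0, b1])
  have e : Equiv.swap b0 b1 = σ * Equiv.swap a0 a1 * σ⁻¹ := by
    rw [← Equiv.swap_apply_apply]
    exact congr_arg₂ _ (hσ 0).symm (hσ 1).symm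
  have key : ∀ y, y ∈ YJ n {a} ↔ σ * y * σ⁻¹ ∈ YJ n {b} := fun y => by
    rw [mem_YJ_one (a := a0) (b := a1) rfl, mem_YJ_one (a := b0) (b := b1) rfl, e]
    simp
  funext g
  rw [IY, IY, Clifford.indFun_one_apply, Clifford.indFun_one_apply]
  congr 2
  · congr 1
    exact Nat.card_congr ((MulAut.conj σ).toEquiv.subtypeEquiv key)
  · refine card_equiv (Equiv.mulRight σ⁻¹) fun x => ?_
    simp [key, mul_assoc]

theorem muJ_compl {k : ℕ} (hk : k + 1 < n) (a : Fin n) :
    muJ n {k}ᶜ a = if a.1 = 0 then k + 1 else if a.1 = 1 then n - (k + 1) else 0 := by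
  classical
  have h1 : ∀ i : ℕ, Nat.count (· ∉ ({k}ᶜ : Set ℕ)) i = if i ≤ k then 0 else 1 := fun i => by
    induction i with
    | zero => simp
    | succ i ih =>
      rw [Nat.count_succ, ih]
      simp only [Set.mem_compl_iff, Set.mem_singleton_iff, not_not]
      split_ifs <;> omega
  have h2 := card_le_fin (n := n) (k := k) (by omega)
  have h3 := card_filter_add_card_filter_not (s := (univ : Finset (Fin n))) (fun j => j.1 ≤ k)
  rw [Finset.card_fin, h2] at h3
  rw [show muJ n {k}ᶜ a = #{i : Fin n | (if i.1 ≤ k then 0 else 1) = a.1} from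
    congr_arg card (filter_congr fun i _ => by rw [← h1]; congr!)]
  split_ifs with e1 e2
  · rw [← h2]
    exact congr_arg card (filter_congr fun i _ => by split_ifs <;> omega)
  · rw [show n - (k + 1) = #{j : Fin n | ¬j.1 ≤ k} by omega]
    exact congr_arg card (filter_congr fun i _ => by split_ifs <;> omega)
  · exact card_eq_zero.2 (filter_eq_empty_iff.2 fun i _ => by split_ifs <;> omega)

variable {F : Type*} [Field F] [Fintype F] [DecidableEq F]

theorem gr_kl {k l : ℕ} (hk : k + 1 < n) (hl : l + 1 < n) :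
    classInner (IP n F {k}ᶜ) (IP n F {l}ᶜ) = (min k l + 2 - (k + l + 2 - n) : ℕ) := by
  rw [gram, iy_kl hk hl]

theorem gr_B2 (h : 3 ≤ n) : classInner (IP n F {1}ᶜ) (IP n F ∅) = n.choose 2 := by
  rw [gram, iy_B2 h]

theorem IP_node {a b : ℕ} (ha : a + 1 < n) (hb : b + 1 < n) : IP n F {a} = IP n F {b} := by
  rw [← sub_eq_zero, ← Char.inner_self_eq_zero]
  simp only [Char.inner_sub_left, Char.inner_sub_right, gram, IY_node ha hb, sub_self]

theorem index_Pk {k : ℕ} (hk : k + 1 < n) : (PJ n F {k}ᶜ).index *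
    (qFac (Fintype.card F) (k + 1) * qFac (Fintype.card F) (n - (k + 1))) =
      qFac (Fintype.card F) n := by
  rw [← index_parabolicGL (F := F) (sum_muJ (n := n) {k}ᶜ), ← index_PM, ← PJ_eq_PM]
  congr 1
  obtain ⟨m, rfl⟩ : ∃ m, n = m + 2 := ⟨n - 2, by omega⟩
  simp [muJ_compl hk, Fin.prod_univ_succ, qFac]

theorem qFac_succ {q : ℕ} (hq : 1 ≤ q) (r : ℕ) :
    qFac q (r + 1) * (q - 1) = qFac q r * (q ^ (r + 1) - 1) := by
  rw [qFac, prod_range_succ, ← qFac, mul_assoc, geom_sum_mul_of_one_le hq]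

theorem index_P1 (h : 2 ≤ n) :
    (PJ n F {0}ᶜ).index * (Fintype.card F - 1) = Fintype.card F ^ n - 1 := by
  have h1 := index_Pk (n := n) (F := F) (k := 0) (by omega)
  obtain ⟨m, rfl⟩ : ∃ m, n = m + 1 := ⟨n - 1, by omega⟩
  have h2 := qFac_succ (q := Fintype.card F) Fintype.card_pos m
  rw [← h1] at h2
  refine Nat.eq_of_mul_eq_mul_left (qFac_pos (Fintype.card F) m) ?_
  rw [← h2]
  simp [qFac]
  ring

theorem index_P2 (h : 3 ≤ n) {k : ℕ} (hk : k = 1 ∨ k + 3 = n) :
    (PJ n F {k}ᶜ).index * ((Fintype.card F ^ 2 - 1) * (Fintype.card F - 1)) =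
      (Fintype.card F ^ n - 1) * (Fintype.card F ^ (n - 1) - 1) := by
  have h1 := index_Pk (n := n) (F := F) (k := k) (by omega)
  obtain ⟨m, rfl⟩ : ∃ m, n = m + 2 := ⟨n - 2, by omega⟩
  have h0 : qFac (Fintype.card F) (k + 1) * qFac (Fintype.card F) (m + 2 - (k + 1)) =
      qFac (Fintype.card F) 2 * qFac (Fintype.card F) m := by
    rcases hk with rfl | hk
    · rfl
    · rw [show k + 1 = m by omega, show m + 2 - m = 2 by omega, mul_comm]
  have h2 := qFac_succ (q := Fintype.card F) Fintype.card_pos m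
  have h3 := qFac_succ (q := Fintype.card F) Fintype.card_pos (m + 1)
  have h4 := qFac_succ (q := Fintype.card F) Fintype.card_pos 1
  rw [show qFac (Fintype.card F) 1 = 1 by simp [qFac], one_mul] at h4
  rw [h0] at h1
  refine Nat.eq_of_mul_eq_mul_left (qFac_pos (Fintype.card F) m) ?_
  rw [show m + 2 - 1 = m + 1 from rfl, ← h4]
  calc _ = (PJ (m + 2) F {k}ᶜ).index * (qFac (Fintype.card F) 2 * qFac (Fintype.card F) m) *
        (Fintype.card F - 1) * (Fintype.card F - 1) := by ring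
    _ = _ := by rw [h1, h3, mul_right_comm, h2]; ring

end CF.Rk
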