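import Cfsg.Agent.Rk.C
import Cfsg.Agent.Classical.UniC
import Cfsg.Agent.Clifford.PermChar

/-!
Rank 3 actions of `SL_n(q)`: Gram matrices of the parabolic permutation characters.
-/

set_option autoImplicit false
set_option linter.unusedSectionVars false
open Matrix MulAction Cfsg Finset CF.Classical

namespace CF.Rk

variable {n : ℕ}

open _root_.Classical in
variable (n) in
/-- The composition of a set of nodes. -/
noncomputable def muJ (J : Set ℕ) (a : Fin n) : ℕ := #{i : Fin n | Nat.count (· ∉ J) i.1 = a.1}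

open _root_.Classical in
theorem psum_muJ (J : Set ℕ) (a : Fin n) :
    psum (muJ n J) a = #{i : Fin n | Nat.count (· ∉ J) i.1 ≤ a.1} := by
  rw [psum, card_eq_sum_card_fiberwise (f := fun i : Fin n => (⟨Nat.count (· ∉ J) i.1,
    lt_of_le_of_lt (Nat.count_le _) i.2⟩ : Fin n)) (t := {k | k ≤ a})
      (s := {i : Fin n | Nat.count (· ∉ J) i.1 ≤ a.1}) fun i hi =>
      mem_coe.2 (mem_filter.2 ⟨mem_univ _, (mem_filter.1 (mem_coe.1 hi)).2⟩)]
  refine sum_congr rfl fun k hk => ?_
  rw [muJ, filter_filter]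
  refine congr_arg _ (filter_congr fun i _ => ?_)
  have : k.1 ≤ a.1 := (mem_filter.1 hk).2
  simp only [Fin.ext_iff]
  omega

open _root_.Classical in
theorem sum_muJ (J : Set ℕ) : ∑ a, muJ n J a = n := by
  refine Eq.trans ?_ (Finset.card_fin n)
  rw [card_eq_sum_card_fiberwise (f := fun i : Fin n =>
    (⟨Nat.count (· ∉ J) i.1, lt_of_le_of_lt (Nat.count_le _) i.2⟩ : Fin n)) (t := univ) (by simp)]
  simp [muJ, Fin.ext_iff]

open _root_.Classical in
theorem compLabel_muJ (J : Set ℕ) (i : Fin n) :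
    compLabel (muJ n J) i = Nat.count (· ∉ J) i.1 := by
  have key : ∀ a : Fin n, a.1 < compLabel (muJ n J) i ↔ a.1 < Nat.count (· ∉ J) i.1 := fun a => by
    rw [lt_compLabel, psum_muJ]
    constructor
    · intro h
      by_contra h1
      have := card_le_card (show Iic i ⊆ ({j : Fin n | Nat.count (· ∉ J) j.1 ≤ a.1} : Finset _) from
        fun j hj => mem_filter.2 ⟨mem_univ _,
          (Nat.count_monotone _ (show j ≤ i from mem_Iic.1 hj)).trans (not_lt.1 h1)⟩)
      rw [Fin.card_Iic] at this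
      omega
    · intro h
      rw [← Fin.card_Iio i]
      exact card_le_card fun j hj => mem_Iio.2 (lt_of_not_ge fun e =>
        absurd ((Nat.count_monotone (· ∉ J) e).trans (mem_filter.1 hj).2) (not_le.2 h))
  have h1 := compLabel_lt (sum_muJ (n := n) J) i
  have h2 : Nat.count (· ∉ J) i.1 < n := lt_of_le_of_lt (Nat.count_le _) i.2
  have h3 := key ⟨_, h1⟩
  have h4 := key ⟨_, h2⟩
  simp only at h3 h4
  omega

theorem YJ_eq_young (J : Set ℕ) : YJ n J = youngSubgroup (muJ n J) := by
  ext w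
  exact forall_congr' fun i => by rw [compLabel_muJ, compLabel_muJ]

variable {F : Type*} [Field F]

variable (F) in
/-- The parabolic subgroup of a composition. -/
def PM (μ : Fin n → ℕ) : Subgroup (GG n F) := (parabolicGL n F μ).comap SpecialLinearGroup.toGL

theorem PJ_eq_PM (J : Set ℕ) : PJ n F J = PM F (muJ n J) := by
  ext g
  change _ ↔ g.1.BlockTriangular (compLabel (muJ n J))
  rw [show compLabel (muJ n J) = _ from funext (compLabel_muJ J)]
  rfl

theorem Bo_le_PM (μ : Fin n → ℕ) : Bo n F ≤ PM F μ := fun _ h => borel_le_parabolic (mem_Bo'.1 h)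

theorem diagGL_mem (μ : Fin n → ℕ) (c : Fin n → Fˣ) : Cusp.diagGL c ∈ parabolicGL n F μ :=
  borel_le_parabolic (blockTriangular_diagonal _)

theorem toGL_wd (w : Equiv.Perm (Fin n)) :
    SpecialLinearGroup.toGL (wd F w) = permGL F w * Cusp.diagGL (sg F w) := Units.ext rfl

theorem wd_mem_PM {μ : Fin n → ℕ} {w : Equiv.Perm (Fin n)} (h : w ∈ youngSubgroup μ) :
    wd F w ∈ PM F μ := by
  change SpecialLinearGroup.toGL (wd F w) ∈ parabolicGL n F μ
  rw [toGL_wd]
  exact mul_mem (permGL_mem h) (diagGL_mem _ _)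

theorem intMat_eq_of {μ ν : Fin n → ℕ} (hμ : ∑ i, μ i = n) (hν : ∑ i, ν i = n)
    {w w' : Equiv.Perm (Fin n)} {h k : GL (Fin n) F} (hh : h ∈ parabolicGL n F μ)
    (hk : k ∈ parabolicGL n F ν) (e : permGL F w = h * permGL F w' * k) :
    intMat hμ hν w = intMat hμ hν w' := by
  have h1 : ∀ a b, llRank μ ν a b (permGL F w) = llRank μ ν a b (permGL F w') := fun a b =>
    le_antisymm (e ▸ llRank_mul_le a b _ hh hk) (by
      simpa [e, mul_assoc] using llRank_mul_le a b (permGL F w) (inv_mem hh) (inv_mem hk))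
  have h2 : ∀ (w : Equiv.Perm (Fin n)) (a b : Fin n), intMat hμ hν w a b +
      llRank μ ν (a + 1) (b + 1) (permGL F w) + llRank μ ν a b (permGL F w) =
      llRank μ ν a (b + 1) (permGL F w) + llRank μ ν (a + 1) b (permGL F w) := fun w a b => by
    simp only [llRank_permGL, intMat, card_filter, ← sum_add_distrib, Prod.mk.injEq, lab,
      Fin.ext_iff]
    exact sum_congr rfl fun j _ => by split_ifs <;> omega
  ext a b
  have := h2 w a b
  have := h2 w' a b
  simp only [h1] at *
  omega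

theorem exists_toGL (μ : Fin n → ℕ) (x : GL (Fin n) F) :
    ∃ g : GG n F, (SpecialLinearGroup.toGL g)⁻¹ * x ∈ parabolicGL n F μ := by
  rcases n with _ | n
  · exact ⟨1, fun i => i.elim0⟩
  let d := GeneralLinearGroup.det x
  obtain ⟨g, hg⟩ : ∃ g : GG (n + 1) F,
      SpecialLinearGroup.toGL g = x * Cusp.diagGL (Pi.mulSingle 0 d⁻¹) := by
    refine ⟨⟨(x * Cusp.diagGL (Pi.mulSingle 0 d⁻¹)).1, ?_⟩, Units.ext rfl⟩
    change (x.1 * diagonal fun i => ((Pi.mulSingle 0 d⁻¹ : Fin (n + 1) → Fˣ) i : F)).det = 1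
    rw [det_mul, det_diagonal, ← Units.coe_prod, Finset.prod_pi_mulSingle', if_pos (mem_univ _)]
    exact d.mul_inv
  refine ⟨g, ?_⟩
  rw [hg, _root_.mul_inv_rev, inv_mul_cancel_right]
  exact inv_mem (diagGL_mem _ _)

/-- Restriction of the parabolic permutation characters from `GL` to `SL`. -/
theorem fix_res (μ : Fin n → ℕ) (g : GG n F) :
    fixedPointCharacter (parabolicGL n F μ) (SpecialLinearGroup.toGL g) =
      fixedPointCharacter (PM F μ) g := by
  let f : GG n F ⧸ PM F μ → GL (Fin n) F ⧸ parabolicGL n F μ :=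
    Quotient.map' SpecialLinearGroup.toGL fun a b h => by
      rw [QuotientGroup.leftRel_apply] at h ⊢
      rw [← map_inv, ← map_mul]
      exact h
  have h1 : Function.Bijective f := by
    refine ⟨fun a b e => ?_, fun x => ?_⟩
    · induction a using QuotientGroup.induction_on
      induction b using QuotientGroup.induction_on
      have := QuotientGroup.eq.1 e
      rw [← map_inv, ← map_mul] at this
      exact QuotientGroup.eq.2 this
    · induction x using QuotientGroup.induction_on with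
      | H x =>
        obtain ⟨g, hg⟩ := exists_toGL μ x
        exact ⟨g, QuotientGroup.eq.2 hg⟩
  have h2 : ∀ a, f (g • a) = SpecialLinearGroup.toGL g • f a := fun a => by
    induction a using QuotientGroup.induction_on with
    | H a => exact congr_arg QuotientGroup.mk (map_mul _ g a)
  unfold fixedPointCharacter
  congr 1
  refine (Nat.card_congr ((Equiv.ofBijective f h1).subtypeEquiv fun a => ?_)).symm
  rw [mem_fixedBy, mem_fixedBy, Equiv.ofBijective_apply, ← h2, h1.1.eq_iff]

theorem index_PM (μ : Fin n → ℕ) : (PM F μ).index = (parabolicGL n F μ).index := by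
  have := fix_res μ (1 : GG n F)
  simp only [fixedPointCharacter, map_one, fixedBy_one_eq_univ, Nat.card_univ, Nat.cast_inj] at this
  exact this.symm

variable [Fintype F] [DecidableEq F]

theorem gramM {μ ν : Fin n → ℕ} (hμ : ∑ i, μ i = n) (hν : ∑ i, ν i = n) :
    classInner (fixedPointCharacter (PM F μ)) (fixedPointCharacter (PM F ν)) = #(sumMat μ ν) := by
  rw [inner_fix_eq_ncard _ _ (wd F) (intMat hμ hν) (fun g => ?_) fun w w' => ⟨?_, fun e => ?_⟩,
    range_intMat, Set.ncard_coe_finset]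
  · obtain ⟨u, hu, w, b, hb, e⟩ := bruhat g
    exact ⟨w, u, Bo_le_PM μ (Un_le hu), b, Bo_le_PM ν hb, e⟩
  · rintro ⟨h, hh, k, hk, e⟩
    have e1 := congr_arg SpecialLinearGroup.toGL e
    rw [map_mul, map_mul, toGL_wd, toGL_wd, ← eq_mul_inv_iff_mul_eq] at e1
    exact intMat_eq_of hμ hν hh (mul_mem (mul_mem (diagGL_mem ν (sg F w')) hk)
      (inv_mem (diagGL_mem ν (sg F w)))) (by rw [e1]; group)
  · obtain ⟨h, hh, k, hk, rfl⟩ := (intMat_eq_iff hμ hν w w').2 e
    obtain ⟨t, ht, e1⟩ := wd_mul (F := F) h (w' * k)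
    obtain ⟨t', ht', e2⟩ := wd_mul (F := F) w' k
    refine ⟨_, wd_mem_PM hh, wd F k * (dg t' ht')⁻¹ * (dg t ht)⁻¹, mul_mem (mul_mem (wd_mem_PM hk)
      (inv_mem (Bo_le_PM ν (dg_mem _ _)))) (inv_mem (Bo_le_PM ν (dg_mem _ _))), ?_⟩
    rw [← mul_inv_eq_iff_eq_mul] at e1 e2
    rw [mul_assoc h, ← e1, ← e2]
    group

theorem IP_eq (J : Set ℕ) : IP n F J = fixedPointCharacter (PM F (muJ n J)) := by
  rw [← PJ_eq_PM]
  exact funext (Clifford.indFun_one_eq_card_fixedBy _)

theorem IY_eq (J : Set ℕ) : IY n J = fixedPointCharacter (YJ n J) :=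
  funext (Clifford.indFun_one_eq_card_fixedBy _)

theorem gram (J J' : Set ℕ) :
    classInner (IP n F J) (IP n F J') = classInner (IY n J) (IY n J') := by
  rw [IP_eq, IP_eq, IY_eq, IY_eq, YJ_eq_young, YJ_eq_young, gramM (sum_muJ J) (sum_muJ J'),
    inner_young (sum_muJ J) (sum_muJ J')]

theorem qFac_mod (q r : ℕ) : ∃ k, qFac q r = 1 + q * k := by
  induction r with
  | zero => exact ⟨0, by simp [qFac]⟩
  | succ r ih =>
    obtain ⟨k, hk⟩ := ih
    refine ⟨k + (∑ l ∈ range r, q ^ l) * (1 + q * k), ?_⟩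
    rw [qFac, prod_range_succ, ← qFac, hk, sum_range_succ', pow_zero]
    simp only [pow_succ', ← mul_sum]
    ring

theorem index_mod (J : Set ℕ) : ∃ k, (PJ n F J).index = 1 + ringChar F * k := by
  have hp : (ringChar F).Prime := CharP.char_is_prime F _
  have h1 := index_parabolicGL (F := F) (sum_muJ (n := n) J)
  rw [← index_PM, ← PJ_eq_PM] at h1
  have h2 : ((Fintype.card F : ℕ) : ZMod (ringChar F)) = 0 :=
    (ZMod.natCast_eq_zero_iff _ _).2 ((ringChar.spec F _).1 (FiniteField.cast_card_eq_zero F))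
  have h3 : ∀ r, ((qFac (Fintype.card F) r : ℕ) : ZMod (ringChar F)) = 1 := fun r => by
    obtain ⟨k, hk⟩ := qFac_mod (Fintype.card F) r
    simp [hk, h2]
  have h4 := congr_arg (Nat.cast : ℕ → ZMod (ringChar F)) h1
  simp only [Nat.cast_mul, Nat.cast_prod, h3, prod_const_one, mul_one] at h4
  rw [← Nat.cast_one, ZMod.natCast_eq_natCast_iff', Nat.mod_eq_of_lt hp.one_lt] at h4
  exact ⟨_, by rw [← h4, Nat.mod_add_div]⟩

end CF.Rk
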