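import Cfsg.Agent.Rk.C
import Cfsg.Agent.Classical.UniC

/-!
The nontrivial constituents of the permutation character on the Borel subgroup of `SL_n(q)` have degree
divisible by the characteristic.
-/

set_option autoImplicit false
open Matrix MulAction Cfsg Finset CF.Classical CF.Char

namespace CF.Rk

variable {n : ℕ} {F : Type*} [Field F]

namespace H

variable {μ ν : Fin n → ℕ}

variable (F) in
/-- The parabolic subgroup of a composition. -/
def Pm (μ : Fin n → ℕ) : Subgroup (GG n F) := (parabolicGL n F μ).comap SpecialLinearGroup.toGL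

theorem Bo_le_Pm : Bo n F ≤ Pm F μ := fun _ h => borel_le_parabolic (mem_Bo'.1 h)

theorem wd_mem {w : Equiv.Perm (Fin n)} (h : w ∈ youngSubgroup μ) : wd F w ∈ Pm F μ := fun i j e =>
  (wd_apply w i j).trans (if_neg fun k => e.ne (by rw [k, h j]))

theorem toGL_wd (w : Equiv.Perm (Fin n)) :
    (permGL F w)⁻¹ * SpecialLinearGroup.toGL (wd F w) ∈ parabolicGL n F μ := by
  refine borel_le_parabolic fun i j e => ?_
  rw [← map_inv, Units.val_mul, mul_apply]
  refine sum_eq_zero fun k _ => ?_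
  rw [permGL_apply, show (SpecialLinearGroup.toGL (wd F w)).1 k j = _ from wd_apply w k j]
  split_ifs with h1 h2
  · rw [h2] at h1
    exact absurd (by simpa using h1) e.ne'
  all_goals simp

theorem par_eq (hμ : ∑ i, μ i = n) (hν : ∑ i, ν i = n) {w w' : Equiv.Perm (Fin n)} {h k : GL (Fin n) F}
    (hh : h ∈ parabolicGL n F μ) (hk : k ∈ parabolicGL n F ν) (e : permGL F w = h * permGL F w' * k) :
    intMat hμ hν w = intMat hμ hν w' := by
  have h1 : ∀ a b, llRank μ ν a b (permGL F w) = llRank μ ν a b (permGL F w') := fun a b =>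
    le_antisymm (e ▸ llRank_mul_le a b _ hh hk) (by
      simpa [e, mul_assoc] using llRank_mul_le a b (permGL F w) (inv_mem hh) (inv_mem hk))
  have h2 : ∀ (w : Equiv.Perm (Fin n)) (a b : Fin n), intMat hμ hν w a b +
      llRank μ ν (a + 1) (b + 1) (permGL F w) + llRank μ ν a b (permGL F w) =
      llRank μ ν a (b + 1) (permGL F w) + llRank μ ν (a + 1) b (permGL F w) := fun w a b => by
    simp only [llRank_permGL, intMat, card_filter, ← sum_add_distrib, Prod.mk.injEq, lab, Fin.ext_iff]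
    exact sum_congr rfl fun j _ => by split_ifs <;> omega
  ext a b
  have := h2 w a b
  have := h2 w' a b
  simp only [h1] at *
  omega

theorem dec (g : GL (Fin n) F) : ∃ s : GG n F, g⁻¹ * SpecialLinearGroup.toGL s ∈ parabolicGL n F μ := by
  classical
  rcases n with _ | n
  · exact ⟨1, fun i => i.elim0⟩
  let d : GL (Fin (n + 1)) F := Cusp.mono 1 (Pi.mulSingle 0 (GeneralLinearGroup.det g)⁻¹)
  have e : d.1 = diagonal fun j => ((Pi.mulSingle (M := fun _ => Fˣ) 0 (GeneralLinearGroup.det g)⁻¹ j : Fˣ) : F) := by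
    ext i j
    rw [Cusp.mono_apply, diagonal_apply]
    split_ifs with h1 h2 h2
    exacts [by rw [h2], absurd h1 h2, absurd h2 h1, rfl]
  refine ⟨⟨(g * d).1, ?_⟩, ?_⟩
  · rw [Units.val_mul, det_mul, e, det_diagonal, ← Units.coe_prod, Fintype.prod_pi_mulSingle']
    exact (GeneralLinearGroup.det g).mul_inv
  · rw [show SpecialLinearGroup.toGL ⟨(g * d).1, _⟩ = g * d from Units.ext rfl, inv_mul_cancel_left]
    exact borel_le_parabolic (e ▸ blockTriangular_diagonal _)

theorem sm_perm (σ : Equiv.Perm (Fin n)) : #(sumMat (μ ∘ σ) ν) = #(sumMat μ ν) := by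
  symm
  refine card_bijective (· ∘ σ) (Equiv.arrowCongr' σ.symm (Equiv.refl _)).bijective fun A => ?_
  rw [mem_sumMat, mem_sumMat]
  refine and_congr ⟨fun h a => h _, fun h a => by simpa using h (σ⁻¹ a)⟩ (forall_congr' fun b => ?_)
  rw [← Equiv.sum_comp σ fun a => A a b]
  rfl

theorem sq_lt (h : Monotone ν) {κ : Equiv.Perm (Fin n)} (h1 : κ ≠ 1) (h2 : ∀ i, (κ i).1 ≤ ν i + i) :
    ∑ i, ν i ^ 2 < ∑ i, (ν i + i - κ i) ^ 2 := by
  have s : StrictMono fun i : Fin n => ((ν i + i : ℕ) : ℤ) := fun i j e =>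
    Int.ofNat_lt.2 (h.add_strictMono Fin.val_strictMono e)
  have m : Monovary (fun i : Fin n => ((ν i + i : ℕ) : ℤ)) fun i => ((i : ℕ) : ℤ) := fun i j e =>
    s.monotone (Fin.le_def.2 (Int.ofNat_lt.1 e).le)
  have k := (m.sum_mul_comp_perm_lt_sum_mul_iff (σ := κ)).2 fun c => h1 (by
    have : StrictMono (κ⁻¹ : Equiv.Perm (Fin n)) := (Monotone.strictMono_of_injective · κ⁻¹.injective)
      (monotone_iff_forall_lt.2 fun i j e => s.le_iff_le.1 (c (by simpa using e)))
    exact Equiv.ext fun i => Fin.ext (perm_le_eq (c := Fin.val)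
      (fun j => by simpa using this.le_apply (x := κ j)) i))
  have e : ∑ i, ((κ i : ℕ) : ℤ) ^ 2 = ∑ i : Fin n, ((i : ℕ) : ℤ) ^ 2 := Equiv.sum_comp κ fun i => ((i : ℕ) : ℤ) ^ 2
  zify [h2] at k ⊢
  have e1 : ∀ (f : Fin n → ℤ), ∑ i, ((ν i : ℤ) + i - f i) ^ 2 =
      ∑ i, ((ν i : ℤ) + i) ^ 2 - 2 * ∑ i, ((ν i : ℤ) + i) * f i + ∑ i, f i ^ 2 := fun f => by
    rw [mul_sum, ← sum_sub_distrib, ← sum_add_distrib]
    exact sum_congr rfl fun i _ => by ring
  have e2 := e1 fun i => i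
  simp only [add_sub_cancel_right] at e2
  rw [e2, e1, e]
  omega

theorem par_top (hν : ∑ i, ν i = n) (h : ∀ i j : Fin n, i < j → ν i = 0) : parabolicGL n F ν = ⊤ := by
  refine top_unique fun g _ i j e => absurd (lt_compLabel (a := lab hν j).1 e) fun k => ?_
  have k1 := (compLabel_eq_iff (a := lab hν j)).1 rfl
  have k2 := (compLabel_eq_iff (a := lab hν i)).1 rfl
  have := le_psum (μ := ν) (lab hν j)
  have z : psum ν (lab hν j) = 0 := sum_eq_zero fun a ha => h a (lab hν i) ((mem_filter.1 ha).2.trans_lt e)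
  omega

theorem Pm_one : Pm F (fun _ : Fin n => 1) = Bo n F := by
  refine le_antisymm (fun g hg => mem_Bo.2 fun a b e => hg ?_) Bo_le_Pm
  have k : ∀ a : Fin n, compLabel (fun _ : Fin n => 1) a = a := fun a => compLabel_eq_iff.2 (by
    rw [psum_eq, sum_const, filter_gt_eq_Iio, Fin.card_Iio]; simp)
  rwa [k, k]

variable [Fintype F] [DecidableEq F]

theorem res_fix : (fun g : GG n F => fixedPointCharacter (parabolicGL n F μ) (SpecialLinearGroup.toGL g)) =
    fixedPointCharacter (Pm F μ) := by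
  letI := MulAction.compHom (GL (Fin n) F ⧸ parabolicGL n F μ) (SpecialLinearGroup.toGL (n := Fin n) (R := F))
  have : IsPretransitive (GG n F) (GL (Fin n) F ⧸ parabolicGL n F μ) := .of_orbit (x₀ := ((1 : GL (Fin n) F) : _ ⧸ _)) fun x => by
    obtain ⟨g, rfl⟩ := QuotientGroup.mk_surjective x
    obtain ⟨s, hs⟩ := dec (μ := μ) g
    exact ⟨s, (QuotientGroup.eq.2 (by simpa using hs)).symm⟩
  refine (fixedBy_eq_indFun (G := GG n F) _ ((1 : GL (Fin n) F) : _ ⧸ parabolicGL n F μ)).trans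
    (Eq.trans ?_ (indFun_one_eq_fixedBy _))
  exact congrArg (fun H : Subgroup (GG n F) => indFun H fun _ => 1)
    (Subgroup.ext fun g => QuotientGroup.eq.trans (by simp [Pm]))

theorem gram (hμ : ∑ i, μ i = n) (hν : ∑ i, ν i = n) :
    classInner (fixedPointCharacter (Pm F μ)) (fixedPointCharacter (Pm F ν)) = #(sumMat μ ν) := by
  rw [inner_fix_eq_ncard _ _ (wd F) (intMat hμ hν) (fun g => ?_) fun w w' => ⟨?_, fun e => ?_⟩,
    range_intMat, Set.ncard_coe_finset]
  · obtain ⟨u, hu, w, b, hb, e⟩ := bruhat g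
    exact ⟨w, u, Bo_le_Pm (Un_le hu), b, Bo_le_Pm hb, e⟩
  · rintro ⟨h, hh, k, hk, e⟩
    refine par_eq hμ hν hh (mul_mem (mul_mem (toGL_wd w') hk) (inv_mem (toGL_wd w))) ?_
    rw [e, map_mul, map_mul]
    group
  · obtain ⟨h, hh, k, hk, rfl⟩ := (intMat_eq_iff hμ hν w w').2 e
    obtain ⟨t, ht, e⟩ := exists_dg (g := wd F h * wd F w' * wd F k) (w := h * w' * k) fun i j e => by
      rw [val_mul, val_mul, mul_wd, mul_wd, wd_apply, if_neg (show ¬ i = h (w' (k j)) from e), zero_mul, zero_mul]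
    exact ⟨_, wd_mem hh, wd F k * (dg t ht)⁻¹, mul_mem (wd_mem hk) (inv_mem (Bo_le_Pm (dg_mem _ _))), by
      rw [← mul_assoc, e, mul_inv_cancel_right]⟩

theorem fix_perm (hμ : ∑ i, μ i = n) (σ : Equiv.Perm (Fin n)) :
    fixedPointCharacter (Pm F (μ ∘ σ)) = fixedPointCharacter (Pm F μ) := by
  have h : ∑ i, (μ ∘ σ) i = n := (Equiv.sum_comp σ μ).trans hμ
  rw [← sub_eq_zero, ← Char.inner_self_eq_zero, Char.inner_sub_right, Char.inner_sub_left, Char.inner_sub_left,
    gram h h, gram hμ h,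
    gram h hμ, gram hμ hμ, sm_perm, sm_perm, sub_self, sub_self, sub_self]

variable (F) in
/-- The restriction of a unipotent character. -/
noncomputable def un (ν : Fin n → ℕ) (g : GG n F) : ℂ := unipotentCharacterGL n F ν (SpecialLinearGroup.toGL g)

theorem un_eq (ν : Fin n → ℕ) : un F ν = ∑ κ : Equiv.Perm (Fin n), if ∀ i, (κ i).1 ≤ ν i + i then
    (Equiv.Perm.sign κ : ℤ) • fixedPointCharacter (Pm F fun i => ν i + i - κ i) else 0 := by
  funext g
  rw [un, unipotent_eq, Finset.sum_apply, Finset.sum_apply]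
  refine sum_congr rfl fun κ _ => ?_
  split_ifs
  · rw [← res_fix]; rfl
  · rfl

theorem un_irr (h : Monotone ν) (hν : ∑ i, ν i = n) : IsIrrCharacter (GG n F) (un F ν) := by
  refine irr_of_gen_of_inner_self ?_ ?_ (by simpa [un] using unipotent_one_pos h hν)
  · rw [un_eq]
    refine gen_sum _ fun κ _ => ?_
    split_ifs
    · exact gen_zsmul (gen_of_char (char_fixedBy _)) _
    · exact gen_zero
  have s := h.add_strictMono Fin.val_strictMono
  have := congrArg (Int.cast (R := ℂ)) (sum_sign_sumMat s s)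
  rw [if_pos rfl, Int.cast_one] at this
  rw [← this, un_eq, inner_sum_right, Int.cast_sum]
  refine sum_congr rfl fun κ' _ => ?_
  split_ifs with h1
  · rw [inner_zsmul_right, inner_sum_left, Int.cast_mul, Int.cast_sum]
    refine congrArg _ (sum_congr rfl fun κ _ => ?_)
    split_ifs with h2
    · rw [inner_zsmul_left, gram (sum_sub_perm hν h2) (sum_sub_perm hν h1)]
      simp
    · simpa using Char.inner_zero_left _
  · simpa using Char.inner_zero_right _

theorem orth {χ : GG n F → ℂ} (h : ∀ ν, Monotone ν → ∑ i, ν i = n → classInner χ (un F ν) = 0) (k : ℕ) :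
    ∀ μ : Fin n → ℕ, ∑ i, μ i = n → n ^ 2 ≤ ∑ i, μ i ^ 2 + k →
      classInner χ (fixedPointCharacter (Pm F μ)) = 0 := by
  induction k using Nat.strong_induction_on with | _ k ih => ?_
  intro μ hμ hk
  rw [← fix_perm hμ (Tuple.sort μ)]
  have m := Tuple.monotone_sort μ
  rw [← Equiv.sum_comp (Tuple.sort μ)] at hμ hk
  change ∑ i, (μ ∘ Tuple.sort μ) i = n at hμ
  change _ ≤ ∑ i, (μ ∘ Tuple.sort μ) i ^ 2 + k at hk
  generalize μ ∘ Tuple.sort μ = ν at *
  have := h ν m hμ
  rw [un_eq, inner_sum_right, sum_eq_single 1 (fun κ _ h1 => ?_) (by simp)] at this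
  · simpa using this
  split_ifs with h2
  · have l := sq_lt m h1 h2
    have s := sum_sub_perm hμ h2
    have : ∑ i, (ν i + i - κ i) ^ 2 ≤ n ^ 2 := by
      conv_rhs => rw [← s]
      exact sum_sq_le_sq_sum_of_nonneg fun _ _ => Nat.zero_le _
    rw [inner_zsmul_right, ih (k - 1) (by omega) _ s (by omega), mul_zero]
  · exact Char.inner_zero_right _

theorem un_one (hν : ∑ i, ν i = n) (h : ∀ i j : Fin n, i < j → ν i = 0) : un F ν = fun _ => 1 := by
  rw [un_eq, sum_eq_single 1 (fun κ _ h1 => if_neg fun k => h1 ?_) (by simp)]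
  · have : Pm F ν = ⊤ := by rw [Pm, par_top hν h, Subgroup.comap_top]
    have e : fixedPointCharacter (⊤ : Subgroup (GG n F)) = fun _ => 1 :=
      (indFun_one_eq_fixedBy _).symm.trans (indFun_top (classFun_const 1))
    simp [this, e]
  · refine Equiv.ext fun i => Fin.ext (perm_le_eq (c := Fin.val) (fun j => not_lt.1 fun e => ?_) i)
    have := k j
    rw [h j _ e] at this
    omega

omit [DecidableEq F] in
theorem cop (r : ℕ) : (ringChar F).Coprime (qFac (Fintype.card F) r) := by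
  obtain ⟨m, hp, e⟩ := FiniteField.card F (ringChar F)
  refine Nat.Coprime.prod_right fun j _ => ?_
  rw [sum_range_succ', pow_zero]
  obtain ⟨c, hc⟩ : ringChar F ∣ ∑ k ∈ range j, Fintype.card F ^ (k + 1) :=
    dvd_sum fun k _ => Dvd.dvd.pow (e ▸ dvd_pow_self _ m.ne_zero) k.succ_ne_zero
  rw [hc]
  simp

theorem un_deg (hm : Monotone ν) (hν : ∑ i, ν i = n) {a b : Fin n} (hab : a < b) (h : ν a ≠ 0) {N : ℕ}
    (e : un F ν 1 = N) : ringChar F ∣ N := by
  obtain ⟨m, hp, hq⟩ := FiniteField.card F (ringChar F)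
  have d := degree_formula (F := F) ℂ hν
  rw [← unipotent_one, show unipotentCharacterGL n F ν 1 = N by simpa [un] using e] at d
  set q := Fintype.card F
  have d' : (N : ℤ) * q ^ (n * (n - 1) * (n - 2) / 6) * ∏ i, (qFac q (ν i + i) : ℤ) = qFac q n *
      ∏ i : Fin n, ∏ j ∈ Ioi i, (((∑ l ∈ range (ν j + j), q ^ l : ℕ) : ℤ) - (∑ l ∈ range (ν i + i), q ^ l : ℕ)) := by
    exact_mod_cast d
  have k : (q : ℤ) ^ ∑ i : Fin n, ∑ _j ∈ Ioi i, (ν i + i) ∣
      ∏ i : Fin n, ∏ j ∈ Ioi i, (((∑ l ∈ range (ν j + j), q ^ l : ℕ) : ℤ) - (∑ l ∈ range (ν i + i), q ^ l : ℕ)) := by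
    simp only [← prod_pow_eq_pow_sum]
    refine prod_dvd_prod_of_dvd _ _ fun i _ => prod_dvd_prod_of_dvd _ _ fun j hj => ?_
    have l : ν i + i ≤ ν j + j := (hm.add_strictMono Fin.val_strictMono (mem_Ioi.1 hj)).le
    push_cast
    rw [← sum_Ico_eq_sub _ l]
    exact dvd_sum fun t ht => pow_dvd_pow _ (mem_Ico.1 ht).1
  have l : n * (n - 1) * (n - 2) / 6 + 1 ≤ ∑ i : Fin n, ∑ _j ∈ Ioi i, (ν i + i) := by
    have : ∑ j : Fin n, ∑ t ∈ range j, t = ∑ i : Fin n, ∑ _j ∈ Ioi i, i.1 := by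
      rw [sum_comm' (s := univ) (t := fun i => Ioi i) (t' := univ) (s' := fun j => Iio j) (by simp)]
      refine sum_congr rfl fun j _ => ?_
      rw [← Nat.Iio_eq_range, ← Fin.map_valEmbedding_Iio, sum_map]
      rfl
    rw [← sum_choose_two, this]
    exact sum_lt_sum (fun i _ => sum_le_sum fun _ _ => Nat.le_add_left _ _)
      ⟨a, mem_univ _, sum_lt_sum_of_nonempty ⟨b, mem_Ioi.2 hab⟩ fun _ _ => by omega⟩
  have k2 := ((pow_dvd_pow _ l).trans k).mul_left (qFac q n : ℤ)
  rw [← d', pow_succ, mul_comm (N : ℤ), mul_assoc _ (N : ℤ), mul_dvd_mul_iff_left (by simp [q])] at k2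
  refine Nat.Coprime.dvd_of_dvd_mul_right (n := ∏ i, qFac q (ν i + i)) (.prod_right fun i _ => cop _)
    ((hq ▸ dvd_pow_self _ m.ne_zero : ringChar F ∣ q).trans ?_)
  exact_mod_cast k2

end H

open H in
theorem howlett [Fintype F] [DecidableEq F] {χ : GG n F → ℂ} (hχ : IsIrrCharacter (GG n F) χ)
    (h1 : χ ≠ fun _ => 1) (h : classInner χ (IP n F ∅) ≠ 0) : ∃ k : ℕ, χ 1 = ringChar F * k := by
  by_contra c
  refine h ?_
  rw [show IP n F ∅ = indFun (Bo n F) fun _ => 1 from rfl, ← Pm_one, indFun_one_eq_fixedBy]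
  refine orth (fun ν hm hν => inner_irr_ne hχ (un_irr hm hν) ?_) (n ^ 2) _ (by simp) (Nat.le_add_left _ _)
  rintro rfl
  obtain ⟨N, -, e⟩ := irr_one_eq_nat hχ
  refine h1 (un_one hν fun a b hab => by_contra fun k => c ?_)
  obtain ⟨k, rfl⟩ := un_deg hm hν hab k e
  exact ⟨k, by rw [e, Nat.cast_mul]⟩

end CF.Rk
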