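import Cfsg.Agent.Rk.C
import Cfsg.Agent.Classical.Linear

/-!
Rank 3 actions of `SL_n(q)`: an irreducible stabiliser contains no full group `Hom(V / Y, Y)`.
-/

set_option autoImplicit false
set_option linter.unusedSectionVars false
open Matrix MulAction Cfsg

namespace CF.Rk

variable {n : ℕ} {F : Type*} [Field F]

/-- The transvection with centre `x` and axis `f`. -/
def tv (x f : Fin n → F) (h : f ⬝ᵥ x = 0) : GG n F :=
  ⟨1 + vecMulVec x f, by
    rw [vecMulVec_eq Unit, det_one_add_replicateCol_mul_replicateRow, h, add_zero]⟩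

theorem tv_val (x f : Fin n → F) (h) : (tv x f h).1 = 1 + vecMulVec x f := rfl

theorem smul_vec (g : GG n F) (v : Fin n → F) : g • v = g.1 *ᵥ v := rfl

theorem tv_smul (x f : Fin n → F) (h) (v : Fin n → F) : tv x f h • v = v + (f ⬝ᵥ v) • x := by
  rw [smul_vec, tv_val, add_mulVec, one_mulVec, vecMulVec_mulVec]
  ext i
  simp [mul_comm]

theorem tv_mul (x y f g : Fin n → F) (h h') (e : f ⬝ᵥ y = 0) :
    (tv x f h * tv y g h').1 = 1 + vecMulVec x f + vecMulVec y g := by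
  rw [val_mul, tv_val, tv_val, add_mul, mul_add, mul_add, vecMulVec_mul_vecMulVec, e]
  simp only [one_mul, mul_one, zero_smul, vecMulVec_zero, add_zero]
  abel

theorem tv_inv (x f : Fin n → F) (h) : (tv x f h)⁻¹ = tv x (-f) (by simp [h]) := by
  rw [inv_eq_iff_mul_eq_one]
  apply Subtype.ext
  rw [tv_mul _ _ _ _ _ _ h, add_assoc, ← vecMulVec_add]
  simp

theorem conj_tv (k : GG n F) (x f : Fin n → F) (h) :
    (k * tv x f h * k⁻¹).1 = 1 + vecMulVec (k • x) (f ᵥ* (k⁻¹).1) := by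
  rw [val_mul, val_mul, tv_val, mul_add, add_mul, mul_one, ← val_mul, mul_inv_cancel, mul_vecMulVec,
    vecMulVec_mul]
  rfl

theorem dot_inv_smul (k : GG n F) (x f : Fin n → F) : (f ᵥ* (k⁻¹).1) ⬝ᵥ (k • x) = f ⬝ᵥ x := by
  rw [← dotProduct_mulVec, ← smul_vec, inv_smul_smul]

theorem xr_eq_tv {a b : Fin n} (h : a ≠ b) (t : F) :
    (xr h t).1 = 1 + vecMulVec (Pi.single a t) (Pi.single b 1) := by
  ext i j
  rw [xr_apply, Matrix.add_apply, one_apply, vecMulVec_apply, Pi.single_apply, Pi.single_apply]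
  simp only [eq_comm (a := a), eq_comm (a := b)]
  by_cases e1 : i = a <;> by_cases e2 : j = b <;> simp [e1, e2]

theorem exists_dot {W : Submodule F (Fin n → F)} {v : Fin n → F} (h : v ∉ W) :
    ∃ f : Fin n → F, (∀ w ∈ W, f ⬝ᵥ w = 0) ∧ f ⬝ᵥ v = 1 := by
  obtain ⟨φ, h1, h2⟩ := W.exists_le_ker_of_notMem h
  have key : ∀ w, (fun i => φ (Pi.single i 1)) ⬝ᵥ w = φ w := fun w => by
    rw [LinearMap.pi_apply_eq_sum_univ]
    refine Finset.sum_congr rfl fun i _ => ?_
    rw [smul_eq_mul, mul_comm]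
    refine congr_arg (_ * φ ·) (funext fun j => ?_)
    simp [Pi.single_apply, eq_comm]
  refine ⟨(φ v)⁻¹ • fun i => φ (Pi.single i 1), fun w hw => ?_, ?_⟩
  · rw [smul_dotProduct, key, h2 hw, smul_zero]
  · rw [smul_dotProduct, key, smul_eq_mul, inv_mul_cancel₀ h1]

variable {Ω : Type*} [MulAction (GG n F) Ω]

/-- The transvection with centre `x` and axis `f` fixes `ω`. -/
def TK (ω : Ω) (x f : Fin n → F) : Prop := ∃ h, tv x f h • ω = ω

namespace TK
variable {ω : Ω} {x y f g : Fin n → F}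

theorem conj (h : TK ω x f) {k : GG n F} (hk : k • ω = ω) : TK ω (k • x) (f ᵥ* (k⁻¹).1) := by
  obtain ⟨e, h⟩ := h
  refine ⟨by rw [dot_inv_smul, e], ?_⟩
  rw [show tv _ _ _ = k * tv x f e * k⁻¹ from Subtype.ext (conj_tv k x f e).symm, mul_smul, mul_smul,
    inv_smul_eq_iff.2 hk.symm, h, hk]

theorem add_left (h : TK ω x f) (h' : TK ω y f) : TK ω (x + y) f := by
  obtain ⟨e, h⟩ := h
  obtain ⟨e', h'⟩ := h'
  refine ⟨by rw [dotProduct_add, e, e', add_zero], ?_⟩
  rw [show tv _ _ _ = tv x f e * tv y f e' from Subtype.ext (by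
    rw [tv_mul _ _ _ _ _ _ e', tv_val, add_vecMulVec, add_assoc]), mul_smul, h', h]

theorem add_right (h : TK ω x f) (h' : TK ω x g) : TK ω x (f + g) := by
  obtain ⟨e, h⟩ := h
  obtain ⟨e', h'⟩ := h'
  refine ⟨by rw [add_dotProduct, e, e', add_zero], ?_⟩
  rw [show tv _ _ _ = tv x f e * tv x g e' from Subtype.ext (by
    rw [tv_mul _ _ _ _ _ _ e, tv_val, vecMulVec_add, add_assoc]), mul_smul, h', h]

theorem smul_iff (c : F) : TK ω (c • x) f ↔ TK ω x (c • f) := by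
  have e : vecMulVec (c • x) f = vecMulVec x (c • f) := by rw [smul_vecMulVec, vecMulVec_smul]
  constructor
  · rintro ⟨e1, h⟩
    exact ⟨by simpa using e1, by rw [← h]; congr 1; exact Subtype.ext (congr_arg (1 + ·) e.symm)⟩
  · rintro ⟨e1, h⟩
    exact ⟨by simpa using e1, by rw [← h]; congr 1; exact Subtype.ext (congr_arg (1 + ·) e)⟩

theorem neg_right (h : TK ω x f) : TK ω x (-f) := by
  obtain ⟨e, h⟩ := h
  exact ⟨by simp [e], by rw [← tv_inv x f e, inv_smul_eq_iff, h]⟩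

theorem neg_left (h : TK ω x f) : TK ω (-x) f := by
  rw [← neg_one_smul F x, smul_iff, neg_one_smul]
  exact h.neg_right

theorem zero_right (ω : Ω) (x : Fin n → F) : TK ω x 0 :=
  ⟨by simp, by rw [show tv x 0 _ = 1 from Subtype.ext (by simp [tv_val]), one_smul]⟩

theorem zero_left (ω : Ω) (f : Fin n → F) : TK ω 0 f :=
  ⟨by simp, by rw [show tv 0 f _ = 1 from Subtype.ext (by simp [tv_val]), one_smul]⟩

end TK

theorem ar_iff {ω : Ω} {a b : Fin n} (h : a ≠ b) :
    Ar F ω a b ↔ ∀ t : F, TK ω (Pi.single a t) (Pi.single b 1) := by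
  have e : ∀ t : F, (Pi.single b 1 : Fin n → F) ⬝ᵥ Pi.single a t = 0 := fun t => by simp [h.symm]
  have e' : ∀ t : F, xr h t = tv _ _ (e t) := fun t => Subtype.ext (xr_eq_tv h t)
  exact ⟨fun ⟨_, h1⟩ t => ⟨e t, e' t ▸ h1 t⟩, fun h1 => ⟨h, fun t => e' t ▸ (h1 t).2⟩⟩

theorem R3.not_all (h : R3 n F Ω) (ω : Ω) (hS : ∀ a b : Fin n, a ≠ b → Ar F ω a b) : False := by
  have := h.n5
  have : Nontrivial (Fin n) := Fin.nontrivial_iff_two_le.2 (by omega)
  exact (h.co ω).1 (top_unique fun g _ => Classical.SL_transvection_induction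
    (· ∈ stabilizer (GG n F) ω) (fun a b e t => (hS a b e).2 t) (fun _ _ => mul_mem) g)

theorem R3.no_full (h : R3 n F Ω) (ω : Ω) {x : Fin n → F} (hx : x ≠ 0)
    (hf : ∀ f, f ⬝ᵥ x = 0 → TK ω x f) : False := by
  have h1 : ∀ {k : GG n F}, k • ω = ω → ∀ {x : Fin n → F}, (∀ f, f ⬝ᵥ x = 0 → TK ω x f) →
      ∀ f, f ⬝ᵥ (k • x) = 0 → TK ω (k • x) f := fun {k} hk {x} hx f e => by
    have := (hx (f ᵥ* k.1) (by rwa [← dotProduct_mulVec])).conj hk
    rwa [vecMul_vecMul, ← val_mul, mul_inv_cancel, val_one, vecMul_one] at this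
  have h2 : ∀ (c : F) {x : Fin n → F}, (∀ f, f ⬝ᵥ x = 0 → TK ω x f) →
      ∀ f, f ⬝ᵥ (c • x) = 0 → TK ω (c • x) f := fun c {x} hx f e =>
    (TK.smul_iff c).2 (hx _ (by simpa using e))
  let S : Submodule F (Fin n → F) :=
    { carrier := {x | ∀ f, f ⬝ᵥ x = 0 → TK ω x f}
      zero_mem' := fun f _ => TK.zero_left ω f
      smul_mem' := fun c _ hx => h2 c hx
      add_mem' := fun {x y} hx hy => by
        by_cases e : x ∈ Submodule.span F {y}
        · obtain ⟨c, rfl⟩ := Submodule.mem_span_singleton.1 e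
          rw [show c • y + y = (c + 1) • y by rw [add_smul, one_smul]]
          exact h2 _ hy
        · obtain ⟨f, e1, e2⟩ := exists_dot e
          obtain ⟨e3, e4⟩ := hy f (e1 y (Submodule.mem_span_singleton_self y))
          have := h1 e4 hx
          rwa [tv_smul, e2, one_smul] at this }
  rcases h.irr ω S (fun g hg v hv => h1 hg hv) with e | e
  · exact hx ((Submodule.eq_bot_iff S).1 e x hf)
  · refine h.not_all ω fun a b hab => (ar_iff hab).2 fun t => ?_
    exact (e ▸ Submodule.mem_top : Pi.single a t ∈ S) _ (by simp [hab.symm])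

theorem R3.qyT (h : R3 n F Ω) (ω : Ω) (Y : Submodule F (Fin n → F)) (h0 : Y ≠ ⊥) (h1 : Y ≠ ⊤)
    (hY : ∀ x ∈ Y, ∀ f : Fin n → F, (∀ y ∈ Y, f ⬝ᵥ y = 0) → TK ω x f) : False := by
  induction e : Module.finrank F Y using Nat.strong_induction_on generalizing Y with
  | _ d ih =>
    obtain ⟨k, hk, v, hv, hv'⟩ : ∃ k : GG n F, k • ω = ω ∧ ∃ v ∈ Y, k • v ∉ Y := by
      by_contra h2
      push Not at h2
      exact (h.irr ω Y h2).elim h0 h1
    obtain ⟨y, hy, hy'⟩ : ∃ y ∈ Y, k⁻¹ • y ∉ Y := by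
      by_contra h2
      push Not at h2
      let φ : Y →ₗ[F] Y := (mulVecLin (k⁻¹).1).restrict h2
      have h3 : Function.Injective φ := fun a b e =>
        Subtype.ext (MulAction.injective k⁻¹ (congr_arg Subtype.val e))
      obtain ⟨z, hz⟩ := LinearMap.injective_iff_surjective.1 h3 ⟨v, hv⟩
      have h4 : k⁻¹ • z.1 = v := congr_arg Subtype.val hz
      exact hv' (by rw [← h4, smul_inv_smul]; exact z.2)
    obtain ⟨g', g1, g2⟩ := exists_dot hy'
    obtain ⟨f, f1, f2⟩ := exists_dot hv'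
    obtain ⟨g, hg⟩ : ∃ g, g = g' ᵥ* (k⁻¹).1 := ⟨_, rfl⟩
    have g3 : g ⬝ᵥ y = 1 := by rw [← g2, ← dot_inv_smul k (k⁻¹ • y) g', smul_inv_smul, hg]
    have g4 := (hY v hv g' g1).conj hk
    rw [← hg] at g4
    have h5 : ∀ x ∈ Y, g ⬝ᵥ x = 0 → TK ω x g := fun x hx e => by
      obtain ⟨e1, e2⟩ := hY x hx f f1
      have h6 := g4.conj e2
      rw [tv_smul, f2, one_smul, tv_inv, tv_val, vecMul_add, vecMul_one, vecMul_vecMulVec, e,
        zero_smul, add_zero] at h6
      simpa using g4.neg_left.add_left h6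
    let Y0 : Submodule F (Fin n → F) := Y ⊓ LinearMap.ker (dotProductBilin F F g)
    have h6 : ∀ z ∈ Y, z - (g ⬝ᵥ z) • y ∈ Y0 := fun z hz =>
      ⟨sub_mem hz (Y.smul_mem _ hy), by simp [g3]⟩
    by_cases h7 : Y0 = ⊥
    · refine h.no_full ω (x := y) (fun e => by simp [e] at g3) fun f0 e => hY y hy f0 fun z hz => ?_
      have := h6 z hz
      rw [h7, Submodule.mem_bot, sub_eq_zero] at this
      rw [this, dotProduct_smul, e, smul_zero]
    · have h10 : Y0 < Y := lt_of_le_of_ne inf_le_left fun e1 => by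
        have : y ∈ Y0 := e1 ▸ hy
        have h8 : g ⬝ᵥ y = 0 := this.2
        rw [g3] at h8
        exact one_ne_zero h8
      refine ih _ (e ▸ Submodule.finrank_lt_finrank_of_lt h10)
        Y0 h7 (fun e1 => h1 (top_unique (e1 ▸ h10.le))) (fun x hx f0 e1 => ?_) rfl
      · have h8 := hY x hx.1 (f0 - (f0 ⬝ᵥ y) • g) fun z hz => by
          have := e1 _ (h6 z hz)
          rw [dotProduct_sub, dotProduct_smul] at this
          rw [sub_dotProduct, smul_dotProduct, ← this, smul_eq_mul, smul_eq_mul, mul_comm]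
        have h9 := (TK.smul_iff _).1 (h5 _ (Y.smul_mem (f0 ⬝ᵥ y) hx.1) (by
          rw [dotProduct_smul, show g ⬝ᵥ x = 0 from hx.2, smul_zero]))
        simpa using h8.add_right h9

theorem R3.qyY [Fintype F] [DecidableEq F] (h : R3 n F Ω) (ω : Ω) (Y : Submodule F (Fin n → F))
    (h0 : Y ≠ ⊥) (h1 : Y ≠ ⊤)
    (hY : ∀ g : GG n F, ∀ x ∈ Y, ∀ f : Fin n → F, (∀ y ∈ Y, f ⬝ᵥ y = 0) →
      g.1 = 1 + vecMulVec x f → g • ω = ω) : False :=
  h.qyT ω Y h0 h1 fun x hx f e => ⟨e x hx, hY _ x hx f e rfl⟩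

theorem TK.sum_left {ω : Ω} {ι : Type*} (s : Finset ι) {x : ι → Fin n → F} {f : Fin n → F}
    (h : ∀ i ∈ s, TK ω (x i) f) : TK ω (∑ i ∈ s, x i) f :=
  Finset.sum_induction _ (TK ω · f) (fun _ _ => TK.add_left) (TK.zero_left ω f) h

theorem TK.sum_right {ω : Ω} {ι : Type*} (s : Finset ι) {x : Fin n → F} {f : ι → Fin n → F}
    (h : ∀ i ∈ s, TK ω x (f i)) : TK ω x (∑ i ∈ s, f i) :=
  Finset.sum_induction _ (TK ω x) (fun _ _ => TK.add_right) (TK.zero_right ω x) h

variable [Fintype F] [DecidableEq F]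

theorem R3.qy (h : R3 n F Ω) (ω : Ω) (S : Finset (Fin n)) (h0 : S.Nonempty)
    (h1 : S ≠ Finset.univ) (hS : ∀ a ∈ S, ∀ b ∉ S, Ar F ω a b) : False := by
  let Y : Submodule F (Fin n → F) :=
    { carrier := {x | ∀ b ∉ S, x b = 0}
      zero_mem' := fun _ _ => rfl
      smul_mem' := fun c x hx b hb => by simp [hx b hb]
      add_mem' := fun hx hy b hb => by simp [hx b hb, hy b hb] }
  have h2 : ∀ a ∈ S, (Pi.single a 1 : Fin n → F) ∈ Y := fun a ha b hb =>
    Pi.single_eq_of_ne (fun e => hb (by rw [e]; exact ha)) _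
  refine h.qyT ω Y (fun e => ?_) (fun e => h1 (Finset.eq_univ_of_forall fun b => ?_))
    fun x hx f hf => ?_
  · obtain ⟨a, ha⟩ := h0
    simpa using congrFun ((Submodule.eq_bot_iff Y).1 e _ (h2 a ha)) a
  · by_contra hb
    simpa using (e ▸ Submodule.mem_top : (Pi.single b 1 : Fin n → F) ∈ Y) b hb
  · rw [← Finset.univ_sum_single x, ← Finset.univ_sum_single f]
    refine TK.sum_left _ fun a _ => TK.sum_right _ fun b _ => ?_
    by_cases ha : a ∈ S
    · by_cases hb : b ∈ S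
      · rw [show f b = 0 by simpa using hf _ (h2 b hb), Pi.single_zero]
        exact TK.zero_right _ _
      · have := (ar_iff fun e => hb (by rw [← e]; exact ha)).1 (hS a ha b hb) (f b * x a)
        rwa [← smul_eq_mul, Pi.single_smul, TK.smul_iff, ← Pi.single_smul, smul_eq_mul,
          mul_one] at this
    · rw [hx a ha, Pi.single_zero]
      exact TK.zero_left _ _

theorem R3.not_Un (h : R3 n F Ω) (ω : Ω) : ∃ u ∈ Un n F, u • ω ≠ ω := by
  by_contra h1
  push Not at h1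
  have := h.n5
  refine h.qy ω {⟨0, by omega⟩} (by simp) (fun e => ?_) fun a ha b hb => ?_
  · have := e ▸ Finset.mem_univ (⟨1, by omega⟩ : Fin n)
    simp at this
  · rw [Finset.mem_singleton] at ha hb
    have e : a < b := ha ▸ Fin.lt_def.2 (Nat.pos_of_ne_zero fun e => hb (Fin.ext e))
    exact ⟨e.ne, fun t => h1 _ (xr_mem e t)⟩

theorem R3.p_dvd (h : R3 n F Ω) : ringChar F ∣ Nat.card Ω := by
  by_contra h1
  have := h.fin
  have : Fact (ringChar F).Prime := ⟨CharP.char_is_prime F _⟩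
  obtain ⟨ω, hω⟩ := (Un_pgroup (n := n)).nonempty_fixed_point_of_prime_not_dvd_card Ω h1
  obtain ⟨u, hu, e⟩ := h.not_Un ω
  exact e (hω ⟨u, hu⟩)

end CF.Rk
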