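import Cfsg.Agent.Rk.M2a
import Cfsg.Agent.Rk.QY
import Cfsg.Agent.Rk.H

/-! Rank 3 actions of `SL_n(q)`: the constituent with fixed vectors for the Borel subgroup. -/

set_option autoImplicit false
open Matrix MulAction Cfsg

namespace CF.Rk
open CF.Char

variable {n : ℕ} {F : Type*} [Field F] [Fintype F] [DecidableEq F]
  {Ω : Type*} [MulAction (GG n F) Ω]

omit [Fintype F] [DecidableEq F] in
theorem Dc.symm {χ₁ χ₂ : GG n F → ℂ} (d : Dc Ω χ₁ χ₂) : Dc Ω χ₂ χ₁ :=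
  ⟨d.i2, d.i1, d.n2, d.n1, d.ne.symm, by rw [d.eq, add_right_comm]⟩

omit [Fintype F] [DecidableEq F] in
theorem Dc.card {χ₁ χ₂ : GG n F → ℂ} (d : Dc Ω χ₁ χ₂) : (Nat.card Ω : ℂ) = 1 + χ₁ 1 + χ₂ 1 := by
  have := congrFun d.eq 1
  rwa [pc, fixedBy_one_eq_univ, Nat.card_congr (Equiv.Set.univ Ω)] at this

theorem M2.cb (h : R3 n F Ω) {χ₁ χ₂ : GG n F → ℂ} (d : Dc Ω χ₁ χ₂)
    (h1 : classInner χ₁ (Ib 1) ≠ 0) : CB Ω χ₁ χ₂ := by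
  obtain ⟨k, hk⟩ := howlett d.i1 d.n1 (Ib_one (n := n) (F := F) ▸ h1)
  obtain ⟨m, hm⟩ := h.p_dvd
  obtain ⟨a, -, ha⟩ := irr_one_eq_nat d.i2
  have e := d.card
  rw [hm, hk, ha] at e
  have e' : ringChar F * m = 1 + ringChar F * k + a := by exact_mod_cast e
  have e2 : a + 1 = ringChar F * (m - k) := by rw [Nat.mul_sub]; omega
  refine ⟨d, h1, by_contra fun h2 => ?_, m - k, by rw [ha]; exact_mod_cast e2⟩
  obtain ⟨l, hl⟩ := howlett d.i2 d.n2 (Ib_one (n := n) (F := F) ▸ h2)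
  rw [ha] at hl
  have e3 : a = ringChar F * l := by exact_mod_cast hl
  exact (CharP.char_is_prime F (ringChar F)).ne_one (Nat.dvd_one.1
    ((Nat.dvd_add_right ⟨l, e3⟩).1 ⟨_, e2⟩))

theorem R3.cb (h : R3 n F Ω) (hc : ¬ CA n F Ω) : ∃ χ₁ χ₂ : GG n F → ℂ, CB Ω χ₁ χ₂ := by
  have := h.fin
  obtain ⟨χ, ψ, d⟩ := h.dc
  by_cases h1 : classInner χ (Ib 1) = 0
  · refine ⟨ψ, χ, M2.cb h d.symm fun h2 => hc (nB_eq_one.1 ?_).2⟩
    have e : classInner (pc n F Ω) (Ib 1) = nB Ω (Bo n F) := mk1 _ (mu 1) |>.trans (by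
      rw [mu_eq_one.2 fun _ _ => rfl, nO_one])
    rw [d.eq, Char.inner_add_left, Char.inner_add_left, h1, h2, Ib, inner_one_ind,
      if_pos (mu_eq_one.2 fun _ _ => rfl), add_zero, add_zero] at e
    exact_mod_cast e.symm
  · exact ⟨χ, ψ, M2.cb h d h1⟩

theorem R3.x2 (h : R3 n F Ω) (hc : ¬ CA n F Ω) {ω ω' : Ω} {b b' : Fin n → Ch F}
    (hb : b ∈ Es n F ω) (hb' : b' ∈ Es n F ω') (c : ¬ Cst b) (c' : ¬ Cst b') : Eqv b b' := by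
  have := h.fin
  obtain ⟨χ, ψ, d⟩ := h.cb hc
  exact eqv_of d.i2 (d.chi2 hb c).1 (d.chi2 hb' c').1

end CF.Rk
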