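import Cfsg.Agent.Rk.N2
import Cfsg.Agent.Rk.GR1
import Cfsg.Agent.Rk.M2

/-! Rank 3 actions of `SL_n(q)`: transfer to the symmetric group, final form. -/

set_option autoImplicit false
open Matrix MulAction Cfsg

namespace CF.Rk

variable {n : ℕ} {F : Type*} [Field F] [Fintype F] [DecidableEq F]
  {Ω : Type*} [MulAction (GG n F) Ω]

theorem R3.x8g (h : R3 n F Ω) (hc : ¬ CA n F Ω) {γ : Equiv.Perm (Fin n) → ℂ}
    (hγ : IsClassFunction _ γ) (e : ∀ J, classInner γ (IY n J) = (nB Ω (PJ n F J) : ℂ) - 1) :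
    (classInner γ γ).re ≤ 1 :=
  have := h.fin
  let ⟨_, _, c⟩ := h.cb hc
  c.x8g gram hγ e

theorem R3.w8 (h : R3 n F Ω) (hc : ¬ CA n F Ω) {Γ : Type*} [Finite Γ]
    [MulAction (Equiv.Perm (Fin n)) Γ] (e : ∀ J, nB Γ (YJ n J) = nB Ω (PJ n F J)) :
    Nat.card (orbitRel.Quotient (Equiv.Perm (Fin n)) (Γ × Γ)) ≤ 2 :=
  let ⟨_, _, c⟩ := h.cb hc
  c.w8 h gram e

end CF.Rk
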