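import Cfsg.Agent.Rk.B2b
import Cfsg.Agent.Rk.N
import Cfsg.Agent.Rk.GR2

/-!
Rank 3 actions of `SL_n(2)`: the case of a line transitive stabiliser.
-/

set_option autoImplicit false
open Matrix MulAction Cfsg

namespace CF.Rk

open B2 CF.Char

variable {n : ℕ} {X : Type*} [MulAction (GG n (ZMod 2)) X]

theorem R3.b2c (h : R3 n (ZMod 2) X) (hc : ¬ CA n (ZMod 2) X) (h0 : 0 + 2 ≤ n) {ω : X}
    (hs : Gd (sn h0 _ line_le_PI) ω)
    (hf : ∀ g ∈ PJ n (ZMod 2) {1}ᶜ, Cl n (ZMod 2) {0} ω (g • ω))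
    (h1 : nB X (PJ n (ZMod 2) {1}ᶜ) = 1) : False := by
  classical
  have := h.fin
  have hn := h.n5
  have h2 : ∀ x : X, ∃ g ∈ PJ n (ZMod 2) {0}, g • ω = x := fun x => by
    obtain ⟨g, hg, rfl⟩ := (nB_eq_one.1 h1).2 ω x
    exact hf g hg
  refine hc (ca h0 hs h2 (by omega) ?_)
  have h3 : nB X (PJ n (ZMod 2) {0}) = 1 := nB_eq_one.2 ⟨⟨ω⟩, fun x x' => by
    obtain ⟨y, hy, rfl⟩ := h2 x
    obtain ⟨y', hy', rfl⟩ := h2 x'
    exact ⟨y' * y⁻¹, mul_mem hy' (inv_mem hy), by simp [mul_smul]⟩⟩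
  have h4 : ∀ a, a + 1 < n → nB X (PJ n (ZMod 2) {a}) = 1 := fun a ha => by
    have := mk1' (Ω := X) (PJ n (ZMod 2) {a})
    rw [show indFun (PJ n (ZMod 2) {a}) (fun _ => 1) = IP n (ZMod 2) {0} from IP_node ha (by omega),
      IP, mk1', h3] at this
    exact_mod_cast this.symm
  let s : Equiv.Perm (Fin n) → ℂ := fun w => ((Equiv.Perm.sign w : ℤ) : ℂ)
  have hs : IsClassFunction _ s := fun g k => by
    simp only [s, map_mul, map_inv, mul_right_comm _ (Equiv.Perm.sign g), mul_inv_cancel, one_mul]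
  have h5 := h.x8g hc (classFun_smul ((nB X (Bo n (ZMod 2)) : ℂ) - 1) hs) fun J => by
    rw [Char.inner_smul_left, IY, inner_indFun_right _ _ hs, inner_one_right]
    by_cases e : ∀ a ∈ J, n ≤ a + 1
    · rw [PJ_eq_Bo e, YJ_eq_bot e]
      simp [s, Subsingleton.elim (default : (⊥ : Subgroup (Equiv.Perm (Fin n)))) 1]
    push Not at e
    obtain ⟨a, ha, e⟩ := e
    have h5 := (swap_mem_YJ (J := J) (a := ⟨a, by omega⟩) (b := ⟨a + 1, e⟩) rfl).2 ha
    have h6 := Equiv.sum_comp (Equiv.mulLeft (⟨_, h5⟩ : YJ n J)) fun w => s w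
    have h7 : ∀ w : YJ n J, s (Equiv.mulLeft (⟨_, h5⟩ : YJ n J) w) = - s w := fun w => by
      simp [s, Equiv.Perm.sign_swap (show (⟨a, by omega⟩ : Fin n) ≠ ⟨a + 1, e⟩ by simp)]
    simp only [h7, Finset.sum_neg_distrib] at h6
    obtain ⟨h8, h9⟩ := nB_eq_one.1 (h4 a e)
    rw [self_eq_neg.1 h6.symm, nB_eq_one.2 ⟨h8, fun x x' => (h9 x x').imp fun _ b =>
      ⟨PJ_mono (by simpa) b.1, b.2⟩⟩]
    simp
  have h6 : classInner s s = 1 := by
    rw [← inner_one_one (G := Equiv.Perm (Fin n))]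
    refine congrArg _ (Finset.sum_congr rfl fun w _ => ?_)
    rcases Int.units_eq_one_or (Equiv.Perm.sign w) with e | e <;> simp [s, e]
  rw [Char.inner_smul_left, Char.inner_smul_right, h6] at h5
  simp at h5
  by_contra e
  have : (3 : ℝ) ≤ nB X (Bo n (ZMod 2)) := by exact_mod_cast not_le.1 e
  nlinarith

end CF.Rk
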