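import Cfsg.Agent.Rk.QY

/-!
Rank 3 actions of `SL_n(2)`: orbits on points and lines.
-/

set_option autoImplicit false
open Matrix MulAction Cfsg

namespace CF.Rk

namespace B2

theorem three {G X : Type*} [Group G] [MulAction G X] [Finite X] {Y : Subgroup G}
    (h : nB X Y ≤ 2) (a b c : X) :
    (∃ y ∈ Y, y • a = b) ∨ (∃ y ∈ Y, y • a = c) ∨ ∃ y ∈ Y, y • b = c := by
  classical
  have key : ∀ a b : X, (Quotient.mk'' a : orbitRel.Quotient Y X) = Quotient.mk'' b →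
      ∃ y ∈ Y, y • a = b := fun a b e =>
    let ⟨y, hy⟩ := orbitRel_apply.1 (Quotient.exact' e.symm); ⟨y, y.2, hy⟩
  by_contra! e
  have := Fintype.ofFinite (orbitRel.Quotient Y X)
  have h1 := Fintype.two_lt_card_iff.2 ⟨_, _, _, fun a => let ⟨y, b, c⟩ := key _ _ a; e.1 y b c,
    fun a => let ⟨y, b, c⟩ := key _ _ a; e.2.1 y b c, fun a => let ⟨y, b, c⟩ := key _ _ a; e.2.2 y b c⟩
  rw [nB, Nat.card_eq_fintype_card] at h
  exact absurd h (not_le.2 h1)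

variable {n : ℕ} {X : Type*} [MulAction (GG n (ZMod 2)) X]

theorem add_self (x : Fin n → ZMod 2) : x + x = 0 := funext fun i => CharTwo.add_self_eq_zero _

theorem eq_of_add {x y : Fin n → ZMod 2} (h : x + y = 0) : x = y := by
  rw [← add_zero x, ← add_self y, ← add_assoc, h, zero_add]

theorem z2 (a : ZMod 2) : a = 0 ∨ a = 1 := by revert a; decide

/-- A transvection fixing `W` moves `x` to `y`. -/
theorem mv (W : Submodule (ZMod 2) (Fin n → ZMod 2)) {x y : Fin n → ZMod 2} (hx : x ∉ W)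
    (hy : y ∉ W) : ∃ g : GG n (ZMod 2), g • x = y ∧ ∀ w ∈ W, g • w = w := by
  obtain ⟨f, h1, h2⟩ := exists_dot (W := W ⊔ Submodule.span _ {x + y}) (v := x) fun e => by
    obtain ⟨w, hw, _, hz, e⟩ := Submodule.mem_sup.1 e
    obtain ⟨c, rfl⟩ := Submodule.mem_span_singleton.1 hz
    rcases z2 c with rfl | rfl
    · rw [zero_smul, add_zero] at e
      exact hx (e ▸ hw)
    · rw [one_smul, add_left_comm, add_eq_left] at e
      exact hy (eq_of_add e ▸ hw)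
  refine ⟨tv (x + y) f (h1 _ (Submodule.mem_sup_right (Submodule.mem_span_singleton_self _))),
    ?_, fun w hw => ?_⟩
  · rw [tv_smul, h2, one_smul, ← add_assoc, add_self, zero_add]
  · rw [tv_smul, h1 w (Submodule.mem_sup_left hw), zero_smul, add_zero]

variable (h0 : 0 + 2 ≤ n)

/-- The vectors of the standard line. -/
def emb (u : Fin 2 → ZMod 2) : Fin n → ZMod 2 :=
  u 0 • Pi.single (ix h0 0) 1 + u 1 • Pi.single (ix h0 1) 1

theorem ix_ne : ix h0 0 ≠ ix h0 1 := (ix_inj h0).ne (by decide)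

theorem emb_ix (u : Fin 2 → ZMod 2) (i : Fin 2) : emb h0 u (ix h0 i) = u i := by
  fin_cases i <;> simp [emb, ix_ne h0, (ix_ne h0).symm]

theorem emb_out (u : Fin 2 → ZMod 2) {i : Fin n} (h : 2 ≤ i.1) : emb h0 u i = 0 := by
  have : ∀ j, i ≠ ix h0 j := fun j e => by have := j.2; simp [e] at h; omega
  simp [emb, this]

theorem cases (i : Fin n) : (∃ j, i = ix h0 j) ∨ 2 ≤ i.1 := by
  by_cases h : i.1 < 2
  · exact .inl ⟨⟨i, h⟩, Fin.ext (by simp)⟩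
  · exact .inr (by omega)

theorem emb_inj : Function.Injective (emb h0) := fun u v e => funext fun i => by
  rw [← emb_ix h0 u, e, emb_ix]

theorem emb_add (u v : Fin 2 → ZMod 2) : emb h0 (u + v) = emb h0 u + emb h0 v := by
  simp only [emb, Pi.add_apply, add_smul]; abel

theorem emb_zero : emb h0 0 = 0 := by simp [emb]

theorem emb_ne {u : Fin 2 → ZMod 2} (h : u ≠ 0) : emb h0 u ≠ 0 := fun e =>
  h (emb_inj h0 (e.trans (emb_zero h0).symm))

theorem dot_emb (f : Fin n → ZMod 2) (u : Fin 2 → ZMod 2) :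
    f ⬝ᵥ emb h0 u = u 0 * f (ix h0 0) + u 1 * f (ix h0 1) := by
  simp [emb]

theorem smul_emb (g : PI n (ZMod 2) 0 2) (u : Fin 2 → ZMod 2) :
    g.1 • emb h0 u = emb h0 ((blk (ZMod 2) h0 g).1 *ᵥ u) := by
  funext i
  have h1 : (g.1 • emb h0 u) i = u 0 * g.1.1 i (ix h0 0) + u 1 * g.1.1 i (ix h0 1) :=
    dot_emb h0 (g.1.1 i) u
  rw [h1]
  obtain ⟨j, rfl⟩ | h := cases h0 i
  · rw [emb_ix]
    simp [mulVec, dotProduct, blk_apply, mul_comm]
  · rw [emb_out h0 _ h, mem_PI.1 g.2 _ _ (.inr ⟨by simp, by omega⟩),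
      mem_PI.1 g.2 _ _ (.inr ⟨by simp, by omega⟩)]
    simp

theorem exists_pair {x y : Fin n → ZMod 2} (hx : x ≠ 0) (hy : y ≠ 0) (h : x ≠ y) :
    ∃ g : GG n (ZMod 2), g • emb h0 ![1, 0] = x ∧ g • emb h0 ![0, 1] = y := by
  have h1 : emb h0 ![1, 0] ≠ 0 := emb_ne h0 (by decide)
  obtain ⟨g, h2, -⟩ := mv ⊥ (x := emb h0 ![1, 0]) (y := x) h1 hx
  have h3 : ∀ z, z ≠ 0 → z ≠ x → z ∉ Submodule.span (ZMod 2) {x} := fun z a b e => by
    obtain ⟨c, rfl⟩ := Submodule.mem_span_singleton.1 e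
    rcases z2 c with rfl | rfl
    exacts [a (zero_smul _ _), b (one_smul _ _)]
  obtain ⟨g', h4, h5⟩ := mv (Submodule.span _ {x}) (x := g • emb h0 ![0, 1]) (y := y)
    (h3 _ ((smul_ne_zero_iff_ne g).2 (emb_ne h0 (by decide))) fun e =>
      absurd (emb_inj h0 (MulAction.injective g (e.trans h2.symm))) (by decide)) (h3 _ hy h.symm)
  exact ⟨g' * g, by rw [mul_smul, h2, h5 _ (Submodule.mem_span_singleton_self x)],
    by rw [mul_smul, h4]⟩

theorem mem_P1 {g : GG n (ZMod 2)} :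
    g ∈ PJ n (ZMod 2) {0}ᶜ ↔ g • emb h0 ![1, 0] = emb h0 ![1, 0] := by
  have h1 : ∀ i, (g • emb h0 ![1, 0]) i = g.1 i (ix h0 0) := fun i =>
    (dot_emb h0 (g.1 i) _).trans (by simp)
  have h2 : ∀ i, i ≠ ix h0 0 → emb h0 ![1, 0] i = 0 := fun i hi => by simp [emb, hi]
  rw [mem_PJ]
  refine ⟨fun h => ?_, fun h a b ⟨m, a1, a2, a3⟩ => ?_⟩
  · have h3 : ∀ i, i ≠ ix h0 0 → (g • emb h0 ![1, 0]) i = 0 := fun i hi => (h1 i).trans
      (h _ _ ⟨0, by simp, Nat.pos_of_ne_zero fun e => hi (Fin.ext (by simpa using e)), by simp⟩)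
    funext i
    by_cases hi : i = ix h0 0
    swap
    · rw [h3 i hi, h2 i hi]
    subst hi
    rw [emb_ix]
    refine (z2 _).resolve_left fun e => (smul_ne_zero_iff_ne g).2
      (emb_ne h0 (u := ![1, 0]) (by decide)) (funext fun j => ?_)
    by_cases hj : j = ix h0 0
    exacts [hj ▸ e, h3 j hj]
  · obtain rfl : m = 0 := by simpa using a3
    obtain rfl : b = ix h0 0 := Fin.ext (by simpa using a1)
    rw [← h1, h, h2 _ fun e => by simp [e] at a2]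

open _root_.Classical in
/-- The number of points of `O` on the image of the standard line. -/
noncomputable def ty (O : Set (Fin n → ZMod 2)) (g : GG n (ZMod 2)) : ℕ :=
  ∑ u : Fin 2 → ZMod 2, if g • emb h0 u ∈ O then 1 else 0

open _root_.Classical in
theorem ty_eq {O : Set (Fin n → ZMod 2)} (hO : 0 ∉ O) {g : GG n (ZMod 2)} {x y : Fin n → ZMod 2}
    (h1 : g • emb h0 ![1, 0] = x) (h2 : g • emb h0 ![0, 1] = y) : ty h0 O g =
      (if x ∈ O then 1 else 0) + ((if y ∈ O then 1 else 0) + if x + y ∈ O then 1 else 0) := by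
  rw [ty, show (Finset.univ : Finset (Fin 2 → ZMod 2)) = {0, ![1, 0], ![0, 1], ![1, 0] + ![0, 1]} by
    decide, Finset.sum_insert (by decide), Finset.sum_insert (by decide),
    Finset.sum_pair (by decide), emb_add, smul_add, h1, h2, emb_zero, smul_zero, if_neg hO, zero_add]

open _root_.Classical in
theorem ty_mul (O : Set (Fin n → ZMod 2)) (g : GG n (ZMod 2)) (p : PI n (ZMod 2) 0 2) :
    ty h0 O (g * p.1) = ty h0 O g :=
  (Finset.sum_congr rfl fun u _ => by rw [mul_smul, smul_emb]; rfl).trans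
    (Equiv.sum_comp (MulAction.toPerm (blk (ZMod 2) h0 p))
      fun u => if g • emb h0 u ∈ O then 1 else 0)

theorem fano (a b c d e f g : Prop) [Decidable a] [Decidable b] [Decidable c] [Decidable d]
    [Decidable e] [Decidable f] [Decidable g]
    (h1 : ¬ (a ∧ b ∧ d) ∧ (a ∨ b ∨ d)) (h2 : ¬ (a ∧ c ∧ e) ∧ (a ∨ c ∨ e))
    (h3 : ¬ (b ∧ c ∧ f) ∧ (b ∨ c ∨ f)) (h4 : ¬ (d ∧ c ∧ g) ∧ (d ∨ c ∨ g))
    (h5 : ¬ (e ∧ b ∧ g) ∧ (e ∨ b ∨ g)) (h6 : ¬ (f ∧ a ∧ g) ∧ (f ∨ a ∨ g))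
    (h7 : ¬ (d ∧ e ∧ f) ∧ (d ∨ e ∨ f)) : False := by
  by_cases a <;> by_cases b <;> by_cases c <;> by_cases d <;> by_cases e <;> simp_all

theorem not_closed (h : R3 n (ZMod 2) X) (ω : X) {O : Set (Fin n → ZMod 2)}
    (hO : ∀ g : GG n (ZMod 2), g • ω = ω → ∀ v ∈ O, g • v ∈ O) {a b : Fin n → ZMod 2} (ha : a ∈ O)
    (ha' : a ≠ 0) (hb : b ∉ O) (hb' : b ≠ 0) : ∃ x ∈ O, ∃ y ∈ O, x + y ≠ 0 ∧ x + y ∉ O := by
  by_contra! e
  let W : Submodule (ZMod 2) (Fin n → ZMod 2) :=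
    { carrier := {v | v ≠ 0 → v ∈ O}
      zero_mem' := fun e => absurd rfl e
      smul_mem' := fun c x hx => by
        rcases z2 c with rfl | rfl
        · exact fun e => absurd (zero_smul _ _) e
        · rwa [one_smul]
      add_mem' := fun {x y} hx hy => by
        obtain rfl | h1 := eq_or_ne x 0
        · rwa [zero_add]
        obtain rfl | h2 := eq_or_ne y 0
        · rwa [add_zero]
        exact e x (hx h1) y (hy h2) }
  rcases h.irr ω W fun g hg v hv e => hO g hg v (hv ((smul_ne_zero_iff_ne g).1 e)) with e | e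
  · exact ha' ((Submodule.eq_bot_iff W).1 e a fun _ => ha)
  · exact hb ((e ▸ Submodule.mem_top : b ∈ W) hb')

end B2

open B2

variable {n : ℕ} {X : Type*} [MulAction (GG n (ZMod 2)) X]

theorem R3.b2a (h : R3 n (ZMod 2) X) (h2 : nB X (PJ n (ZMod 2) {1}ᶜ) ≤ 2) :
    nB X (PJ n (ZMod 2) {0}ᶜ) = 1 := by
  classical
  have := h.fin
  have := h.tr
  have hn := h.n5
  have h0 : 0 + 2 ≤ n := by omega
  obtain ⟨ω⟩ := h.ne
  let O : Set (Fin n → ZMod 2) := {v | ∃ k : GG n (ZMod 2), k • ω = ω ∧ k • emb h0 ![1, 0] = v}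
  have he : emb h0 ![1, 0] ≠ 0 := emb_ne h0 (by decide)
  have hO : ∀ g : GG n (ZMod 2), g • ω = ω → ∀ v ∈ O, g • v ∈ O := fun g hg v ⟨k, h3, h4⟩ =>
    ⟨g * k, by rw [mul_smul, h3, hg], by rw [mul_smul, h4]⟩
  have hO' : ∀ g : GG n (ZMod 2), g • ω = ω → ∀ v, g • v ∈ O ↔ v ∈ O := fun g hg v =>
    ⟨fun e => by simpa using hO g⁻¹ (inv_smul_eq_iff.2 hg.symm) _ e, hO g hg v⟩
  have h3 : 0 ∉ O := fun ⟨k, _, e⟩ => (smul_ne_zero_iff_ne k).2 he e
  by_cases h4 : ∀ v, v ≠ 0 → v ∈ O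
  · have h5 : ∀ x : X, ∃ y ∈ PJ n (ZMod 2) {0}ᶜ, y • ω = x := fun x => by
      obtain ⟨g, rfl⟩ := exists_smul_eq (GG n (ZMod 2)) ω x
      obtain ⟨k, h5, h6⟩ := h4 _ ((smul_ne_zero_iff_ne g⁻¹).2 he)
      exact ⟨g * k, (mem_P1 h0).2 (by rw [mul_smul, h6, smul_inv_smul]), by rw [mul_smul, h5]⟩
    refine nB_eq_one.2 ⟨⟨ω⟩, fun x x' => ?_⟩
    obtain ⟨y, hy, rfl⟩ := h5 x
    obtain ⟨y', hy', rfl⟩ := h5 x'
    exact ⟨y' * y⁻¹, mul_mem hy' (inv_mem hy), by simp [mul_smul]⟩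
  exfalso
  push Not at h4
  obtain ⟨v, h4, h5⟩ := h4
  have h6 : emb h0 ![1, 0] ∈ O := ⟨1, one_smul _ _, one_smul _ _⟩
  obtain ⟨x, hx, y, hy, h7, h8⟩ := not_closed h ω hO h6 he h5 h4
  obtain ⟨x', hx', y', hy', h9, h10⟩ := not_closed h ω (O := {v | v ≠ 0 ∧ v ∉ O})
    (fun g hg v hv => ⟨(smul_ne_zero_iff_ne g).2 hv.1, (hO' g hg v).not.2 hv.2⟩) ⟨h4, h5⟩ h4
    (fun e => e.2 h6) he
  have h11 : ∀ g g' : GG n (ZMod 2), (∃ y ∈ PJ n (ZMod 2) {1}ᶜ, y • g⁻¹ • ω = g'⁻¹ • ω) →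
      ty h0 O g = ty h0 O g' := fun g g' ⟨y, hy, e⟩ => by
    rw [← ty_mul h0 O g' ⟨y, line_le_PI hy⟩]
    refine Finset.sum_congr rfl fun u _ => ?_
    rw [← hO' (g' * y * g⁻¹) (by rw [mul_smul, mul_smul, e, smul_inv_smul]), ← mul_smul,
      inv_mul_cancel_right]
  obtain ⟨g1, a1, a2⟩ := exists_pair h0 (fun e => h3 (e ▸ hx)) (fun e => h3 (e ▸ hy))
    fun e => h7 (e ▸ add_self _)
  obtain ⟨g2, b1, b2⟩ := exists_pair h0 hx'.1 hy'.1 fun e => h9 (e ▸ add_self _)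
  have c1 := ty_eq h0 h3 a1 a2
  have c2 := ty_eq h0 h3 b1 b2
  rw [if_pos hx, if_pos hy, if_neg h8] at c1
  rw [if_neg hx'.2, if_neg hy'.2, if_pos (by_contra fun e => h10 ⟨h9, e⟩)] at c2
  have h12 : ∀ x y : Fin n → ZMod 2, x ≠ 0 → y ≠ 0 → x ≠ y →
      ¬ (x ∈ O ∧ y ∈ O ∧ x + y ∈ O) ∧ (x ∈ O ∨ y ∈ O ∨ x + y ∈ O) := fun x y a b c => by
    obtain ⟨g, d1, d2⟩ := exists_pair h0 a b c
    have c3 := ty_eq h0 h3 d1 d2
    have := (three h2 (g1⁻¹ • ω) (g2⁻¹ • ω) (g⁻¹ • ω)).imp (h11 _ _) (Or.imp (h11 _ _) (h11 _ _))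
    split_ifs at c3 <;> simp_all
  let i : Fin 3 → Fin n := ix (a := 0) (by omega)
  let e : (Fin 3 → ZMod 2) → Fin n → ZMod 2 := fun u =>
    u 0 • Pi.single (i 0) 1 + u 1 • Pi.single (i 1) 1 + u 2 • Pi.single (i 2) 1
  have e1 : ∀ u j, e u (i j) = u j := fun u j => by
    have := ix_inj (n := n) (a := 0) (k := 3) (by omega)
    fin_cases j <;> simp [e, i, Pi.single_apply, this.eq_iff]
  have e2 : ∀ u v w, u ≠ 0 → v ≠ 0 → u ≠ v → u + v = w →
      ¬ (e u ∈ O ∧ e v ∈ O ∧ e w ∈ O) ∧ (e u ∈ O ∨ e v ∈ O ∨ e w ∈ O) := by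
    rintro u v _ a b c rfl
    rw [show e (u + v) = e u + e v by simp only [e, Pi.add_apply, add_smul]; abel]
    exact h12 _ _ (fun d => a (funext fun j => by rw [← e1 u, d]; rfl))
      (fun d => b (funext fun j => by rw [← e1 v, d]; rfl))
      fun d => c (funext fun j => by rw [← e1 u, d, e1])
  exact fano (e ![1, 0, 0] ∈ O) (e ![0, 1, 0] ∈ O) (e ![0, 0, 1] ∈ O) (e ![1, 1, 0] ∈ O)
    (e ![1, 0, 1] ∈ O) (e ![0, 1, 1] ∈ O) (e ![1, 1, 1] ∈ O)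
    (e2 _ _ _ (by decide) (by decide) (by decide) (by decide))
    (e2 _ _ _ (by decide) (by decide) (by decide) (by decide))
    (e2 _ _ _ (by decide) (by decide) (by decide) (by decide))
    (e2 _ _ _ (by decide) (by decide) (by decide) (by decide))
    (e2 _ _ _ (by decide) (by decide) (by decide) (by decide))
    (e2 _ _ _ (by decide) (by decide) (by decide) (by decide))
    (e2 _ _ _ (by decide) (by decide) (by decide) (by decide))

end CF.Rk
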