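import Cfsg.Agent.Rk.B2a

/-!
Rank 3 actions of `SL_n(2)`: transvections in the stabiliser.
-/

set_option autoImplicit false
open Matrix MulAction Cfsg

namespace CF.Rk

namespace B2

variable {n : ℕ} {X : Type*} [MulAction (GG n (ZMod 2)) X]

theorem aux {L N1 N2 N3 : (Fin n → ZMod 2) → Prop} (hL : ∀ {x y}, L x → L y → L (x + y))
    (h1 : ∀ {x y}, N1 x → N1 y → N1 (x + y)) (h2 : ∀ {x y}, N2 x → N2 y → N2 (x + y))
    (h3 : ∀ {x y}, N3 x → N3 y → N3 (x + y)) (c : ∀ x, L x → x ≠ 0 → N1 x ∨ N2 x ∨ N3 x)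
    (d2 : ∀ x, N1 x → N2 x → x = 0) (d3 : ∀ x, N1 x → N3 x → x = 0) {a b d : Fin n → ZMod 2}
    (ha : N1 a) (hb : N2 b) (hab : N3 (a + b)) (b0 : b ≠ 0) (bL : L b) (hd : N1 d) (dL : L d)
    (d0 : d ≠ 0) : d = a := by
  rcases c _ (hL dL bL) fun e => d0 (d2 d hd (eq_of_add e ▸ hb)) with e | e | e
  · have := h1 hd e
    rw [← add_assoc, add_self, zero_add] at this
    exact absurd (d2 b this hb) b0
  · have := h2 e hb
    rw [add_assoc, add_self, add_zero] at this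
    exact absurd (d2 d hd this) d0
  · have := h3 e hab
    rw [add_add_add_comm, add_self, add_zero] at this
    exact eq_of_add (d3 _ (h1 hd ha) this)

theorem part {L N1 N2 N3 : (Fin n → ZMod 2) → Prop} (hL : ∀ {x y}, L x → L y → L (x + y))
    (h1 : ∀ {x y}, N1 x → N1 y → N1 (x + y)) (h2 : ∀ {x y}, N2 x → N2 y → N2 (x + y))
    (h3 : ∀ {x y}, N3 x → N3 y → N3 (x + y)) (c : ∀ x, L x → x ≠ 0 → N1 x ∨ N2 x ∨ N3 x)
    (d1 : ∀ x, N2 x → N3 x → x = 0) (d2 : ∀ x, N1 x → N3 x → x = 0)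
    (d3 : ∀ x, N1 x → N2 x → x = 0) {a b : Fin n → ZMod 2} (ha : N1 a) (hb : N2 b) (a0 : a ≠ 0)
    (b0 : b ≠ 0) (aL : L a) (bL : L b) (d : Fin n → ZMod 2) (dL : L d) :
    d = 0 ∨ d = a ∨ d = b ∨ d = a + b := by
  have e1 : a + (a + b) = b := by rw [← add_assoc, add_self, zero_add]
  have e2 : a + b + b = a := by rw [add_assoc, add_self, add_zero]
  have hab : N3 (a + b) := by
    rcases c _ (hL aL bL) fun e => a0 (d3 a ha (eq_of_add e ▸ hb)) with e | e | e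
    exacts [absurd (d3 b (e1 ▸ h1 ha e) hb) b0, absurd (d3 a ha (e2 ▸ h2 e hb)) a0, e]
  refine (em _).imp_right fun d0 => ?_
  rcases c d dL d0 with e | e | e
  · exact .inl (aux hL h1 h2 h3 c d3 d2 ha hb hab b0 bL e dL d0)
  · exact .inr (.inl (aux hL h2 h1 h3 (fun x a b => by have := c x a b; tauto)
      (fun x a b => d3 x b a) d1 hb ha (add_comm a b ▸ hab) a0 aL e dL d0))
  · exact .inr (.inr (aux hL h3 h2 h1 (fun x a b => by have := c x a b; tauto)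
      (fun x a b => d1 x b a) (fun x a b => d2 x b a) hab hb (e2.symm ▸ ha) b0 bL e dL d0))

theorem cyc : ∀ (M : Matrix (Fin 2) (Fin 2) (ZMod 2)) (v : Fin 2 → ZMod 2), M * M * M = 1 → M ≠ 1 →
    v ≠ 0 → ![1, 0] = v ∨ M *ᵥ ![1, 0] = v ∨ M *ᵥ M *ᵥ ![1, 0] = v := fun M =>
  @of_decide_eq_true _ (Fintype.decidableForallFintype) (by revert M; decide +kernel)

theorem four : ∀ u v : Fin 2 → ZMod 2, u ≠ 0 → v ≠ 0 → u ≠ v →
    ∀ w, w = 0 ∨ w = u ∨ w = v ∨ w = u + v := fun u =>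
  @of_decide_eq_true _ (Fintype.decidableForallFintype) (by revert u; decide +kernel)

variable (h0 : 0 + 2 ≤ n)

theorem tv_mem {x f : Fin n → ZMod 2} (e : f ⬝ᵥ x = 0)
    (h : (∀ i : Fin n, 2 ≤ i.1 → x i = 0) ∨ ∀ j, f (ix h0 j) = 0) :
    tv x f e ∈ PJ n (ZMod 2) {1}ᶜ := mem_PJ.2 fun a b ⟨m, a1, a2, a3⟩ => by
  obtain rfl : m = 1 := by simpa using a3
  rw [tv_val, Matrix.add_apply, one_apply_ne (fun e => by simp [e] at a2; omega), zero_add,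
    vecMulVec_apply]
  rcases h with h | h
  · rw [h a (by omega), zero_mul]
  · obtain ⟨j, rfl⟩ | h' := cases h0 b
    · rw [h, mul_zero]
    · omega

theorem line_of {ω : X} (hs : Gd (sn h0 _ line_le_PI) ω) {u : Fin 2 → ZMod 2} (hu : u ≠ 0)
    {f : Fin n → ZMod 2} (h : TK ω (emb h0 u) f) (j : Fin 2) : f (ix h0 j) = 0 := by
  obtain ⟨e, h⟩ := h
  have h1 := eps_eq_one.1 (hs ⟨_, tv_mem h0 e (.inl fun _ => emb_out h0 u)⟩ h)
  rw [show (blk (ZMod 2) h0 _).1 = 1 + vecMulVec u fun j => f (ix h0 j) from Matrix.ext fun i j => by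
    simp [blk_apply, tv_val, emb_ix, vecMulVec_apply, one_apply, (ix_inj h0).eq_iff]] at h1
  rw [dot_emb] at e
  exact congrFun ((by decide +kernel : ∀ u g : Fin 2 → ZMod 2, u ≠ 0 → u 0 * g 0 + u 1 * g 1 = 0 →
    (1 + vecMulVec u g) * (1 + vecMulVec u g) * (1 + vecMulVec u g) = 1 → g = 0) u _ hu e h1) j

theorem vm_inv (f : Fin n → ZMod 2) (k : GG n (ZMod 2)) : f ᵥ* k.1 ᵥ* (k⁻¹).1 = f := by
  rw [vecMul_vecMul, ← val_mul, mul_inv_cancel, val_one, vecMul_one]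

theorem vm_ne {f : Fin n → ZMod 2} (h : f ≠ 0) (k : GG n (ZMod 2)) : f ᵥ* k.1 ≠ 0 := fun e =>
  h (by rw [← vm_inv f k, e, zero_vecMul])

theorem last_fix {l : Fin n} (hl : l.1 + 1 = n) (hn : 3 ≤ n) {p : GG n (ZMod 2)}
    (hp : p ∈ PJ n (ZMod 2) {0}) : Pi.single l 1 ᵥ* p.1 = Pi.single l 1 := by
  have h1 : ∀ j, j ≠ l → (Pi.single l 1 ᵥ* p.1) j = 0 := fun j hj => by
    rw [single_one_vecMul]
    exact mem_PJ_one.1 hp l j (Fin.lt_def.2 (by have := Fin.val_ne_of_ne hj; omega)) (by omega)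
  funext j
  obtain rfl | hj := eq_or_ne j l
  · rw [Pi.single_eq_same]
    refine (z2 _).resolve_left fun e => vm_ne (f := Pi.single j 1) (by simp) p (funext fun i => ?_)
    obtain rfl | hi := eq_or_ne i j
    exacts [e, h1 i hi]
  · rw [h1 j hj, Pi.single_eq_of_ne hj]

theorem exists_tv (h : R3 n (ZMod 2) X) (h16 : ¬ 16 ∣ Nat.card X) (ω : X) :
    ∃ x f : Fin n → ZMod 2, x ≠ 0 ∧ f ≠ 0 ∧ TK ω x f := by
  have := h.tr
  have hn := h.n5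
  have h4 : 1 + 4 ≤ n := by omega
  let x : Fin n → ZMod 2 := Pi.single ⟨0, by omega⟩ 1
  let F : (Fin 4 → ZMod 2) → Fin n → ZMod 2 := fun c => ∑ j, c j • Pi.single (ix h4 j) 1
  have h1 : ∀ c j, F c (ix h4 j) = c j := fun c j => by
    simp [F, Pi.single_apply, (ix_inj h4).eq_iff]
  have h2 : ∀ c, F c ⬝ᵥ x = 0 := fun c => by
    have : ∀ j, (⟨0, by omega⟩ : Fin n) ≠ ix h4 j := fun j e => by simp [Fin.ext_iff] at e; omega
    simp [F, x, this]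
  let φ : Multiplicative (Fin 4 → ZMod 2) →* GG n (ZMod 2) := MonoidHom.mk'
    (fun c => tv x (F c.toAdd) (h2 _)) fun c d => Subtype.ext (by
      rw [tv_mul _ _ _ _ _ _ (h2 _), tv_val, add_assoc, ← vecMulVec_add]
      simp [F, add_smul, Finset.sum_add_distrib])
  letI := MulAction.compHom X φ
  by_contra! e
  have h5 : Nat.card (Multiplicative (Fin 4 → ZMod 2)) = 16 := by simp
  refine h16 (h5.ge.antisymm h5.le ▸ Dvd.intro_left _ ((Nat.card_congr (selfEquivOrbitsQuotientProd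
    (G := Multiplicative (Fin 4 → ZMod 2)) (X := X) fun y => eq_bot_iff.2 fun c hc => ?_)).trans
    (Nat.card_prod _ _)).symm)
  obtain ⟨g, rfl⟩ := exists_smul_eq (GG n (ZMod 2)) ω y
  by_contra h3
  refine e (g⁻¹ • x) (F c.toAdd ᵥ* (g⁻¹⁻¹).1) ((smul_ne_zero_iff_ne _).2 (by simp [x]))
    (vm_ne (fun e => h3 (funext fun j => (h1 _ j).symm.trans (congrFun e _))) _)
    ⟨by rw [dot_inv_smul, h2], ?_⟩
  rw [show tv _ _ _ = g⁻¹ * tv x _ (h2 c.toAdd) * g⁻¹⁻¹ from Subtype.ext (conj_tv _ _ _ _).symm,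
    mul_smul, mul_smul, inv_inv, inv_smul_eq_iff]
  exact hc

end B2

open B2

variable {n : ℕ} {X : Type*} [MulAction (GG n (ZMod 2)) X]

theorem R3.b2b (h : R3 n (ZMod 2) X) (h0 : 0 + 2 ≤ n) {ω : X} (hs : Gd (sn h0 _ line_le_PI) ω)
    (hf : ∀ g ∈ PJ n (ZMod 2) {1}ᶜ, Cl n (ZMod 2) {0} ω (g • ω))
    (h1 : nB X (PJ n (ZMod 2) {0}ᶜ) = 1) : 16 ∣ Nat.card X := by
  by_contra h16
  have hn := h.n5
  obtain ⟨x, f, hx, hf0, hT⟩ := exists_tv h h16 ω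
  have he : emb h0 ![1, 0] ≠ 0 := emb_ne h0 (by decide)
  have h2 : ∀ v, v ≠ 0 → ∃ k : GG n (ZMod 2), k • ω = ω ∧ k • emb h0 ![1, 0] = v := fun v hv => by
    obtain ⟨g, hg, -⟩ := mv ⊥ (x := emb h0 ![1, 0]) (y := v) he hv
    obtain ⟨y, hy, e⟩ := (nB_eq_one.1 h1).2 ω (g⁻¹ • ω)
    exact ⟨g * y, by rw [mul_smul, e, smul_inv_smul], by rw [mul_smul, (mem_P1 h0).1 hy, hg]⟩
  have h3 : ∀ v, v ≠ 0 → ∃ f, f ≠ 0 ∧ TK ω v f := fun v hv => by
    obtain ⟨k, a1, a2⟩ := h2 x hx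
    obtain ⟨k', b1, b2⟩ := h2 v hv
    have := hT.conj (k := k' * k⁻¹) (by rw [mul_smul, inv_smul_eq_iff.2 a1.symm, b1])
    rw [mul_smul, inv_smul_eq_iff.2 a2.symm, b2] at this
    exact ⟨_, vm_ne hf0 _, this⟩
  let l : Fin n := ⟨n - 1, by omega⟩
  have hl : ∀ j, ix h0 j ≠ l := fun j e => by have := j.2; simp [Fin.ext_iff, l] at e; omega
  have h4 : ∀ f, (∀ j, f (ix h0 j) = 0) → f ≠ 0 → ∃ k : PI n (ZMod 2) 0 2, k.1 • ω = ω ∧
      Pi.single l 1 ᵥ* k.1.1 = f := fun f a b => by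
    obtain ⟨v, c1, c2⟩ : ∃ v : Fin n → ZMod 2, f ⬝ᵥ v = 1 ∧ v l = 1 := by
      rcases z2 (f l) with e | e
      · obtain ⟨j, hj⟩ := Function.ne_iff.1 b
        have h5 : l ≠ j := fun e' => hj (e' ▸ e)
        exact ⟨Pi.single j 1 + Pi.single l 1, by simp [e, (z2 _).resolve_left hj], by simp [h5]⟩
      · exact ⟨Pi.single l 1, by simp [e], by simp⟩
    have c3 : (f + Pi.single l 1) ⬝ᵥ v = 0 := by
      rw [add_dotProduct, c1, single_one_dotProduct, c2]; rfl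
    have c4 := tv_mem h0 c3 (.inr fun j => by simp [a, hl])
    obtain ⟨p, hp, e⟩ := hf _ c4
    refine ⟨⟨p⁻¹ * _, mul_mem (inv_mem (one_le_PI 0 hp)) (line_le_PI c4)⟩,
      by rw [mul_smul, ← e, inv_smul_smul], ?_⟩
    rw [val_mul, ← vecMul_vecMul, last_fix (by simp [l]; omega) (by omega) (inv_mem hp), tv_val,
      vecMul_add, vecMul_one, vecMul_vecMulVec, single_one_dotProduct, c2, one_smul, add_left_comm,
      add_self, add_zero]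
  have h5 : ∀ {u f} (k : PI n (ZMod 2) 0 2), k.1 • ω = ω → TK ω (emb h0 u) f →
      TK ω (emb h0 ((blk (ZMod 2) h0 k).1 *ᵥ u)) (f ᵥ* (k⁻¹).1.1) := fun k a b =>
    smul_emb h0 k _ ▸ b.conj a
  have h6 : ∀ (k : PI n (ZMod 2) 0 2) u, (blk (ZMod 2) h0 k).1 *ᵥ (blk (ZMod 2) h0 k⁻¹).1 *ᵥ u = u :=
    fun k u => by rw [mulVec_mulVec, ← Units.val_mul, ← map_mul, mul_inv_cancel, map_one]; simp
  have h7 : ∀ f, (∀ j, f (ix h0 j) = 0) → f ≠ 0 →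
      ((∀ u, TK ω (emb h0 u) f) ↔ ∀ u, TK ω (emb h0 u) (Pi.single l 1)) ∧
      ((∃ u, u ≠ 0 ∧ TK ω (emb h0 u) f) ↔ ∃ u, u ≠ 0 ∧ TK ω (emb h0 u) (Pi.single l 1)) :=
    fun f a b => by
    obtain ⟨k, c1, rfl⟩ := h4 f a b
    have c2 : (k⁻¹).1 • ω = ω := inv_smul_eq_iff.2 c1.symm
    have c3 : ∀ u, TK ω (emb h0 u) (Pi.single l 1 ᵥ* k.1.1) →
        TK ω (emb h0 ((blk (ZMod 2) h0 k).1 *ᵥ u)) (Pi.single l 1) := fun u H => by
      have := h5 k c1 H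
      rwa [Subgroup.coe_inv, vm_inv] at this
    have c4 : ∀ u, TK ω (emb h0 u) (Pi.single l 1) →
        TK ω (emb h0 ((blk (ZMod 2) h0 k⁻¹).1 *ᵥ u)) (Pi.single l 1 ᵥ* k.1.1) := fun u H => by
      have := h5 k⁻¹ c2 H
      rwa [inv_inv] at this
    have c5 := h6 k⁻¹
    rw [inv_inv] at c5
    refine ⟨⟨fun H u => ?_, fun H u => ?_⟩, fun ⟨u, d, H⟩ => ⟨_, fun e => d ?_, c3 u H⟩,
      fun ⟨u, d, H⟩ => ⟨_, fun e => d ?_, c4 u H⟩⟩
    · rw [← h6 k u]; exact c3 _ (H _)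
    · rw [← c5 u]; exact c4 _ (H _)
    · rw [← c5 u, e, mulVec_zero]
    · rw [← h6 k u, e, mulVec_zero]
  have h8 : ∀ f u v, u ≠ 0 → v ≠ 0 → u ≠ v → TK ω (emb h0 u) f → TK ω (emb h0 v) f → f = 0 :=
    fun f u v a b c d e => by_contra fun f0 => by
    have c1 := (h7 f (line_of h0 hs a d) f0).1.1 fun w => by
      rcases four u v a b c w with rfl | rfl | rfl | rfl
      exacts [emb_zero h0 ▸ TK.zero_left _ _, d, e, emb_add h0 _ _ ▸ d.add_left e]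
    let Y : Submodule (ZMod 2) (Fin n → ZMod 2) :=
      { carrier := Set.range (emb h0)
        zero_mem' := ⟨0, emb_zero h0⟩
        add_mem' := by rintro _ _ ⟨u, rfl⟩ ⟨v, rfl⟩; exact ⟨_, emb_add h0 u v⟩
        smul_mem' := fun c x hx => by
          rcases z2 c with rfl | rfl
          · exact ⟨0, by rw [emb_zero, zero_smul]⟩
          · rwa [one_smul] }
    refine h.qyT ω Y (fun e => he ((Submodule.eq_bot_iff Y).1 e _ ⟨_, rfl⟩)) (fun e => ?_) ?_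
    · obtain ⟨u, hu⟩ := (e ▸ Submodule.mem_top : Pi.single l 1 ∈ Y)
      simpa [emb_out h0 u (i := l) (by simp [l]; omega)] using congrFun hu l
    rintro _ ⟨w, rfl⟩ g hg
    obtain rfl | g0 := eq_or_ne g 0
    · exact TK.zero_right _ _
    refine (h7 g (fun j => ?_) g0).1.2 c1 w
    fin_cases j
    · simpa [dot_emb] using hg _ ⟨![1, 0], rfl⟩
    · simpa [dot_emb] using hg _ ⟨![0, 1], rfl⟩
  obtain ⟨a, a0, ha⟩ := h3 _ he
  obtain ⟨b, b0, hb⟩ := h3 _ (emb_ne h0 (u := ![0, 1]) (by decide))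
  have aL := line_of h0 hs (by decide) ha
  have h9 := part (L := fun f => ∀ j, f (ix h0 j) = 0) (N1 := TK ω (emb h0 ![1, 0]))
    (N2 := TK ω (emb h0 ![0, 1])) (N3 := TK ω (emb h0 ![1, 1])) (fun a b j => by simp [a, b])
    TK.add_right TK.add_right TK.add_right (fun f c d => by
      obtain ⟨u, c1, c2⟩ := (h7 f c d).2.2 ((h7 a aL a0).2.1 ⟨_, by decide, ha⟩)
      rcases (by decide : ∀ u : Fin 2 → ZMod 2, u ≠ 0 → u = ![1, 0] ∨ u = ![0, 1] ∨ u = ![1, 1]) u c1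
        with rfl | rfl | rfl
      exacts [.inl c2, .inr (.inl c2), .inr (.inr c2)])
    (fun f => h8 f _ _ (by decide) (by decide) (by decide))
    (fun f => h8 f _ _ (by decide) (by decide) (by decide))
    (fun f => h8 f _ _ (by decide) (by decide) (by decide)) ha hb a0 b0 aL
    (line_of h0 hs (by decide) hb)
  have h10 : 2 + 3 ≤ n := by omega
  refine (by decide : ∀ a b : Fin 3 → ZMod 2, ¬ ∀ d, d = 0 ∨ d = a ∨ d = b ∨ d = a + b)
    (a ∘ ix h10) (b ∘ ix h10) fun d => ?_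
  have h11 : (∑ j, d j • Pi.single (ix h10 j) 1 : Fin n → ZMod 2) ∘ ix h10 = d := funext fun j => by
    simp [Pi.single_apply, (ix_inj h10).eq_iff]
  have h12 := h9 (∑ j, d j • Pi.single (ix h10 j) 1) fun j => by
    have : ∀ i, ix h0 j ≠ ix h10 i := fun i e => by have := j.2; simp [Fin.ext_iff] at e; omega
    simp [this]
  rw [← h11]
  rcases h12 with e | e | e | e <;> rw [e]
  exacts [.inl rfl, .inr (.inl rfl), .inr (.inr (.inl rfl)), .inr (.inr (.inr rfl))]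

theorem B2.ca {ω : X} (h0 : 0 + 2 ≤ n) [Finite X] (hs : Gd (sn h0 _ line_le_PI) ω)
    (h1 : ∀ x : X, ∃ g ∈ PJ n (ZMod 2) {0}, g • ω = x) (hn : 3 ≤ n)
    (h2 : nB X (Bo n (ZMod 2)) ≤ 2) : CA n (ZMod 2) X := by
  have hP : PJ n (ZMod 2) {0} ≤ PJ n (ZMod 2) {1}ᶜ := PJ_mono (by simp)
  have hB : ∀ g, g ∈ Bo n (ZMod 2) ↔ g ∈ PJ n (ZMod 2) {0} ∧ g • emb h0 ![1, 0] = emb h0 ![1, 0] :=
    fun g => ⟨fun e => ⟨Bo_le _ e, (mem_P1 h0).1 (Bo_le _ e)⟩, fun e => mem_Bo.2 fun a b c => by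
      by_cases d : b.1 = 0
      · exact mem_PJ.1 ((mem_P1 h0).2 e.2) a b ⟨0, d.le, by have := Fin.lt_def.1 c; omega, by simp⟩
      · exact mem_PJ_one.1 e.1 a b c (by omega)⟩
  have h3 : ∀ u : Fin 2 → ZMod 2, u ≠ 0 → ∃ g ∈ PJ n (ZMod 2) {0}, g • emb h0 u = emb h0 ![1, 0] :=
    fun u hu => by
    obtain ⟨M, a1, a2⟩ := (by decide +kernel : ∀ u : Fin 2 → ZMod 2, u ≠ 0 →
      ∃ M : Matrix (Fin 2) (Fin 2) (ZMod 2), M * M = 1 ∧ M *ᵥ u = ![1, 0]) u hu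
    obtain ⟨g, b1, b2⟩ := exists_blk h0 (by omega) (J := {0}) (fun m _ e => by simp; omega)
      ⟨M, M, a1, a1⟩
    exact ⟨g, b1, by rw [smul_emb, b2, a2]⟩
  obtain ⟨k, a1, a2, u, a3⟩ : ∃ k ∈ PJ n (ZMod 2) {0}, k • ω = ω ∧ ∃ u, k • emb h0 u ≠ emb h0 u := by
    have key : ∀ u v (g g' : GG n (ZMod 2)), u ≠ v → g ∈ PJ n (ZMod 2) {0} ∧
        g • emb h0 u = emb h0 ![1, 0] → g' ∈ PJ n (ZMod 2) {0} ∧ g' • emb h0 v = emb h0 ![1, 0] →
        (∃ y ∈ Bo n (ZMod 2), y • g • ω = g' • ω) →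
        ∃ k ∈ PJ n (ZMod 2) {0}, k • ω = ω ∧ ∃ u, k • emb h0 u ≠ emb h0 u :=
      fun u v g g' a b c ⟨y, d, e⟩ => ⟨g'⁻¹ * y * g, mul_mem (mul_mem (inv_mem c.1) (Bo_le _ d)) b.1,
        by rw [mul_smul, mul_smul, e, inv_smul_smul], u, by
          rw [mul_smul, mul_smul, b.2, ((hB y).1 d).2, ← c.2, inv_smul_smul]
          exact (emb_inj h0).ne a.symm⟩
    obtain ⟨g1, b1⟩ := h3 ![1, 0] (by decide)
    obtain ⟨g2, b2⟩ := h3 ![0, 1] (by decide)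
    obtain ⟨g3, b3⟩ := h3 ![1, 1] (by decide)
    exact (three h2 (g1 • ω) (g2 • ω) (g3 • ω)).elim (key _ _ _ _ (by decide) b1 b2)
      fun e => e.elim (key _ _ _ _ (by decide) b1 b3) (key _ _ _ _ (by decide) b2 b3)
  have a4 := eps_eq_one.1 (hs ⟨k, hP a1⟩ a2)
  have h4 : ∀ x : X, ∃ b ∈ Bo n (ZMod 2), b • ω = x := fun x => by
    obtain ⟨g, b1, rfl⟩ := h1 x
    let k' : PI n (ZMod 2) 0 2 := ⟨k, one_le_PI 0 a1⟩
    let g' : PI n (ZMod 2) 0 2 := ⟨g⁻¹, one_le_PI 0 (inv_mem b1)⟩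
    have b2 := smul_emb h0 g' ![1, 0]
    have b3 := smul_emb h0 k'
    have b4 : ∀ m : GG n (ZMod 2), m ∈ PJ n (ZMod 2) {0} → m • ω = ω →
        m • emb h0 ![1, 0] = emb h0 ((blk (ZMod 2) h0 g').1 *ᵥ ![1, 0]) →
        ∃ b ∈ Bo n (ZMod 2), b • ω = g • ω := fun m c1 c2 c3 =>
      ⟨g * m, (hB _).2 ⟨mul_mem b1 c1, by rw [mul_smul, c3, ← b2]; exact smul_inv_smul _ _⟩,
        by rw [mul_smul, c2]⟩
    rcases cyc (blk (ZMod 2) h0 k').1 ((blk (ZMod 2) h0 g').1 *ᵥ ![1, 0]) a4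
      (fun e => a3 ((b3 u).trans (by rw [e, one_mulVec])))
      (fun e => (smul_ne_zero_iff_ne g⁻¹).2 (emb_ne h0 (u := ![1, 0]) (by decide))
        (b2.trans (by rw [e, emb_zero]))) with e | e | e
    · exact b4 1 (one_mem _) (one_smul _ _) (by rw [one_smul, ← e])
    · exact b4 k a1 a2 (by rw [← e, ← b3])
    · exact b4 (k * k) (mul_mem a1 a1) (by rw [mul_smul, a2, a2]) (by rw [← e, ← b3, ← b3, mul_smul])
  intro x x'
  obtain ⟨y, hy, rfl⟩ := h4 x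
  obtain ⟨y', hy', rfl⟩ := h4 x'
  exact ⟨y' * y⁻¹, mul_mem hy' (inv_mem hy), by simp [mul_smul]⟩

end CF.Rk
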