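import Cfsg.Agent.Rk.B

/-!
Rank 3 actions of `SL_n(q)`: base lemmas on permutations and parabolic subgroups.
-/

set_option autoImplicit false
set_option linter.unusedSectionVars false
open Matrix MulAction Cfsg

namespace CF.Rk

variable {n : ℕ}

open _root_.Classical in
theorem count_lt_iff {J : Set ℕ} (a b : ℕ) :
    Nat.count (· ∉ J) b < Nat.count (· ∉ J) a ↔ ∃ m, b ≤ m ∧ m < a ∧ m ∉ J := by
  induction a with
  | zero => simp
  | succ a ih =>
    rw [Nat.count_succ]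
    constructor
    · intro h
      by_cases h1 : a ∉ J
      · by_cases h2 : b ≤ a
        · exact ⟨a, h2, by omega, h1⟩
        · have := Nat.count_monotone (· ∉ J) (show a + 1 ≤ b by omega)
          rw [Nat.count_succ] at this
          omega
      · rw [if_neg h1] at h
        obtain ⟨m, a1, a2, a3⟩ := ih.1 h
        exact ⟨m, a1, by omega, a3⟩
    · rintro ⟨m, a1, a2, a3⟩
      by_cases h1 : m = a
      · subst h1
        have := Nat.count_monotone (· ∉ J) a1
        rw [if_pos a3]; omega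
      · have := ih.2 ⟨m, a1, by omega, a3⟩
        omega

/-- A permutation that does not raise a labelling preserves it. -/
theorem perm_le_eq {c : Fin n → ℕ} {w : Equiv.Perm (Fin n)} (h : ∀ j, c (w j) ≤ c j) (j : Fin n) :
    c (w j) = c j :=
  (Finset.sum_eq_sum_iff_of_le fun i _ => h i).1 (Equiv.sum_comp w c) j (Finset.mem_univ _)

theorem mem_YJ {J : Set ℕ} {w : Equiv.Perm (Fin n)} :
    w ∈ YJ n J ↔ ∀ j m, j.1 ≤ m → m < (w j).1 → m ∈ J := by
  classical
  constructor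
  · intro h j m a1 a2
    by_contra a3
    have := (count_lt_iff (J := J) (w j).1 j.1).2 ⟨m, a1, a2, a3⟩
    rw [h j] at this
    exact lt_irrefl _ this
  · intro h
    refine perm_le_eq (c := fun i => Nat.count (· ∉ J) i.1) fun j => not_lt.1 fun e => ?_
    obtain ⟨m, a1, a2, a3⟩ := (count_lt_iff _ _).1 e
    exact a3 (h j m a1 a2)

theorem mem_YJ' {J : Set ℕ} {w : Equiv.Perm (Fin n)} (h : w ∈ YJ n J) (j : Fin n) (m : ℕ)
    (h1 : (w j).1 ≤ m) (h2 : m < j.1) : m ∈ J :=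
  mem_YJ.1 (inv_mem h) (w j) m h1 (by simpa using h2)

theorem YJ_mono {J J' : Set ℕ} (h : J ⊆ J') : YJ n J ≤ YJ n J' := fun _ hw =>
  mem_YJ.2 fun j m a1 a2 => h (mem_YJ.1 hw j m a1 a2)

theorem YJ_univ : YJ n Set.univ = ⊤ := top_unique fun _ _ => mem_YJ.2 fun _ _ _ _ => trivial

theorem swap_mem_YJ {J : Set ℕ} {a b : Fin n} (hab : b.1 = a.1 + 1) :
    Equiv.swap a b ∈ YJ n J ↔ a.1 ∈ J := by
  rw [mem_YJ]
  refine ⟨fun h => h a a.1 le_rfl (by simp; omega), fun h j m a1 a2 => ?_⟩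
  rw [Equiv.swap_apply_def] at a2
  split_ifs at a2 with e1 e2
  · subst e1; rwa [show m = j.1 by omega]
  · subst e2; omega
  · omega

theorem lt_swap {a b : Fin n} (hab : b.1 = a.1 + 1) {x y : Fin n} (h : x < y)
    (h1 : ¬(x = a ∧ y = b)) : Equiv.swap a b x < Equiv.swap a b y := by
  simp only [Equiv.swap_apply_def, Fin.lt_def, Fin.ext_iff] at *
  split_ifs <;> omega

theorem ninv_up {w : Equiv.Perm (Fin n)} {a b : Fin n} (hab : b.1 = a.1 + 1) (h : w⁻¹ a < w⁻¹ b) :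
    ninv (Equiv.swap a b * w) = ninv w + 1 := by
  have hl : a < b := Fin.lt_def.2 (by omega)
  unfold ninv
  rw [← Finset.card_insert_of_notMem (a := (a, b)) (by simpa using fun _ => h.le)]
  refine Finset.card_bij' (fun p _ => if p = (a, b) then p else (Equiv.swap a b p.1, Equiv.swap a b p.2))
    (fun p _ => if p = (a, b) then p else (Equiv.swap a b p.1, Equiv.swap a b p.2)) ?_ ?_ ?_ ?_
  · rintro ⟨x, y⟩ hp
    simp only [Finset.mem_filter, Finset.mem_univ, true_and, _root_.mul_inv_rev, Equiv.swap_inv,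
      Equiv.Perm.mul_apply, Finset.mem_insert] at hp ⊢
    split_ifs with e
    · exact Or.inl e
    · exact Or.inr ⟨lt_swap hab hp.1 (by simpa using e), hp.2⟩
  · rintro ⟨x, y⟩ hp
    simp only [Finset.mem_filter, Finset.mem_univ, true_and, _root_.mul_inv_rev, Equiv.swap_inv,
      Equiv.Perm.mul_apply, Finset.mem_insert] at hp ⊢
    split_ifs with e
    · obtain ⟨rfl, rfl⟩ := Prod.mk.inj e
      simpa [hl] using h
    · rcases hp with hp | hp
      · exact absurd hp e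
      · exact ⟨lt_swap hab hp.1 (by simpa using e), by simpa using hp.2⟩
  all_goals
    rintro ⟨x, y⟩ hp
    simp only [Finset.mem_filter, Finset.mem_univ, true_and, Finset.mem_insert] at hp
    by_cases e : (x, y) = (a, b)
    · simp [e]
    · have hxy : x < y := by first | exact hp.1 | exact (hp.resolve_left e).1
      rw [if_neg e, if_neg]
      · simp
      · intro e'
        obtain ⟨e1, e2⟩ := Prod.mk.inj e'
        rw [Equiv.swap_apply_eq_iff] at e1 e2
        simp only [Equiv.swap_apply_left, Equiv.swap_apply_right] at e1 e2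
        rw [e1, e2] at hxy
        exact absurd hxy hl.not_gt

theorem ninv_down {w : Equiv.Perm (Fin n)} {a b : Fin n} (hab : b.1 = a.1 + 1)
    (h : w⁻¹ b < w⁻¹ a) : ninv (Equiv.swap a b * w) + 1 = ninv w := by
  rw [← ninv_up (w := Equiv.swap a b * w) hab (by simpa using h), ← mul_assoc,
    Equiv.swap_mul_self, one_mul]

theorem exists_desc {J : Set ℕ} {w : Equiv.Perm (Fin n)} (hw : w ∈ YJ n J) (h1 : w ≠ 1) :
    ∃ a b : Fin n, b.1 = a.1 + 1 ∧ a.1 ∈ J ∧ w⁻¹ b < w⁻¹ a := by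
  by_contra h
  push Not at h
  have h2 : ∀ a b : Fin n, b.1 = a.1 + 1 → w⁻¹ a < w⁻¹ b := fun a b hab => by
    have hne : w⁻¹ a ≠ w⁻¹ b := fun e => by
      have := congr_arg Fin.val (w⁻¹.injective e); omega
    by_cases ha : a.1 ∈ J
    · exact lt_of_le_of_ne (h a b hab ha) hne
    · by_contra h3
      have h4 : (w⁻¹ b).1 < (w⁻¹ a).1 := lt_of_le_of_ne (not_lt.1 h3) fun e => hne (Fin.ext e.symm)
      by_cases h5 : (w⁻¹ a).1 ≤ a.1
      · exact ha (mem_YJ' (inv_mem hw) b a.1 (by omega) (by omega))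
      · exact ha (mem_YJ.1 (inv_mem hw) a a.1 le_rfl (by omega))
  have h3 : StrictMono (w⁻¹ : Equiv.Perm (Fin n)) := by
    rcases n with _ | n
    · exact fun a => a.elim0
    · exact Fin.strictMono_iff_lt_succ.2 fun i => h2 _ _ (by simp)
  refine h1 (inv_eq_one.1 (Equiv.ext fun i => ?_))
  exact le_antisymm (h3.apply_le) (h3.le_apply)

theorem YJ_eq_closure (J : Set ℕ) : YJ n J = Subgroup.closure
    {w | ∃ a b : Fin n, b.1 = a.1 + 1 ∧ a.1 ∈ J ∧ w = Equiv.swap a b} := by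
  refine le_antisymm (fun w hw => ?_) ((Subgroup.closure_le _).2 ?_)
  · induction h : ninv w using Nat.strong_induction_on generalizing w with
    | _ k ih =>
      by_cases h1 : w = 1
      · rw [h1]; exact one_mem _
      obtain ⟨a, b, hab, ha, e⟩ := exists_desc hw h1
      have h2 := ninv_down hab e
      have h3 := ih (ninv (Equiv.swap a b * w)) (by omega) _ (mul_mem ((swap_mem_YJ hab).2 ha) hw) rfl
      have h4 := mul_mem (Subgroup.subset_closure (k := {w | ∃ a b : Fin n, b.1 = a.1 + 1 ∧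
        a.1 ∈ J ∧ w = Equiv.swap a b}) ⟨a, b, hab, ha, rfl⟩) h3
      rwa [← mul_assoc, Equiv.swap_mul_self, one_mul] at h4
  · rintro _ ⟨a, b, hab, ha, rfl⟩
    exact (swap_mem_YJ hab).2 ha

theorem mem_YJ_one {a b : Fin n} (hab : b.1 = a.1 + 1) {w : Equiv.Perm (Fin n)} :
    w ∈ YJ n {a.1} ↔ w = 1 ∨ w = Equiv.swap a b := by
  constructor
  · intro h
    rw [YJ_eq_closure] at h
    induction h using Subgroup.closure_induction with
    | mem x hx =>
      obtain ⟨c, d, h1, h2, rfl⟩ := hx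
      have e1 : c = a := Fin.ext h2
      have e2 : d = b := Fin.ext (by rw [h1, hab, e1])
      exact Or.inr (by rw [e1, e2])
    | one => exact Or.inl rfl
    | mul x y _ _ hx hy => rcases hx with rfl | rfl <;> rcases hy with rfl | rfl <;> simp
    | inv x _ hx => rcases hx with rfl | rfl <;> simp
  · rintro (rfl | rfl)
    · exact one_mem _
    · exact (swap_mem_YJ hab).2 rfl

theorem YJ_eq_bot {J : Set ℕ} (h : ∀ a ∈ J, n ≤ a + 1) : YJ n J = ⊥ := by
  rw [YJ_eq_closure, Subgroup.closure_eq_bot_iff]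
  rintro _ ⟨a, b, hab, ha, rfl⟩
  have := h _ ha
  have := b.2
  omega

theorem nB_eq_one {G : Type*} [Group G] {X : Type*} [MulAction G X] {Y : Subgroup G} :
    nB X Y = 1 ↔ Nonempty X ∧ ∀ x x' : X, ∃ y ∈ Y, y • x = x' := by
  rw [nB, Nat.card_eq_one_iff_unique]
  constructor
  · rintro ⟨h1, ⟨o⟩⟩
    refine ⟨⟨o.out⟩, fun x x' => ?_⟩
    obtain ⟨y, hy⟩ := Quotient.exact' (h1.elim (Quotient.mk'' x' : orbitRel.Quotient Y X)
      (Quotient.mk'' x))
    exact ⟨y.1, y.2, hy⟩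
  · rintro ⟨⟨x⟩, h⟩
    refine ⟨⟨fun o o' => ?_⟩, ⟨Quotient.mk'' x⟩⟩
    induction o using Quotient.inductionOn'
    induction o' using Quotient.inductionOn'
    rename_i a b
    obtain ⟨y, hy, e⟩ := h b a
    exact Quotient.sound' ⟨⟨y, hy⟩, e⟩

section
variable {F : Type*} [Field F]

theorem wd_mem_PJ {J : Set ℕ} {w : Equiv.Perm (Fin n)} : wd F w ∈ PJ n F J ↔ w ∈ YJ n J := by
  rw [mem_PJ, mem_YJ]
  constructor
  · intro h j m a1 a2
    by_contra a3
    have := h (w j) j ⟨m, a1, a2, a3⟩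
    rw [wd_apply, if_pos rfl] at this
    exact Units.ne_zero _ this
  · rintro h a b ⟨m, a1, a2, a3⟩
    rw [wd_apply, if_neg]
    rintro rfl
    exact a3 (h b m a1 a2)

theorem bruhat_PJ {J : Set ℕ} {g : GG n F} (hg : g ∈ PJ n F J) :
    ∃ u ∈ Un n F, ∃ w ∈ YJ n J, ∃ b ∈ Bo n F, g = u * wd F w * b := by
  obtain ⟨u, hu, w, b, hb, e⟩ := bruhat g
  refine ⟨u, hu, w, (wd_mem_PJ (F := F)).1 ?_, b, hb, e⟩
  have : wd F w = u⁻¹ * g * b⁻¹ := by rw [e]; group
  rw [this]
  exact mul_mem (mul_mem (inv_mem (Bo_le J (Un_le hu))) hg) (inv_mem (Bo_le J hb))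

theorem PJ_eq_closure (J : Set ℕ) : PJ n F J = Subgroup.closure
    {g | g ∈ Bo n F ∨ ∃ a ∈ J, a + 1 < n ∧ g ∈ PJ n F {a}} := by
  refine le_antisymm (fun g hg => ?_) ((Subgroup.closure_le _).2 ?_)
  · obtain ⟨u, hu, w, hw, b, hb, rfl⟩ := bruhat_PJ hg
    have hB : ∀ {x}, x ∈ Bo n F → x ∈ Subgroup.closure
        {g | g ∈ Bo n F ∨ ∃ a ∈ J, a + 1 < n ∧ g ∈ PJ n F {a}} := fun hx =>
      Subgroup.subset_closure (Or.inl hx)
    refine mul_mem (mul_mem (hB (Un_le hu)) ?_) (hB hb)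
    clear hg
    rw [YJ_eq_closure] at hw
    induction hw using Subgroup.closure_induction with
    | mem x hx =>
      obtain ⟨c, d, h1, h2, rfl⟩ := hx
      exact Subgroup.subset_closure (Or.inr ⟨c.1, h2, h1 ▸ d.2,
        wd_mem_PJ.2 ((swap_mem_YJ h1).2 rfl)⟩)
    | one => rw [wd_one]; exact one_mem _
    | mul x y _ _ hx hy =>
      obtain ⟨t, ht, e⟩ := wd_mul (F := F) x y
      rw [← mul_inv_eq_iff_eq_mul] at e
      rw [← e]
      exact mul_mem (mul_mem hx hy) (inv_mem (hB (dg_mem _ _)))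
    | inv x _ hx =>
      obtain ⟨t, ht, e⟩ := wd_mul (F := F) x x⁻¹
      rw [mul_inv_cancel, wd_one, one_mul, ← eq_inv_mul_iff_mul_eq] at e
      rw [e]
      exact mul_mem (inv_mem hx) (hB (dg_mem _ _))
  · rintro g (hg | ⟨a, ha, -, hg⟩)
    · exact Bo_le J hg
    · exact PJ_mono (by simpa using ha) hg

theorem PJ_univ : PJ n F Set.univ = ⊤ :=
  top_unique fun _ _ => mem_PJ.2 fun _ _ ⟨_, _, _, h⟩ => absurd trivial h

theorem PJ_eq_Bo {J : Set ℕ} (h : ∀ a ∈ J, n ≤ a + 1) : PJ n F J = Bo n F :=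
  le_antisymm (fun _ hg => mem_Bo.2 fun a b e => mem_PJ.1 hg a b ⟨b.1, le_rfl, e, fun e' => by
    have := h _ e'
    have := a.2
    have : b.1 < a.1 := e
    omega⟩) (Bo_le J)

theorem conj_wd_Bo {w : Equiv.Perm (Fin n)} {g : GG n F} :
    wd F w * g * (wd F w)⁻¹ ∈ Bo n F ↔ ∀ i j, w j < w i → g.1 i j = 0 := by
  rw [mem_Bo]
  constructor
  · intro h i j e
    have := h _ _ e
    rw [wd_conj] at this
    simpa using this
  · intro h a b e
    obtain ⟨i, rfl⟩ := w.surjective a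
    obtain ⟨j, rfl⟩ := w.surjective b
    rw [wd_conj, h i j e, mul_zero, zero_mul]

theorem wd_conj_xr (w : Equiv.Perm (Fin n)) {a b : Fin n} (h : a ≠ b) (t : F) :
    wd F w * xr h t * (wd F w)⁻¹ =
      xr (w.injective.ne h) (sg F w a * t * (sg F w b)⁻¹.1) := by
  ext i j
  obtain ⟨i, rfl⟩ := w.surjective i
  obtain ⟨j, rfl⟩ := w.surjective j
  rw [wd_conj, xr_apply, xr_apply]
  simp only [w.injective.eq_iff]
  by_cases e : i = j
  · subst e
    have : ¬(a = i ∧ b = i) := fun e => h (e.1.trans e.2.symm)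
    simp [this]
  · by_cases e' : a = i ∧ b = j
    · obtain ⟨rfl, rfl⟩ := e'
      simp [e]
    · simp [e, e']

theorem adj_mul {a b : Fin n} (hab : b.1 = a.1 + 1) {g h : GG n F} (hg : g ∈ Bo n F)
    (hh : h ∈ Bo n F) : (g * h).1 a b = g.1 a a * h.1 a b + g.1 a b * h.1 b b := by
  have hne : a ≠ b := fun e => by rw [e] at hab; omega
  rw [val_mul, mul_apply, Finset.sum_eq_add a b hne]
  · intro m _ ⟨e1, e2⟩
    have e3 : m.1 ≠ a.1 := fun e => e1 (Fin.ext e)
    have e4 : m.1 ≠ b.1 := fun e => e2 (Fin.ext e)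
    by_cases e : m < a
    · rw [mem_Bo.1 hg _ _ e, zero_mul]
    · rw [mem_Bo.1 hh m b (Fin.lt_def.2 (by rw [Fin.lt_def] at e; omega)), mul_zero]
  all_goals simp

theorem adj_conj {a b : Fin n} (hab : b.1 = a.1 + 1) {g u : GG n F} (hg : g ∈ Bo n F)
    (hu : u ∈ Un n F) : (g * u * g⁻¹).1 a b * g.1 b b = g.1 a a * u.1 a b := by
  have h1 := conj_Un hg hu
  have h2 := adj_mul hab (Un_le h1) hg
  rw [inv_mul_cancel_right, adj_mul hab hg (Un_le hu), (mem_Un.1 hu).2, (mem_Un.1 h1).2] at h2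
  linear_combination -h2

theorem conj_Q {J : Set ℕ} {g u : GG n F} (hg : g ∈ PJ n F J) (hu : u ∈ Un n F)
    (h : ∀ i j : Fin n, i < j → (∀ m, i.1 ≤ m → m < j.1 → m ∈ J) → u.1 i j = 0) :
    g * u * g⁻¹ ∈ Un n F ∧
      ∀ i j : Fin n, i < j → (∀ m, i.1 ≤ m → m < j.1 → m ∈ J) → (g * u * g⁻¹).1 i j = 0 := by
  have key : ∀ i j : Fin n, (∀ m, i.1 ≤ m → m < j.1 → m ∈ J) →
      (g * u * g⁻¹).1 i j = (1 : Matrix (Fin n) (Fin n) F) i j := fun i j e => by
    have e1 : (g * u * g⁻¹).1 = 1 + g.1 * (u.1 - 1) * (g⁻¹).1 := by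
      rw [mul_sub, sub_mul, mul_one, ← val_mul g g⁻¹, mul_inv_cancel, val_mul, val_mul, val_one]
      abel
    rw [e1, Matrix.add_apply, add_eq_left, mul_apply]
    refine Finset.sum_eq_zero fun l _ => ?_
    rw [mul_apply, Finset.sum_mul]
    refine Finset.sum_eq_zero fun k _ => ?_
    by_cases e2 : ∀ m, k.1 ≤ m → m < l.1 → m ∈ J
    · have : (u.1 - 1) k l = 0 := by
        rw [Matrix.sub_apply, one_apply]
        rcases lt_trichotomy k l with e3 | e3 | e3
        · rw [h k l e3 e2, if_neg e3.ne, sub_zero]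
        · rw [e3, (mem_Un.1 hu).2, if_pos rfl, sub_self]
        · rw [mem_Bo.1 (Un_le hu) _ _ e3, if_neg e3.ne', sub_zero]
      rw [this, mul_zero, zero_mul]
    · push Not at e2
      obtain ⟨m, a1, a2, a3⟩ := e2
      by_cases e3 : m < i.1
      · rw [mem_PJ.1 hg i k ⟨m, a1, e3, a3⟩, zero_mul, zero_mul]
      · rw [mem_PJ.1 (inv_mem hg) l j ⟨m, not_lt.1 fun e4 => a3 (e m (by omega) e4), a2, a3⟩,
          mul_zero]
  refine ⟨mem_Un.2 ⟨mem_Bo.2 fun a b e => ?_, fun a => ?_⟩, fun i j e e' => ?_⟩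
  · rw [key a b fun m a1 a2 => by rw [Fin.lt_def] at e; omega, one_apply_ne e.ne']
  · rw [key a a fun m a1 a2 => by omega, one_apply_eq]
  · rw [key i j e', one_apply_ne e.ne]

theorem conj_Q1 {a b : Fin n} (hab : b.1 = a.1 + 1) {g u : GG n F} (hg : g ∈ PJ n F {a.1})
    (hu : u ∈ Un n F) (h : u.1 a b = 0) : g * u * g⁻¹ ∈ Un n F ∧ (g * u * g⁻¹).1 a b = 0 := by
  obtain ⟨h1, h2⟩ := conj_Q hg hu fun i j e e' => by
    rw [Fin.lt_def] at e
    have e1 : i.1 = a.1 := e' i.1 le_rfl e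
    have e2 : j.1 - 1 = a.1 := e' (j.1 - 1) (by omega) (by omega)
    rw [show i = a from Fin.ext e1, show j = b from Fin.ext (by omega), h]
  exact ⟨h1, h2 a b (Fin.lt_def.2 (by omega)) fun m a1 a2 => show m = a.1 by omega⟩

theorem xr_mul {a b : Fin n} (h : a ≠ b) (s t : F) : xr h s * xr h t = xr h (s + t) := by
  apply Subtype.ext
  exact transvection_mul_transvection_same a b h s t

theorem xr_zero {a b : Fin n} (h : a ≠ b) : xr h (0 : F) = 1 := by
  ext i j
  rw [xr_apply]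
  simp [one_apply]

theorem xr_inv {a b : Fin n} (h : a ≠ b) (s : F) : (xr h s)⁻¹ = xr h (-s) := by
  rw [inv_eq_iff_mul_eq_one, xr_mul, add_neg_cancel, xr_zero]

theorem mul_xr (g : GG n F) {a b : Fin n} (h : a ≠ b) (t : F) (i j : Fin n) :
    (g * xr h t).1 i j = g.1 i j + if j = b then t * g.1 i a else 0 := by
  change (g.1 * transvection a b t) i j = _
  split_ifs with e
  · rw [e, mul_transvection_apply_same]
  · rw [mul_transvection_apply_of_ne _ _ _ _ e, add_zero]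

theorem xr_mul' (g : GG n F) {a b : Fin n} (h : a ≠ b) (t : F) (i j : Fin n) :
    (xr h t * g).1 i j = g.1 i j + if i = a then t * g.1 b j else 0 := by
  change (transvection a b t * g.1) i j = _
  split_ifs with e
  · rw [e, transvection_mul_apply_same]
  · rw [transvection_mul_apply_of_ne _ _ _ _ e, add_zero]

theorem swap_conj_Bo {a b : Fin n} (hab : b.1 = a.1 + 1) {g : GG n F} (hg : g ∈ Bo n F)
    (h : g.1 a b = 0) : wd F (Equiv.swap a b) * g * (wd F (Equiv.swap a b))⁻¹ ∈ Bo n F := by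
  refine conj_wd_Bo.2 fun i j e => ?_
  by_cases e1 : Equiv.swap a b j = a ∧ Equiv.swap a b i = b
  · rw [Equiv.swap_apply_eq_iff, Equiv.swap_apply_eq_iff] at e1
    simpa [e1.1, e1.2] using h
  · exact mem_Bo.1 hg _ _ (by simpa using lt_swap hab e e1)

theorem bruhat_one {a b : Fin n} (hab : b.1 = a.1 + 1) {g : GG n F} (hg : g ∈ PJ n F {a.1}) :
    g ∈ Bo n F ∨ ∃ x ∈ Bo n F, ∃ (h : a ≠ b) (t : F), g = x * wd F (Equiv.swap a b) * xr h t := by
  have hl : a < b := Fin.lt_def.2 (by omega)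
  obtain ⟨u, hu, w, hw, c, hc, rfl⟩ := bruhat_PJ hg
  rcases (mem_YJ_one hab).1 hw with rfl | rfl
  · rw [wd_one, mul_one]
    exact Or.inl (mul_mem (Un_le hu) hc)
  · have h1 := swap_conj_Bo hab (mul_mem hc (Un_le (xr_mem hl (-(c.1 a b / c.1 a a))))) (by
      rw [mul_xr, if_pos rfl]
      have := diag_ne hc a
      field_simp
      ring)
    refine Or.inr ⟨_, mul_mem (Un_le hu) h1, hl.ne, c.1 a b / c.1 a a, ?_⟩
    rw [← xr_inv]
    group

theorem Un_eq_closure : Un n F = Subgroup.closure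
    {g | ∃ (a b : Fin n) (h : a < b) (t : F), g = xr h.ne t} := by
  classical
  refine le_antisymm (fun u hu => ?_) ((Subgroup.closure_le _).2 ?_)
  · induction h : (Finset.univ.filter fun p : Fin n × Fin n => p.1 < p.2 ∧ u.1 p.1 p.2 ≠ 0).card
      using Nat.strong_induction_on generalizing u with
    | _ k ih =>
      by_cases h0 : (Finset.univ.filter fun p : Fin n × Fin n => p.1 < p.2 ∧ u.1 p.1 p.2 ≠ 0) = ∅
      · have : u = 1 := by
          ext i j
          rcases lt_trichotomy i j with e | e | e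
          · by_contra e1
            refine Finset.filter_eq_empty_iff.1 h0 (Finset.mem_univ (i, j)) ⟨e, fun e2 => e1 ?_⟩
            rw [e2]; exact (one_apply_ne e.ne).symm
          · rw [e, (mem_Un.1 hu).2]; exact (one_apply_eq _).symm
          · rw [mem_Bo.1 (Un_le hu) _ _ e]; exact (one_apply_ne e.ne').symm
        rw [this]; exact one_mem _
      obtain ⟨⟨a, b⟩, h1, h2⟩ := Finset.exists_max_image _ (fun p : Fin n × Fin n => p.2)
        (Finset.nonempty_iff_ne_empty.2 h0)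
      simp only [Finset.mem_filter, Finset.mem_univ, true_and] at h1 h2
      have h3 := ih _ ?_ _ (mul_mem (xr_mem h1.1 (-u.1 a b)) hu) rfl
      · have h4 := mul_mem (Subgroup.subset_closure (k := {g | ∃ (a b : Fin n) (h : a < b) (t : F),
          g = xr h.ne t}) ⟨a, b, h1.1, u.1 a b, rfl⟩) h3
        rwa [← mul_assoc, xr_mul, add_neg_cancel, xr_zero, one_mul] at h4
      · rw [← h]
        have h5 : ∀ j, j ≠ b → u.1 b j = 0 := fun j e => by
          rcases lt_or_gt_of_ne e with e | e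
          · exact mem_Bo.1 (Un_le hu) _ _ e
          · by_contra e1
            exact absurd (h2 (b, j) ⟨e, e1⟩) e.not_ge
        refine Finset.card_lt_card ⟨fun p hp => ?_, fun e => ?_⟩
        · simp only [Finset.mem_filter, Finset.mem_univ, true_and, xr_mul'] at hp ⊢
          refine ⟨hp.1, fun e => hp.2 ?_⟩
          rw [e, zero_add]
          split_ifs with e1
          · by_cases e2 : p.2 = b
            · rw [← e1, ← e2, e]; simp
            · rw [h5 _ e2, mul_zero]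
          · rfl
        · have := e (Finset.mem_filter.2 ⟨Finset.mem_univ (a, b), h1⟩)
          simp [xr_mul', (mem_Un.1 hu).2] at this
  · rintro _ ⟨a, b, h, t, rfl⟩
    exact xr_mem h t

theorem exists_emb {a k : ℕ} (h : a + k ≤ n) (M : Matrix (Fin k) (Fin k) F) (hM : M.det = 1) :
    ∃ g : GG n F, (∀ i j, g.1 (ix h i) (ix h j) = M i j) ∧ ∀ i j : Fin n,
      (i.1 < a ∨ a + k ≤ i.1 ∨ j.1 < a ∨ a + k ≤ j.1) → g.1 i j = if i = j then 1 else 0 := by
  classical
  let e : Fin k ⊕ {i // i ∉ Set.range (ix h)} ≃ Fin n :=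
    (Equiv.sumCongr (Equiv.ofInjective _ (ix_inj h)) (Equiv.refl _)).trans (Equiv.sumCompl _)
  have e1 : ∀ i, e (Sum.inl i) = ix h i := fun _ => rfl
  have e2 : ∀ i, e (Sum.inr i) = i.1 := fun _ => rfl
  refine ⟨⟨reindex e e (fromBlocks M 0 0 1), by
    rw [det_reindex_self, det_fromBlocks_zero₂₁, hM, det_one, mul_one]⟩, fun i j => ?_, fun i j => ?_⟩
  · simp [← e1]
  · obtain ⟨i, rfl⟩ := e.surjective i
    obtain ⟨j, rfl⟩ := e.surjective j
    simp only [reindex_apply, submatrix_apply, Equiv.symm_apply_apply, e.injective.eq_iff]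
    rcases i with i | i <;> rcases j with j | j
    · have := i.2
      have := j.2
      simp only [e1, ix_val]
      omega
    all_goals simp [one_apply]

theorem exists_blk {a k : ℕ} (h : a + k ≤ n) (hk : k < n) {J : Set ℕ}
    (hJ : ∀ m, a ≤ m → m + 1 < a + k → m ∈ J) (M : GL (Fin k) F) :
    ∃ g : PI n F a k, g.1 ∈ PJ n F J ∧ blk F h g = M := by
  rcases k with _ | k
  · exact ⟨1, one_mem _, Subsingleton.elim _ _⟩
  let d := GeneralLinearGroup.det M
  obtain ⟨g, h1, h2⟩ := exists_emb h (M.1 * diagonal (Function.update 1 0 d⁻¹.1)) (by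
    rw [det_mul, det_diagonal, Finset.prod_update_of_mem (Finset.mem_univ _)]
    simp only [Pi.one_apply, Finset.prod_const_one, mul_one]
    exact d.mul_inv)
  obtain ⟨z, hz⟩ : ∃ z : Fin n, ∀ i, z ≠ ix h i := by
    by_cases e : a = 0
    · exact ⟨⟨k + 1, hk⟩, fun i e' => by have := congr_arg Fin.val e'; simp at this; omega⟩
    · exact ⟨⟨0, by omega⟩, fun i e' => by have := congr_arg Fin.val e'; simp at this; omega⟩
  let t : Fin n → Fˣ := Pi.mulSingle (ix h 0) d * Pi.mulSingle z d⁻¹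
  have ht : ∏ i, t i = 1 := by simp [t, Finset.prod_mul_distrib, Finset.prod_pi_mulSingle']
  have h3 : ∀ J' : Set ℕ, (∀ m, a ≤ m → m + 1 < a + (k + 1) → m ∈ J') → g * dg t ht ∈ PJ n F J' :=
    fun J' hJ' => mul_mem (mem_PJ.2 fun i j ⟨m, a1, a2, a3⟩ => by
      rw [h2, if_neg (fun e => by rw [e] at a2; omega)]
      by_contra e
      exact a3 (hJ' m (by omega) (by omega))) (Bo_le _ (dg_mem _ _))
  refine ⟨⟨_, h3 _ fun m a1 a2 => ⟨by omega, by omega⟩⟩, h3 J hJ, ?_⟩
  ext i j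
  rw [blk_apply, val_mul, mul_dg, h1, mul_diagonal, mul_assoc]
  have : t (ix h j) = if j = 0 then d else 1 := by
    simp [t, Pi.mulSingle_apply, (hz j).symm, (ix_inj h).eq_iff]
  rw [this, Function.update_apply]
  split_ifs <;> simp

variable {Ω : Type*} [MulAction (GG n F) Ω]

theorem Hs_le {b : GG n F} (hb : b ∈ Bo n F) (ω : Ω) : Hs n F ω ≤ Hs n F (b • ω) := by
  rintro _ ⟨g, hg, rfl⟩
  refine ⟨⟨b, hb⟩ * g * ⟨b, hb⟩⁻¹, ?_, by simp⟩
  change (b * g.1 * b⁻¹) • b • ω = b • ω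
  rw [smul_smul, inv_mul_cancel_right, mul_smul, show g.1 • ω = ω from hg]

theorem Hs_smul {b : GG n F} (hb : b ∈ Bo n F) (ω : Ω) : Hs n F (b • ω) = Hs n F ω :=
  le_antisymm (by simpa using Hs_le (inv_mem hb) (b • ω)) (Hs_le hb ω)

theorem conj_Us {b u : GG n F} (hb : b ∈ Bo n F) {ω : Ω} (hu : u ∈ Us n F ω) :
    b * u * b⁻¹ ∈ Us n F (b • ω) :=
  ⟨conj_Un hb hu.1, by
    change _ • _ = _
    rw [smul_smul, inv_mul_cancel_right, mul_smul, show u • ω = ω from hu.2]⟩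

theorem card_Us_smul {b : GG n F} (hb : b ∈ Bo n F) (ω : Ω) :
    Nat.card (Us n F (b • ω)) = Nat.card (Us n F ω) :=
  Nat.card_congr ⟨fun u => ⟨b⁻¹ * u * b⁻¹⁻¹, by simpa using conj_Us (inv_mem hb) u.2⟩,
    fun u => ⟨b * u * b⁻¹, conj_Us hb u.2⟩, fun u => Subtype.ext (by simp [mul_assoc]),
    fun u => Subtype.ext (by simp [mul_assoc])⟩

theorem Top.smul {ω : Ω} {a b : Fin n} (hab : b.1 = a.1 + 1) (h : Top F ω a b) {g : GG n F}
    (hg : g ∈ Bo n F) : Top F (g • ω) a b := fun t => by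
  obtain ⟨u, hu, h1, h2⟩ := h (t * g.1 b b / g.1 a a)
  have h3 := conj_Us hg (ω := ω) ⟨hu, h1⟩
  refine ⟨_, h3.1, h3.2, mul_right_cancel₀ (diag_ne hg b) ?_⟩
  rw [adj_conj hab hg hu, h2]
  have := diag_ne hg a
  field_simp

theorem Cl.refl (J : Set ℕ) (ω : Ω) : Cl n F J ω ω := ⟨1, one_mem _, one_smul _ _⟩

theorem Cl.symm {J : Set ℕ} {ω ω' : Ω} (h : Cl n F J ω ω') : Cl n F J ω' ω := by
  obtain ⟨g, hg, rfl⟩ := h
  exact ⟨g⁻¹, inv_mem hg, inv_smul_smul _ _⟩

theorem Cl.trans {J : Set ℕ} {ω ω' ω'' : Ω} (h : Cl n F J ω ω') (h' : Cl n F J ω' ω'') :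
    Cl n F J ω ω'' := by
  obtain ⟨g, hg, rfl⟩ := h
  obtain ⟨g', hg', rfl⟩ := h'
  exact ⟨g' * g, mul_mem hg' hg, mul_smul _ _ _⟩

theorem Cl.mono {J J' : Set ℕ} {ω ω' : Ω} (h : Cl n F J ω ω') (e : J ⊆ J') : Cl n F J' ω ω' := by
  obtain ⟨g, hg, rfl⟩ := h
  exact ⟨g, PJ_mono e hg, rfl⟩

theorem Cl.top {ω ω' : Ω} (h : Cl n F ∅ ω ω') {a b : Fin n} (hab : b.1 = a.1 + 1)
    (ht : Top F ω a b) : Top F ω' a b := by
  obtain ⟨g, hg, rfl⟩ := h
  exact ht.smul hab hg

theorem cl_iff_mk {J : Set ℕ} {ω ω' : Ω} : Cl n F J ω ω' ↔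
    (Quotient.mk'' ω : orbitRel.Quotient (PJ n F J) Ω) = Quotient.mk'' ω' := by
  rw [eq_comm, Quotient.eq'', orbitRel_apply]
  exact ⟨fun ⟨g, hg, e⟩ => ⟨⟨g, hg⟩, e⟩, fun ⟨g, e⟩ => ⟨g.1, g.2, e⟩⟩

end

variable {F : Type*} [Field F] [Fintype F] [DecidableEq F]

theorem pow_mem_Un {b : GG n F} (hb : b ∈ Bo n F) : b ^ (Fintype.card F - 1) ∈ Un n F := by
  refine ⟨⟨b, hb⟩ ^ (Fintype.card F - 1), ?_, rfl⟩
  change dv n F _ = 1
  rw [map_pow, ← Fintype.card_units]
  funext a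
  exact pow_card_eq_one

theorem Un_pgroup : IsPGroup (ringChar F) (Un n F) := fun u => by
  have hp : (ringChar F).Prime := CharP.char_is_prime F _
  have : Fact (ringChar F).Prime := ⟨hp⟩
  have : CharP (Matrix (Fin n) (Fin n) F) (ringChar F) ∨ n = 0 := by
    rcases n with _ | n
    · exact Or.inr rfl
    · exact Or.inl inferInstance
  rcases this with _ | rfl
  swap
  · exact ⟨0, Subsingleton.elim _ _⟩
  have h1 : ∀ k, ∀ i j : Fin n, j.1 < i.1 + k → ((u.1.1 - 1) ^ k) i j = 0 := by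
    intro k
    induction k with
    | zero => exact fun i j e => one_apply_ne fun e' => by rw [e'] at e; omega
    | succ k ih =>
      intro i j e
      rw [pow_succ, mul_apply]
      refine Finset.sum_eq_zero fun m _ => ?_
      by_cases e1 : m.1 < i.1 + k
      · rw [ih i m e1, zero_mul]
      · rw [Matrix.sub_apply, one_apply]
        split_ifs with e2
        · rw [e2, (mem_Un.1 u.2).2, sub_self, mul_zero]
        · rw [mem_Bo.1 (Un_le u.2) m j (Fin.lt_def.2 (by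
            have : m.1 ≠ j.1 := fun e3 => e2 (Fin.ext e3)
            omega)), sub_zero, mul_zero]
  refine ⟨n, Subtype.ext (Subtype.ext ?_)⟩
  have h2 : (u.1.1 - 1) ^ ringChar F ^ n = 0 := by
    ext i j
    exact h1 _ i j (lt_of_lt_of_le (j.2.trans (Nat.lt_pow_self hp.one_lt)) (by omega))
  rw [sub_pow_char_pow_of_commute _ _ (Commute.one_right _), one_pow, sub_eq_zero] at h2
  simpa using h2

end CF.Rk
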