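import Cfsg.Agent.Rk.Da
import Cfsg.Agent.Rk.H

/-! Constituents of a character induced from a linear character of a parabolic subgroup. -/

set_option autoImplicit false
open Matrix MulAction Cfsg

namespace CF.Rk

variable {n : ℕ} {F : Type*} [Field F] [Fintype F] [DecidableEq F]

theorem lemD {B0 : Subgroup (GG n F)} {J : Set ℕ} (h0 : Bo n F ≤ B0) (h1 : B0 ≤ PJ n F J)
    (η : PJ n F J →* ℂˣ)
    (hm : ∀ g ∉ PJ n F J, ¬ Cp (η.comp (Subgroup.inclusion h1)) (η.comp (Subgroup.inclusion h1)) g)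
    {χ : GG n F → ℂ} (hχ : IsIrrCharacter (GG n F) χ)
    (hi : classInner χ (indFun B0 fun y => η.comp (Subgroup.inclusion h1) y) ≠ 0) :
    (∃ k : ℕ, χ 1 = ringChar F * k) ∨ (χ = indFun (PJ n F J) (fun y => η y) ∧
      classInner χ (indFun B0 fun y => η.comp (Subgroup.inclusion h1) y) = 1) :=
  have : Fintype (PJ n F J) := Fintype.ofFinite _
  D.lem h0 h1 η (fun _ a b c => howlett a b c) hm hχ hi

end CF.Rk
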