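import Cfsg.Agent.Rk.M1

/-! Induction from a subgroup when only the trivial double coset contributes. -/

set_option autoImplicit false
open Cfsg

namespace CF.Rk.D
open CF.Char

variable {G : Type*} [Group G] [Fintype G] {P : Subgroup G} [Fintype P]

theorem char_res_ind {ψ : P → ℂ} (h : IsCharacter P ψ) :
    IsCharacter P ((fun x : P => indFun P ψ x) - ψ) := by
  refine char_induction (P := fun ψ => IsCharacter P ((fun x : P => indFun P ψ x) - ψ))
    ?_ (fun ψ h => ?_) (fun φ ψ _ _ a b => ?_) h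
  · rw [indFun_zero]; exact (sub_self (0 : P → ℂ)).symm ▸ isCharacter_zero
  · refine char_sub_of_inner_ne_zero (char_restrict (char_indFun P (irr_isCharacter h)) P) h ?_
    rw [← inner_indFun_right P ψ (indFun_isClassFunction P ψ)]
    exact mt Char.inner_self_eq_zero.1 (indFun_ne_zero P (irr_one_ne_zero h))
  · convert char_add a b using 1
    rw [indFun_add]
    funext x
    simp only [Pi.add_apply, Pi.sub_apply]
    ring

theorem excess {φ ψ : P → ℂ} (h : IsCharacter P φ) (h' : IsCharacter P ψ) :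
    ∃ k : ℕ, classInner (indFun P φ) (indFun P ψ) - classInner φ ψ = k := by
  rw [inner_indFun_left P φ (indFun_isClassFunction P ψ), ← Char.inner_sub_right]
  exact inner_char_eq_nat h (char_res_ind h')

theorem common {φ ψ : G → ℂ} (h : IsClassFunction G φ) (e : classInner φ ψ ≠ 0) :
    ∃ χ, IsIrrCharacter G χ ∧ classInner φ χ ≠ 0 ∧ classInner ψ χ ≠ 0 := by
  rw [inner_eq_sum_irr h] at e
  obtain ⟨χ, -, k⟩ := Finset.exists_ne_zero_of_sum_ne_zero e
  exact ⟨χ, χ.2, left_ne_zero_of_mul k, fun a => right_ne_zero_of_mul k (by rw [a, map_zero])⟩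

theorem dvd_one {χ : G → ℂ} (h : IsCharacter G χ) {p : ℕ}
    (k : ∀ ξ, IsIrrCharacter G ξ → classInner χ ξ ≠ 0 → ∃ k : ℕ, ξ 1 = p * k) :
    ∃ k : ℕ, χ 1 = p * k := by
  rw [classFun_apply_eq_sum (char_isClassFunction h)]
  refine Finset.sum_induction _ (fun z : ℂ => ∃ k : ℕ, z = p * k) ?_ ⟨0, by simp⟩ fun ξ _ => ?_
  · rintro _ _ ⟨a, rfl⟩ ⟨b, rfl⟩
    exact ⟨a + b, by push_cast; ring⟩
  · by_cases e : classInner χ ξ = 0
    · exact ⟨0, by simp [e]⟩
    · obtain ⟨a, ha⟩ := k ξ ξ.2 e
      obtain ⟨b, hb⟩ := inner_char_eq_nat h (irr_isCharacter ξ.2)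
      exact ⟨a * b, by rw [ha, hb]; push_cast; ring⟩

theorem norm_eq {B : Subgroup G} (h1 : B ≤ P) (η : P →* ℂˣ)
    (hm : ∀ g ∉ P, ¬ Cp (η.comp (Subgroup.inclusion h1)) (η.comp (Subgroup.inclusion h1)) g) :
    classInner (indFun B fun y => η.comp (Subgroup.inclusion h1) y)
      (indFun B fun y => η.comp (Subgroup.inclusion h1) y) =
    classInner (indFun (B.subgroupOf P) fun y => η.comp (B.subgroupOf P).subtype y)
      (indFun (B.subgroupOf P) fun y => η.comp (B.subgroupOf P).subtype y) := by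
  classical
  rw [mkS, mkS, Nat.card_congr (Subgroup.subgroupOfEquivOfLe h1).toEquiv]
  congr 1
  rw [Finset.filter_true_of_mem (s := (Finset.univ : Finset P)) fun g _ y hy => by
    simp [mul_comm, mul_left_comm], Finset.sum_subtype (p := (· ∈ P)) _ fun g => ⟨fun a =>
      by_contra fun b => hm g b (Finset.mem_filter.1 a).2, fun a => Finset.mem_filter.2
        ⟨Finset.mem_univ _, fun y hy => by
          change _ = η (⟨g, a⟩⁻¹ * Subgroup.inclusion h1 y * ⟨g, a⟩)
          simp [mul_comm, mul_left_comm]⟩⟩]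
  exact Finset.sum_congr rfl fun g _ => congrArg _ (Nat.card_congr
    ((Subgroup.subgroupOfEquivOfLe h1).toEquiv.subtypeEquiv fun _ => Iff.rfl).symm)

theorem lem {B B0 : Subgroup G} (h0 : B ≤ B0) (h1 : B0 ≤ P) (η : P →* ℂˣ) {p : ℕ}
    (how : ∀ ξ, IsIrrCharacter G ξ → (ξ ≠ fun _ => 1) → classInner ξ (indFun B fun _ => 1) ≠ 0 →
      ∃ k : ℕ, ξ 1 = p * k)
    (hm : ∀ g ∉ P, ¬ Cp (η.comp (Subgroup.inclusion h1)) (η.comp (Subgroup.inclusion h1)) g)
    {χ : G → ℂ} (hχ : IsIrrCharacter G χ)
    (hi : classInner χ (indFun B0 fun y => η.comp (Subgroup.inclusion h1) y) ≠ 0) :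
    (∃ k : ℕ, χ 1 = p * k) ∨ (χ = indFun P (fun y => η y) ∧
      classInner χ (indFun B0 fun y => η.comp (Subgroup.inclusion h1) y) = 1) := by
  classical
  have e0 := norm_eq h1 η hm
  have cθ := char_ind_lin (η.comp (B0.subgroupOf P).subtype)
  have fr : ∀ ψ, IsClassFunction P ψ → classInner ψ
      (indFun (B0.subgroupOf P) fun y => η.comp (B0.subgroupOf P).subtype y) =
      classInner (fun g => ψ g * η⁻¹ g) (indFun (B0.subgroupOf P) fun _ => 1) := fun ψ h => by
    rw [inner_indFun_right _ _ h, inner_indFun_right (χ := fun g => ψ g * η⁻¹ g) _ _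
      (classFun_mul h (char_isClassFunction (char_linear η⁻¹))), inner_eq_inner_one]
    congr 1
    funext y
    simp [linear_conj]
  have ei := indFun_indFun B0 P h1 fun y => η.comp (Subgroup.inclusion h1) y
  change indFun P (indFun _ fun y => η.comp (B0.subgroupOf P).subtype y) = _ at ei
  generalize (indFun (B0.subgroupOf P) fun y => η.comp (B0.subgroupOf P).subtype y) = θ
    at e0 cθ fr ei
  rw [← ei] at e0 hi ⊢
  obtain ⟨ψ, hψ, a, b⟩ := common (classFun_restrict (irr_isClassFunction hχ) P)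
    (inner_indFun_right P θ (irr_isClassFunction hχ) ▸ hi)
  have cψ := irr_isCharacter hψ
  have c' := char_sub_of_inner_ne_zero cθ hψ b
  obtain ⟨k1, e1⟩ := excess cψ cψ
  obtain ⟨k2, e2⟩ := excess cψ c'
  obtain ⟨k3, e3⟩ := excess c' cθ
  rw [indFun_sub, Char.inner_sub_right, Char.inner_sub_right] at e2
  rw [indFun_sub, Char.inner_sub_left, Char.inner_sub_left] at e3
  have e4 : k1 + k2 + k3 = 0 := by
    have : ((k1 + k2 + k3 : ℕ) : ℂ) = 0 := by push_cast; linear_combination e0 - e1 - e2 - e3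
    exact_mod_cast this
  obtain rfl : k1 = 0 := by omega
  obtain rfl : k2 = 0 := by omega
  have i1 : IsIrrCharacter G (indFun P ψ) := (irr_iff_inner_self (char_indFun P cψ)).2 (by
    rw [← inner_irr_self hψ, ← sub_eq_zero, e1, Nat.cast_zero])
  obtain rfl : χ = indFun P ψ := irr_eq_of_inner_ne_zero hχ i1
    (by rwa [inner_indFun_right P ψ (irr_isClassFunction hχ)])
  have e5 : classInner (indFun P ψ) (indFun P θ) = classInner ψ θ := by
    push_cast at e1 e2; linear_combination e1 + e2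
  have i2 := irr_mul_linear hψ η⁻¹
  rw [e5, fr ψ (irr_isClassFunction hψ)] at hi ⊢
  by_cases h : (fun g => ψ g * η⁻¹ g) = fun _ => 1
  · refine .inr ⟨congrArg _ (funext fun g => ?_), ?_⟩
    · simpa [mul_inv_eq_one₀] using congrFun h g
    · rw [h, inner_char_comm char_const_one (char_indFun_one _), inner_indFun_one_one]
  · have c2 := char_indFun P (irr_isCharacter i2)
    have c3 := char_indFun P (char_sub_of_inner_ne_zero (char_indFun_one (B.subgroupOf P)) i2
      fun e => hi (inner_ind_mono (irr_isCharacter i2) (Subgroup.comap_mono h0) 1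
        ((Char.inner_eq_zero_comm _ _).1 e)))
    rw [indFun_sub, indFun_indFun B P (h0.trans h1) fun _ => 1] at c3
    obtain ⟨k, hk⟩ := dvd_one c2 fun ξ hξ e => how ξ hξ (fun a => e (by
      rw [a, inner_indFun_left P _ (classFun_const 1), inner_irr_ne i2 irr_one h])) fun a => by
        obtain ⟨m, hm⟩ := inner_char_eq_nat (irr_isCharacter hξ) c3
        obtain ⟨r, hr⟩ := inner_char_eq_nat c2 (irr_isCharacter hξ)
        rw [Char.inner_sub_right, a, inner_char_comm (irr_isCharacter hξ) c2, hr] at hm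
        have : ((m + r : ℕ) : ℂ) = 0 := by push_cast; linear_combination -hm
        have : m + r = 0 := by exact_mod_cast this
        exact e (by rw [hr, show r = 0 by omega, Nat.cast_zero])
    exact .inl ⟨k, by rw [← hk, indFun_one, indFun_one]; simp⟩

end CF.Rk.D
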