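import Cfsg.Agent.Rk.C

/-! Rank 3 actions of `SL_n(q)`: duality for character vectors. -/

set_option autoImplicit false
open Matrix MulAction Cfsg

namespace CF.Rk

variable {n : ℕ} {F : Type*} [Field F] [Fintype F] [DecidableEq F]
  {Ω : Type*} [MulAction (GG n F) Ω]

namespace E0

theorem dual {A : Type*} [CommGroup A] [Finite A] (H : Subgroup A) {x : A} (hx : x ∉ H) :
    ∃ χ : A →* ℂˣ, χ x ≠ 1 ∧ ∀ h ∈ H, χ h = 1 := by
  obtain ⟨φ, hφ⟩ := CommGroup.exists_apply_ne_one_of_hasEnoughRootsOfUnity (A ⧸ H) ℂ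
    (a := (x : A ⧸ H)) (mt (QuotientGroup.eq_one_iff x).1 hx)
  exact ⟨φ.comp (QuotientGroup.mk' H), hφ, fun h hh => by
    rw [MonoidHom.comp_apply, QuotientGroup.mk'_apply, (QuotientGroup.eq_one_iff h).2 hh, map_one]⟩

section Gen
variable {A : Type*} [CommGroup A]

/-- `rt` in any commutative group -/
def rt' (a b : Fin n) (ν : A) : Fin n → A := fun i => if i = a then ν else if i = b then ν⁻¹ else 1

/-- `Cst` in any commutative group -/
def Cst' (b : Fin n → A) : Prop := ∀ i j, b i = b j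

/-- `Eqv` in any commutative group -/
def Eqv' (b b' : Fin n → A) : Prop :=
  ∃ (w : Equiv.Perm (Fin n)) (c : A), ∀ i, b' i = c * b (w i)

theorem rt_a (a b : Fin n) (ν : A) : rt' a b ν a = ν := if_pos rfl

theorem rt_b {a b : Fin n} (h : a ≠ b) (ν : A) : rt' a b ν b = ν⁻¹ := by
  simp [rt', h.symm]

theorem rt_o {a b i : Fin n} (h1 : i ≠ a) (h2 : i ≠ b) (ν : A) : rt' a b ν i = 1 := by
  simp [rt', h1, h2]

theorem rt_cases (a b : Fin n) (ν : A) (i : Fin n) :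
    (i = a ∧ rt' a b ν i = ν) ∨ (i = b ∧ rt' a b ν i = ν⁻¹) ∨ (i ≠ a ∧ i ≠ b ∧ rt' a b ν i = 1) := by
  unfold rt'
  split_ifs with h1 h2 <;> simp [*]

theorem rt_eq {a b : Fin n} (h : a ≠ b) (ν : A) :
    rt' a b ν = Pi.mulSingle a ν * Pi.mulSingle b ν⁻¹ := by
  funext i
  rcases rt_cases a b ν i with ⟨rfl, e⟩ | ⟨rfl, e⟩ | ⟨h1, h2, e⟩ <;> rw [e] <;>
    simp [*, h.symm]

theorem rt_swap {a b : Fin n} (h : a ≠ b) (ν : A) : rt' b a ν = (rt' a b ν)⁻¹ := by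
  rw [rt_eq h, rt_eq h.symm, mul_inv, ← Pi.mulSingle_inv, ← Pi.mulSingle_inv, inv_inv, mul_comm]

theorem rt_pow {a b : Fin n} (ν : A) (k : ℕ) : rt' a b (ν ^ k) = rt' a b ν ^ k := by
  funext i
  rw [Pi.pow_apply]
  unfold rt'
  split_ifs <;> simp

theorem prod_rt' {a b : Fin n} (h : a ≠ b) (ν : A) : ∏ i, rt' a b ν i = 1 := by
  rw [rt_eq h]
  simp [Finset.prod_mul_distrib, Finset.prod_pi_mulSingle']

theorem exists_out (S : Finset (Fin n)) (h : S.card < n) : ∃ i, i ∉ S := by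
  by_contra hn
  push Not at hn
  rw [Finset.eq_univ_of_forall hn, Finset.card_fin] at h
  exact lt_irrefl _ h

theorem out4 (h : 5 ≤ n) (a b c d : Fin n) : ∃ e, e ≠ a ∧ e ≠ b ∧ e ≠ c ∧ e ≠ d := by
  obtain ⟨e, he⟩ := exists_out {a, b, c, d} (lt_of_le_of_lt Finset.card_le_four (by omega))
  exact ⟨e, by simpa using he⟩

theorem rt_ncst (h : 5 ≤ n) (a b : Fin n) {ν : A} (h1 : ν ≠ 1) : ¬ Cst' (rt' a b ν) := by
  intro hc
  obtain ⟨e, e1, e2, -⟩ := out4 h a b a b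
  have := hc a e
  rw [rt_a, rt_o e1 e2] at this
  exact h1 this

theorem Eqv'.symm {b b' : Fin n → A} (h : Eqv' b b') : Eqv' b' b := by
  obtain ⟨w, c, h⟩ := h
  exact ⟨w⁻¹, c⁻¹, fun i => by rw [h]; simp⟩

theorem eqv_rt (h : 5 ≤ n) {a b c d : Fin n} {ν ν' : A} (h1 : ν' ≠ 1)
    (e : Eqv' (rt' a b ν) (rt' c d ν')) : ν' = ν ∨ ν' = ν⁻¹ := by
  obtain ⟨w, x, e⟩ := e
  obtain ⟨i, i1, i2, i3, i4⟩ := out4 h c d (w⁻¹ a) (w⁻¹ b)
  have := e i
  rw [rt_o i1 i2, rt_o (fun e => i3 (by simp [← e])) (fun e => i4 (by simp [← e])), mul_one] at this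
  have h2 := e c
  rw [rt_a, ← this, one_mul] at h2
  rcases rt_cases a b ν (w c) with ⟨-, e⟩ | ⟨-, e⟩ | ⟨-, -, e⟩ <;> rw [e] at h2
  exacts [.inl h2, .inr h2, absurd h2 h1]

theorem eqv_move {a b c d : Fin n} (hab : a ≠ b) (hcd : c ≠ d) (ν : A) :
    Eqv' (rt' a b ν) (rt' c d ν) := by
  obtain ⟨w, w1, w2⟩ : ∃ w : Equiv.Perm (Fin n), w c = a ∧ w d = b := by
    refine ⟨Equiv.swap (Equiv.swap c a d) b * Equiv.swap c a, ?_, by simp⟩
    rw [Equiv.Perm.mul_apply, Equiv.swap_apply_left, Equiv.swap_apply_of_ne_of_ne _ hab]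
    intro e
    rw [eq_comm, Equiv.swap_apply_eq_iff, Equiv.swap_apply_right] at e
    exact hcd e.symm
  refine ⟨w, 1, fun i => ?_⟩
  simp [rt', ← w1, ← w2]

theorem ne_inv {ν : A} (h2 : ν ^ 2 ≠ 1) : ν ≠ ν⁻¹ :=
  fun e => h2 (by rw [pow_two]; nth_rewrite 1 [e]; simp)

/-- in a vector of root type only one value is repeated -/
theorem pairs {a b : Fin n} {ν : A} (h2 : ν ^ 2 ≠ 1) {P : Fin n → A}
    (e : Eqv' (rt' a b ν) P) {i j k l : Fin n} (hij : i ≠ j) (hkl : k ≠ l) (e1 : P i = P j)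
    (e2 : P k = P l) : P i = P k := by
  obtain ⟨w, x, e⟩ := e
  have h1 : ν ≠ 1 := fun e => h2 (by simp [e])
  have h3 := ne_inv h2
  have key : ∀ i j, i ≠ j → P i = P j → P i = x := by
    intro i j hij e1
    rw [e, e, mul_right_inj] at e1
    have hw : w i ≠ w j := w.injective.ne hij
    rw [e]
    rcases rt_cases a b ν (w i) with ⟨a1, f⟩ | ⟨a1, f⟩ | ⟨-, -, f⟩ <;>
      rcases rt_cases a b ν (w j) with ⟨a2, g⟩ | ⟨a2, g⟩ | ⟨-, -, g⟩ <;> rw [f, g] at e1 <;>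
      first
      | exact absurd (a1.trans a2.symm) hw
      | exact absurd e1 h3
      | exact absurd e1.symm h3
      | exact absurd e1 h1
      | exact absurd (inv_eq_one.1 e1) h1
      | rw [f, mul_one]
  rw [key i j hij e1, key k l hkl e2]

theorem two_vals {P Q : Fin n → A} (e : Eqv' P Q) {u v : A} (h : ∀ i, P i = u ∨ P i = v)
    (i j k : Fin n) : Q i = Q j ∨ Q i = Q k ∨ Q j = Q k := by
  obtain ⟨w, x, e⟩ := e
  rw [e, e, e]
  rcases h (w i) with h1 | h1 <;> rcases h (w j) with h2 | h2 <;> rcases h (w k) with h3 | h3 <;>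
    simp [h1, h2, h3]

theorem cube_inv {ν : A} (h3 : ν ^ 3 = 1) : ν * ν = ν⁻¹ :=
  eq_inv_of_mul_eq_one_left (by rw [← h3, pow_three'])

theorem sq_ne {ν : A} (h1 : ν ≠ 1) (h3 : ν ^ 3 = 1) : ν ^ 2 ≠ 1 := fun e =>
  h1 (by rwa [pow_succ, e, one_mul] at h3)

end Gen

omit [Fintype F] [DecidableEq F]

theorem prod_rt {a b : Fin n} (h : a ≠ b) (ν : Ch F) (t : Fin n → Fˣ) :
    ∏ i, rt a b ν i (t i) = ν (t a / t b) := by
  rw [Finset.prod_eq_mul a b h (fun c _ hc => by simp [rt, hc.1, hc.2]) (by simp) (by simp),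
    map_div, div_eq_mul_inv]
  simp [rt, h.symm]

theorem prod_Hs {ω : Ω} {t : Fin n → Fˣ} (h : t ∈ Hs n F ω) : ∏ i, t i = 1 := by
  obtain ⟨g, -, rfl⟩ := h
  exact prod_dv g

variable (n F) in
/-- `Es` as a subgroup -/
def EG (ω : Ω) : Subgroup (Fin n → Ch F) where
  carrier := Es n F ω
  mul_mem' := fun {b b'} h h' t ht => by
    show ∏ i, b i (t i) * b' i (t i) = 1
    rw [Finset.prod_mul_distrib, h t ht, h' t ht, mul_one]
  one_mem' := fun t _ => Finset.prod_const_one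
  inv_mem' := fun {b} h t ht => by
    show ∏ i, (b i (t i))⁻¹ = 1
    rw [Finset.prod_inv_distrib, h t ht, inv_one]

end E0

open E0

omit [Fintype F] [DecidableEq F] in
theorem rt_mem_Es {ω : Ω} {a b : Fin n} (hab : a ≠ b) {ν : Ch F} :
    rt a b ν ∈ Es n F ω ↔ ∀ c ∈ Al F ω a b, ν c = 1 := by
  constructor
  · rintro h _ ⟨t, ht, rfl⟩
    exact (prod_rt hab ν t).symm.trans (h t ht)
  · intro h t ht
    rw [prod_rt hab]
    exact h _ ⟨t, ht, rfl⟩

omit [DecidableEq F] in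
theorem dual_Al {ω : Ω} {a b : Fin n} (hab : a ≠ b) {c : Fˣ} (h : c ∉ Al F ω a b) :
    ∃ ν : Ch F, ν c ≠ 1 ∧ rt a b ν ∈ Es n F ω :=
  let ⟨ν, h1, h2⟩ := dual _ h; ⟨ν, h1, (rt_mem_Es hab).2 h2⟩

omit [DecidableEq F] in
theorem mem_Hs_of {ω : Ω} {t : Fin n → Fˣ} (h1 : ∏ i, t i = 1)
    (h : ∀ b ∈ Es n F ω, ∏ i, b i (t i) = 1) : t ∈ Hs n F ω := by
  by_contra hn
  obtain ⟨χ, h2, h3⟩ := dual _ hn
  have key : ∀ s : Fin n → Fˣ, ∏ i, (χ.comp (MonoidHom.mulSingle (fun _ => Fˣ) i)) (s i) = χ s := by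
    intro s
    conv_rhs => rw [← Finset.univ_prod_mulSingle s, map_prod]
    rfl
  exact h2 ((key t).symm.trans (h _ fun s hs => (key s).trans (h3 s hs)))

theorem full_irr (hq : 3 ≤ Fintype.card F) (h : Full n F Ω) : Irr n F Ω := by
  intro ω a b hab
  rw [h ω a b hab]
  haveI : Nontrivial Fˣ := Fintype.one_lt_card_iff_nontrivial.1 (by rw [Fintype.card_units]; omega)
  refine ⟨top_ne_bot, fun S hS => ?_⟩
  rcases S.bot_or_exists_ne_zero with h0 | ⟨s, hs, h0⟩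
  · exact .inl h0
  refine .inr (top_unique fun x _ => ?_)
  by_cases hx : x = 0
  · rw [hx]; exact zero_mem _
  · have := hS (Units.mk0 (x / s) (div_ne_zero hx h0)) (Subgroup.mem_top _) s hs
    rwa [Units.val_mk0, div_mul_cancel₀ _ h0] at this

theorem full_two (hq : Fintype.card F = 2) : Full n F Ω := by
  intro ω a b _
  haveI : Subsingleton Fˣ := Fintype.card_le_one_iff_subsingleton.1 (by rw [Fintype.card_units]; omega)
  exact Subsingleton.elim _ _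

end CF.Rk
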