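import Cfsg.Agent.Rk.E1a
import Cfsg.Agent.Rk.M2

/-! Rank 3 actions of `SL_n(q)`: character vectors. -/

set_option autoImplicit false
open Matrix MulAction Cfsg

namespace CF.Rk

open E0

variable {n : ℕ} {F : Type*} [Field F] [Fintype F] [DecidableEq F]
  {Ω : Type*} [MulAction (GG n F) Ω]

theorem R3.e1a (h : R3 n F Ω) (hc : ¬ CA n F Ω) {ω : Ω} {a b : Fin n} (hab : a ≠ b) {ν : Ch F}
    (hb : rt a b ν ∈ Es n F ω) : ν ^ 2 = 1 ∨ ν ^ 3 = 1 :=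
  E1.e1a (E := EG n F ω) h.n5 (fun _ h1 _ h2 c1 c2 => h.x2 hc h1 h2 c1 c2) hb

theorem R3.e1d (h : R3 n F Ω) (hc : ¬ CA n F Ω) {ω : Ω} {a b c d : Fin n} (hab : a ≠ b)
    (hcd : c ≠ d) {ν : Ch F} (h1 : ν ≠ 1) (h3 : ν ^ 3 = 1) (hb : rt a b ν ∈ Es n F ω)
    (hd : rt c d ν ∈ Es n F ω) : s(a, b) = s(c, d) :=
  E1.e1d (E := EG n F ω) h.n5 (fun _ h1 _ h2 c1 c2 => h.x2 hc h1 h2 c1 c2) hab hcd h1 h3 hb hd

namespace E1

theorem cube_rt {A : Type*} [CommGroup A] {ν : A} (h : ν ^ 3 = 1) (a b i : Fin n) :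
    rt' a b ν i ^ 3 = 1 := by
  rw [← Pi.pow_apply, ← rt_pow, h]; simp [rt']

omit [Fintype F] [DecidableEq F] in
theorem sq_one {ν : Ch F} (h : ν ^ 2 = 1) {c : Fˣ} (hc : IsSquare c) : ν c = 1 := by
  obtain ⟨y, rfl⟩ := hc
  rw [map_mul, ← pow_two]
  exact DFunLike.congr_fun h y

omit [DecidableEq F] in
theorem sq_two (hp : ringChar F = 2) (c : Fˣ) : IsSquare c := by
  obtain ⟨y, hy⟩ := FiniteField.isSquare_of_char_two hp (c : F)
  have y0 : y ≠ 0 := by rintro rfl; exact c.ne_zero (by simpa using hy)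
  exact ⟨Units.mk0 y y0, Units.ext hy⟩

omit [DecidableEq F] in
theorem irr_cubes (hp : ringChar F = 2) {x : Fˣ} (hx : x ^ 3 ≠ 1) (S : AddSubgroup F)
    (hS : ∀ y : Fˣ, ∀ s ∈ S, ((y ^ 3 : Fˣ) : F) * s ∈ S) : S = ⊥ ∨ S = ⊤ := by
  haveI : CharP F 2 := ringChar.of_eq hp
  let R : Subring F :=
    { carrier := {r | ∀ s ∈ S, r * s ∈ S}
      mul_mem' := fun ha hb s hs => by rw [mul_assoc]; exact ha _ (hb s hs)
      one_mem' := fun s hs => by rwa [one_mul]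
      add_mem' := fun ha hb s hs => by rw [add_mul]; exact add_mem (ha s hs) (hb s hs)
      zero_mem' := fun s _ => by rw [zero_mul]; exact zero_mem _
      neg_mem' := fun ha s hs => by rw [neg_mul]; exact neg_mem (ha s hs) }
  have c : ∀ y : F, y ^ 3 ∈ R := fun y => by
    by_cases y0 : y = 0
    · rw [y0, zero_pow three_ne_zero]; exact zero_mem _
    · exact hS (Units.mk0 y y0)
  have h2 : (2 : F) = 0 := CharP.cast_eq_zero F 2
  set r : F := (x : F) ^ 3 with hr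
  have u0 : r * r - r ≠ 0 := by
    rw [← mul_sub_one]
    exact mul_ne_zero (pow_ne_zero _ x.ne_zero) (sub_ne_zero.2 fun e => hx (Units.ext e))
  have all : ∀ y : F, y ∈ R := fun y => by
    have m1 : (r * r - r) * y ∈ R := by
      have := sub_mem (sub_mem (sub_mem (c (y + r)) (c y)) (c r))
        (mul_mem (c x) (sub_mem (sub_mem (c (y + 1)) (c y)) (one_mem R)))
      convert this using 1
      linear_combination (-(r * r - r) * y) * h2
    have m2 := mul_mem (pow_mem (sub_mem (mul_mem (c x) (c x)) (c x)) (Fintype.card F - 2)) m1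
    have e : Fintype.card F - 2 + 1 = Fintype.card F - 1 := by
      have := Fintype.one_lt_card (α := F); omega
    rwa [← mul_assoc, ← pow_succ, e, FiniteField.pow_card_sub_one_eq_one _ u0, one_mul] at m2
  rcases S.bot_or_exists_ne_zero with h0 | ⟨s, hs, h0⟩
  · exact .inl h0
  refine .inr (top_unique fun y _ => ?_)
  have := all (y / s) s hs
  rwa [div_mul_cancel₀ _ h0] at this

end E1

theorem R3.e1b (h : R3 n F Ω) (hc : ¬ CA n F Ω) (hp : ringChar F = 2)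
    (hq : Fintype.card F ≠ 4) (hf : ¬ Full n F Ω) : Irr n F Ω ∧ Sep n F Ω := by
  have hq2 : Fintype.card F ≠ 2 := fun e => hf (full_two e)
  obtain ⟨ω₀, a₀, b₀, hab₀, hA⟩ : ∃ (ω : Ω) (a b : Fin n), a ≠ b ∧ Al F ω a b ≠ ⊤ := by
    by_contra hn
    push Not at hn
    exact hf hn
  obtain ⟨c₀, hc₀⟩ : ∃ c, c ∉ Al F ω₀ a₀ b₀ := by
    by_contra hn
    push Not at hn
    exact hA (top_unique fun c _ => hn c)
  obtain ⟨ν, h1, hν⟩ := dual_Al hab₀ hc₀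
  have h3 : ν ^ 3 = 1 := (h.e1a hc hab₀ hν).resolve_left fun e => h1 (E1.sq_one e (E1.sq_two hp _))
  have n1 : ν ≠ 1 := fun e => h1 (by rw [e]; rfl)
  have cube : ∀ (ω : Ω) (s : Fin n → Fˣ), ∏ i, s i = 1 → s ^ 3 ∈ Hs n F ω := by
    intro ω s hs
    have hs3 : ∏ i, (s ^ 3) i = 1 := by simp [Finset.prod_pow, hs]
    refine mem_Hs_of hs3 fun b hb => ?_
    by_cases hcs : Cst b
    · rw [Finset.prod_congr rfl fun i _ => by rw [hcs i a₀], ← map_prod, hs3, map_one]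
    obtain ⟨w, x, e⟩ := h.x2 hc hν hb (rt_ncst (A := Ch F) h.n5 a₀ b₀ n1) hcs
    have : ∀ i, b i ((s ^ 3) i) = x ((s ^ 3) i) := fun i => by
      have k : (rt' a₀ b₀ ν (w i)) ^ 3 = 1 := E1.cube_rt (A := Ch F) h3 a₀ b₀ (w i)
      have k' : rt a₀ b₀ ν (w i) (s i) ^ 3 = 1 := DFunLike.congr_fun k (s i)
      rw [e i, MonoidHom.mul_apply, Pi.pow_apply, map_pow (rt a₀ b₀ ν (w i)), k', mul_one]
    rw [Finset.prod_congr rfl fun i _ => this i, ← map_prod, hs3, map_one]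
  obtain ⟨x, hx⟩ : ∃ x : Fˣ, x ^ 3 ≠ 1 := by
    by_contra hn
    push Not at hn
    have := Monoid.exponent_dvd_of_forall_pow_eq_one hn
    rw [IsCyclic.exponent_eq_card, Nat.card_eq_fintype_card, Fintype.card_units] at this
    have h1 := Fintype.one_lt_card (α := F)
    rcases (Nat.dvd_prime Nat.prime_three).1 this with e | e <;> omega
  have al : ∀ (ω : Ω) (a b : Fin n), a ≠ b → ∀ y : Fˣ, y ^ 3 ∈ Al F ω a b := by
    intro ω a b hab y
    obtain ⟨e, e1, e2, -⟩ := out4 h.n5 a b a b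
    refine ⟨_, cube ω (rt' a e y) (prod_rt' e1.symm y), ?_⟩
    show (rt' a e y a) ^ 3 / (rt' a e y b) ^ 3 = _
    rw [rt_a, rt_o hab.symm e2.symm, one_pow, div_one]
  refine ⟨fun ω a b hab => ⟨fun e => hx (Subgroup.mem_bot.1 (e ▸ al ω a b hab x)), fun S hS =>
    E1.irr_cubes hp hx S fun y => hS _ (al ω a b hab y)⟩, fun ω a b c d hab hcd hs => ?_⟩
  obtain ⟨e, e1, e2, e3, e4⟩ := out4 h.n5 a b c d
  have key : ∀ c d : Fin n, c ≠ d → c ≠ a → c ≠ b → e ≠ c → e ≠ d →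
      ∃ t ∈ Hs n F ω, t a = t b ∧ t c ≠ t d := fun c d hcd h1 h2 h3 h4 =>
    ⟨_, cube ω (rt' c e x) (prod_rt' h3.symm x), by
      simp only [Pi.pow_apply]
      rw [rt_o h1.symm e1.symm, rt_o h2.symm e2.symm, rt_a, rt_o hcd.symm h4.symm, one_pow]
      exact ⟨rfl, hx⟩⟩
  by_cases c1 : c ≠ a ∧ c ≠ b
  · exact key c d hcd c1.1 c1.2 e3 e4
  · obtain ⟨t, t1, t2, t3⟩ := key d c hcd.symm
      (by rintro rfl; exact hs (by rw [not_and_or, not_not, not_not] at c1; grind))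
      (by rintro rfl; exact hs (by rw [not_and_or, not_not, not_not] at c1; grind)) e4 e3
    exact ⟨t, t1, t2, t3.symm⟩

namespace E1

omit [Fintype F] [DecidableEq F] in
theorem not_sep (hf : Full n F Ω) (hs : ¬ Sep n F Ω) : ∃ (ω : Ω) (a b c d : Fin n), a ≠ b ∧ c ≠ d ∧
    s(a, b) ≠ s(c, d) ∧ ∀ ν : Ch F, ∃ μ : Ch F, rt' a b μ * rt' c d ν ∈ EG n F ω := by
  unfold Sep at hs
  push Not at hs
  obtain ⟨ω, a, b, c, d, hab, hcd, hne, hs⟩ := hs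
  refine ⟨ω, a, b, c, d, hab, hcd, hne, fun ν => ?_⟩
  let α : Hs n F ω →* Fˣ :=
    (Pi.evalMonoidHom (fun _ => Fˣ) a / Pi.evalMonoidHom (fun _ => Fˣ) b).comp (Hs n F ω).subtype
  let β : Hs n F ω →* Fˣ :=
    (Pi.evalMonoidHom (fun _ => Fˣ) c / Pi.evalMonoidHom (fun _ => Fˣ) d).comp (Hs n F ω).subtype
  have hα : Function.Surjective α := fun x => by
    obtain ⟨t, ht, e⟩ := (hf ω a b hab ▸ Subgroup.mem_top x : x ∈ Al F ω a b)
    exact ⟨⟨t, ht⟩, e⟩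
  have hk : α.ker ≤ β.ker := fun t ht => div_eq_one.2 (hs t t.2 (div_eq_one.1 ht))
  refine ⟨(ν.comp (α.liftOfSurjective hα ⟨β, hk⟩))⁻¹, fun t ht => ?_⟩
  show ∏ i, rt a b _ i (t i) * rt c d ν i (t i) = 1
  rw [Finset.prod_mul_distrib, prod_rt hab, prod_rt hcd]
  have : α.liftOfSurjective hα ⟨β, hk⟩ (t a / t b) = t c / t d :=
    α.liftOfRightInverse_comp_apply _ _ ⟨β, hk⟩ ⟨t, ht⟩
  rw [MonoidHom.inv_apply, MonoidHom.comp_apply, this, inv_mul_cancel]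

theorem shape {A : Type*} [CommGroup A] {a b c d : Fin n} (hab : a ≠ b) (hcd : c ≠ d)
    (hs : s(a, b) ≠ s(c, d)) (μ ν : A) :
    (∀ i, i ≠ a → i ≠ b → i ≠ c → i ≠ d → (rt' a b μ * rt' c d ν) i = 1) ∧
    ∏ i, (rt' a b μ * rt' c d ν) i = 1 ∧
    (∃ i, (rt' a b μ * rt' c d ν) i = ν ∨ (rt' a b μ * rt' c d ν) i = ν⁻¹) ∧
    (({a, b, c, d} : Finset (Fin n)).card ≤ 3 ∨
      ((rt' a b μ * rt' c d ν) a * (rt' a b μ * rt' c d ν) b = 1 ∧
       (rt' a b μ * rt' c d ν) c * (rt' a b μ * rt' c d ν) d = 1)) := by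
  refine ⟨fun i h1 h2 h3 h4 => by rw [Pi.mul_apply, rt_o h1 h2, rt_o h3 h4, mul_one], ?_, ?_, ?_⟩
  · simp only [Pi.mul_apply]
    rw [Finset.prod_mul_distrib, prod_rt' hab, prod_rt' hcd, mul_one]
  · by_cases c1 : c ≠ a ∧ c ≠ b
    · exact ⟨c, .inl (by rw [Pi.mul_apply, rt_o c1.1 c1.2, rt_a, one_mul])⟩
    · refine ⟨d, .inr ?_⟩
      rw [Pi.mul_apply, rt_o, rt_b hcd, one_mul] <;> rintro rfl <;>
        exact hs (by rw [not_and_or, not_not, not_not] at c1; grind)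
  · by_cases hac : a = c
    · subst hac; left; rw [Finset.insert_comm b a, Finset.insert_idem]; exact Finset.card_le_three
    by_cases had : a = d
    · subst had; left
      rw [Finset.insert_eq_of_mem (by simp)]; exact Finset.card_le_three
    by_cases hbc : b = c
    · subst hbc; left; rw [Finset.insert_idem]; exact Finset.card_le_three
    by_cases hbd : b = d
    · subst hbd; left
      rw [Finset.insert_eq_of_mem (s := {c, b}) (by simp)]; exact Finset.card_le_three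
    obtain ⟨v1, v2, v3, v4⟩ := quad_vals hab hcd hac had hbc hbd μ ν
    exact .inr ⟨by rw [v1, v2, mul_inv_cancel], by rw [v3, v4, mul_inv_cancel]⟩

theorem exists_gen : ∃ ν : Ch F, orderOf ν = Fintype.card F - 1 := by
  obtain ⟨e⟩ := CommGroup.monoidHom_mulEquiv_of_hasEnoughRootsOfUnity Fˣ ℂ
  obtain ⟨g, hg⟩ := IsCyclic.exists_ofOrder_eq_natCard (α := Fˣ)
  exact ⟨e.symm g, by rw [MulEquiv.orderOf_eq, hg, Nat.card_eq_fintype_card, Fintype.card_units]⟩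

theorem ncst {A : Type*} [CommGroup A] (h : 5 ≤ n) {P : Fin n → A} {a b c d i : Fin n} {ν : A}
    (h1 : ν ≠ 1) (p1 : ∀ i, i ≠ a → i ≠ b → i ≠ c → i ≠ d → P i = 1) (p3 : P i = ν ∨ P i = ν⁻¹) :
    ∃ j, P i ≠ P j := by
  obtain ⟨e, e1, e2, e3, e4⟩ := out4 h a b c d
  refine ⟨e, ?_⟩
  rw [p1 e e1 e2 e3 e4]
  rcases p3 with e | e <;> rw [e] <;> simpa

end E1

theorem R3.e1c (h : R3 n F Ω) (hc : ¬ CA n F Ω) (hq : 3 ≤ Fintype.card F) (hf : Full n F Ω)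
    (hs : ¬ Sep n F Ω) : (Fintype.card F = 3 ∨ Fintype.card F = 4) ∧
      ∃ (ω : Ω) (b : Fin n → Ch F), b ∈ Es n F ω ∧ ¬ Cst b := by
  obtain ⟨ω, a, b, c, d, hab, hcd, hne, H⟩ := E1.not_sep hf hs
  obtain ⟨ν, hν⟩ := E1.exists_gen (F := F)
  obtain ⟨μ, hμ⟩ := H ν
  obtain ⟨p1, p2, ⟨i, p3⟩, p4⟩ := E1.shape hab hcd hne μ ν
  have n1 : ν ≠ 1 := fun e => by rw [e] at hν; have := (orderOf_one (G := Ch F)).symm.trans hν; omega
  obtain ⟨j, hj⟩ := E1.ncst h.n5 n1 p1 p3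
  refine ⟨?_, ω, _, hμ, fun c => hj (c i j)⟩
  by_contra hn
  refine E1.e1c (E := EG n F ω) h.n5 (fun _ h1 _ h2 c1 c2 => h.x2 hc h1 h2 c1 c2)
    (r := Fintype.card F - 1) (fun y => MonoidHom.ext fun x => ?_) (by omega) (fun e => ?_) hμ
    (i₀ := i) hab hcd p1 p2 ?_ p4
  · show y x ^ (Fintype.card F - 1) = 1
    rw [← map_pow, ← Fintype.card_units, pow_card_eq_one, map_one]
  · have := Fintype.isPrimePow_card_of_field (α := F)
    rw [show Fintype.card F = 6 by omega] at this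
    exact absurd this (by decide)
  · rcases p3 with e | e <;> rw [e]
    · exact hν
    · rw [orderOf_inv, hν]

theorem R3.e2a (h : R3 n F Ω) (hc : CA n F Ω) (hq : 3 ≤ Fintype.card F) (hf : Full n F Ω) :
    Sep n F Ω := by
  by_contra hs
  obtain ⟨ω, a, b, c, d, hab, hcd, hne, H⟩ := E1.not_sep hf hs
  obtain ⟨ν, hν⟩ := E1.exists_gen (F := F)
  obtain ⟨μ, hμ⟩ := H ν
  obtain ⟨p1, -, ⟨i, p3⟩, -⟩ := E1.shape hab hcd hne μ ν
  have n1 : ν ≠ 1 := fun e => by rw [e] at hν; have := (orderOf_one (G := Ch F)).symm.trans hν; omega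
  obtain ⟨j, hj⟩ := E1.ncst h.n5 n1 p1 p3
  have hij : i ≠ j := fun e => hj (by rw [e])
  have := (rt_mem_Es hij).1 (E1.e2a (E := EG n F ω) hμ (fun _ e => h.x1a hc hμ e ω) hij)
  exact hj (div_eq_one.1 (MonoidHom.ext fun x => this x (hf ω i j hij ▸ Subgroup.mem_top x)))

theorem R3.e2b (h : R3 n F Ω) (hc : CA n F Ω) (hf : ¬ Full n F Ω) : ringChar F ≠ 2 ∧
    ∀ (ω : Ω) (a b : Fin n), a ≠ b → ∀ c, c ∈ Al F ω a b ↔ IsSquare c := by
  have mv : ∀ {ω : Ω} {a b : Fin n} {ν : Ch F}, a ≠ b → rt a b ν ∈ Es n F ω →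
      ∀ (ω' : Ω) (c d : Fin n), c ≠ d → rt c d ν ∈ Es n F ω' := fun hab hb ω' c d hcd =>
    h.x1a hc hb (eqv_move (A := Ch F) hab hcd _) ω'
  have sq : ∀ (ω : Ω) (a b : Fin n), a ≠ b → ∀ c, IsSquare c → c ∈ Al F ω a b := by
    intro ω a b hab c hs
    by_contra hn
    obtain ⟨ν, h1, h2⟩ := dual_Al hab hn
    exact h1 (E1.sq_one (E1.e2b (E := EG n F ω) h.n5
      (fun _ h1 _ h2 _ h3 c1 c2 c3 => h.x1b h1 h2 h3 c1 c2 c3) (mv hab h2 ω)) hs)
  obtain ⟨ω₀, a₀, b₀, hab₀, c₀, hc₀⟩ : ∃ (ω : Ω) (a b : Fin n), a ≠ b ∧ ∃ c, c ∉ Al F ω a b := by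
    by_contra hn
    push Not at hn
    exact hf fun ω a b hab => top_unique fun c _ => hn ω a b hab c
  obtain ⟨ν, h1, hν⟩ := dual_Al hab₀ hc₀
  refine ⟨fun hp => hc₀ (sq _ _ _ hab₀ _ (E1.sq_two hp _)), fun ω a b hab c =>
    ⟨fun hm => ?_, sq ω a b hab c⟩⟩
  by_contra hn
  obtain ⟨g, hg⟩ := IsCyclic.exists_generator (α := Fˣ)
  obtain ⟨m, rfl⟩ := hg c
  obtain ⟨k, rfl | rfl⟩ := Int.even_or_odd' m
  · exact hn ⟨g ^ k, by simp only; rw [two_mul, _root_.zpow_add]⟩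
  have g1 : g ∈ Al F ω a b := by
    have := mul_mem (inv_mem (sq ω a b hab (g ^ (2 * k)) ⟨g ^ k, by rw [two_mul, _root_.zpow_add]⟩)) hm
    simp only at this
    rwa [_root_.zpow_add, inv_mul_cancel_left, zpow_one] at this
  obtain ⟨l, rfl⟩ := hg c₀
  exact h1 ((rt_mem_Es hab).1 (mv hab₀ hν ω a b hab) _ (zpow_mem g1 l))

end CF.Rk
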