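import Cfsg.Agent.Rk.E0

/-! Rank 3 actions of `SL_n(q)`: combinatorics of character vectors. -/

set_option autoImplicit false

namespace CF.Rk.E1

open E0

variable {n : ℕ} {A : Type*} [CommGroup A] {E : Subgroup (Fin n → A)}

theorem e1a (h : 5 ≤ n) (x2 : ∀ b ∈ E, ∀ b' ∈ E, ¬ Cst' b → ¬ Cst' b' → Eqv' b b') {a b : Fin n}
    {ν : A} (hb : rt' a b ν ∈ E) : ν ^ 2 = 1 ∨ ν ^ 3 = 1 := by
  by_cases h2 : ν ^ 2 = 1
  · exact .inl h2
  have h1 : ν ≠ 1 := fun e => h2 (by simp [e])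
  rcases eqv_rt h h2 (x2 _ hb _ (rt_pow ν 2 ▸ pow_mem hb 2) (rt_ncst h a b h1) (rt_ncst h a b h2))
    with e | e
  · exact absurd (by rwa [pow_two, mul_eq_left] at e) h1
  · exact .inr (by rw [pow_succ, e, inv_mul_cancel])

theorem tri_vals {a b d : Fin n} (hab : a ≠ b) (had : a ≠ d) (hbd : b ≠ d) {ν : A} (h3 : ν ^ 3 = 1) :
    (rt' a b ν * rt' a d ν) a = ν⁻¹ ∧ (rt' a b ν * rt' a d ν) b = ν⁻¹ ∧
      (rt' a b ν * rt' a d ν) d = ν⁻¹ ∧
      ∀ i, i ≠ a → i ≠ b → i ≠ d → (rt' a b ν * rt' a d ν) i = 1 := by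
  refine ⟨?_, ?_, ?_, fun i h1 h2 h3 => ?_⟩ <;> rw [Pi.mul_apply]
  · rw [rt_a, rt_a, cube_inv h3]
  · rw [rt_b hab, rt_o hab.symm hbd, mul_one]
  · rw [rt_b had, rt_o had.symm hbd.symm, one_mul]
  · rw [rt_o h1 h2, rt_o h1 h3, mul_one]

theorem quad_vals {a b c d : Fin n} (hab : a ≠ b) (hcd : c ≠ d) (hac : a ≠ c) (had : a ≠ d)
    (hbc : b ≠ c) (hbd : b ≠ d) (ν μ : A) :
    (rt' a b ν * rt' c d μ) a = ν ∧ (rt' a b ν * rt' c d μ) b = ν⁻¹ ∧
      (rt' a b ν * rt' c d μ) c = μ ∧ (rt' a b ν * rt' c d μ) d = μ⁻¹ := by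
  refine ⟨?_, ?_, ?_, ?_⟩ <;> rw [Pi.mul_apply]
  · rw [rt_a, rt_o hac had, mul_one]
  · rw [rt_b hab, rt_o hbc hbd, mul_one]
  · rw [rt_a, rt_o hac.symm hbc.symm, one_mul]
  · rw [rt_b hcd, rt_o had.symm hbd.symm, one_mul]

theorem tri_not (h : 5 ≤ n) {a b d x y : Fin n} (hab : a ≠ b) (had : a ≠ d) (hbd : b ≠ d) {ν : A}
    (h1 : ν ≠ 1) (h3 : ν ^ 3 = 1) :
    ¬ Cst' (rt' a b ν * rt' a d ν) ∧ ¬ Eqv' (rt' x y ν) (rt' a b ν * rt' a d ν) := by
  obtain ⟨v1, v2, -, v4⟩ := tri_vals hab had hbd h3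
  obtain ⟨e, e1, e2, e3, -⟩ := out4 h a b d d
  obtain ⟨f, f1, f2, f3, f4⟩ := out4 h a b d e
  have k : (rt' a b ν * rt' a d ν) a ≠ (rt' a b ν * rt' a d ν) e := by
    rw [v1, v4 e e1 e2 e3]; exact fun e => h1 (inv_eq_one.1 e)
  exact ⟨fun c => k (c _ _), fun c => k (pairs (sq_ne h1 h3) c hab f4.symm (v1.trans v2.symm)
    ((v4 e e1 e2 e3).trans (v4 f f1 f2 f3).symm))⟩

theorem quad_not {a b c d x y : Fin n} (hab : a ≠ b) (hcd : c ≠ d) (hac : a ≠ c) (had : a ≠ d)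
    (hbc : b ≠ c) (hbd : b ≠ d) {ν μ : A} (h2 : ν ^ 2 ≠ 1) :
    ¬ Cst' (rt' a b ν * rt' c d ν) ∧ (μ ^ 2 ≠ 1 → ¬ Eqv' (rt' x y μ) (rt' a b ν * rt' c d ν)) := by
  obtain ⟨v1, v2, v3, v4⟩ := quad_vals hab hcd hac had hbc hbd ν ν
  have k : (rt' a b ν * rt' c d ν) a ≠ (rt' a b ν * rt' c d ν) b := by
    rw [v1, v2]; exact ne_inv h2
  exact ⟨fun c => k (c _ _), fun h c => k (pairs h c hac hbd (v1.trans v3.symm) (v2.trans v4.symm))⟩

theorem e1d (h : 5 ≤ n) (x2 : ∀ b ∈ E, ∀ b' ∈ E, ¬ Cst' b → ¬ Cst' b' → Eqv' b b')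
    {a b c d : Fin n} (hab : a ≠ b) (hcd : c ≠ d) {ν : A} (h1 : ν ≠ 1) (h3 : ν ^ 3 = 1)
    (hb : rt' a b ν ∈ E) (hd : rt' c d ν ∈ E) : s(a, b) = s(c, d) := by
  have k : ∀ {a b d : Fin n}, a ≠ b → a ≠ d → rt' a b ν ∈ E → rt' a d ν ∈ E → b = d := by
    intro a b d hab had hb hd
    by_contra hbd
    obtain ⟨c1, c2⟩ := tri_not h (x := a) (y := b) hab had hbd h1 h3
    exact c2 (x2 _ hb _ (mul_mem hb hd) (rt_ncst h a b h1) c1)
  have hb' : rt' b a ν ∈ E := rt_swap hab ν ▸ inv_mem hb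
  have hd' : rt' d c ν ∈ E := rt_swap hcd ν ▸ inv_mem hd
  by_cases hac : a = c
  · subst hac; rw [k hab hcd hb hd]
  by_cases had : a = d
  · subst had; rw [k hab hcd.symm hb hd', Sym2.eq_swap]
  by_cases hbc : b = c
  · subst hbc; exact absurd (k hab.symm hcd hb' hd) had
  by_cases hbd : b = d
  · subst hbd; exact absurd (k hab.symm hcd.symm hb' hd') hac
  obtain ⟨c1, c2⟩ := quad_not (x := a) (y := b) (μ := ν) hab hcd hac had hbc hbd (sq_ne h1 h3)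
  exact absurd (x2 _ hb _ (mul_mem hb hd) (rt_ncst h a b h1) c1) (c2 (sq_ne h1 h3))

theorem e2b (h : 5 ≤ n) (x1 : ∀ b₁ ∈ E, ∀ b₂ ∈ E, ∀ b₃ ∈ E, ¬ Cst' b₁ → ¬ Cst' b₂ → ¬ Cst' b₃ →
    Eqv' b₁ b₂ ∨ Eqv' b₁ b₃ ∨ Eqv' b₂ b₃) {ν : A} (hb : ∀ a b, a ≠ b → rt' a b ν ∈ E) :
    ν ^ 2 = 1 := by
  by_contra h2
  have h1 : ν ≠ 1 := fun e => h2 (by simp [e])
  obtain ⟨a⟩ : Nonempty (Fin n) := ⟨⟨0, by omega⟩⟩
  obtain ⟨b, hab, -⟩ := out4 h a a a a
  obtain ⟨c, hac, hbc, -⟩ := out4 h a b b b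
  obtain ⟨d, had, hbd, hcd, -⟩ := out4 h a b c c
  obtain ⟨e, e1, e2, e3, e4⟩ := out4 h a b c d
  obtain ⟨v1, v2, -, -⟩ := quad_vals hab.symm hcd.symm hac.symm had.symm hbc.symm hbd.symm ν ν
  have v3 : (rt' a b ν * rt' c d ν) e = 1 := by rw [Pi.mul_apply, rt_o e1 e2, rt_o e3 e4, mul_one]
  have q := fun μ => quad_not (x := a) (y := b) (μ := μ) hab.symm hcd.symm hac.symm had.symm
    hbc.symm hbd.symm h2
  have tv : ∀ {P : Fin n → A} {u v : A}, (∀ i, P i = u ∨ P i = v) →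
      ¬ Eqv' (rt' a b ν * rt' c d ν) P := by
    intro P u v hP c
    rcases two_vals c.symm hP a b e with k | k | k
    · rw [v1, v2] at k; exact ne_inv h2 k
    · rw [v1, v3] at k; exact h1 k
    · rw [v2, v3] at k; exact h1 (inv_eq_one.1 k)
  have m1 := hb a b hab.symm
  have m2 := mul_mem m1 (hb c d hcd.symm)
  by_cases h3 : ν ^ 3 = 1
  · obtain ⟨c1, c2⟩ := tri_not h (x := a) (y := b) hab.symm hac.symm hbc.symm h1 h3
    obtain ⟨t1, t2, t3, t4⟩ := tri_vals hab.symm hac.symm hbc.symm h3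
    rcases x1 _ m1 _ m2 _ (mul_mem m1 (hb a c hac.symm)) (rt_ncst h a b h1) (q ν).1 c1 with k | k | k
    · exact (q ν).2 h2 k
    · exact c2 k
    · refine tv (u := ν⁻¹) (v := 1) (fun i => ?_) k
      by_cases i1 : i = a
      · exact .inl (i1 ▸ t1)
      by_cases i2 : i = b
      · exact .inl (i2 ▸ t2)
      by_cases i3 : i = c
      · exact .inl (i3 ▸ t3)
      exact .inr (t4 i i1 i2 i3)
  · rcases x1 _ m1 _ m2 (rt' a b (ν ^ 2)) (rt_pow ν 2 ▸ pow_mem m1 2) (rt_ncst h a b h1) (q ν).1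
      (rt_ncst h a b h2) with k | k | k
    · exact (q ν).2 h2 k
    · rcases eqv_rt h h2 k with e | e
      · exact h1 (by rwa [pow_two, mul_eq_left] at e)
      · exact h3 (by rw [pow_succ, e, inv_mul_cancel])
    · by_cases h4 : (ν ^ 2) ^ 2 = 1
      · refine tv (u := ν ^ 2) (v := 1) (fun i => ?_) k
        rcases rt_cases a b (ν ^ 2) i with ⟨-, e⟩ | ⟨-, e⟩ | ⟨-, -, e⟩
        · exact .inl e
        · exact .inl (e.trans (inv_eq_of_mul_eq_one_right (by rw [← pow_two, h4])))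
        · exact .inr e
      · exact (q _).2 h4 k.symm

theorem e2a {b : Fin n → A} (hb : b ∈ E) (x1 : ∀ b', Eqv' b b' → b' ∈ E) {i j : Fin n}
    (hij : i ≠ j) : rt' i j (b i / b j) ∈ E := by
  have := mul_mem hb (inv_mem (x1 (fun k => b (Equiv.swap i j k)) ⟨Equiv.swap i j, 1, by simp⟩))
  convert this using 1
  funext k
  rw [Pi.mul_apply, Pi.inv_apply]
  rcases rt_cases i j (b i / b j) k with ⟨rfl, e⟩ | ⟨rfl, e⟩ | ⟨h1, h2, e⟩ <;> rw [e]
  · simp [div_eq_mul_inv]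
  · simp [div_eq_mul_inv]
  · simp [Equiv.swap_apply_of_ne_of_ne h1 h2]

theorem three_four {T : Finset (Fin n)} {a b c d : Fin n} (h : 3 ≤ T.card) (hT : T ⊆ {a, b, c, d}) :
    (a ∈ T ∧ b ∈ T) ∨ (c ∈ T ∧ d ∈ T) := by
  have two : ∀ v v' : Fin n, ¬ T ⊆ {v, v'} := fun v v' e => by
    have := (Finset.card_le_card e).trans Finset.card_le_two
    omega
  have mem : ∀ i ∈ T, i = a ∨ i = b ∨ i = c ∨ i = d := fun i hi => by simpa using hT hi
  by_contra hn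
  rw [not_or, not_and_or, not_and_or] at hn
  obtain ⟨h1 | h1, h2 | h2⟩ := hn
  · exact two b d fun i hi => by rcases mem i hi with rfl | rfl | rfl | rfl <;> simp_all
  · exact two b c fun i hi => by rcases mem i hi with rfl | rfl | rfl | rfl <;> simp_all
  · exact two a d fun i hi => by rcases mem i hi with rfl | rfl | rfl | rfl <;> simp_all
  · exact two a c fun i hi => by rcases mem i hi with rfl | rfl | rfl | rfl <;> simp_all

theorem e1c (h : 5 ≤ n) (x2 : ∀ b ∈ E, ∀ b' ∈ E, ¬ Cst' b → ¬ Cst' b' → Eqv' b b') {r : ℕ}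
    (hr : ∀ y : A, y ^ r = 1) (h4 : 4 ≤ r) (h5 : r ≠ 5) {P : Fin n → A} (hP : P ∈ E)
    {a b c d i₀ : Fin n} (hab : a ≠ b) (hcd : c ≠ d)
    (p1 : ∀ i, i ≠ a → i ≠ b → i ≠ c → i ≠ d → P i = 1) (p2 : ∏ i, P i = 1)
    (p3 : orderOf (P i₀) = r)
    (p4 : ({a, b, c, d} : Finset (Fin n)).card ≤ 3 ∨ (P a * P b = 1 ∧ P c * P d = 1)) : False := by
  obtain ⟨e, e1, e2, e3, e4⟩ := out4 h a b c d
  have pe := p1 e e1 e2 e3 e4
  have ne : ∀ k, 0 < k → k < r → P i₀ ^ k ≠ 1 := fun k k0 kr => pow_ne_one_of_lt_orderOf k0.ne' (p3 ▸ kr)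
  have nc : ∀ k, 0 < k → k < r → ¬ Cst' (P ^ k) := fun k k0 kr c =>
    ne k k0 kr (by simpa [pe] using c i₀ e)
  have n1 : ¬ Cst' P := by simpa using nc 1 one_pos (by omega)
  have hp : r.Prime := by
    by_contra hn
    obtain ⟨k, k1, k2, k3⟩ := Nat.exists_dvd_of_not_prime2 (by omega) hn
    obtain ⟨w, x, hw⟩ := x2 _ (pow_mem hP k) _ hP (nc k (by omega) k3) n1
    obtain ⟨m, rfl⟩ := k1
    have m0 : 0 < m := Nat.pos_of_ne_zero (by rintro rfl; simp at h4)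
    refine ne m m0 (by nlinarith) ?_
    have : P i₀ = (P (w i₀) / P (w e)) ^ k := by
      rw [div_pow, ← Pi.pow_apply, ← Pi.pow_apply, ← mul_div_mul_left_eq_div _ _ x, ← hw, ← hw, pe,
        div_one]
    rw [this, ← pow_mul, hr]
  have h7 : 7 ≤ r := by
    by_contra h7
    have : r = 4 ∨ r = 6 := by omega
    rcases this with rfl | rfl <;> exact absurd hp (by decide)
  set S : Finset (Fin n) := {a, b, c, d} with hS
  have pS : ∀ i, i ∉ S → P i = 1 := fun i hi => by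
    simp only [hS, Finset.mem_insert, Finset.mem_singleton, not_or] at hi
    exact p1 i hi.1 hi.2.1 hi.2.2.1 hi.2.2.2
  have key : ∀ k, 0 < k → k < r → ∃ j ∈ S, P i₀ ^ k = P j := by
    intro k k0 kr
    obtain ⟨w, x, hw⟩ := x2 _ hP _ (pow_mem hP k) n1 (nc k k0 kr)
    simp only [Pi.pow_apply] at hw
    have x1 : x = 1 := by
      by_contra x1
      have xn : x ^ n = 1 := by
        have : ∏ i, P i ^ k = ∏ i, x * P (w i) := Finset.prod_congr rfl fun i _ => hw i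
        rwa [Finset.prod_pow, p2, one_pow, Finset.prod_mul_distrib, Equiv.prod_comp w P, p2,
          mul_one, Finset.prod_const, Finset.card_fin, eq_comm] at this
      haveI := Fact.mk hp
      have ox : orderOf x = r := orderOf_eq_prime (hr x) x1
      have n7 : r ≤ n := Nat.le_of_dvd (by omega) (ox ▸ orderOf_dvd_of_pow_eq_one xn)
      let T := Sᶜ.map w.symm.toEmbedding
      have tx : ∀ i ∈ T, P i ^ k = x := fun i hi => by
        obtain ⟨j, hj, rfl⟩ := Finset.mem_map.1 hi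
        rw [hw]
        simp [pS j (Finset.mem_compl.1 hj)]
      have tS : T ⊆ S := fun i hi => by
        by_contra hn
        exact x1 (by rw [← tx i hi, pS i hn, one_pow])
      have tc : T.card = n - S.card := by rw [Finset.card_map, Finset.card_compl, Fintype.card_fin]
      have s4 : S.card ≤ 4 := Finset.card_le_four
      have := Finset.card_le_card tS
      rcases p4 with p4 | ⟨q1, q2⟩
      · omega
      have sq : ∀ u v, u ∈ T → v ∈ T → P u * P v = 1 → False := fun u v hu hv e => by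
        have : x ^ 2 = 1 := by
          calc x ^ 2 = P u ^ k * P v ^ k := by rw [tx u hu, tx v hv, pow_two]
            _ = 1 := by rw [← mul_pow, e, one_pow]
        have := Nat.le_of_dvd two_pos (ox ▸ orderOf_dvd_of_pow_eq_one this)
        omega
      rcases three_four (T := T) (by omega) tS with h' | h'
      exacts [sq a b h'.1 h'.2 q1, sq c d h'.1 h'.2 q2]
    refine ⟨w i₀, ?_, by rw [hw, x1, one_mul]⟩
    by_contra hn
    exact ne k k0 kr (by rw [hw, x1, pS _ hn, mul_one])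
  haveI : Nonempty (Fin n) := ⟨a⟩
  choose! f f1 f2 using key
  have := Finset.card_le_card_of_injOn (s := Finset.Ioo 0 r) (t := S) f
    (fun k hk => by simp only [Finset.coe_Ioo, Set.mem_Ioo] at hk; exact f1 k hk.1 hk.2)
    (fun k hk l hl e => by
      simp only [Finset.coe_Ioo, Set.mem_Ioo] at hk hl
      exact pow_injOn_Iio_orderOf (x := P i₀) (p3 ▸ hk.2) (p3 ▸ hl.2)
        (by show P i₀ ^ k = P i₀ ^ l; rw [f2 k hk.1 hk.2, f2 l hl.1 hl.2, e]))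
  have s4 : S.card ≤ 4 := Finset.card_le_four
  rw [Nat.card_Ioo] at this
  omega

end CF.Rk.E1
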