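import Cfsg.Agent.Rk.QY
import Cfsg.Agent.Rk.GR1

/-!
Rank 3 actions of `SL_n(q)`: a polarity without absolute points does not exist.
-/

set_option autoImplicit false
set_option linter.unusedSectionVars false
open Matrix MulAction Cfsg

namespace CF.Rk

variable {n : ℕ} {F : Type*} [Field F] [Fintype F] [DecidableEq F]
  {Ω : Type*} [MulAction (GG n F) Ω]

namespace Pol

theorem cnt (hn : 3 ≤ n) (f g : Fin n → F) :
    ∑ z : {z : Fin n → F // z ≠ 0},
      (if f ⬝ᵥ z.1 = 0 then (1 : F) else 0) * (if g ⬝ᵥ z.1 = 0 then 1 else 0) = -1 := by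
  let W : Submodule F (Fin n → F) :=
    LinearMap.ker ((dotProductBilin F F f).prod (dotProductBilin F F g))
  have h1 : W ≠ ⊥ := LinearMap.ker_ne_bot_of_finrank_lt (by simp; omega)
  have h2 : ((Nat.card W : ℕ) : F) = 0 := by
    rw [Module.natCard_eq_pow_finrank (K := F), Nat.cast_pow, Nat.card_eq_fintype_card,
      FiniteField.cast_card_eq_zero, zero_pow (mt Submodule.finrank_eq_zero.1 h1)]
  have h3 : ∑ z : Fin n → F,
      (if f ⬝ᵥ z = 0 then (1 : F) else 0) * (if g ⬝ᵥ z = 0 then 1 else 0) = 0 := by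
    simp only [ite_zero_mul_ite_zero, mul_one, Finset.sum_boole]
    rw [← Fintype.card_subtype, ← Nat.card_eq_fintype_card]
    exact (congrArg _ (Nat.card_congr
      (Equiv.subtypeEquivRight fun z => by simp [W, Prod.ext_iff]))).trans h2
  rw [Fintype.sum_eq_add_sum_subtype_ne _ 0] at h3
  simp only [dotProduct_zero, if_true, mul_one] at h3
  exact eq_neg_of_add_eq_zero_right h3

theorem baer (hn : 3 ≤ n) (f : (Fin n → F) → Fin n → F) (h1 : ∀ x ≠ 0, f x ⬝ᵥ x ≠ 0)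
    (h2 : ∀ x ≠ 0, ∀ y ≠ 0, f x ⬝ᵥ y = 0 → f y ⬝ᵥ x = 0) : False := by
  let M : Matrix {z : Fin n → F // z ≠ 0} {z : Fin n → F // z ≠ 0} F :=
    of fun x y => if f x.1 ⬝ᵥ y.1 = 0 then 1 else 0
  have sy : ∀ x y, M x y = M y x := fun x y =>
    if_congr ⟨h2 _ x.2 _ y.2, h2 _ y.2 _ x.2⟩ rfl rfl
  have e : ∀ k, M ^ (k + 2) = of fun _ _ => (-1) ^ (k + 1) := by
    intro k
    induction k with
    | zero =>
      ext x y
      rw [zero_add, sq, mul_apply, of_apply, zero_add, pow_one, ← cnt hn (f x.1) (f y.1)]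
      exact Finset.sum_congr rfl fun z _ => by rw [sy z y]; rfl
    | succ k ih =>
      ext x y
      rw [pow_succ', ih, mul_apply, of_apply, pow_succ' _ (k + 1), ← cnt hn (f x.1) 0,
        Finset.sum_mul]
      exact Finset.sum_congr rfl fun z _ => by simp [M]
  have t := FiniteField.trace_pow_card M
  obtain ⟨k, hk⟩ : ∃ k, Fintype.card F = k + 2 :=
    ⟨_, (Nat.sub_add_cancel Fintype.one_lt_card).symm⟩
  have t0 : trace M = 0 := Finset.sum_eq_zero fun x _ => if_neg (h1 _ x.2)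
  have t1 := cnt hn (0 : Fin n → F) 0
  simp only [zero_dotProduct, if_true, mul_one] at t1
  rw [hk, e, t0, zero_pow (by omega)] at t
  have t2 : ∑ _z : {z : Fin n → F // z ≠ 0}, (1 : F) * (-1) ^ (k + 1) = 0 := by
    simpa only [one_mul, trace, diag, of_apply] using t
  rw [← Finset.sum_mul, t1] at t2
  simp at t2

theorem pair {x y x' y' : Fin n → F} (hx : x ≠ 0) (hx' : x' ≠ 0) (h : ∀ c : F, y ≠ c • x)
    (h' : ∀ c : F, y' ≠ c • x') :
    ∃ (g : GG n F) (c d : F), g • x = c • x' ∧ g • y = d • y' := by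
  have hy : y ≠ 0 := by simpa using h 0
  have hy' : y' ≠ 0 := by simpa using h' 0
  have ne : ∀ {x y : Fin n → F} (hx : x ≠ 0) (hy : y ≠ 0), (∀ c : F, y ≠ c • x) →
      Projectivization.mk F x hx ≠ Projectivization.mk F y hy := fun hx hy h e => by
    obtain ⟨c, hc⟩ := (Projectivization.mk_eq_mk_iff' F _ _ hy hx).1 e.symm
    exact h c hc.symm
  obtain ⟨g, e1, e2⟩ := (is_two_pretransitive_iff (G := GG n F)).1 inferInstance (ne hx hy h)
    (ne hx' hy' h')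
  rw [Projectivization.smul_mk, Projectivization.mk_eq_mk_iff'] at e1 e2
  obtain ⟨c, hc⟩ := e1
  obtain ⟨d, hd⟩ := e2
  exact ⟨g, c, d, hc.symm, hd.symm⟩

theorem conj_un {x : GG n F} (hx : x ^ ringChar F = 1) : ∃ g : GG n F, g⁻¹ * x * g ∈ Un n F := by
  have hp := Fact.mk (CharP.char_is_prime F (ringChar F))
  have h1 : IsPGroup (ringChar F) (Subgroup.zpowers x) := fun ⟨y, i, hy⟩ => ⟨1, Subtype.ext (by
    subst hy
    change (x ^ i) ^ ringChar F ^ 1 = 1
    rw [pow_one, ← zpow_natCast, ← _root_.zpow_mul, mul_comm, _root_.zpow_mul, zpow_natCast, hx,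
      _root_.one_zpow])⟩
  obtain ⟨k, hk⟩ := index_mod (n := n) (F := F) ∅
  obtain ⟨c, hc⟩ := h1.nonempty_fixed_point_of_prime_not_dvd_card (GG n F ⧸ Bo n F) fun e => by
    rw [← Subgroup.index, Bo, hk, Nat.dvd_add_left (dvd_mul_right _ _)] at e
    exact hp.out.not_dvd_one e
  obtain ⟨g, rfl⟩ := QuotientGroup.mk_surjective c
  have h2 : g⁻¹ * x * g ∈ Bo n F := by
    have : ((x * g : GG n F) : GG n F ⧸ Bo n F) = g := hc ⟨x, Subgroup.mem_zpowers x⟩
    simpa [mul_assoc] using QuotientGroup.eq.1 this.symm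
  refine ⟨g, inv_mem_iff.1 ?_⟩
  obtain ⟨m, -, hm⟩ := FiniteField.card F (ringChar F)
  have h3 : (g⁻¹ * x * g) ^ Fintype.card F = 1 := by
    have e : g⁻¹ * x * g = g⁻¹ * x * g⁻¹⁻¹ := by simp
    rw [e, conj_pow, hm, ← Nat.succ_pred_eq_of_pos m.pos, pow_succ', pow_mul, hx]
    simp
  rw [← Nat.sub_add_cancel Fintype.card_pos, pow_succ] at h3
  exact eq_inv_of_mul_eq_one_left h3 ▸ pow_mem_Un h2

theorem card_ne (hU : ∀ ω : Ω, ∀ u ∈ Un n F, u • ω = ω → u = 1) {ω : Ω} {S : Subgroup (GG n F)}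
    (hS : ∀ k ∈ S, k • ω = ω) : (Nat.card S : F) ≠ 0 := fun e => by
  have hp := Fact.mk (CharP.char_is_prime F (ringChar F))
  obtain ⟨x, hx⟩ := exists_prime_orderOf_dvd_card' (ringChar F) ((ringChar.spec F _).1 e)
  have h1 : x.1 ^ ringChar F = 1 := by rw [← hx, ← Subgroup.coe_pow, pow_orderOf_eq_one]; rfl
  obtain ⟨g, hg⟩ := conj_un h1
  have h2 := hU (g⁻¹ • ω) _ hg (by rw [mul_smul, mul_smul, smul_inv_smul, hS _ x.2])
  have h3 : x = 1 := Subtype.ext ((conj_eq_one_iff (a := g⁻¹)).1 (by simpa using h2))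
  rw [h3, orderOf_one] at hx
  exact hp.out.one_lt.ne hx

theorem exists_f (hU : ∀ ω : Ω, ∀ u ∈ Un n F, u • ω = ω → u = 1) (ω : Ω) (v : Fin n → F) :
    ∃ f : Fin n → F, v ≠ 0 → f ⬝ᵥ v ≠ 0 ∧ ∀ k : GG n F, k • ω = ω → ∀ c : Fˣ, k • v = (c : F) • v →
      ∀ x, f ⬝ᵥ k • x = c * f ⬝ᵥ x := by
  by_cases hv : v = 0
  · exact ⟨0, fun h => absurd hv h⟩
  obtain ⟨f, -, hf⟩ := exists_dot (W := ⊥) (v := v) (by simpa using hv)
  let S : Subgroup (GG n F) :=
    { carrier := {k | k • ω = ω ∧ ∃ c : Fˣ, k • v = (c : F) • v}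
      mul_mem' := fun {a b} ⟨a1, c, a2⟩ ⟨b1, d, b2⟩ => ⟨by rw [mul_smul, b1, a1], d * c, by
        rw [mul_smul, b2, smul_comm, a2, smul_smul, Units.val_mul]⟩
      one_mem' := ⟨one_smul _ _, 1, by simp⟩
      inv_mem' := fun {a} ⟨a1, c, a2⟩ => ⟨inv_smul_eq_iff.2 a1.symm, c⁻¹, by
        rw [inv_smul_eq_iff, smul_comm, a2, smul_smul, Units.inv_mul, one_smul]⟩ }
  have := Fintype.ofFinite S
  have e : ∀ x, (∑ k : S, (f ⬝ᵥ k.1 • v)⁻¹ • f ᵥ* k.1.1) ⬝ᵥ x =
      ∑ k : S, (f ⬝ᵥ k.1 • v)⁻¹ * f ⬝ᵥ k.1 • x := fun x => by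
    rw [sum_dotProduct]
    exact Finset.sum_congr rfl fun k _ => by
      rw [smul_dotProduct, ← dotProduct_mulVec, smul_eq_mul]; rfl
  refine ⟨∑ k : S, (f ⬝ᵥ k.1 • v)⁻¹ • f ᵥ* k.1.1, fun _ => ⟨?_, fun k h1 c h2 x => ?_⟩⟩
  · rw [e, Finset.sum_congr rfl fun k _ => inv_mul_cancel₀ (by
      obtain ⟨c, hc⟩ := k.2.2
      rw [hc, dotProduct_smul, hf, smul_eq_mul, mul_one]
      exact c.ne_zero)]
    simpa using card_ne hU (S := S) fun k hk => hk.1
  · rw [e, e, Finset.mul_sum]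
    refine Fintype.sum_equiv (Equiv.mulRight ⟨k, h1, c, h2⟩) _ _ fun y => ?_
    simp only [Equiv.coe_mulRight, Subgroup.coe_mul, mul_smul, h2]
    rw [smul_comm y.1 (c : F), dotProduct_smul, smul_eq_mul, mul_inv, ← mul_assoc, ← mul_assoc,
      mul_inv_cancel₀ c.ne_zero, one_mul]

end Pol

open Pol in
theorem R3.pol (h : R3 n F Ω) (hU : ∀ ω : Ω, ∀ u ∈ Un n F, u • ω = ω → u = 1)
    (hA : ∀ (ω : Ω) (a b : Fin n), a ≠ b → Al F ω a b ≠ ⊥) : False := by
  obtain ⟨ω⟩ := h.ne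
  have hn := h.n5
  choose f hf using exists_f hU ω
  refine baer (by omega) f (fun x hx => (hf x hx).1) fun x hx y hy e => ?_
  let a : Fin n := ⟨0, by omega⟩
  let b : Fin n := ⟨1, by omega⟩
  have hab : a ≠ b := by simp [a, b]
  obtain ⟨g, c, d, e1, e2⟩ := pair (y := y) (x' := Pi.single a 1) (y' := Pi.single b 1) hx
    (by simp) (fun c e' => by
      rw [e', dotProduct_smul, smul_eq_mul] at e
      exact hy (by simp [e', (mul_eq_zero.1 e).resolve_right (hf x hx).1]))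
    fun c e' => by simpa [hab.symm] using congrFun e' b
  obtain ⟨⟨_, _, ⟨u, hu, rfl⟩, rfl⟩, h1⟩ :=
    (Subgroup.ne_bot_iff_exists_ne_one).1 (hA (g • ω) a b hab)
  have hc : c ≠ 0 := fun e' => hx ((smul_eq_zero_iff_eq g).1 (by rw [e1, e', zero_smul]))
  have hk : (g⁻¹ * u.1 * g) • ω = ω := by
    rw [mul_smul, mul_smul, show u.1 • g • ω = g • ω from hu, inv_smul_smul]
  have e3 : (g⁻¹ * u.1 * g) • x = (dv n F u a : F) • x := by
    rw [mul_smul, mul_smul, inv_smul_eq_iff, smul_comm g, e1, smul_comm u.1 c, smul_comm _ c,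
      smul_vec, mulVec_single_one]
    congr 1
    ext i
    by_cases e' : i = a
    · simp [e', dv_val]
    · simpa [e'] using mem_Bo.1 u.2 i a (lt_of_le_of_ne (Nat.zero_le _) (Ne.symm e'))
  have e4 : (g⁻¹ * u.1 * g) • y = (dv n F u b : F) • y + (d * u.1.1 a b / c) • x := by
    rw [mul_smul, mul_smul, inv_smul_eq_iff, smul_add, smul_comm g, smul_comm g, e1, e2,
      smul_comm u.1 d, smul_smul _ c, div_mul_cancel₀ _ hc, smul_comm _ d, mul_smul, ← smul_add,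
      smul_vec, mulVec_single_one]
    congr 1
    ext i
    by_cases e' : i = a
    · simp [e', hab]
    by_cases e'' : i = b
    · simp [e'', dv_val, hab.symm]
    · simpa [e', e''] using mem_Bo.1 u.2 i b (Fin.lt_def.2 (by
        simp only [Fin.ext_iff, a, b] at e' e'' ⊢; omega))
  have e5 := (hf x hx).2 _ hk _ e3 y
  rw [e4, dotProduct_add, dotProduct_smul, dotProduct_smul, e, smul_zero, zero_add, mul_zero,
    smul_eq_mul] at e5
  rw [(mul_eq_zero.1 e5).resolve_right (hf x hx).1, zero_smul, add_zero] at e4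
  have e6 := (hf y hy).2 _ hk _ e4 x
  rw [e3, dotProduct_smul, smul_eq_mul] at e6
  exact (mul_eq_mul_right_iff.1 e6).resolve_left fun e =>
    h1 (Subtype.ext (div_eq_one.2 (Units.ext e)))

end CF.Rk
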