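import Cfsg.Agent.Rk.FAa
import Cfsg.Agent.Rk.E1
import Cfsg.Agent.Rk.Pol

/-! Rank 3 actions of `SL_n(q)`: transitive Borel subgroup, some root not onto. -/

set_option autoImplicit false
set_option linter.unusedSectionVars false
open Matrix MulAction Cfsg

namespace CF.Rk

variable {n : ℕ} {F : Type*} [Field F] [Fintype F] [DecidableEq F]
  {Ω : Type*} [MulAction (GG n F) Ω]

open FA in
theorem FA.ent0 (h : R3 n F Ω) (hc : CA n F Ω) (hf : ¬ Full n F Ω) (ω : Ω) {a : ℕ} (ha : a + 2 ≤ n) {u : GG n F}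
    (hu : u ∈ Us n F ω) : u.1 (ix ha 0) (ix ha 1) = 0 := by_contra fun e => by
  obtain ⟨p2, sq⟩ := h.e2b hc hf
  have n5 := h.n5
  have t0 : (2 : F) ≠ 0 := Ring.two_ne_zero p2
  have hab : (ix ha 1).1 = (ix ha 0).1 + 1 := rfl
  have sc : ∀ x : F, ∃ v ∈ Us n F ω, v.1 (ix ha 0) (ix ha 1) = x * x * u.1 (ix ha 0) (ix ha 1) := fun x => by
    rcases eq_or_ne x 0 with rfl | x0
    · exact ⟨1, one_mem _, by simp [(ix_inj ha).eq_iff]⟩
    obtain ⟨_, ⟨g, f, rfl⟩, d⟩ := (sq ω _ _ ((ix_inj ha).ne zero_ne_one) _).2 ⟨Units.mk0 x x0, rfl⟩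
    refine ⟨_, (show g.1 • ω = ω from f) ▸ conj_Us g.2 hu, mul_right_cancel₀ (diag_ne g.2 (ix ha 1)) ?_⟩
    have : g.1.1 (ix ha 0) (ix ha 0) / g.1.1 (ix ha 1) (ix ha 1) = x * x := by simpa [dv_val] using congrArg Units.val d
    rw [adj_conj hab g.2 hu.1, ← this]
    field_simp [diag_ne g.2 (ix ha 1)]
  have top : Top F ω (ix ha 0) (ix ha 1) := fun t => by
    obtain ⟨v, hv, d⟩ := sc ((t / u.1 (ix ha 0) (ix ha 1) + 1) / 2)
    obtain ⟨w, hw, f⟩ := sc ((t / u.1 (ix ha 0) (ix ha 1) - 1) / 2)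
    have := adj_mul hab (Un_le (mul_mem hv (inv_mem hw)).1) (Un_le hw.1)
    rw [inv_mul_cancel_right, (mem_Un.1 (mul_mem hv (inv_mem hw)).1).2, (mem_Un.1 hw.1).2] at this
    exact ⟨_, (mul_mem hv (inv_mem hw)).1, (mul_mem hv (inv_mem hw)).2, by grind⟩
  let s := Equiv.swap (ix ha 0) (ix ha 1)
  have hw : wd F s ∈ PJ n F {a} := wd_mem_PJ.2 ((swap_mem_YJ hab).2 rfl)
  let D : GG n F → F → F → Prop := fun g x y => g ∈ PJ n F {a} ∧ g • ω = ω ∧ (∀ i, g.1 i i = 1) ∧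
    g.1 (ix ha 0) (ix ha 1) = x ∧ g.1 (ix ha 1) (ix ha 0) = y
  have up : ∀ x, ∃ g, D g x 0 := fun x => (top x).imp fun g ⟨a1, a2, a3⟩ =>
    ⟨Bo_le _ (Un_le a1), a2, (mem_Un.1 a1).2, a3, mem_Bo.1 (Un_le a1) _ _ (by simp [Fin.lt_def])⟩
  have lo : ∀ y, ∃ g, D g 0 y := fun y => by
    obtain ⟨b, hb, d⟩ := hc ω ((wd F s)⁻¹ • ω)
    obtain ⟨g, a1, a2, a3⟩ := (d ▸ top.smul hab hb) ((sg F s (ix ha 0))⁻¹.1 * y * sg F s (ix ha 1))
    refine ⟨wd F s * g * (wd F s)⁻¹, mul_mem (mul_mem hw (Bo_le _ (Un_le a1))) (inv_mem hw),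
      by rw [mul_smul, mul_smul, a2, smul_inv_smul], fun i => ?_, ?_, ?_⟩
    · obtain ⟨i, rfl⟩ := s.surjective i
      simp [wd_conj, (mem_Un.1 a1).2]
    · simpa [s, mem_Bo.1 (Un_le a1) (ix ha 1) (ix ha 0) (by simp [Fin.lt_def])] using wd_conj s g (ix ha 1) (ix ha 0)
    · simpa [s, a3, mul_assoc] using wd_conj s g (ix ha 0) (ix ha 1)
  obtain ⟨c, nc⟩ := FiniteField.exists_nonsquare p2
  have c0 : c ≠ 0 := by rintro rfl; simp at nc
  obtain ⟨x, x1, x2, x3, x4, x5⟩ := lo 1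
  obtain ⟨y, y1, y2, y3, y4, y5⟩ := up (c - 1)
  obtain ⟨z, z1, z2, z3, z4, z5⟩ := lo (-c⁻¹)
  obtain ⟨i, i0, i1, -⟩ := E0.out4 n5 (ix ha 0) (ix ha 1) (ix ha 0) (ix ha 0)
  obtain ⟨r, r1, r2⟩ := al (ω := ω) (toB ha (mul_mem (mul_mem x1 y1) z1) (by
    simp only [ent ha (mul_mem x1 y1) z1, ent ha x1 y1, *]; grind)) (by rw [mul_smul, mul_smul, z2, y2, x2]) (ix ha 1) i
  have i0 : i.1 ≠ a := fun e => i0 (Fin.ext e)
  have i2 : i.1 ≠ a + 1 := fun e => i1 (Fin.ext e)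
  rw [dia (mul_mem x1 y1) z1 i0 i2, dia x1 y1 i0 i2] at r2
  simp only [ent ha (mul_mem x1 y1) z1, ent ha x1 y1, *] at r2
  obtain ⟨t, rfl⟩ := (sq ω _ _ i1.symm r).1 r1
  exact nc ⟨t, by rw [Units.val_mul] at r2; grind⟩

open FA in
theorem R3.fa (h : R3 n F Ω) (hc : CA n F Ω) (hf : ¬ Full n F Ω) : False := by
  obtain ⟨p2, sq⟩ := h.e2b hc hf
  have n5 := h.n5
  have t0 : (2 : F) ≠ 0 := Ring.two_ne_zero p2
  have hU := h.us_bot hc fun ω a b hab u hu => by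
    have ha : a.1 + 2 ≤ n := by omega
    obtain rfl : b = ix ha 1 := Fin.ext hab
    exact ent0 h hc hf ω ha hu
  · by_cases c : ∀ x : F, x = 0 ∨ x * x = 1
    swap
    · push Not at c
      obtain ⟨x, x0, x1⟩ := c
      refine h.pol hU fun ω a b hab e => x1 ?_
      exact congrArg Units.val (Subgroup.mem_bot.1 (e ▸ (sq ω a b hab _).2 ⟨Units.mk0 x x0, rfl⟩))
    have cd : ∀ (ω : Ω) g, g ∈ Bo n F → g • ω = ω → ∀ i j, g.1 i i = g.1 j j := fun ω g hg e i j => by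
      rcases eq_or_ne i j with rfl | d
      · rfl
      obtain ⟨r, a, b⟩ := al hg e i j
      obtain ⟨s, rfl⟩ := (sq ω i j d r).1 a
      rw [← b, Units.val_mul, (c s).resolve_left s.ne_zero, one_mul]
    obtain ⟨ω⟩ := h.ne
    have h0 : 0 + 2 ≤ n := by omega
    have hw : wd F (Equiv.swap (ix h0 0) (ix h0 1)) ∈ PJ n F {0} := wd_mem_PJ.2 ((swap_mem_YJ rfl).2 rfl)
    obtain ⟨b, hb, e⟩ := hc ω ((wd F (Equiv.swap (ix h0 0) (ix h0 1)))⁻¹ • ω)
    have γ : (wd F (Equiv.swap (ix h0 0) (ix h0 1)) * b).1 (ix h0 1) (ix h0 0) ≠ 0 := fun d => by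
      have := mem_Bo.1 ((mul_mem_cancel_right hb).1 (toB h0 (mul_mem hw (Bo_le _ hb)) d)) (ix h0 1) (ix h0 0) (by simp [Fin.lt_def])
      simp [wd_apply] at this
    rw [eq_inv_smul_iff, ← mul_smul] at e
    have hk := mul_mem hw (Bo_le _ hb)
    generalize wd F (Equiv.swap (ix h0 0) (ix h0 1)) * b = k at *
    have ev : ∀ l : F, l * l + k.1 (ix h0 0) (ix h0 0) * k.1 (ix h0 1) (ix h0 1) ≠
        l * (k.1 (ix h0 0) (ix h0 0) + k.1 (ix h0 1) (ix h0 1)) + k.1 (ix h0 0) (ix h0 1) * k.1 (ix h0 1) (ix h0 0) := fun l d => by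
      obtain ⟨g, hg, f⟩ := exists_blk h0 (by omega) (J := {0}) (fun m _ _ => by simp; omega) (GeneralLinearGroup.mkOfDetNeZero
        !![(l - k.1 (ix h0 1) (ix h0 1)) / k.1 (ix h0 1) (ix h0 0), 1; 1, 0] (by simp [det_fin_two]))
      have f : ∀ i j, g.1.1 (ix h0 i) (ix h0 j) = _ := fun i j => congrArg (·.1 i j) f
      have hy := mul_mem (mul_mem (inv_mem hg) hk) hg
      have fy : (g.1⁻¹ * k * g) • g.1⁻¹ • ω = g.1⁻¹ • ω := by rw [mul_smul, smul_inv_smul, mul_smul, e]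
      have q : ∀ i j, _ = _ := fun i j => (ent h0 hg hy i j).symm.trans
        ((congrArg (·.1 (ix h0 i) (ix h0 j)) (by group : g.1 * (g.1⁻¹ * k * g) = k * g)).trans (ent h0 hk hg i j))
      generalize g.1⁻¹ * k * g = y at *
      have q1 := q 0 0
      have q2 := q 1 0
      have q3 := q 1 1
      simp [f] at q1 q2 q3
      have yB := toB h0 hy (by grind)
      have y2 := hU _ (y * y) (mem_Un.2 ⟨mul_mem yB yB, fun i => by
        rw [mul_diag yB yB, (c _).resolve_left (diag_ne yB i)]⟩) (by rw [mul_smul, fy, fy])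
      have := adj_mul (a := ix h0 0) (b := ix h0 1) rfl yB yB
      rw [y2, val_one, one_apply_ne ((ix_inj h0).ne zero_ne_one), cd _ y yB fy (ix h0 1) (ix h0 0)] at this
      have := diag_ne yB (ix h0 0)
      grind
    have d2 : ∀ g ∈ PJ n F {0}, (g * g).1 ⟨2, by omega⟩ ⟨2, by omega⟩ = 1 := fun g hg => by
      refine (dia hg hg (by simp) (by simp)).trans ((c _).resolve_left fun d => ?_)
      have := dia hg (inv_mem hg) (i := ⟨2, by omega⟩) (by simp) (by simp)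
      simp [d] at this
    have dd : ∀ g ∈ PJ n F {0}, g • ω = ω → (g * g).1 (ix h0 1) (ix h0 0) = 0 → (g * g).1 (ix h0 0) (ix h0 0) = 1 :=
      fun g hg e d => (cd ω _ (toB h0 (mul_mem hg hg) d) (by rw [mul_smul, e, e]) _ _).trans (d2 g hg)
    have k2 := dd k hk e
    have k4 := dd _ (mul_mem hk hk) (by rw [mul_smul, e, e])
    simp only [ent h0 (mul_mem hk hk) (mul_mem hk hk), ent h0 hk hk] at k2 k4
    exact alg c t0 ev k2 k4

end CF.Rk
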