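import Cfsg.Agent.Rk.E0
import Cfsg.Agent.Rk.QY

/-! Rank 3 actions of `SL_n(q)`: transitive Borel subgroup, some root not onto. -/

set_option autoImplicit false
set_option linter.unusedSectionVars false
open Matrix MulAction Cfsg

namespace CF.Rk

variable {n : ℕ} {F : Type*} [Field F] [Fintype F] [DecidableEq F]
  {Ω : Type*} [MulAction (GG n F) Ω]

theorem R3.us_bot (h : R3 n F Ω) (hc : CA n F Ω)
    (hn : ∀ (ω : Ω) (a b : Fin n), b.1 = a.1 + 1 → ∀ u ∈ Us n F ω, u.1 a b = 0) :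
    ∀ ω : Ω, ∀ u ∈ Un n F, u • ω = ω → u = 1 := fun ω u hu e => by
  have n5 := h.n5
  let P : GG n F → Prop := fun m => m • ω = ω ∧ ∀ u ∈ Us n F ω, m * u * m⁻¹ ∈ Us n F ω
  have Pm : ∀ {x y}, P x → P y → P (x * y) := fun a b => ⟨by rw [mul_smul, b.1, a.1], fun u hu => by
    simpa only [_root_.mul_inv_rev, mul_assoc] using a.2 _ (b.2 u hu)⟩
  have k : ∀ g : GG n F, ∃ m, P m ∧ m⁻¹ * g ∈ Bo n F := fun g => by
    have : g ∈ PJ n F Set.univ := PJ_univ.ge trivial
    rw [PJ_eq_closure] at this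
    have st : ∀ x y, (∃ m, P m ∧ m⁻¹ * x ∈ Bo n F) → (y ∈ Bo n F ∨ ∃ a ∈ Set.univ, a + 1 < n ∧ y ∈ PJ n F {a}) →
        ∃ m, P m ∧ m⁻¹ * (x * y) ∈ Bo n F := by
      rintro x y ⟨m, a, b⟩ (c | ⟨i, -, hi, c⟩)
      · exact ⟨m, a, mul_assoc m⁻¹ x y ▸ mul_mem b c⟩
      obtain ⟨v, hv, d⟩ := hc ω ((m⁻¹ * x * y)⁻¹ • ω)
      have f : (m⁻¹ * x * y * v) • ω = ω := by rw [mul_smul, d, smul_inv_smul]
      refine ⟨m * (m⁻¹ * x * y * v), Pm a ⟨f, fun u hu => ⟨(conj_Q1 (a := ⟨i, by omega⟩) (b := ⟨i + 1, hi⟩) rfl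
        (mul_mem (mul_mem (Bo_le _ b) c) (Bo_le _ hv)) hu.1 (hn ω _ _ rfl u hu)).1,
        (stabilizer _ ω).mul_mem (mul_mem f hu.2) (inv_mem f)⟩⟩, ?_⟩
      convert inv_mem hv using 1
      group
    induction this using Subgroup.closure_induction_right with
    | one => exact ⟨1, ⟨one_smul _ _, by simp⟩, by simp⟩
    | mul_right x _ y hy ih => exact st x y ih hy
    | mul_inv_cancel x _ y hy ih => exact st x _ ih (hy.imp inv_mem fun ⟨a, b, c, d⟩ => ⟨a, b, c, inv_mem d⟩)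
  let W : Submodule F (Fin n → F) :=
    { carrier := {v | ∀ u ∈ Us n F ω, u • v = v}
      add_mem' := fun a b u hu => by rw [smul_add, a u hu, b u hu]
      zero_mem' := fun _ _ => smul_zero _
      smul_mem' := fun c _ a u hu => by rw [smul_vec, mulVec_smul, ← smul_vec, a u hu] }
  rcases h.irr ω W (fun g hg v hv u hu => by
    obtain ⟨m, a, b⟩ := k g⁻¹
    have c : (m⁻¹ * g⁻¹) • ω = ω := by rw [mul_smul, inv_smul_eq_iff.2 hg.symm, inv_smul_eq_iff.2 a.1.symm]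
    have := hv _ (a.2 _ (c ▸ conj_Us b hu))
    rw [← smul_left_cancel_iff g⁻¹, inv_smul_smul, ← mul_smul, ← mul_smul]
    convert this using 2
    group) with c | c
  · have : Pi.single (⟨0, by omega⟩ : Fin n) (1 : F) ∈ W := fun u hu => funext fun i => by
      rw [smul_vec, mulVec_single_one, col_apply]
      rcases eq_or_ne i ⟨0, by omega⟩ with rfl | d
      · simp [(mem_Un.1 hu.1).2]
      · rw [mem_Bo.1 (Un_le hu.1) _ _ (Fin.lt_def.2 (Nat.pos_of_ne_zero fun e => d (Fin.ext e))), Pi.single_eq_of_ne d]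
    simp [c] at this
  · ext i j
    have := congrFun (c.ge (Submodule.mem_top (x := Pi.single j 1)) u ⟨hu, e⟩) i
    rw [smul_vec, mulVec_single_one, col_apply] at this
    simp [this, one_apply, Pi.single_apply]

namespace FA
omit [Fintype F] [DecidableEq F]
variable {a : ℕ} (ha : a + 2 ≤ n) {g k : GG n F}

theorem ent (hg : g ∈ PJ n F {a}) (hk : k ∈ PJ n F {a}) (i j : Fin 2) : (g * k).1 (ix ha i) (ix ha j) =
    g.1 (ix ha i) (ix ha 0) * k.1 (ix ha 0) (ix ha j) + g.1 (ix ha i) (ix ha 1) * k.1 (ix ha 1) (ix ha j) := by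
  rw [blk_mul ha (one_le_PI a hg) (one_le_PI a hk), Fin.sum_univ_two]

theorem dia (hg : g ∈ PJ n F {a}) (hk : k ∈ PJ n F {a}) {i : Fin n} (h0 : i.1 ≠ a) (h1 : i.1 ≠ a + 1) :
    (g * k).1 i i = g.1 i i * k.1 i i := by
  have l : PJ n F {a} ≤ PI n F i 1 := PJ_le_PI fun m hm => by rw [Set.mem_singleton_iff] at hm; omega
  have := blk_mul (show i.1 + 1 ≤ n from i.2) (l hg) (l hk) 0 0
  rwa [Fin.sum_univ_one] at this

theorem toB (hg : g ∈ PJ n F {a}) (e : g.1 (ix ha 1) (ix ha 0) = 0) : g ∈ Bo n F := mem_Bo.2 fun i j l => by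
  by_cases c : j.1 = a ∧ i.1 = a + 1
  · obtain rfl : i = ix ha 1 := Fin.ext c.2
    obtain rfl : j = ix ha 0 := Fin.ext c.1
    exact e
  · exact mem_PJ_one.1 hg i j l c

theorem al {ω : Ω} (hg : g ∈ Bo n F) (e : g • ω = ω) (i j : Fin n) :
    ∃ c ∈ Al F ω i j, c.1 * g.1 j j = g.1 i i :=
  ⟨_, ⟨dv n F ⟨g, hg⟩, ⟨⟨g, hg⟩, e, rfl⟩, rfl⟩, by simpa [dv_val] using div_mul_cancel₀ _ (diag_ne hg j)⟩

theorem alg {a b c d : F} (h : ∀ x : F, x = 0 ∨ x * x = 1) (t : (2 : F) ≠ 0) (e : ∀ l, l * l + a * d ≠ l * (a + d) + b * c)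
    (k2 : c * a + d * c = 0 → a * a + b * c = 1)
    (k4 : (c * a + d * c) * (a * a + b * c) + (c * b + d * d) * (c * a + d * c) = 0 →
      (a * a + b * c) * (a * a + b * c) + (a * b + b * d) * (c * a + d * c) = 1) : False := by
  have c1 : (3 : F) = 0 := by linear_combination (h 2).resolve_left t
  have c3 := mul_self_eq_one_iff.1 ((h (a * d - b * c)).resolve_left fun k => e 0 (by linear_combination k))
  rcases (h (a + d)).imp_right mul_self_eq_one_iff.1 with c2 | c2 | c2 <;> rcases c3 with c3 | c3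
  · exact t (by linear_combination a * c2 - c3 - k2 (by linear_combination c * c2))
  · exact e 1 (by linear_combination c3 - c2)
  · exact e (-1) (by linear_combination c3 + c2 + c1)
  · exact t (by have := k4 (by grind); grind)
  · exact e 1 (by linear_combination c3 - c2 + c1)
  · exact t (by have := k4 (by grind); grind)

end FA

end CF.Rk
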