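import Cfsg.Agent.Rk.C

/-!
No subgroup of `SL_n(2)`, `n ≥ 4`, without swaps of vectors is flag transitive.
-/

set_option autoImplicit false
open Matrix MulAction Cfsg

namespace CF.Rk

namespace TL

variable {n : ℕ}

/-- The first four basis vectors. -/
def ev (h : 0 + 4 ≤ n) (i : Fin 4) : Fin n → ZMod 2 := Pi.single (ix h i) 1

/-- The span of the first four basis vectors. -/
def io (h : 0 + 4 ≤ n) (v : Fin 4 → ZMod 2) : Fin n → ZMod 2 := ∑ i, v i • ev h i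

theorem io_add (h : 0 + 4 ≤ n) (v w : Fin 4 → ZMod 2) : io h (v + w) = io h v + io h w := by
  simp [io, add_smul, Finset.sum_add_distrib]

theorem io_ix (h : 0 + 4 ≤ n) (v : Fin 4 → ZMod 2) (i : Fin 4) : io h v (ix h i) = v i := by
  simp [io, ev, Pi.single_apply, (ix_inj h).eq_iff]

theorem io_out (h : 0 + 4 ≤ n) (v : Fin 4 → ZMod 2) (j : Fin n) (hj : 4 ≤ j.1) : io h v j = 0 := by
  have : ∀ i, j ≠ ix h i := fun i e => by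
    have := i.2
    rw [e, ix_val] at hj
    omega
  simp [io, ev, Pi.single_apply, this]

theorem io_inj (h : 0 + 4 ≤ n) {v w : Fin 4 → ZMod 2} (e : io h v = io h w) : v = w :=
  funext fun i => by rw [← io_ix h v, e, io_ix]

theorem smul_io (h : 0 + 4 ≤ n) (g : GG n (ZMod 2)) (v : Fin 4 → ZMod 2) (j : Fin n) :
    (g • io h v) j = ∑ i, v i * g.1 j (ix h i) := by
  change (g.1 *ᵥ io h v) j = _
  simp [io, ev, mulVec_sum, mulVec_smul]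

theorem eq_io (h : 0 + 4 ≤ n) {x : Fin n → ZMod 2} {v : Fin 4 → ZMod 2}
    (h1 : ∀ i, x (ix h i) = v i) (h2 : ∀ j : Fin n, 4 ≤ j.1 → x j = 0) : x = io h v := by
  funext j
  by_cases e : 4 ≤ j.1
  · rw [h2 j e, io_out h v j e]
  · obtain ⟨i, rfl⟩ : ∃ i, j = ix h i := ⟨⟨j.1, by omega⟩, Fin.ext (by simp)⟩
    rw [h1, io_ix]

theorem exists_io (h : 0 + 4 ≤ n) (M N : Matrix (Fin 4) (Fin 4) (ZMod 2)) (e : M * N = 1) :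
    ∃ g : GG n (ZMod 2), ∀ v, g • io h v = io h (M *ᵥ v) := by
  have h0 : ∀ x y : ZMod 2, x * y = 1 → x = 1 := by decide
  obtain ⟨g, h1, h2⟩ := exists_emb h M (h0 _ N.det (by rw [← det_mul, e, det_one]))
  refine ⟨g, fun v => eq_io h (fun i => ?_) fun j hj => ?_⟩
  · simp [smul_io, h1, mulVec, dotProduct, mul_comm]
  · rw [smul_io]
    refine Finset.sum_eq_zero fun i _ => ?_
    have := i.2
    rw [h2 _ _ (by omega), if_neg, mul_zero]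
    intro e
    rw [e, ix_val] at hj
    omega

theorem bo_io (h : 0 + 4 ≤ n) {b : GG n (ZMod 2)} (hb : b ∈ Bo n (ZMod 2)) :
    ∃ c d e f k l : ZMod 2, ∀ v, b • io h v =
      io h (!![1, c, d, f; 0, 1, e, k; 0, 0, 1, l; 0, 0, 0, 1] *ᵥ v) := by
  have h0 : ∀ x : ZMod 2, x ≠ 0 → x = 1 := by decide
  have h1 : ∀ i, b.1 i i = 1 := fun i => h0 _ (diag_ne hb i)
  have h2 : ∀ i j : Fin 4, j < i → b.1 (ix h i) (ix h j) = 0 := fun i j e =>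
    mem_Bo.1 hb _ _ (by rw [Fin.lt_def] at e ⊢; simpa using e)
  refine ⟨b.1 (ix h 0) (ix h 1), b.1 (ix h 0) (ix h 2), b.1 (ix h 1) (ix h 2), b.1 (ix h 0) (ix h 3),
    b.1 (ix h 1) (ix h 3), b.1 (ix h 2) (ix h 3), fun v => eq_io h (fun i => ?_) fun j hj => ?_⟩
  · rw [smul_io]
    fin_cases i <;> simp [Fin.sum_univ_four, h1, h2, mulVec, dotProduct, mul_comm]
  · rw [smul_io]
    refine Finset.sum_eq_zero fun i _ => ?_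
    have := i.2
    rw [mem_Bo.1 hb _ _ (by rw [Fin.lt_def, ix_val]; omega), mul_zero]

/-- Independent triples. -/
def Ind (z x y : Fin 4 → ZMod 2) : Prop := ∃ M N : Matrix (Fin 4) (Fin 4) (ZMod 2), M * N = 1 ∧
  M *ᵥ ![1, 0, 0, 0] = z ∧ M *ᵥ ![0, 1, 0, 0] = x ∧ M *ᵥ ![0, 0, 1, 0] = y

theorem mul_ok {M N P P' : Matrix (Fin 4) (Fin 4) (ZMod 2)} (e : M * N = 1) (e' : P * P' = 1) :
    M * P * (P' * N) = 1 := by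
  rw [mul_assoc, ← mul_assoc P, e', one_mul, e]

theorem Ind.s1 {z x y : Fin 4 → ZMod 2} (h : Ind z x y) : Ind x z y := by
  obtain ⟨M, N, e, rfl, rfl, rfl⟩ := h
  refine ⟨M * !![0, 1, 0, 0; 1, 0, 0, 0; 0, 0, 1, 0; 0, 0, 0, 1], _,
    mul_ok e (P' := !![0, 1, 0, 0; 1, 0, 0, 0; 0, 0, 1, 0; 0, 0, 0, 1]) (by decide), ?_, ?_, ?_⟩ <;>
  rw [← mulVec_mulVec] <;> congr 1 <;> decide

theorem Ind.s2 {z x y : Fin 4 → ZMod 2} (h : Ind z x y) : Ind z y x := by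
  obtain ⟨M, N, e, rfl, rfl, rfl⟩ := h
  refine ⟨M * !![1, 0, 0, 0; 0, 0, 1, 0; 0, 1, 0, 0; 0, 0, 0, 1], _,
    mul_ok e (P' := !![1, 0, 0, 0; 0, 0, 1, 0; 0, 1, 0, 0; 0, 0, 0, 1]) (by decide), ?_, ?_, ?_⟩ <;>
  rw [← mulVec_mulVec] <;> congr 1 <;> decide

theorem Ind.s3 {z x y : Fin 4 → ZMod 2} (h : Ind z x y) : Ind z (x + z) y := by
  obtain ⟨M, N, e, rfl, rfl, rfl⟩ := h
  rw [← mulVec_add]
  refine ⟨M * !![1, 1, 0, 0; 0, 1, 0, 0; 0, 0, 1, 0; 0, 0, 0, 1], _,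
    mul_ok e (P' := !![1, 1, 0, 0; 0, 1, 0, 0; 0, 0, 1, 0; 0, 0, 0, 1]) (by decide), ?_, ?_, ?_⟩ <;>
  rw [← mulVec_mulVec] <;> congr 1 <;> decide

theorem Ind.s4 {z x y : Fin 4 → ZMod 2} (h : Ind z x y) : Ind z (x + y) y :=
  h.s2.s1.s2.s3.s2.s1.s2

theorem Ind.ne {z x y : Fin 4 → ZMod 2} (h : Ind z x y) : z ≠ x := by
  obtain ⟨M, N, e, rfl, rfl, rfl⟩ := h
  intro e1
  have := congr_arg (N *ᵥ ·) e1
  simp only [mulVec_mulVec, mul_eq_one_comm.1 e, one_mulVec] at this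
  revert this
  decide

theorem v0 (c d e f k l : ZMod 2) : !![1, c, d, f; 0, 1, e, k; 0, 0, 1, l; 0, 0, 0, 1] *ᵥ
    ![1, 0, 0, 0] = ![1, 0, 0, 0] := by
  ext i; fin_cases i <;> simp [mulVec, dotProduct, Fin.sum_univ_four]

theorem v1 (c d e f k l : ZMod 2) : !![1, c, d, f; 0, 1, e, k; 0, 0, 1, l; 0, 0, 0, 1] *ᵥ
    ![0, 1, 0, 0] = ![c, 1, 0, 0] := by
  ext i; fin_cases i <;> simp [mulVec, dotProduct, Fin.sum_univ_four]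

theorem v2 (c d e f k l : ZMod 2) : !![1, c, d, f; 0, 1, e, k; 0, 0, 1, l; 0, 0, 0, 1] *ᵥ
    ![0, 0, 1, 0] = ![d, e, 1, 0] := by
  ext i; fin_cases i <;> simp [mulVec, dotProduct, Fin.sum_univ_four]

theorem v3 (c d e f k l : ZMod 2) : !![1, c, d, f; 0, 1, e, k; 0, 0, 1, l; 0, 0, 0, 1] *ᵥ
    (![0, 1, 0, 0] + ![0, 0, 1, 0]) = ![c + d, 1 + e, 1, 0] := by
  ext i; fin_cases i <;> simp [mulVec, dotProduct, Fin.sum_univ_four]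

theorem v4 (d e f k l : ZMod 2) : !![1, 1, d, f; 0, 1, e, k; 0, 0, 1, l; 0, 0, 0, 1] *ᵥ
    (![0, 1, 0, 0] + ![1, 0, 0, 0]) = ![0, 1, 0, 0] := by
  ext i; fin_cases i <;> simp [mulVec, dotProduct, Fin.sum_univ_four, CharTwo.add_self_eq_zero]

theorem h2 : ∀ x : ZMod 2, x = 0 ∨ x = 1 := by decide

theorem i0 : Ind ![1, 0, 0, 0] ![0, 1, 0, 0] ![0, 0, 1, 0] :=
  ⟨1, 1, one_mul _, one_mulVec _, one_mulVec _, one_mulVec _⟩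

theorem i1 : Ind ![1, 0, 0, 0] ![0, 0, 1, 0] ![0, 0, 0, 1] :=
  ⟨!![1, 0, 0, 0; 0, 0, 0, 1; 0, 1, 0, 0; 0, 0, 1, 0],
    !![1, 0, 0, 0; 0, 0, 1, 0; 0, 0, 0, 1; 0, 1, 0, 0], by decide, by decide, by decide, by decide⟩

theorem i2 : Ind ![0, 1, 0, 0] ![0, 0, 1, 0] ![0, 0, 0, 1] :=
  ⟨!![0, 0, 0, 1; 1, 0, 0, 0; 0, 1, 0, 0; 0, 0, 1, 0],
    !![0, 1, 0, 0; 0, 0, 1, 0; 0, 0, 0, 1; 1, 0, 0, 0], by decide, by decide, by decide, by decide⟩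

theorem i3 : Ind (![1, 0, 0, 0] + ![0, 1, 0, 0]) ![0, 0, 1, 0] ![0, 0, 0, 1] :=
  ⟨!![1, 0, 0, 1; 1, 0, 0, 0; 0, 1, 0, 0; 0, 0, 1, 0],
    !![0, 1, 0, 0; 0, 0, 1, 0; 0, 0, 0, 1; 1, 1, 0, 0], by decide, by decide, by decide, by decide⟩

theorem j2 : Ind ![0, 0, 0, 1] ![1, 0, 0, 0] ![0, 1, 0, 0] :=
  ⟨!![0, 1, 0, 0; 0, 0, 1, 0; 0, 0, 0, 1; 1, 0, 0, 0],
    !![0, 0, 0, 1; 1, 0, 0, 0; 0, 1, 0, 0; 0, 0, 1, 0], by decide, by decide, by decide, by decide⟩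

theorem j3 : Ind (![0, 0, 1, 0] + ![0, 0, 0, 1]) ![1, 0, 0, 0] ![0, 1, 0, 0] :=
  ⟨!![0, 1, 0, 0; 0, 0, 1, 0; 1, 0, 0, 1; 1, 0, 0, 0],
    !![0, 0, 0, 1; 1, 0, 0, 0; 0, 1, 0, 0; 0, 0, 1, 1], by decide, by decide, by decide, by decide⟩

theorem par (p p1 p2 p3 p4 p5 p6 p7 p8 p9 : Prop) (a1 : (p1 ↔ (p2 ↔ p3)) ↔ p)
    (a2 : (p4 ↔ (p5 ↔ p6)) ↔ p) (a3 : (p7 ↔ (p8 ↔ p9)) ↔ p) (b1 : (¬p1 ↔ (¬p4 ↔ ¬p7)) ↔ p)
    (b2 : (¬p2 ↔ (¬p5 ↔ ¬p8)) ↔ p) (b3 : (¬p3 ↔ (¬p6 ↔ ¬p9)) ↔ p) : False := by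
  grind

theorem tri (p1 p2 p3 p4 p5 p6 : Prop) (a1 : p1 ∨ p2) (a2 : p3 ∨ p4) (a3 : p5 ∨ p6)
    (b1 : p1 → ¬p3) (b2 : p2 → ¬p5) (b3 : p4 → ¬p6) : (p2 ↔ ¬p1) ∧ (p3 ↔ ¬p1) := by
  grind

section
variable {φ : (Fin 4 → ZMod 2) → (Fin 4 → ZMod 2) → Prop}
  (hA : ∀ z x, φ z x → φ x z → z = x) (hE : φ ![1, 0, 0, 0] ![0, 1, 0, 0])
  (hB : ∀ M N : Matrix (Fin 4) (Fin 4) (ZMod 2), M * N = 1 → ∃ c d e f k l : ZMod 2, ∀ u v,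
    φ (M *ᵥ u) (M *ᵥ v) ↔ φ (!![1, c, d, f; 0, 1, e, k; 0, 0, 1, l; 0, 0, 0, 1] *ᵥ u)
      (!![1, c, d, f; 0, 1, e, k; 0, 0, 1, l; 0, 0, 0, 1] *ᵥ v))
include hE hB

theorem k1 {z x y : Fin 4 → ZMod 2} (h : Ind z x y) : φ z x ∨ φ z (x + z) := by
  obtain ⟨M, N, e, rfl, rfl, rfl⟩ := h
  obtain ⟨c, d, e, f, k, l, h⟩ := hB M N e
  rcases h2 c with rfl | rfl
  · left; rw [h, v0, v1]; exact hE
  · right; rw [← mulVec_add, h, v0, v4]; exact hE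

include hA

theorem k2 {z x y : Fin 4 → ZMod 2} (h : Ind z x y) :
    (φ z (x + z) ↔ ¬ φ z x) ∧ (φ x z ↔ ¬ φ z x) := by
  have a1 := k1 hE hB h
  have a2 := k1 hE hB h.s1
  have a3 := k1 hE hB h.s3.s1
  have e1 : z + (x + z) = x := by
    ext i
    simp only [Pi.add_apply]
    rw [add_comm (x i), ← add_assoc, CharTwo.add_self_eq_zero, zero_add]
  rw [e1] at a3
  rw [add_comm z x] at a2
  have b3 := fun p q => h.s1.s3.ne (hA _ _ p q)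
  rw [add_comm z x] at b3
  exact tri _ _ _ _ _ _ a1 a2 a3 (fun p q => h.ne (hA _ _ p q)) (fun p q => h.s3.ne (hA _ _ p q)) b3

theorem k3 {z x y : Fin 4 → ZMod 2} (h : Ind z x y) : (φ z x ↔ (φ z y ↔ φ z (x + y))) ↔
    (φ ![1, 0, 0, 0] ![0, 1, 0, 0] ↔ (φ ![1, 0, 0, 0] ![0, 0, 1, 0] ↔
      φ ![1, 0, 0, 0] ![0, 1, 1, 0])) := by
  obtain ⟨M, N, e, rfl, rfl, rfl⟩ := h
  obtain ⟨c, d, e, f, k, l, h⟩ := hB M N e
  rw [← mulVec_add, h, h, h, v0, v1, v2, v3]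
  have a1 := (k2 hA hE hB i0).1
  have a2 := (k2 hA hE hB i0.s2).1
  have a3 := (k2 hA hE hB i0.s4).1
  rw [show (![0, 1, 0, 0] + ![1, 0, 0, 0] : Fin 4 → ZMod 2) = ![1, 1, 0, 0] by decide] at a1
  rw [show (![0, 0, 1, 0] + ![1, 0, 0, 0] : Fin 4 → ZMod 2) = ![1, 0, 1, 0] by decide] at a2
  rw [show (![0, 1, 0, 0] + ![0, 0, 1, 0] : Fin 4 → ZMod 2) = ![0, 1, 1, 0] by decide,
    show (![0, 1, 1, 0] + ![1, 0, 0, 0] : Fin 4 → ZMod 2) = ![1, 1, 1, 0] by decide] at a3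
  rcases h2 c with rfl | rfl <;> rcases h2 d with rfl | rfl <;> rcases h2 e with rfl | rfl <;>
    simp only [add_zero, zero_add, CharTwo.add_self_eq_zero, a1, a2, a3] <;> grind

theorem fin : False := by
  have b1 := k3 hA hE hB i0.s2.s1
  have b2 := k3 hA hE hB j2
  have b3 := k3 hA hE hB j3
  rw [(k2 hA hE hB i1).2, (k2 hA hE hB i2).2, (k2 hA hE hB i3).2] at b1
  rw [(k2 hA hE hB i1.s2).2, (k2 hA hE hB i2.s2).2, (k2 hA hE hB i3.s2).2] at b2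
  rw [(k2 hA hE hB i1.s4).2, (k2 hA hE hB i2.s4).2, (k2 hA hE hB i3.s4).2] at b3
  exact par _ _ _ _ _ _ _ _ _ _ (k3 hA hE hB i1) (k3 hA hE hB i2) (k3 hA hE hB i3) b1 b2 b3

end

end TL

open TL in
theorem tl {n : ℕ} (hn : 4 ≤ n) (K : Subgroup (GG n (ZMod 2)))
    (ha : ∀ g ∈ K, ∀ x y : Fin n → ZMod 2, g • x = y → g • y = x → x = y)
    (hb : ∀ g : GG n (ZMod 2), ∃ k ∈ K, ∃ b ∈ Bo n (ZMod 2), g = k * b) : False := by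
  have h : 0 + 4 ≤ n := hn
  refine fin (φ := fun u v => ∃ k ∈ K, k • io h ![1, 0, 0, 0] = io h u ∧
    k • io h ![0, 1, 0, 0] = io h v) ?_ ⟨1, one_mem _, one_smul _ _, one_smul _ _⟩ ?_
  · rintro z x ⟨k, hk, a1, a2⟩ ⟨k', hk', b1, b2⟩
    refine io_inj h (ha _ (mul_mem hk' (inv_mem hk)) _ _ ?_ ?_)
    · rw [← a1, mul_smul, inv_smul_smul, b1]
    · rw [← a2, mul_smul, inv_smul_smul, b2]
  · intro M N e
    obtain ⟨g, hg⟩ := exists_io h M N e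
    obtain ⟨k, hk, b, hb, rfl⟩ := hb g
    obtain ⟨c, d, e, f, k', l, h1⟩ := bo_io h hb
    refine ⟨c, d, e, f, k', l, fun u v => ?_⟩
    rw [← hg, ← hg, ← h1, ← h1, mul_smul, mul_smul]
    refine ⟨fun ⟨x, hx, a1, a2⟩ => ⟨k⁻¹ * x, mul_mem (inv_mem hk) hx, ?_, ?_⟩,
      fun ⟨x, hx, a1, a2⟩ => ⟨k * x, mul_mem hk hx, ?_, ?_⟩⟩
    · rw [mul_smul, a1, inv_smul_smul]
    · rw [mul_smul, a2, inv_smul_smul]
    · rw [mul_smul, a1]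
    · rw [mul_smul, a2]

end CF.Rk
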