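import Cfsg.Agent.Rk.H2b
import Cfsg.Agent.Rk.TL
import Cfsg.Agent.Rk.Pol

/-!
Rank 3 actions of `SL_n(2)`: the Borel subgroup is not transitive.
-/

set_option autoImplicit false
open Matrix MulAction Cfsg

namespace CF.Rk

variable {n : ℕ}

theorem H2.us_bot {F : Type*} [Field F] {Ω : Type*} [MulAction (GG n F) Ω]
    (hn : ∀ (ω : Ω) (a b : Fin n), b.1 = a.1 + 1 → ∀ u ∈ Us n F ω, u.1 a b = 0) (ω : Ω)
    (u : GG n F) (hu : u ∈ Un n F) (e : u • ω = ω) : u = 1 := by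
  have k0 : ∀ (g u : GG n F) (ω : Ω), u • ω = ω → (g * u * g⁻¹) • g • ω = g • ω := fun g u ω e => by
    rw [smul_smul, inv_mul_cancel_right, mul_smul, e]
  have k1 : ∀ g : GG n F, g ∈ Bo n F ∨ (∃ a ∈ Set.univ, a + 1 < n ∧ g ∈ PJ n F {a}) →
      ∀ ω : Ω, ∀ u ∈ Us n F ω, g * u * g⁻¹ ∈ Un n F := by
    rintro g (hg | ⟨a, -, ha, hg⟩) ω u hu
    · exact conj_Un hg hu.1
    · exact (conj_Q1 (a := ⟨a, by omega⟩) (b := ⟨a + 1, ha⟩) rfl hg hu.1 (hn ω _ _ rfl u hu)).1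
  have key : ∀ g ∈ PJ n F Set.univ, ∀ ω : Ω, ∀ u ∈ Us n F ω, g * u * g⁻¹ ∈ Un n F := by
    intro g hg
    rw [PJ_eq_closure] at hg
    induction hg using Subgroup.closure_induction'' with
    | mem x hx => exact k1 x hx
    | inv_mem x hx =>
      exact k1 _ (hx.imp inv_mem fun ⟨a, a1, a2, a3⟩ => ⟨a, a1, a2, inv_mem a3⟩)
    | one => exact fun ω u hu => by simpa using hu.1
    | mul x y _ _ hx hy =>
      intro ω u hu
      have := hx _ _ (mem_Us.2 ⟨hy ω u hu, k0 y u ω hu.2⟩)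
      simpa only [_root_.mul_inv_rev, mul_assoc] using this
  ext i j
  rcases lt_trichotomy i j with h | h | h
  · rw [conj_wd_Bo.1 (Un_le (key (wd F (Equiv.swap i j)) (by rw [PJ_univ]; trivial) ω u ⟨hu, e⟩))
      i j (by simpa using h)]
    exact (one_apply_ne h.ne).symm
  · rw [h, (mem_Un.1 hu).2]; exact (one_apply_eq _).symm
  · rw [mem_Bo.1 (Un_le hu) _ _ h]; exact (one_apply_ne h.ne').symm

variable {X : Type*} [MulAction (GG n (ZMod 2)) X]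

open H2 in
theorem R3.h2 (h : R3 n (ZMod 2) X) (hc : CA n (ZMod 2) X) : False := by
  have h5 := h.n5
  by_cases hn : ∀ (ω : X) (a b : Fin n), b.1 = a.1 + 1 → ∀ u ∈ Us n (ZMod 2) ω, u.1 a b = 0
  · obtain ⟨ω⟩ := h.ne
    refine tl (n := n) (by omega) (stabilizer _ ω) (fun g hg x y a1 a2 => ?_) fun g => ?_
    · have h0 := orderOf_pos g
      have h1 := pow_orderOf_eq_one g
      rcases Nat.even_or_odd' (orderOf g) with ⟨m, e | e⟩
      · obtain ⟨k, hk⟩ := Pol.conj_un (x := g ^ m) (by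
          rw [ZMod.ringChar_zmod_n, ← pow_mul, mul_comm, ← e, h1])
        have h3 := us_bot hn (k⁻¹ • ω) _ hk (by
          rw [smul_smul, mul_inv_cancel_right, mul_smul, show g ^ m • ω = ω from pow_mem hg m])
        rw [mul_assoc, inv_mul_eq_one, eq_comm, mul_eq_right] at h3
        have := Nat.le_of_dvd (by omega) (orderOf_dvd_of_pow_eq_one h3)
        omega
      · have h3 : g ^ (2 * m) • x = x := by
          rw [pow_mul]
          exact pow_mem (show g ^ 2 ∈ stabilizer _ x by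
            rw [mem_stabilizer_iff, pow_two, mul_smul, a1, a2]) m
        rw [← a1, ← h3, smul_smul, ← pow_succ', ← e, h1, one_smul, h3]
    · obtain ⟨b, hb, e⟩ := hc ω (g⁻¹ • ω)
      exact ⟨g * b, by rw [mem_stabilizer_iff, mul_smul, e, smul_inv_smul], b⁻¹, inv_mem hb, by simp⟩
  push Not at hn
  obtain ⟨ω₀, a, b, hab, u, hu, e⟩ := hn
  let E : X → ℕ → Prop := fun ω m => ∀ a b : Fin n, a.1 = m → b.1 = m + 1 →
    ∃ u ∈ Us n (ZMod 2) ω, u.1 a b ≠ 0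
  have k1 : ∀ ω m, m + 2 < n → (E ω m ↔ E ω (m + 1)) := fun ω m hm => by
    have key : E ω m ∨ E ω (m + 1) → E ω m ∧ E ω (m + 1) := fun h1 => by
      obtain ⟨u, a1, a2, a3, a4, -⟩ := h.h2a hc (ω := ω) (a := ⟨m, by omega⟩) (b := ⟨m + 1, by omega⟩)
        (c := ⟨m + 2, hm⟩) rfl rfl (by
          rcases h1 with h1 | h1
          · obtain ⟨u, a1, a2⟩ := h1 ⟨m, by omega⟩ ⟨m + 1, by omega⟩ rfl rfl
            exact ⟨u, a1, Or.inl a2⟩
          · obtain ⟨u, a1, a2⟩ := h1 ⟨m + 1, by omega⟩ ⟨m + 2, hm⟩ rfl rfl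
            exact ⟨u, a1, Or.inr a2⟩) 1 1 0
      refine ⟨?_, ?_⟩ <;> rintro ⟨a, _⟩ ⟨b, _⟩ rfl rfl
      · exact ⟨u, ⟨a1, a2⟩, fun e => one_ne_zero (a3.symm.trans e)⟩
      · exact ⟨u, ⟨a1, a2⟩, fun e => one_ne_zero (a4.symm.trans e)⟩
    exact ⟨fun h1 => (key (Or.inl h1)).2, fun h1 => (key (Or.inr h1)).1⟩
  have k2 : ∀ ω m, m + 1 < n → (E ω 0 ↔ E ω m) := fun ω m => by
    induction m with
    | zero => exact fun _ => Iff.rfl
    | succ m ih => exact fun hm => (ih (by omega)).trans (k1 ω m hm)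
  refine h.h2b hc fun ω x y z hxy hyz => h.h2a hc hxy hyz ?_
  obtain ⟨g, hg, rfl⟩ := hc ω₀ ω
  have h1 : E (g • ω₀) a.1 := fun a' b' e1 e2 => by
    obtain rfl : a' = a := Fin.ext e1
    obtain rfl : b' = b := Fin.ext (by omega)
    exact ⟨_, conj_Us hg hu, by rwa [adj_two hab hg hu.1]⟩
  obtain ⟨v, hv, h3⟩ := (k2 _ x.1 (hxy ▸ y.2)).1 ((k2 _ a.1 (hab ▸ b.2)).2 h1) x y rfl hxy
  exact ⟨v, hv, Or.inl h3⟩

end CF.Rk
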