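import Cfsg.Agent.Rk.QY

/-!
Rank 3 actions of `SL_n(2)` with transitive Borel subgroup: planes.
-/

set_option autoImplicit false
open Matrix MulAction Cfsg

namespace CF.Rk

variable {n : ℕ}

namespace H2

theorem h2 : ∀ x : ZMod 2, x = 0 ∨ x = 1 := by decide

theorem h0 : ∀ x : ZMod 2, x ≠ 0 → x = 1 := by decide

theorem mem_Un_two {g : GG n (ZMod 2)} (h : g ∈ Bo n (ZMod 2)) : g ∈ Un n (ZMod 2) :=
  mem_Un.2 ⟨h, fun a => h0 _ (diag_ne h a)⟩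

theorem tri3 {u : GL (Fin 3) (ZMod 2)} (h : u.1.BlockTriangular id) :
    ∃ a b c : ZMod 2, u.1 = !![1, a, c; 0, 1, b; 0, 0, 1] := by
  have h1 := det_two u
  rw [det_of_isUpperTriangular h, Fin.prod_univ_three] at h1
  have h3 : ∀ x y z : ZMod 2, x * y * z = 1 → x = 1 ∧ y = 1 ∧ z = 1 := by decide
  obtain ⟨a1, a2, a3⟩ := h3 _ _ _ h1
  refine ⟨u.1 0 1, u.1 1 2, u.1 0 2, ?_⟩
  have a4 : u.1 1 0 = 0 := h (by decide)
  have a5 : u.1 2 0 = 0 := h (by decide)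
  have a6 : u.1 2 1 = 0 := h (by decide)
  ext i j
  fin_cases i <;> fin_cases j <;> simp [a1, a2, a3, a4, a5, a6]

/-- A unit from a pair of inverse matrices. -/
def un (M N : Matrix (Fin 3) (Fin 3) (ZMod 2)) (h : M * N = 1) : GL (Fin 3) (ZMod 2) :=
  ⟨M, N, h, mul_eq_one_comm.1 h⟩

/-- The central transvection. -/
def z0 : GL (Fin 3) (ZMod 2) :=
  un !![1, 0, 1; 0, 1, 0; 0, 0, 1] !![1, 0, 1; 0, 1, 0; 0, 0, 1] (by decide)

theorem z0_comm {u : GL (Fin 3) (ZMod 2)} (h : u.1.BlockTriangular id) : u * z0 = z0 * u := by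
  obtain ⟨a, b, c, e⟩ := tri3 h
  apply Units.ext
  rw [Units.val_mul, Units.val_mul, e]
  change _ * !![1, 0, 1; 0, 1, 0; 0, 0, 1] = !![1, 0, 1; 0, 1, 0; 0, 0, 1] * _
  simp [add_comm]

theorem conj_ex {u : GL (Fin 3) (ZMod 2)} {a b c : ZMod 2}
    (e : u.1 = !![1, a, c; 0, 1, b; 0, 0, 1]) (h : a * b = 0) (h1 : u ≠ 1) :
    ∃ g, u = g * z0 * g⁻¹ := by
  have k : ∀ (M N : Matrix (Fin 3) (Fin 3) (ZMod 2)) (h : M * N = 1),
      u.1 = M * !![1, 0, 1; 0, 1, 0; 0, 0, 1] * N →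
      ∃ g, u = g * z0 * g⁻¹ := fun M N h e => ⟨un M N h, Units.ext e⟩
  rcases h2 a with rfl | rfl <;> rcases h2 b with rfl | rfl <;> rcases h2 c with rfl | rfl
  · exact absurd (Units.ext (e.trans (by decide))) h1
  · exact k 1 1 (one_mul _) (e.trans (by decide))
  · exact k !![0, 1, 0; 1, 0, 0; 0, 0, 1] !![0, 1, 0; 1, 0, 0; 0, 0, 1] (by decide)
      (e.trans (by decide))
  · exact k !![1, 0, 0; 1, 1, 0; 0, 0, 1] !![1, 0, 0; 1, 1, 0; 0, 0, 1] (by decide)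
      (e.trans (by decide))
  · exact k !![1, 0, 0; 0, 0, 1; 0, 1, 0] !![1, 0, 0; 0, 0, 1; 0, 1, 0] (by decide)
      (e.trans (by decide))
  · exact k !![1, 0, 0; 0, 1, 0; 0, 1, 1] !![1, 0, 0; 0, 1, 0; 0, 1, 1] (by decide)
      (e.trans (by decide))
  all_goals exact absurd h (by decide)

end H2

open H2 in
theorem h2pl (R : Subgroup (GL (Fin 3) (ZMod 2)))
    (hR : ∀ g : GL (Fin 3) (ZMod 2), ∃ r ∈ R, (r⁻¹ * g).1.BlockTriangular id)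
    (h1 : ∃ u ∈ R, u.1.BlockTriangular id ∧ u ≠ 1) :
    ∀ u : GL (Fin 3) (ZMod 2), u.1.BlockTriangular id → u ∈ R := by
  have k1 : ∀ g, g * z0 * g⁻¹ ∈ R ↔ z0 ∈ R := fun g => by
    obtain ⟨r, hr, h⟩ := hR g
    have e : g * z0 * g⁻¹ = r * z0 * r⁻¹ := by
      rw [← mul_inv_cancel_left r g, mul_assoc r, z0_comm h]
      group
    rw [e, mul_mem_cancel_right (inv_mem hr), mul_mem_cancel_left hr]
  have k2 : z0 ∈ R := by
    obtain ⟨u, hu, h, h1⟩ := h1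
    obtain ⟨a, b, c, e⟩ := tri3 h
    by_cases hab : a * b = 0
    · obtain ⟨g, rfl⟩ := conj_ex e hab h1
      exact (k1 g).1 hu
    · obtain ⟨a1, a2⟩ := mul_ne_zero_iff.1 hab
      obtain rfl := h0 _ a1
      obtain rfl := h0 _ a2
      have : z0 = u * u := by
        apply Units.ext
        rw [Units.val_mul, e]
        change !![1, 0, 1; 0, 1, 0; 0, 0, 1] = _
        clear e
        revert c
        decide
      rw [this]
      exact mul_mem hu hu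
  have k3 : ∀ {u : GL (Fin 3) (ZMod 2)} {a b c : ZMod 2}, u.1 = !![1, a, c; 0, 1, b; 0, 0, 1] →
      a * b = 0 → u ∈ R := fun {u a b c} e h => by
    by_cases h1 : u = 1
    · rw [h1]; exact one_mem _
    · obtain ⟨g, rfl⟩ := conj_ex e h h1
      exact (k1 g).2 k2
  intro u hu
  obtain ⟨a, b, c, e⟩ := tri3 hu
  have e1 : ∀ b : ZMod 2, !![1, 0, 0; 0, 1, b; 0, 0, 1] * !![1, 0, 0; 0, 1, b; 0, 0, 1] =
    (1 : Matrix (Fin 3) (Fin 3) (ZMod 2)) := by decide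
  have h3 : un _ _ (e1 b) ∈ R := k3 (a := 0) (b := b) (c := 0) rfl (zero_mul _)
  refine (mul_mem_cancel_left h3).1 (k3 (a := a) (b := 0) (c := c) ?_ (mul_zero _))
  rw [Units.val_mul, e]
  change !![1, 0, 0; 0, 1, b; 0, 0, 1] * _ = _
  simp only [mul_fin_three]
  simp [CharTwo.add_self_eq_zero]

variable {X : Type*} [MulAction (GG n (ZMod 2)) X]

theorem H2.low (s t z : ZMod 2) (i j : Fin 3) (e : j < i) :
    !![1, s, z; 0, 1, t; 0, 0, 1] i j = 0 := by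
  fin_cases i <;> fin_cases j <;> simp_all

open H2 in
theorem R3.h2a (h : R3 n (ZMod 2) X) (hc : CA n (ZMod 2) X) {ω : X} {a b c : Fin n}
    (hab : b.1 = a.1 + 1) (hbc : c.1 = b.1 + 1)
    (hu : ∃ u ∈ Us n (ZMod 2) ω, u.1 a b ≠ 0 ∨ u.1 b c ≠ 0) : Top2 (ZMod 2) ω a b c := by
  have h5 := h.n5
  obtain ⟨m, ha, rfl, rfl, rfl⟩ : ∃ (m : ℕ) (ha : m + 3 ≤ n),
      a = ix ha 0 ∧ b = ix ha 1 ∧ c = ix ha 2 :=
    ⟨a.1, by have := c.2; omega, Fin.ext (by simp), Fin.ext (by simp [hab]),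
      Fin.ext (by simp [hab, hbc])⟩
  clear hab hbc
  have hB : ∀ g : PI n (ZMod 2) m 3, g.1 ∈ Bo n (ZMod 2) →
      (blk (ZMod 2) ha g).1.BlockTriangular id := fun g hg i j e =>
    mem_Bo.1 hg _ _ (by rw [Fin.lt_def, ix_val, ix_val]; exact Nat.add_lt_add_left e _)
  have key := h2pl (Kb (ZMod 2) ha {m, m + 1} ω) (fun M => ?_) ?_
  · intro s t z
    have e1 : ∀ s t z : ZMod 2, !![1, s, z; 0, 1, t; 0, 0, 1] * !![1, s, z + s * t; 0, 1, t; 0, 0, 1] =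
      (1 : Matrix (Fin 3) (Fin 3) (ZMod 2)) := by decide
    obtain ⟨g, ⟨h1, h3⟩, e⟩ := mem_Kb.1 (key (un _ _ (e1 s t z)) fun i j e => low s t z i j e)
    have e2 : ∀ i j, g.1.1 (ix ha i) (ix ha j) = !![1, s, z; 0, 1, t; 0, 0, 1] i j := fun i j => by
      rw [← blk_apply, e]; rfl
    refine ⟨g.1, mem_Un_two (mem_Bo.2 fun i j e => ?_), h3, e2 0 1, e2 1 2, e2 0 2⟩
    rw [Fin.lt_def] at e
    by_cases e3 : m ≤ j.1 ∧ i.1 < m + 3
    · obtain ⟨i, rfl⟩ : ∃ i', i = ix ha i' := ⟨⟨i.1 - m, by omega⟩, Fin.ext (by simp; omega)⟩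
      obtain ⟨j, rfl⟩ : ∃ i', j = ix ha i' := ⟨⟨j.1 - m, by omega⟩, Fin.ext (by simp; omega)⟩
      rw [e2]
      exact low s t z i j (by simpa using e)
    · by_cases e4 : j.1 < m
      · exact mem_PJ.1 h1 i j ⟨j.1, le_rfl, e, by simp; omega⟩
      · exact mem_PJ.1 h1 i j ⟨i.1 - 1, by omega, by omega, by simp; omega⟩
  · obtain ⟨g, h1, rfl⟩ := exists_blk ha (by omega) (J := {m, m + 1})
      (fun m a1 a2 => by simp; omega) M
    obtain ⟨x, hx, e⟩ := hc ω (g.1⁻¹ • ω)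
    refine ⟨blk _ ha (g * ⟨x, Bo_le_PI _ _ hx⟩), mem_Kb.2 ⟨_, ⟨mul_mem h1 (Bo_le _ hx), ?_⟩, rfl⟩, ?_⟩
    · change (g.1 * x) • ω = ω
      rw [mul_smul, e, smul_inv_smul]
    · rw [← map_inv, ← map_mul, _root_.mul_inv_rev, inv_mul_cancel_right]
      exact hB _ (inv_mem hx)
  · obtain ⟨u, hu, h1⟩ := hu
    have h3 := Un_le hu.1
    refine ⟨blk _ ha ⟨u, Bo_le_PI _ _ h3⟩,
      mem_Kb.2 ⟨⟨u, Bo_le_PI _ _ h3⟩, ⟨Bo_le _ h3, (mem_Us.1 hu).2⟩, rfl⟩, hB _ h3, fun e => ?_⟩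
    have e2 : ∀ i j, u.1 (ix ha i) (ix ha j) = (1 : GL (Fin 3) (ZMod 2)).1 i j := fun i j => by
      rw [← e]; rfl
    rcases h1 with h1 | h1
    · exact h1 (e2 0 1)
    · exact h1 (e2 1 2)

end CF.Rk
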