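import Cfsg.Agent.Rk.H2a

/-!
Rank 3 actions of `SL_n(2)` with transitive Borel subgroup: full planes fill `U`.
-/

set_option autoImplicit false
open Matrix MulAction Cfsg

namespace CF.Rk

variable {n : ℕ}

namespace H2

/-- Row vectors supported on the coordinates `≥ a`. -/
def Sup (a : ℕ) (w : Fin n → ZMod 2) : Prop := ∀ i : Fin n, i.1 < a → w i = 0

/-- Agreement on the rows `≥ a`. -/
def Ag (a : ℕ) (u v : GG n (ZMod 2)) : Prop := ∀ w, Sup a w → w ᵥ* u.1 = w ᵥ* v.1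

theorem vm (w : Fin n → ZMod 2) (u v : GG n (ZMod 2)) : w ᵥ* (u * v).1 = w ᵥ* u.1 ᵥ* v.1 := by
  rw [val_mul, vecMul_vecMul]

theorem vm1 (w : Fin n → ZMod 2) : w ᵥ* (1 : GG n (ZMod 2)).1 = w := vecMul_one w

theorem vmi (w : Fin n → ZMod 2) (u : GG n (ZMod 2)) : w ᵥ* u.1 ᵥ* (u⁻¹).1 = w := by
  rw [← vm, mul_inv_cancel, vm1]

theorem vmi' (w : Fin n → ZMod 2) (u : GG n (ZMod 2)) : w ᵥ* (u⁻¹).1 ᵥ* u.1 = w := by
  rw [← vm, inv_mul_cancel, vm1]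

theorem aa (w : Fin n → ZMod 2) : w + w = 0 := funext fun i => CharTwo.add_self_eq_zero (w i)

theorem row (u : GG n (ZMod 2)) (i j : Fin n) : (Pi.single i 1 ᵥ* u.1) j = u.1 i j := by
  simp

theorem vxr (w : Fin n → ZMod 2) {i j : Fin n} (h : i ≠ j) (t : ZMod 2) :
    w ᵥ* (xr h t).1 = w + Pi.single j (w i * t) := by
  rw [xr_eq_tv, vecMul_add, vecMul_one, vecMul_vecMulVec]
  congr 1
  ext k
  simp [Pi.single_apply]

theorem Sup.mul {a : ℕ} {w : Fin n → ZMod 2} (h : Sup a w) {g : GG n (ZMod 2)}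
    (hg : g ∈ PJ n (ZMod 2) {m | a ≤ m}) : Sup a (w ᵥ* g.1) := fun j hj => by
  change ∑ i, w i * g.1 i j = 0
  refine Finset.sum_eq_zero fun i _ => ?_
  by_cases e : i.1 < a
  · rw [h i e, zero_mul]
  · rw [mem_PJ.1 hg i j ⟨j.1, le_rfl, by omega, by simpa using hj⟩, mul_zero]

theorem Sup.add {a : ℕ} {w w' : Fin n → ZMod 2} (h : Sup a w) (h' : Sup a w') : Sup a (w + w') :=
  fun i e => by rw [Pi.add_apply, h i e, h' i e, add_zero]

theorem sup_single {a : ℕ} {i : Fin n} (h : a ≤ i.1) (t : ZMod 2) : Sup a (Pi.single i t) :=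
  fun j e => Pi.single_eq_of_ne (fun e' => by rw [e'] at e; omega) _

theorem sup_row {a : Fin n} {k : GG n (ZMod 2)} (hk : k ∈ PJ n (ZMod 2) {m | a.1 + 1 ≤ m}) :
    Sup (a.1 + 1) (Pi.single a 1 ᵥ* k.1 + Pi.single a 1) := by
  have h1 := (sup_single (le_refl a.1) 1).mul (PJ_mono (fun m (e : a.1 + 1 ≤ m) =>
    show a.1 ≤ m by omega) hk)
  have h3 : ∀ c, (Pi.single a 1 ᵥ* k.1) a = c →
      Sup (a.1 + 1) (Pi.single a 1 ᵥ* k.1 + Pi.single a c) := fun c e i hi => by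
    by_cases e1 : i = a
    · rw [e1, Pi.add_apply, e, Pi.single_eq_same, CharTwo.add_self_eq_zero]
    · have : i.1 ≠ a.1 := fun e => e1 (Fin.ext e)
      rw [Pi.add_apply, h1 i (by omega), Pi.single_eq_of_ne e1, add_zero]
  refine h3 1 (h0 _ fun e => ?_)
  have h4 := (h3 0 e).mul (inv_mem hk) a (by omega)
  rw [Pi.single_zero, add_zero, vmi] at h4
  simp at h4

theorem Ag.refl (a : ℕ) (u : GG n (ZMod 2)) : Ag a u u := fun _ _ => rfl

theorem Ag.symm {a : ℕ} {u v : GG n (ZMod 2)} (h : Ag a u v) : Ag a v u :=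
  fun w e => (h w e).symm

theorem Ag.trans {a : ℕ} {u v x : GG n (ZMod 2)} (h : Ag a u v) (h' : Ag a v x) : Ag a u x :=
  fun w e => (h w e).trans (h' w e)

theorem Ag.mul {a : ℕ} {u v x y : GG n (ZMod 2)} (h : Ag a u x) (h' : Ag a v y)
    (hx : x ∈ PJ n (ZMod 2) {m | a ≤ m}) : Ag a (u * v) (x * y) := fun w e => by
  rw [vm, vm, h w e, h' _ (e.mul hx)]

theorem Ag.apply {a : ℕ} {u v : GG n (ZMod 2)} (h : Ag a u v) {i : Fin n} (hi : a ≤ i.1)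
    (j : Fin n) : u.1 i j = v.1 i j := by
  rw [← row, h _ (sup_single hi 1), row]

theorem ag_of {a : ℕ} {u v : GG n (ZMod 2)} (h : ∀ i : Fin n, a ≤ i.1 → ∀ j, u.1 i j = v.1 i j) :
    Ag a u v := fun w e => funext fun j => by
  change ∑ i, w i * u.1 i j = ∑ i, w i * v.1 i j
  refine Finset.sum_congr rfl fun i _ => ?_
  by_cases e1 : i.1 < a
  · rw [e i e1, zero_mul, zero_mul]
  · rw [h i (by omega)]

theorem Ag.down {a : Fin n} {u v : GG n (ZMod 2)} (h : Ag (a.1 + 1) u v)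
    (e : Pi.single a 1 ᵥ* u.1 = Pi.single a 1 ᵥ* v.1) : Ag a.1 u v := ag_of fun i hi j => by
  by_cases e1 : i = a
  · rw [e1, ← row, e, row]
  · have : i.1 ≠ a.1 := fun e => e1 (Fin.ext e)
    exact h.apply (by omega) j

variable {X : Type*} [MulAction (GG n (ZMod 2)) X]

theorem exists_row (hc : CA n (ZMod 2) X) (ω : X) {a : ℕ} {l : Fin n} (hl : l.1 + 1 = n)
    {r : Fin n → ZMod 2} (hr : Sup a r) (h1 : r ≠ 0) :
    ∃ k ∈ PJ n (ZMod 2) {m | a ≤ m}, k • ω = ω ∧ Pi.single l 1 ᵥ* k.1 = r := by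
  obtain ⟨j, hj⟩ := Function.ne_iff.1 h1
  have hj1 : r j = 1 := h0 _ hj
  have ha : a ≤ j.1 := not_lt.1 fun e => hj (hr j e)
  have hal : a ≤ l.1 := by have := j.2; omega
  obtain ⟨c, c1, c2, c3⟩ : ∃ c : Fin n → ZMod 2, Sup a c ∧ c l = 1 ∧ r ⬝ᵥ c = 1 := by
    rcases h2 (r l) with e | e
    · have : j ≠ l := fun e' => hj (e' ▸ e)
      exact ⟨Pi.single l 1 + Pi.single j 1, (sup_single hal 1).add (sup_single ha 1),
        by simp [this], by simp [e, hj1]⟩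
    · exact ⟨Pi.single l 1, sup_single hal 1, by simp, by simp [e]⟩
  have h3 : (r + Pi.single l 1) ⬝ᵥ c = 0 := by
    rw [add_dotProduct, c3, single_dotProduct, c2, one_mul, CharTwo.add_self_eq_zero]
  obtain ⟨b, hb, e⟩ := hc (tv _ _ h3 • ω) ω
  refine ⟨b * tv _ _ h3, mul_mem (Bo_le _ hb) (mem_PJ.2 fun i k ⟨m, a1, a2, a3⟩ => ?_),
    by rw [mul_smul, e], ?_⟩
  · have : k.1 < a := by simp only [Set.mem_ofPred_eq] at a3; omega
    rw [tv_val, Matrix.add_apply, vecMulVec_apply, (hr.add (sup_single hal 1)) k this, mul_zero,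
      add_zero, one_apply_ne fun e => by rw [e] at a2; omega]
  · have : Pi.single l 1 ᵥ* b.1 = Pi.single l 1 := funext fun k => by
      rw [row]
      by_cases e : k = l
      · rw [e, (mem_Un.1 (mem_Un_two hb)).2, Pi.single_eq_same]
      · have : k.1 ≠ l.1 := fun e' => e (Fin.ext e')
        have := k.2
        rw [mem_Bo.1 hb _ _ (Fin.lt_def.2 (by omega)), Pi.single_eq_of_ne e]
    rw [vm, this, tv_val, vecMul_add, vecMul_one, vecMul_vecMulVec, single_dotProduct, c2, one_mul,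
      one_smul, add_comm r, ← add_assoc, aa, zero_add]

theorem conj_N {ω : X} {a : Fin n} {k u : GG n (ZMod 2)}
    (hk : k ∈ PJ n (ZMod 2) {m | a.1 + 1 ≤ m}) (hω : k • ω = ω) (hu : u ∈ Us n (ZMod 2) ω)
    (h1 : Ag (a.1 + 1) u 1) {r : Fin n → ZMod 2} (e : Pi.single a 1 ᵥ* u.1 = Pi.single a 1 + r) :
    ∃ v ∈ Us n (ZMod 2) ω, Ag (a.1 + 1) v 1 ∧
      Pi.single a 1 ᵥ* v.1 = Pi.single a 1 + r ᵥ* (k⁻¹).1 := by
  refine ⟨k * u * k⁻¹, ⟨(conj_Q hk hu.1 fun i j hij hm => ?_).1, ?_⟩, fun w hw => ?_, ?_⟩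
  · rw [h1.apply (hm i.1 le_rfl hij) j, val_one, one_apply_ne hij.ne]
  · change _ • ω = ω
    rw [mul_smul, mul_smul, inv_smul_eq_iff.2 hω.symm, (mem_Us.1 hu).2, hω]
  · rw [vm, vm, h1 _ (hw.mul hk), vm1, vmi, vm1]
  · have h3 := h1 _ (sup_row hk)
    rw [vm1, add_vecMul, e, ← add_assoc, add_right_comm, add_left_inj] at h3
    have h4 : Pi.single a 1 ᵥ* k.1 ᵥ* u.1 = Pi.single a 1 ᵥ* k.1 + r := by
      rw [← h3, add_assoc, aa, add_zero, h3]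
    rw [vm, vm, h4, add_vecMul, vmi]

theorem step1 (hc : CA n (ZMod 2) X) {ω : X} {a : Fin n}
    (ih : ∀ x ∈ Un n (ZMod 2), ∃ u ∈ Us n (ZMod 2) ω, Ag (a.1 + 1) u x)
    {u : GG n (ZMod 2)} (hu : u ∈ Us n (ZMod 2) ω) (h1 : Ag (a.1 + 1) u 1)
    (h3 : Pi.single a 1 ᵥ* u.1 ≠ Pi.single a 1) :
    ∀ x ∈ Un n (ZMod 2), ∃ u ∈ Us n (ZMod 2) ω, Ag a.1 u x := by
  obtain ⟨l, hl⟩ : ∃ l : Fin n, l.1 + 1 = n := ⟨⟨n - 1, by have := a.2; omega⟩, by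
    have := a.2; simp only; omega⟩
  have k0 : ∀ t : GG n (ZMod 2), Pi.single a 1 ᵥ* t.1 =
      Pi.single a 1 + (Pi.single a 1 ᵥ* t.1 + Pi.single a 1) := fun t => by
    rw [add_comm, add_assoc, aa, add_zero]
  obtain ⟨k, a1, a2, a3⟩ := exists_row hc ω hl (sup_row (a := a) (Bo_le _ (Un_le hu.1))) fun e =>
    h3 (by rw [k0, e, add_zero])
  obtain ⟨v, b1, b2, b3⟩ := conj_N a1 a2 hu h1 (k0 u)
  rw [← a3, vmi] at b3
  intro x hx
  obtain ⟨y, hy, c1⟩ := ih x hx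
  have c2 := mul_mem hx (inv_mem hy.1)
  obtain ⟨z, d1, d2, d3⟩ : ∃ z ∈ Us n (ZMod 2) ω, Ag (a.1 + 1) z 1 ∧
      Pi.single a 1 ᵥ* z.1 = Pi.single a 1 ᵥ* (x * y⁻¹).1 := by
    by_cases e : Pi.single a 1 ᵥ* (x * y⁻¹).1 + Pi.single a 1 = 0
    · exact ⟨1, one_mem _, Ag.refl _ _, by rw [k0 (x * y⁻¹), e, add_zero, vm1]⟩
    obtain ⟨k', e1, e2, e3⟩ := exists_row hc ω hl (sup_row (a := a) (Bo_le _ (Un_le c2))) e
    obtain ⟨z, d1, d2, d3⟩ := conj_N (inv_mem e1) (inv_smul_eq_iff.2 e2.symm) b1 b2 b3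
    exact ⟨z, d1, d2, by rw [d3, inv_inv, e3, ← k0]⟩
  refine ⟨z * y, mul_mem d1 hy, Ag.down ?_ ?_⟩
  · simpa using d2.mul c1 (one_mem _)
  · rw [vm, d3, ← vm, inv_mul_cancel_right]

section
variable {ω : X} {a : Fin n}
  (hN : ∀ u ∈ Us n (ZMod 2) ω, Ag (a.1 + 1) u 1 → Pi.single a 1 ᵥ* u.1 = Pi.single a 1)
include hN

theorem row_eq {u v : GG n (ZMod 2)} (hu : u ∈ Us n (ZMod 2) ω) (hv : v ∈ Us n (ZMod 2) ω)
    (h : Ag (a.1 + 1) u v) : Pi.single a 1 ᵥ* u.1 = Pi.single a 1 ᵥ* v.1 := by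
  have := hN _ (mul_mem hu (inv_mem hv)) (by
    simpa using h.mul (Ag.refl _ v⁻¹) (Bo_le _ (Un_le hv.1)))
  rw [← inv_mul_cancel_right u v, vm, this]

theorem comm_eq {u v : GG n (ZMod 2)} (hu : u ∈ Us n (ZMod 2) ω) (hv : v ∈ Us n (ZMod 2) ω)
    {i j k l : Fin n} (hij : i < j) (hkl : k < l) (h1 : Ag (a.1 + 1) u (xr hij.ne 1))
    (h3 : Ag (a.1 + 1) v (xr hkl.ne 1)) (e1 : j ≠ k) (e2 : l ≠ i) (e3 : j ≠ l) (hk : a < k) :
    u.1 a k = 0 := by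
  have hx : ∀ {p q : Fin n} (h : p < q), xr h.ne (1 : ZMod 2) ∈ PJ n (ZMod 2) {m | a.1 + 1 ≤ m} :=
    fun h => Bo_le _ (Un_le (xr_mem h 1))
  have e4 : xr hij.ne (1 : ZMod 2) * xr hkl.ne 1 = xr hkl.ne 1 * xr hij.ne 1 := by
    ext p q
    rw [← row, ← row, vm, vm, vxr, vxr, vxr, vxr, Pi.add_apply _ _ k, Pi.add_apply _ _ i,
      Pi.single_eq_of_ne e1.symm, Pi.single_eq_of_ne e2.symm, add_zero, add_zero, add_right_comm]
  have h4 := row_eq hN (mul_mem hu hv) (mul_mem hv hu)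
    ((h1.mul h3 (hx hij)).trans (by rw [e4]; exact (h3.mul h1 (hx hkl)).symm))
  have h5 := h3 _ (sup_row (a := a) (Bo_le _ (Un_le hu.1)))
  have h6 := h1 _ (sup_row (a := a) (Bo_le _ (Un_le hv.1)))
  rw [vm, vm] at h4
  rw [vxr, add_vecMul] at h5 h6
  have h7 := congrFun h5 l
  have h8 := congrFun h6 l
  simp only [Pi.add_apply, row, Pi.single_eq_same, Pi.single_eq_of_ne e3.symm,
    Pi.single_eq_of_ne hk.ne', h4, add_zero, mul_one] at h7 h8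
  have h9 : ∀ x y z w s : ZMod 2, x + y = z + w + s → x + z = y + w → s = 0 := by decide
  exact h9 _ _ _ _ _ h7 h8

theorem sq_eq {u : GG n (ZMod 2)} (hu : u ∈ Us n (ZMod 2) ω) {i j : Fin n} (hij : i < j)
    (h1 : Ag (a.1 + 1) u (xr hij.ne 1)) (hi : a < i) : u.1 a i = 0 := by
  have h4 := hN _ (mul_mem hu hu) (by
    have := h1.mul h1 (Bo_le _ (Un_le (xr_mem hij 1)))
    rwa [xr_mul, CharTwo.add_self_eq_zero, xr_zero] at this)
  have h5 := h1 _ (sup_row (a := a) (Bo_le _ (Un_le hu.1)))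
  rw [vm] at h4
  rw [vxr, add_vecMul, h4] at h5
  have h7 := congrFun h5 j
  simp only [Pi.add_apply, row, Pi.single_eq_same, Pi.single_eq_of_ne hi.ne', add_zero,
    mul_one] at h7
  have h9 : ∀ x y s : ZMod 2, x + y = y + x + s → s = 0 := by decide
  exact h9 _ _ _ h7

theorem phi_eq (ih : ∀ x ∈ Un n (ZMod 2), ∃ u ∈ Us n (ZMod 2) ω, Ag (a.1 + 1) u x)
    {b c d : Fin n} (hb : b.1 = a.1 + 1) (hc : c.1 = b.1 + 1) (hd : d.1 = c.1 + 1) {v : GG n (ZMod 2)}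
    (hv : v ∈ Us n (ZMod 2) ω) (hcd : c < d) (h1 : Ag (a.1 + 1) v (xr hcd.ne 1)) :
    ∀ u ∈ Us n (ZMod 2) ω, u.1 a b = v.1 a b * u.1 c d := by
  have hab : a < b := Fin.lt_def.2 (by omega)
  have key : ∀ x ∈ Un n (ZMod 2), ∃ u ∈ Us n (ZMod 2) ω, Ag (a.1 + 1) u x ∧
      u.1 a b = v.1 a b * x.1 c d := by
    have k1 : ∃ u ∈ Us n (ZMod 2) ω, Ag (a.1 + 1) u 1 ∧
        u.1 a b = v.1 a b * (1 : GG n (ZMod 2)).1 c d := ⟨1, one_mem _, Ag.refl _ _, by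
      rw [val_one, one_apply_ne hab.ne, one_apply_ne hcd.ne, mul_zero]⟩
    have k2 : ∀ (i j : Fin n) (h : i < j) (t : ZMod 2), ∃ u ∈ Us n (ZMod 2) ω,
        Ag (a.1 + 1) u (xr h.ne t) ∧ u.1 a b = v.1 a b * (xr h.ne t).1 c d := fun i j h t => by
      rcases h2 t with rfl | rfl
      · rw [xr_zero]; exact k1
      by_cases e : i = c ∧ j = d
      · obtain ⟨rfl, rfl⟩ := e
        exact ⟨v, hv, h1, by simp [xr_apply, hcd.ne]⟩
      rw [xr_apply, if_neg hcd.ne, if_neg e, add_zero, mul_zero]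
      by_cases e1 : i.1 ≤ a.1
      · exact ⟨1, one_mem _, fun w hw => by
          rw [vxr, hw i (by omega), vm1, zero_mul, Pi.single_zero, add_zero], one_apply_ne hab.ne⟩
      obtain ⟨u, hu, h3⟩ := ih _ (xr_mem h 1)
      refine ⟨u, hu, h3, ?_⟩
      by_cases e2 : i = b
      · subst e2
        exact sq_eq hN hu h h3 hab
      have e3 : i.1 ≠ b.1 := fun e => e2 (Fin.ext e)
      have e4 : i.1 < j.1 := h
      have e5 : j ≠ b := fun e => by rw [e] at e4; omega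
      by_cases e6 : i = c
      · have hbd : b < d := Fin.lt_def.2 (by omega)
        obtain ⟨y, hy, h4⟩ := ih _ (xr_mem hbd 1)
        exact comm_eq hN hu hy h hbd h3 h4 e5 (e6 ▸ hcd.ne') (fun e' => e ⟨e6, e'⟩) hab
      · have hbc : b < c := Fin.lt_def.2 (by omega)
        have e7 : i.1 ≠ c.1 := fun e => e6 (Fin.ext e)
        obtain ⟨y, hy, h4⟩ := ih _ (xr_mem hbc 1)
        exact comm_eq hN hu hy h hbc h3 h4 e5 (Ne.symm e6) (fun e' => by rw [e'] at e4; omega) hab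
    intro x hx
    rw [Un_eq_closure] at hx
    induction hx using Subgroup.closure_induction'' with
    | mem x hx =>
      obtain ⟨i, j, h, t, rfl⟩ := hx
      exact k2 i j h t
    | inv_mem x hx =>
      obtain ⟨i, j, h, t, rfl⟩ := hx
      rw [xr_inv]
      exact k2 i j h _
    | one => exact k1
    | mul x y hx hy h3 h4 =>
      rw [← Un_eq_closure] at hx hy
      obtain ⟨p, a1, a2, a3⟩ := h3
      obtain ⟨q, b1, b2, b3⟩ := h4
      refine ⟨p * q, mul_mem a1 b1, a2.mul b2 (Bo_le _ (Un_le hx)), ?_⟩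
      rw [adj_mul hb (Un_le a1.1) (Un_le b1.1), adj_mul hd (Un_le hx) (Un_le hy), a3, b3,
        (mem_Un.1 hx).2, (mem_Un.1 hy).2, (mem_Un.1 a1.1).2, (mem_Un.1 b1.1).2]
      ring
  intro u hu
  obtain ⟨p, a1, a2, a3⟩ := key u hu.1
  rw [← a3, ← row, ← row_eq hN a1 hu a2, row]

end

theorem adj_two {a b : Fin n} (hab : b.1 = a.1 + 1) {g u : GG n (ZMod 2)} (hg : g ∈ Bo n (ZMod 2))
    (hu : u ∈ Un n (ZMod 2)) : (g * u * g⁻¹).1 a b = u.1 a b := by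
  have := adj_conj hab hg hu
  rwa [(mem_Un.1 (mem_Un_two hg)).2, (mem_Un.1 (mem_Un_two hg)).2, mul_one, one_mul] at this

theorem wd_two (w : Equiv.Perm (Fin n)) (g : GG n (ZMod 2)) (i j : Fin n) :
    (wd (ZMod 2) w * g * (wd (ZMod 2) w)⁻¹).1 (w i) (w j) = g.1 i j := by
  rw [wd_conj, h0 _ (Units.ne_zero _), h0 _ (Units.ne_zero _), mul_one, one_mul]

theorem step2 (h5 : 5 ≤ n) (hc : CA n (ZMod 2) X) {ω : X}
    (hT : ∀ a b c : Fin n, b.1 = a.1 + 1 → c.1 = b.1 + 1 → Top2 (ZMod 2) ω a b c) {a : Fin n}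
    (ha : a.1 + 4 ≤ n) (ih : ∀ x ∈ Un n (ZMod 2), ∃ u ∈ Us n (ZMod 2) ω, Ag (a.1 + 1) u x)
    (hN : ∀ u ∈ Us n (ZMod 2) ω, Ag (a.1 + 1) u 1 → Pi.single a 1 ᵥ* u.1 = Pi.single a 1) :
    False := by
  obtain ⟨b, hb⟩ : ∃ b : Fin n, b.1 = a.1 + 1 := ⟨⟨a.1 + 1, by omega⟩, rfl⟩
  obtain ⟨c, hc'⟩ : ∃ c : Fin n, c.1 = b.1 + 1 := ⟨⟨b.1 + 1, by omega⟩, rfl⟩
  obtain ⟨d, hd⟩ : ∃ d : Fin n, d.1 = c.1 + 1 := ⟨⟨c.1 + 1, by omega⟩, rfl⟩
  have hcd : c < d := Fin.lt_def.2 (by omega)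
  obtain ⟨v, hv, h1⟩ := ih _ (xr_mem hcd 1)
  have key := phi_eq hN ih hb hc' hd hv hcd h1
  have h3 : v.1 a b = 1 := h0 _ fun e => by
    obtain ⟨u, a1, a2, a3, -⟩ := hT a b c hb hc' 1 0 0
    rw [key u ⟨a1, a2⟩, e, zero_mul] at a3
    exact zero_ne_one a3
  by_cases e : a.1 = 0
  · obtain ⟨k, hk⟩ : ∃ k : Fin n, k.1 = d.1 + 1 := ⟨⟨d.1 + 1, by omega⟩, rfl⟩
    have hbk : b < k := Fin.lt_def.2 (by omega)
    obtain ⟨y, hy, h4⟩ := ih _ (xr_mem hbk 1)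
    rw [comm_eq hN hv hy hcd hbk h1 h4 (fun e => by rw [e] at hd; omega)
      (fun e => by rw [e] at hk; omega) (fun e => by rw [e] at hk; omega)
      (Fin.lt_def.2 (by omega))] at h3
    exact zero_ne_one h3
  obtain ⟨z, hz⟩ : ∃ z : Fin n, a.1 = z.1 + 1 := ⟨⟨a.1 - 1, by omega⟩, by simp only; omega⟩
  obtain ⟨u, a1, a2, a3, a4, a5⟩ := hT z a b hz hb 0 0 1
  obtain ⟨g, hg, e1⟩ := hc (wd (ZMod 2) (Equiv.swap z a) • ω) ω
  have b1 := mem_Un_two (swap_conj_Bo hz (Un_le a1) a3)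
  have b2 := conj_Us hg (ω := wd (ZMod 2) (Equiv.swap z a) • ω) ⟨b1, by
    change _ • _ = _
    rw [smul_smul, inv_mul_cancel_right, mul_smul, a2]⟩
  rw [e1] at b2
  have b3 := key _ b2
  have b4 := key u ⟨a1, a2⟩
  have s : ∀ x : Fin n, a.1 < x.1 → Equiv.swap z a x = x := fun x hx =>
    Equiv.swap_apply_of_ne_of_ne (fun e => by rw [e] at hx; omega) (fun e => by rw [e] at hx; omega)
  have b5 := wd_two (Equiv.swap z a) u z b
  have b6 := wd_two (Equiv.swap z a) u c d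
  rw [Equiv.swap_apply_left, s b (by omega)] at b5
  rw [s c (by omega), s d (by omega)] at b6
  rw [adj_two hb hg b1, adj_two hd hg b1, b5, b6, ← b4, a4, a5] at b3
  exact one_ne_zero b3

end H2

variable {X : Type*} [MulAction (GG n (ZMod 2)) X]

open H2 in
theorem R3.h2b (h : R3 n (ZMod 2) X) (hc : CA n (ZMod 2) X)
    (hT : ∀ (ω : X) (a b c : Fin n), b.1 = a.1 + 1 → c.1 = b.1 + 1 → Top2 (ZMod 2) ω a b c) :
    False := by
  have h5 := h.n5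
  obtain ⟨ω⟩ := h.ne
  have key : ∀ d a : ℕ, a + d + 3 = n →
      ∀ x ∈ Un n (ZMod 2), ∃ u ∈ Us n (ZMod 2) ω, Ag a u x := by
    intro d
    induction d with
    | zero =>
      intro m hm x hx
      obtain ⟨u, a1, a2, a3, a4, a5⟩ := hT ω ⟨m, by omega⟩ ⟨m + 1, by omega⟩ ⟨m + 2, by omega⟩ rfl rfl
        (x.1 ⟨m, by omega⟩ ⟨m + 1, by omega⟩) (x.1 ⟨m + 1, by omega⟩ ⟨m + 2, by omega⟩)
        (x.1 ⟨m, by omega⟩ ⟨m + 2, by omega⟩)
      refine ⟨u, ⟨a1, a2⟩, ag_of fun i hi j => ?_⟩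
      rcases lt_trichotomy i j with e | e | e
      · obtain ⟨i, h1⟩ := i
        obtain ⟨j, h3⟩ := j
        simp only [Fin.lt_def] at e hi
        obtain ⟨rfl, rfl⟩ | ⟨rfl, rfl⟩ | ⟨rfl, rfl⟩ :
          (i = m ∧ j = m + 1) ∨ (i = m + 1 ∧ j = m + 2) ∨ (i = m ∧ j = m + 2) := by omega
        exacts [a3, a4, a5]
      · rw [e, (mem_Un.1 a1).2, (mem_Un.1 hx).2]
      · rw [mem_Bo.1 (Un_le a1) _ _ e, mem_Bo.1 (Un_le hx) _ _ e]
    | succ d ih =>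
      intro m hm
      have h1 := ih (m + 1) (by omega)
      by_cases hN : ∀ u ∈ Us n (ZMod 2) ω, Ag (m + 1) u 1 →
          Pi.single (⟨m, by omega⟩ : Fin n) 1 ᵥ* u.1 = Pi.single (⟨m, by omega⟩ : Fin n) 1
      · exact (step2 h5 hc (hT ω) (a := ⟨m, by omega⟩) (by simp only; omega) h1 hN).elim
      · push Not at hN
        obtain ⟨u, a1, a2, a3⟩ := hN
        exact step1 hc (a := ⟨m, by omega⟩) h1 a1 a2 a3
  obtain ⟨x, hx, e⟩ := h.not_Un ω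
  obtain ⟨u, hu, h1⟩ := key (n - 3) 0 (by omega) x hx
  have : u = x := by
    ext i j
    exact h1.apply (Nat.zero_le _) j
  exact e (this ▸ hu.2)

end CF.Rk
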