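import Cfsg.Agent.Rk.B
import Cfsg.Agent.Hc.H0a

/-! Rank 3 actions of `SL_n(q)`: Mackey formulas for linear characters. -/

set_option autoImplicit false
open Matrix MulAction Cfsg

namespace CF.Rk
open CF.Char
open scoped ComplexConjugate

namespace M1

open _root_.Classical in
theorem sub_sum {K : Type*} [Group K] [Fintype K] (S : Subgroup K) (φ : S →* ℂˣ) (f : K → ℂ)
    (h1 : ∀ s : S, f s = φ s) (h0 : ∀ k, k ∉ S → f k = 0) :
    ∑ k, f k = if ∀ s, φ s = 1 then (Nat.card S : ℂ) else 0 := by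
  rw [← Finset.sum_subset (Finset.subset_univ (Finset.univ.filter (· ∈ S)))
    fun k _ hk => h0 k (by simpa using hk), Finset.sum_subtype (p := (· ∈ S)) _ (by simp),
    Finset.sum_congr rfl fun s _ => h1 s]
  split_ifs with h
  · simp [h]
  · exact sum_hom_units_eq_zero ((Units.coeHom ℂ).comp φ) fun e =>
      h fun s => Units.ext (DFunLike.congr_fun e s)

theorem nat_add_one_ne {z : ℂ} (h : ∃ k : ℕ, z = k) : z + 1 ≠ 0 := by
  obtain ⟨k, rfl⟩ := h
  exact_mod_cast k.succ_ne_zero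

end M1

variable {n : ℕ} {F : Type*} [Field F] [Fintype F] [DecidableEq F]
  {Ω : Type*} [MulAction (GG n F) Ω]

section
variable {G : Type*} [Group G] [Fintype G] {Y Y' : Subgroup G}
open _root_.Classical in
theorem mkS (l : Y →* ℂˣ) (l' : Y' →* ℂˣ) :
    classInner (indFun Y fun y => l y) (indFun Y' fun y => l' y) =
      ((Nat.card Y : ℂ) * Nat.card Y')⁻¹ *
        ∑ g with Cp l l' g, (Nat.card {y : Y // g⁻¹ * y * g ∈ Y'} : ℂ) := by
  rw [inner_indFun_left Y _ (indFun_isClassFunction Y' _), inner_def, mul_inv, mul_assoc]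
  congr 1
  simp only [indFun_apply, map_mul, map_sum, map_inv₀, map_natCast, Finset.mul_sum]
  rw [Finset.sum_comm, Finset.sum_filter]
  refine Finset.sum_congr rfl fun g _ => ?_
  let S : Subgroup Y := Y'.comap ((MulAut.conj g⁻¹).toMonoidHom.comp Y.subtype)
  have hS : ∀ y : Y, y ∈ S ↔ g⁻¹ * y * g ∈ Y' := fun y => by simp [S, Subgroup.mem_comap]
  let c : S →* Y' := ((MulAut.conj g⁻¹).toMonoidHom.comp Y.subtype).subgroupComap Y'
  have hc : ∀ s : S, c s = ⟨_, (hS s).1 s.2⟩ := fun s =>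
    Subtype.ext (show g⁻¹ * _ * g⁻¹⁻¹ = _ by rw [inv_inv]; rfl)
  have := M1.sub_sum S (l.comp S.subtype / l'.comp c)
    (fun y => l y * conj (extendByZero Y' (fun y => (l' y : ℂ)) (g⁻¹ * y * g)))
    (fun s => by
      rw [extendByZero_of_mem Y' _ ((hS s).1 s.2), linear_conj, MonoidHom.div_apply,
        MonoidHom.comp_apply, MonoidHom.comp_apply, hc, Units.val_div_eq_div_val, div_eq_mul_inv]
      rfl)
    (fun y hy => by rw [extendByZero_of_not_mem Y' _ (mt (hS y).2 hy), map_zero, mul_zero])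
  rw [Finset.sum_congr rfl fun y _ => mul_left_comm _ _ _, ← Finset.mul_sum, this]
  have e : (∀ s, (l.comp S.subtype / l'.comp c) s = 1) ↔ Cp l l' g := by
    simp only [MonoidHom.div_apply, MonoidHom.comp_apply, hc, div_eq_one]
    exact ⟨fun h y hy => h ⟨y, (hS y).2 hy⟩, fun h s => h _ _⟩
  simp only [e]
  split_ifs
  · rw [Nat.card_congr (Equiv.subtypeEquivRight hS)]
  · exact mul_zero _

theorem mk0 (l : Y →* ℂˣ) (l' : Y' →* ℂˣ) (h : ∀ g, ¬ Cp l l' g) :
    classInner (indFun Y fun y => l y) (indFun Y' fun y => l' y) = 0 := by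
  classical
  rw [mkS, Finset.filter_false_of_mem fun g _ => h g, Finset.sum_empty, mul_zero]

omit [Fintype G] in
theorem Cp.mul {l : Y →* ℂˣ} {l' : Y' →* ℂˣ} {g : G} (h : Cp l l' g) (y : Y) (y' : Y') :
    Cp l l' (y * g * y') := fun x hx => by
  have e : g⁻¹ * (y⁻¹ * x * y : Y) * g = y' * ((y * g * y')⁻¹ * x * (y * g * y')) * y'⁻¹ := by
    simp only [Subgroup.coe_mul, Subgroup.coe_inv]
    group
  have hm : g⁻¹ * (y⁻¹ * x * y : Y) * g ∈ Y' := e ▸ mul_mem (mul_mem y'.2 hx) (inv_mem y'.2)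
  have h1 := h _ hm
  rw [show (⟨_, hm⟩ : Y') = y' * ⟨_, hx⟩ * y'⁻¹ from Subtype.ext e] at h1
  simpa [mul_comm, mul_left_comm] using h1

open _root_.Classical in
theorem inner_one_ind (l : Y →* ℂˣ) :
    classInner (fun _ : G => (1 : ℂ)) (indFun Y fun y => l y) = if l = 1 then 1 else 0 := by
  rw [inner_indFun_right Y _ (classFun_const 1), inner_irr irr_one (irr_linear l)]
  congr 1
  exact propext ⟨fun e => MonoidHom.ext fun y => Units.ext (congrFun e y).symm, fun e => by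
    subst e; rfl⟩

theorem irr_common {χ φ ψ : G → ℂ} (hχ : IsIrrCharacter G χ) (hφ : IsCharacter G φ)
    (hψ : IsCharacter G ψ) (h : classInner φ ψ = 0) :
    classInner χ φ = 0 ∨ classInner χ ψ = 0 := by
  by_contra! k
  have c := irr_isCharacter hχ
  have h1 := char_sub_of_inner_ne_zero hφ hχ (mt (inner_eq_zero_comm _ _).1 k.1)
  have h2 := char_sub_of_inner_ne_zero hψ hχ (mt (inner_eq_zero_comm _ _).1 k.2)
  obtain ⟨a, ha⟩ := inner_char_eq_nat h1 hψ
  obtain ⟨b, hb⟩ := inner_char_eq_nat c h2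
  rw [Char.inner_sub_left, h] at ha
  rw [Char.inner_sub_right, inner_irr_self hχ] at hb
  exact M1.nat_add_one_ne ⟨a + b, Nat.cast_add a b |>.symm⟩ (by linear_combination -ha - hb)

theorem inner_ind_mono {χ : G → ℂ} (hχ : IsCharacter G χ) (h : Y ≤ Y') (l : Y' →* ℂˣ)
    (e : classInner χ (indFun Y fun y => l (Subgroup.inclusion h y)) = 0) :
    classInner χ (indFun Y' fun y => l y) = 0 := by
  classical
  rw [inner_indFun_right _ _ (char_isClassFunction hχ)] at e ⊢
  by_contra k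
  have i := irr_linear (l.comp (Subgroup.inclusion h))
  have := inner_char_eq_nat (char_comp (char_sub_of_inner_ne_zero (char_restrict hχ Y')
    (irr_linear l) k) (Subgroup.inclusion h)) (irr_isCharacter i)
  refine M1.nat_add_one_ne this ?_
  rw [← inner_irr_self i, ← Char.inner_add_left, ← e]
  congr 1
  funext y
  simp

theorem char_ind_lin (l : Y →* ℂˣ) : IsCharacter G (indFun Y fun y => l y) :=
  char_indFun Y (char_linear l)
end

namespace M1
variable {G X : Type*} [Group G] [MulAction G X] {Y : Subgroup G} {l : Y →* ℂˣ} {ω : X}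

/-- `l` is trivial on the stabiliser of `ω`. -/
def Gd' (l : Y →* ℂˣ) (ω : X) : Prop := ∀ y : Y, y • ω = ω → l y = 1

theorem Gd'.smul (h : Gd' l ω) (y : Y) : Gd' l (y • ω) := fun x hx => by
  simpa using h (y⁻¹ * x * y) (by rw [mul_smul, mul_smul, hx, inv_smul_smul])

theorem gd_out {o : orbitRel.Quotient Y X} (e : Quotient.mk'' ω = o) : Gd' l ω ↔ Gd' l o.out := by
  obtain ⟨y, hy⟩ : ω ∈ orbit Y o.out := orbitRel_apply.1 (Quotient.exact (e.trans o.out_eq.symm))
  refine ⟨fun h => ?_, fun h => hy ▸ h.smul y⟩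
  have := h.smul y⁻¹
  rwa [← show y • o.out = ω from hy, inv_smul_smul] at this

theorem mk1g [Fintype G] [Finite X] (l : Y →* ℂˣ) :
    classInner (fun g => (Nat.card (fixedBy X g) : ℂ)) (indFun Y fun y => l y) =
      Nat.card {o : orbitRel.Quotient Y X // Gd' l o.out} := by
  classical
  have := Fintype.ofFinite X
  have := Fintype.ofFinite (orbitRel.Quotient Y X)
  have h0 : (Nat.card Y : ℂ) ≠ 0 := card_ne_zero_complex
  rw [inner_indFun_right Y _ (char_isClassFunction (char_fixedBy X)), inner_def,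
    inv_mul_eq_iff_eq_mul₀ h0]
  have e1 : ∀ y : Y, (Nat.card (fixedBy X (y : G)) : ℂ) * conj (l y : ℂ) =
      ∑ ω : X, if y • ω = ω then conj (l y : ℂ) else 0 := fun y => by
    rw [← Finset.sum_filter, Finset.sum_const, nsmul_eq_mul, Nat.card_eq_fintype_card,
      Fintype.card_subtype]
    rfl
  have e2 : ∀ ω : X, (∑ y : Y, if y • ω = ω then conj (l y : ℂ) else 0) =
      if Gd' l ω then (Nat.card (stabilizer Y ω) : ℂ) else 0 := fun ω => by
    rw [M1.sub_sum (stabilizer Y ω) (l.comp (Subgroup.subtype _))⁻¹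
      (fun y => if y • ω = ω then conj (l y : ℂ) else 0)
      (fun s => by rw [if_pos (mem_stabilizer_iff.1 s.2), linear_conj]; simp)
      fun k hk => if_neg hk]
    congr 1
    simp only [MonoidHom.inv_apply, inv_eq_one, MonoidHom.comp_apply]
    exact propext ⟨fun h y hy => h ⟨y, hy⟩, fun h s => h _ s.2⟩
  rw [Finset.sum_congr rfl fun y _ => e1 y, Finset.sum_comm, Finset.sum_congr rfl fun ω _ => e2 ω,
    ← Finset.sum_fiberwise Finset.univ (fun ω => (Quotient.mk'' ω : orbitRel.Quotient Y X)),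
    Nat.card_eq_fintype_card (α := {o : orbitRel.Quotient Y X // _}), Fintype.card_subtype,
    Finset.card_filter, Nat.cast_sum, Finset.mul_sum]
  refine Finset.sum_congr rfl fun o _ => ?_
  have e3 : ∀ ω : X, Quotient.mk'' ω = o ↔ ω ∈ orbit Y o.out := fun ω =>
    ⟨fun e => orbitRel_apply.1 (Quotient.exact (e.trans o.out_eq.symm)),
      fun e => (Quotient.sound' (orbitRel_apply.2 e)).trans o.out_eq⟩
  rw [Finset.sum_congr rfl (g := fun _ => if Gd' l o.out then (Nat.card (stabilizer Y o.out) : ℂ)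
    else 0) fun ω h => by
      have h := (Finset.mem_filter.1 h).2
      rw [gd_out h, Nat.card_congr (stabilizerEquivStabilizerOfOrbitRel
        (orbitRel_apply.2 ((e3 ω).1 h))).toEquiv], Finset.sum_const, nsmul_eq_mul]
  split_ifs
  · rw [← Fintype.card_subtype, Fintype.card_congr (Equiv.subtypeEquivRight e3), Nat.cast_one,
      mul_one, Nat.card_eq_fintype_card, Nat.card_eq_fintype_card, ← Nat.cast_mul]
    exact congrArg Nat.cast (card_orbit_mul_card_stabilizer_eq_card_group Y o.out)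
  · simp

end M1

omit [Fintype F] [DecidableEq F] in
theorem Gd.smul {Y : Subgroup (GG n F)} {l : Y →* ℂˣ} {ω : Ω} (h : Gd l ω) {y : GG n F}
    (hy : y ∈ Y) : Gd l (y • ω) := M1.Gd'.smul h ⟨y, hy⟩

theorem mk1 [Finite Ω] (Y : Subgroup (GG n F)) (l : Y →* ℂˣ) :
    classInner (pc n F Ω) (indFun Y fun y => l y) = nO Ω Y l := M1.mk1g l

theorem mk1' [Finite Ω] (Y : Subgroup (GG n F)) :
    classInner (pc n F Ω) (indFun Y fun _ => 1) = nB Ω Y := by
  rw [← nO_one, ← mk1]
  rfl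

omit [Fintype F] [DecidableEq F] in
theorem nO_ne_zero [Finite Ω] {Y : Subgroup (GG n F)} {l : Y →* ℂˣ} :
    nO Ω Y l ≠ 0 ↔ ∃ ω : Ω, Gd l ω := by
  rw [nO, Nat.card_ne_zero]
  exact ⟨fun ⟨⟨o⟩, _⟩ => ⟨_, o.2⟩, fun ⟨ω, h⟩ => ⟨⟨⟨_, (M1.gd_out rfl).1 h⟩⟩, inferInstance⟩⟩

omit [Fintype F] [DecidableEq F] in
theorem nO_one_conj {Y : Subgroup (GG n F)} {l : Y →* ℂˣ} (h : nO Ω Y l = 1) {ω ω' : Ω}
    (h1 : Gd l ω) (h2 : Gd l ω') : ∃ y ∈ Y, y • ω = ω' := by
  have := (Nat.card_eq_one_iff_unique.1 h).1.elim ⟨_, (M1.gd_out rfl).1 h2⟩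
    ⟨_, (M1.gd_out rfl).1 h1⟩
  obtain ⟨y, hy⟩ : ω' ∈ orbit Y ω := orbitRel_apply.1 (Quotient.exact (congrArg Subtype.val this))
  exact ⟨y, y.2, hy⟩

omit [Fintype F] [DecidableEq F] in
theorem R3.char_pc (h : R3 n F Ω) : IsCharacter (GG n F) (pc n F Ω) :=
  have := h.fin
  char_fixedBy Ω

theorem R3.dc (h : R3 n F Ω) : ∃ χ₁ χ₂ : GG n F → ℂ, Dc Ω χ₁ χ₂ := by
  have := h.fin
  have := h.tr
  obtain ⟨ω⟩ := h.ne
  have e : pc n F Ω = indFun (stabilizer (GG n F) ω) fun _ => 1 := fixedBy_eq_indFun Ω ω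
  have e1 : classInner (pc n F Ω) (pc n F Ω) = 3 := by
    nth_rewrite 2 [e]
    rw [mk1', nB, h.rk]
    rfl
  have e2 : classInner (pc n F Ω) (fun _ => 1) = 1 := by rw [e, inner_indFun_one_one]
  have e3 : classInner (fun _ => 1) (pc n F Ω) = 1 := by
    rw [inner_char_comm char_const_one h.char_pc, e2]
  obtain ⟨χ, ψ, i1, i2, o, e4⟩ := Hc.H0.norm_two (char_sub_of_inner_ne_zero h.char_pc irr_one
    (by rw [e2]; exact one_ne_zero)) (by
      rw [Char.inner_sub_left, Char.inner_sub_right, Char.inner_sub_right, e1, e2, e3,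
        inner_one_one]
      norm_num)
  have e5 : classInner χ (fun _ => 1) + classInner ψ (fun _ => 1) = 0 := by
    rw [← Char.inner_add_left, ← e4, Char.inner_sub_left, e2, inner_one_one, sub_self]
  refine ⟨χ, ψ, i1, i2, fun a => ?_, fun a => ?_, fun a => ?_, ?_⟩
  · rw [a, inner_one_one, add_comm] at e5
    exact M1.nat_add_one_ne (inner_char_eq_nat (irr_isCharacter i2) char_const_one) e5
  · rw [a, inner_one_one] at e5
    exact M1.nat_add_one_ne (inner_char_eq_nat (irr_isCharacter i1) char_const_one) e5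
  · rw [a, inner_irr_self i2] at o
    exact one_ne_zero o
  · rw [add_assoc, ← e4, add_sub_cancel]

end CF.Rk
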