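import Cfsg.Agent.Rk.M1
import Cfsg.Agent.Rk.C

/-! Rank 3 actions of `SL_n(q)`: the principal series. -/

set_option autoImplicit false
open Matrix MulAction Cfsg

namespace CF.Rk
open CF.Char

namespace M2

open _root_.Classical in
/-- The size of a double coset. -/
theorem card_dc {G : Type*} [Group G] [Fintype G] (H K : Subgroup G) (s : G) :
    (Finset.univ.filter fun g : G => ∃ p ∈ H, ∃ p' ∈ K, g = p * s * p').card *
      Nat.card {h : H // s⁻¹ * h * s ∈ K} = Nat.card H * Nat.card K := by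
  have key := Finset.card_eq_sum_card_fiberwise (s := (Finset.univ : Finset (H × K)))
    (t := Finset.univ.filter fun g : G => ∃ p ∈ H, ∃ p' ∈ K, g = p * s * p')
    (f := fun x => (x.1 : G) * s * x.2) (fun x _ => by
      simp only [Finset.coe_filter, Finset.mem_univ, true_and, Set.mem_ofPred_eq]
      exact ⟨_, x.1.2, _, x.2.2, rfl⟩)
  rw [Finset.card_univ, Fintype.card_prod, ← Nat.card_eq_fintype_card,
    ← Nat.card_eq_fintype_card] at key
  rw [key, ← smul_eq_mul, ← Finset.sum_const]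
  refine Finset.sum_congr rfl fun g hg => ?_
  obtain ⟨p, hp, p', hp', rfl⟩ := (Finset.mem_filter.1 hg).2
  rw [← Fintype.card_coe, ← Nat.card_eq_fintype_card]
  refine Nat.card_congr ⟨fun h => ⟨(⟨p, hp⟩ * h.1, (⟨_, h.2⟩ : K)⁻¹ * ⟨p', hp'⟩), ?_⟩,
    fun x => ⟨(⟨p, hp⟩ : H)⁻¹ * x.1.1, ?_⟩, fun h => ?_, fun x => ?_⟩
  · simp only [Finset.mem_filter, Finset.mem_univ, true_and, Subgroup.coe_mul, Subgroup.coe_inv]
    group
  · have e := (Finset.mem_filter.1 x.2).2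
    have e2 : s⁻¹ * (((⟨p, hp⟩ : H)⁻¹ * x.1.1 : H) : G) * s = p' * (x.1.2 : G)⁻¹ := by
      simp only [Subgroup.coe_mul, Subgroup.coe_inv]
      calc _ = s⁻¹ * p⁻¹ * ((x.1.1 : G) * s * x.1.2) * (x.1.2 : G)⁻¹ := by group
        _ = _ := by rw [e]; group
    rw [e2]
    exact K.mul_mem hp' (K.inv_mem x.1.2.2)
  · ext; simp
  · have e := (Finset.mem_filter.1 x.2).2
    ext
    · simp
    · simp only [Subgroup.coe_mul, Subgroup.coe_inv]
      calc _ = s⁻¹ * (x.1.1 : G)⁻¹ * (p * s * p') := by group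
        _ = s⁻¹ * (x.1.1 : G)⁻¹ * ((x.1.1 : G) * s * x.1.2) :=
          congrArg (fun y => s⁻¹ * (x.1.1 : G)⁻¹ * y) e.symm
        _ = _ := by group

theorem card_mul {G : Type*} [Group G] {H K : Subgroup G} (s : G) {p p' : G} (hp : p ∈ H)
    (hp' : p' ∈ K) : Nat.card {h : H // (p * s * p')⁻¹ * h * (p * s * p') ∈ K} =
      Nat.card {h : H // s⁻¹ * h * s ∈ K} :=
  Nat.card_congr ((MulAut.conj (⟨p, hp⟩ : H)⁻¹).toEquiv.subtypeEquiv fun h => by
    rw [show (p * s * p')⁻¹ * h * (p * s * p') = p'⁻¹ * (s⁻¹ * (p⁻¹ * h * p⁻¹⁻¹) * s) * p' by group,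
      K.mul_mem_cancel_right hp', K.mul_mem_cancel_left (inv_mem hp')]
    rfl)

theorem cp_iff {G : Type*} [Group G] {H K : Subgroup G} {l : H →* ℂˣ} {l' : K →* ℂˣ} {s p p' : G}
    (hp : p ∈ H) (hp' : p' ∈ K) : Cp l l' (p * s * p') ↔ Cp l l' s :=
  ⟨fun h => by simpa [mul_assoc] using h.mul ⟨p, hp⟩⁻¹ ⟨p', hp'⟩⁻¹, fun h => h.mul ⟨p, hp⟩ ⟨p', hp'⟩⟩

open _root_.Classical in
/-- The Mackey formula with double coset representatives. -/
theorem mk_reps {G W : Type*} [Group G] [Fintype G] [Fintype W] {H K : Subgroup G} (l : H →* ℂˣ)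
    (l' : K →* ℂˣ) (r : W → G) (ex : ∀ g, ∃ w, ∃ p ∈ H, ∃ p' ∈ K, g = p * r w * p')
    (un : ∀ w w', ∀ p ∈ H, ∀ p' ∈ K, r w' = p * r w * p' → w = w') :
    classInner (indFun H fun y => l y) (indFun K fun y => l' y) =
      Nat.card {w // Cp l l' (r w)} := by
  choose cl hcl using ex
  have h0 : (Nat.card H : ℂ) * Nat.card K ≠ 0 :=
    mul_ne_zero card_ne_zero_complex card_ne_zero_complex
  rw [mkS, inv_mul_eq_iff_eq_mul₀ h0, Finset.sum_filter, ← Finset.sum_fiberwise Finset.univ cl,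
    Nat.card_eq_fintype_card (α := {w : W // _}), Fintype.card_subtype, Finset.card_filter,
    Nat.cast_sum, Finset.mul_sum]
  refine Finset.sum_congr rfl fun w _ => ?_
  have e : ∀ g, cl g = w ↔ ∃ p ∈ H, ∃ p' ∈ K, g = p * r w * p' := fun g =>
    ⟨fun e => e ▸ hcl g, fun ⟨p, hp, p', hp', e⟩ => by
      obtain ⟨q, hq, q', hq', e'⟩ := hcl g
      refine un _ _ _ (mul_mem (inv_mem hp) hq) _ (mul_mem hq' (inv_mem hp')) ?_
      calc r w = p⁻¹ * (p * r w * p') * p'⁻¹ := by group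
        _ = _ := by rw [← e]; nth_rewrite 1 [e']; group⟩
  rw [Finset.filter_congr fun g _ => e g, Finset.sum_congr rfl (g := fun _ =>
    if Cp l l' (r w) then (Nat.card {h : H // (r w)⁻¹ * h * r w ∈ K} : ℂ) else 0) fun g hg => by
      obtain ⟨p, hp, p', hp', rfl⟩ := (Finset.mem_filter.1 hg).2
      rw [cp_iff hp hp', card_mul _ hp hp'], Finset.sum_const, nsmul_eq_mul]
  split_ifs
  · rw [← Nat.cast_mul, card_dc]
    simp
  · simp

end M2

variable {n : ℕ} {F : Type*} [Field F]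

theorem mu_eq_one {b : Fin n → Ch F} : mu b = 1 ↔ Cst b := by
  classical
  refine ⟨fun h i j => ?_, fun h => MonoidHom.ext fun y => ?_⟩
  · by_cases e : i = j
    · rw [e]
    ext x
    have := DFunLike.congr_fun h ⟨dg (Pi.mulSingle i x * Pi.mulSingle j x⁻¹)
      (by simp [Finset.prod_mul_distrib]), dg_mem _ _⟩
    rw [mu_apply, dv_dg] at this
    have k : ∀ (i : Fin n) (x : Fˣ), ∏ a, b a ((Pi.mulSingle i x : Fin n → Fˣ) a) = b i x :=
      fun i x => by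
        rw [Finset.prod_eq_single i (fun a _ ha => by simp [ha]) (by simp), Pi.mulSingle_eq_same]
    simp only [Pi.mul_apply, map_mul, Finset.prod_mul_distrib, k, map_inv, MonoidHom.one_apply,
      mul_inv_eq_one] at this
    rw [this]
  · rcases n with _ | n
    · simp [mu_apply]
    · rw [mu_apply, Finset.prod_congr rfl fun i _ => DFunLike.congr_fun (h i 0) _, ← map_prod,
        prod_dv, map_one, MonoidHom.one_apply]

theorem cp_wd {b b' : Fin n → Ch F} {w : Equiv.Perm (Fin n)} :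
    Cp (mu b) (mu b') (wd F w) ↔ ∃ c : Ch F, ∀ i, b' i = c * b (w i) := by
  have ia : ∀ i, w⁻¹ (w i) = i := w.symm_apply_apply
  have key : ∀ (y : Bo n F) (hy : (wd F w)⁻¹ * y * wd F w ∈ Bo n F),
      mu b' ⟨_, hy⟩ = mu (fun j => b' (w⁻¹ j)) y := fun y hy => by
    rw [mu_apply, mu_apply, ← Equiv.prod_comp w fun j => b' (w⁻¹ j) (dv n F y j)]
    refine Finset.prod_congr rfl fun i _ => ?_
    have := wd_conj w ((wd F w)⁻¹ * y.1 * wd F w) i i
    rw [show wd F w * ((wd F w)⁻¹ * y.1 * wd F w) * (wd F w)⁻¹ = y.1 by group, mul_right_comm,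
      Units.mul_inv, one_mul] at this
    rw [ia, show dv n F y (w i) = dv n F ⟨_, hy⟩ i from Units.ext this]
  have div : ∀ y : Bo n F, mu (fun j => b' (w⁻¹ j) / b j) y =
      mu (fun j => b' (w⁻¹ j)) y / mu b y := fun y => by simp [mu_apply]
  refine ⟨fun h => ?_, fun ⟨c, h⟩ y hy => ?_⟩
  · have : Cst fun j => b' (w⁻¹ j) / b j := mu_eq_one.1 (MonoidHom.ext fun y => by
      obtain ⟨h', e⟩ := dg_wd w (dv n F y) (prod_dv y)
      have hy : (wd F w)⁻¹ * dg (dv n F y) (prod_dv y) * wd F w ∈ Bo n F := by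
        rw [mul_assoc, e, inv_mul_cancel_left]; exact dg_mem _ _
      have e2 := (h ⟨_, dg_mem _ (prod_dv y)⟩ hy).trans (key ⟨_, dg_mem _ (prod_dv y)⟩ hy)
      rw [mu_apply, mu_apply, dv_dg, ← mu_apply, ← mu_apply] at e2
      rw [div, e2, div_self', MonoidHom.one_apply])
    rcases n with _ | n
    · exact ⟨1, fun i => i.elim0⟩
    · exact ⟨b' (w⁻¹ 0) / b 0, fun i => by
        rw [← show b' (w⁻¹ (w i)) / b (w i) = b' (w⁻¹ 0) / b 0 from this (w i) 0, ia]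
        exact MonoidHom.ext fun x => by simp⟩
  · rw [key, eq_comm, ← div_eq_one, ← div, mu_eq_one.2 fun i j =>
      MonoidHom.ext fun x => by simp [h], MonoidHom.one_apply]

variable [Fintype F] [DecidableEq F] {Ω : Type*} [MulAction (GG n F) Ω]

theorem inner_Ib (b b' : Fin n → Ch F) : classInner (Ib b) (Ib b') =
    Nat.card {w : Equiv.Perm (Fin n) // ∃ c : Ch F, ∀ i, b' i = c * b (w i)} := by
  rw [Ib, Ib, M2.mk_reps _ _ (wd F) (fun g => by
    obtain ⟨u, hu, w, b, hb, e⟩ := bruhat g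
    exact ⟨w, u, Un_le hu, b, hb, e⟩) fun w w' p hp p' hp' e => bruhat_uniq hp hp' e]
  simp only [cp_wd]

theorem char_Ib (b : Fin n → Ch F) : IsCharacter _ (Ib b) := char_ind_lin _

theorem inner_Ib_zero {b b' : Fin n → Ch F} (h : ¬ Eqv b b') : classInner (Ib b) (Ib b') = 0 := by
  rw [inner_Ib, Nat.card_eq_zero.2 (.inl ⟨fun w => h ⟨w.1, w.2⟩⟩), Nat.cast_zero]

theorem Ib_eqv {b b' : Fin n → Ch F} (h : Eqv b b') : Ib b = Ib b' := by
  obtain ⟨v, c, h⟩ := h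
  have e1 : ∀ x, classInner (Ib x) (Ib b') = classInner (Ib x) (Ib b) := fun x => by
    rw [inner_Ib, inner_Ib]
    refine congrArg _ (Nat.card_congr ((Equiv.mulRight v⁻¹).subtypeEquiv fun w =>
      ⟨fun ⟨d, hd⟩ => ⟨d / c, fun i => ?_⟩, fun ⟨d, hd⟩ => ⟨c * d, fun i => ?_⟩⟩))
    · have := (h (v⁻¹ i)).symm.trans (hd (v⁻¹ i))
      rw [show v (v⁻¹ i) = i from v.apply_symm_apply i] at this
      refine MonoidHom.ext fun y => ?_
      have := DFunLike.congr_fun this y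
      simp only [MonoidHom.mul_apply, MonoidHom.div_apply] at this ⊢
      rw [div_mul_eq_mul_div, eq_div_iff_mul_eq', mul_comm, this]
      rfl
    · rw [h, hd, show (Equiv.mulRight v⁻¹ w) (v i) = w i by simp]
      exact MonoidHom.ext fun y => (mul_assoc _ _ _).symm
  rw [← sub_eq_zero, ← Char.inner_self_eq_zero, Char.inner_sub_right, Char.inner_sub_left,
    Char.inner_sub_left, e1, e1, sub_self]

theorem inner_pc_Ib [Finite Ω] {b : Fin n → Ch F} :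
    classInner (pc n F Ω) (Ib b) ≠ 0 ↔ ∃ ω : Ω, b ∈ Es n F ω := by
  rw [Ib, mk1, Nat.cast_ne_zero, nO_ne_zero]
  simp only [mem_Es]

theorem inner_one_Ib {b : Fin n → Ch F} (h : ¬ Cst b) : classInner (fun _ => 1) (Ib b) = 0 := by
  rw [Ib, inner_one_ind, if_neg (mt mu_eq_one.1 h)]

theorem Dc.or [Finite Ω] {χ₁ χ₂ : GG n F → ℂ} (c : Dc Ω χ₁ χ₂) {ω : Ω} {b : Fin n → Ch F}
    (hb : b ∈ Es n F ω) (h1 : ¬ Cst b) :
    classInner χ₁ (Ib b) ≠ 0 ∨ classInner χ₂ (Ib b) ≠ 0 := by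
  by_contra! k
  refine inner_pc_Ib.2 ⟨ω, hb⟩ ?_
  rw [c.eq, Char.inner_add_left, Char.inner_add_left, inner_one_Ib h1, k.1, k.2]
  simp

theorem eqv_of {χ : GG n F → ℂ} (hχ : IsIrrCharacter _ χ) {b b' : Fin n → Ch F}
    (h : classInner χ (Ib b) ≠ 0) (h' : classInner χ (Ib b') ≠ 0) : Eqv b b' :=
  by_contra fun e => (irr_common hχ (char_Ib b) (char_Ib b') (inner_Ib_zero e)).elim h h'

theorem CB.chi2 [Finite Ω] {χ₁ χ₂ : GG n F → ℂ} (c : CB Ω χ₁ χ₂) {ω : Ω} {b : Fin n → Ch F}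
    (hb : b ∈ Es n F ω) (h1 : ¬ Cst b) :
    classInner χ₂ (Ib b) ≠ 0 ∧ classInner χ₁ (Ib b) = 0 := by
  have : classInner χ₁ (Ib b) = 0 := by_contra fun e => by
    obtain ⟨w, d, h⟩ := eqv_of c.i1 c.p1 e
    exact h1 fun i j => by rw [h, h]; rfl
  exact ⟨(c.toDc.or hb h1).resolve_left fun e => e this, this⟩

theorem R3.x1a (h : R3 n F Ω) (hc : CA n F Ω) {ω : Ω} {b b' : Fin n → Ch F} (hb : b ∈ Es n F ω)
    (e : Eqv b b') (ω' : Ω) : b' ∈ Es n F ω' := by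
  have := h.fin
  obtain ⟨x, hx⟩ := inner_pc_Ib.1 (Ib_eqv e ▸ inner_pc_Ib.2 ⟨ω, hb⟩)
  obtain ⟨g, hg, rfl⟩ := hc x ω'
  exact mem_Es.2 ((mem_Es.1 hx).smul hg)

theorem R3.x1b (h : R3 n F Ω) {ω₁ ω₂ ω₃ : Ω} {b₁ b₂ b₃ : Fin n → Ch F} (h₁ : b₁ ∈ Es n F ω₁)
    (h₂ : b₂ ∈ Es n F ω₂) (h₃ : b₃ ∈ Es n F ω₃) (c₁ : ¬ Cst b₁) (c₂ : ¬ Cst b₂) (c₃ : ¬ Cst b₃) :
    Eqv b₁ b₂ ∨ Eqv b₁ b₃ ∨ Eqv b₂ b₃ := by
  have := h.fin
  obtain ⟨χ, ψ, d⟩ := h.dc
  rcases d.or h₁ c₁ with a | a <;> rcases d.or h₂ c₂ with b | b <;> rcases d.or h₃ c₃ with c | c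
  exacts [.inl (eqv_of d.i1 a b), .inl (eqv_of d.i1 a b), .inr (.inl (eqv_of d.i1 a c)),
    .inr (.inr (eqv_of d.i2 b c)), .inr (.inr (eqv_of d.i1 b c)), .inr (.inl (eqv_of d.i2 a c)),
    .inl (eqv_of d.i2 a b), .inl (eqv_of d.i2 a b)]

end CF.Rk
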