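import Cfsg.Agent.Rk.C

/-!
Rank 3 actions of `SL_n(q)`: subgroups of `GL₂` without unipotent parts.
-/

set_option autoImplicit false
set_option linter.unusedSectionVars false
open Matrix MulAction Cfsg

namespace CF.Rk

variable {n : ℕ} {F : Type*} [Field F] [Fintype F] [DecidableEq F]
  {Ω : Type*} [MulAction (GG n F) Ω]

namespace PN

variable {M : Matrix (Fin 2) (Fin 2) F} {x y z : Fin 2 → F} {c e : F} {K : Subgroup (GL (Fin 2) F)}

/-- the determinant of two vectors -/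
def D (x y : Fin 2 → F) : F := x 0 * y 1 - x 1 * y 0

theorem mv (M : Matrix (Fin 2) (Fin 2) F) (x : Fin 2 → F) (i : Fin 2) : (M *ᵥ x) i = M i 0 * x 0 + M i 1 * x 1 := by
  simp [mulVec, dotProduct]

theorem D_mul (M : Matrix (Fin 2) (Fin 2) F) (x y : Fin 2 → F) : D (M *ᵥ x) (M *ᵥ y) = M.det * D x y := by
  simp only [D, mv, det_fin_two]; ring

theorem D_smul (c e : F) (x y : Fin 2 → F) : D (c • x) (e • y) = c * e * D x y := by
  simp only [D, Pi.smul_apply, smul_eq_mul]; ring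

theorem D_comm (h : D x y ≠ 0) : D y x ≠ 0 := fun e => h (by simp only [D] at e ⊢; linear_combination -e)

theorem ne_of (h : D x y ≠ 0) : x ≠ 0 := fun e => h (by simp [D, e])

theorem exD (hx : x ≠ 0) : ∃ z, D x z ≠ 0 := by_contra fun h => by
  push Not at h
  exact hx (funext (Fin.forall_fin_two.2 ⟨by simpa [D] using h ![0, 1], by simpa [D] using h ![1, 0]⟩))

theorem par (hx : x ≠ 0) (h : D x y = 0) : ∃ c : F, y = c • x := by
  obtain ⟨z, hz⟩ := exD hx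
  refine ⟨D y z / D x z, funext fun i => ?_⟩
  rw [Pi.smul_apply, smul_eq_mul, div_mul_eq_mul_div, eq_div_iff hz]
  simp only [D] at h ⊢
  fin_cases i
  · simp only [Fin.zero_eta]; linear_combination z 0 * h
  · simp only [Fin.mk_one]; linear_combination z 1 * h

theorem eig1 (h : M *ᵥ x = c • x) (h' : M *ᵥ y = c • y) (d : D x y ≠ 0) : M = c • 1 := by
  have a := fun i => (mv M x i).symm.trans (congrFun h i)
  have b := fun i => (mv M y i).symm.trans (congrFun h' i)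
  simp only [Pi.smul_apply, smul_eq_mul] at a b
  ext i j
  refine mul_right_cancel₀ d ?_
  fin_cases i <;> fin_cases j <;> simp [D, -mul_eq_mul_right_iff, -mul_eq_zero]
  · linear_combination y 1 * a 0 - x 1 * b 0
  · linear_combination x 0 * b 0 - y 0 * a 0
  · linear_combination y 1 * a 1 - x 1 * b 1
  · linear_combination x 0 * b 1 - y 0 * a 1

theorem eig_det (h : M *ᵥ x = c • x) (h' : M *ᵥ y = e • y) (d : D x y ≠ 0) : c * e = M.det :=
  mul_right_cancel₀ d (by rw [← D_smul, ← h, ← h', D_mul])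

theorem eig2 (m : M.det ≠ 0) (h : M *ᵥ x = c • x) (k : c * c ≠ M.det) {e' : F} (h1 : M *ᵥ y = e • y) (h2 : M *ᵥ z = e' • z)
    (d1 : D x y ≠ 0) (d2 : D x z ≠ 0) : D y z = 0 := by_contra fun d => by
  have a := eig_det h h1 d1
  obtain rfl : e = e' := mul_left_cancel₀ (fun o => m (by rw [← a, o, zero_mul])) (a.trans (eig_det h h2 d2).symm)
  have := eig_det (c := e) (by rw [eig1 h1 h2 d, smul_mulVec, one_mulVec]) h1 d1
  exact k (by rw [← a, mul_right_cancel₀ (fun o => m (by rw [← a, o, mul_zero])) (a.trans this.symm)])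

theorem eig3 (hx : x ≠ 0) (h : M *ᵥ x = c • x) (k : c * c ≠ M.det) : ∃ y, D x y ≠ 0 ∧ ∃ e : F, M *ᵥ y = e • y := by
  obtain ⟨z, hz⟩ := exD hx
  have ch : ∀ z : Fin 2 → F, M *ᵥ (M *ᵥ z) = (M 0 0 + M 1 1) • M *ᵥ z - M.det • z := fun z => funext fun i => by
    fin_cases i <;> simp only [mv, det_fin_two, Pi.sub_apply, Pi.smul_apply, smul_eq_mul, Fin.zero_eta, Fin.mk_one] <;> ring
  have e : c * (M 0 0 + M 1 1 - c) = M.det := by
    have := ch x
    rw [h, mulVec_smul, h, smul_smul, smul_smul, ← sub_smul, ← sub_eq_zero, ← sub_smul, smul_eq_zero] at this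
    linear_combination -this.resolve_right hx
  refine ⟨M *ᵥ z - c • z, fun o => k (mul_right_cancel₀ hz ?_), M 0 0 + M 1 1 - c, ?_⟩
  · rw [← D_mul, h]
    simp only [D, Pi.sub_apply, Pi.smul_apply, smul_eq_mul] at o ⊢
    linear_combination -c * o
  · rw [mulVec_sub, ch, mulVec_smul, ← e]
    module

/-- `y` spans the partner of the line of `x` -/
def R (K : Subgroup (GL (Fin 2) F)) (x y : Fin 2 → F) : Prop :=
  D x y ≠ 0 ∧ ∀ k ∈ K, (∃ c : F, k.1 *ᵥ x = c • x) → ∃ c : F, k.1 *ᵥ y = c • y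

theorem R.smul (h : R K x y) (hc : c ≠ 0) (he : e ≠ 0) : R K (c • x) (e • y) :=
  ⟨by rw [D_smul]; exact mul_ne_zero (mul_ne_zero hc he) h.1, fun k hk ⟨a, ha⟩ =>
    let ⟨b, hb⟩ := h.2 k hk ⟨a, smul_right_injective _ hc (by simpa only [mulVec_smul, smul_comm a c] using ha)⟩
    ⟨b, by rw [mulVec_smul, hb, smul_comm]⟩⟩

theorem R.par (h : R K x y) {x' y' : Fin 2 → F} (hx : x' ≠ 0) (hy : y' ≠ 0) (d : D x x' = 0) (d' : D y y' = 0) : R K x' y' := by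
  obtain ⟨a, rfl⟩ := PN.par (ne_of h.1) d
  obtain ⟨b, rfl⟩ := PN.par (ne_of (D_comm h.1)) d'
  exact h.smul (left_ne_zero_of_smul hx) (left_ne_zero_of_smul hy)

theorem inv_mv (k : GL (Fin 2) F) (x : Fin 2 → F) : (k⁻¹).1 *ᵥ k.1 *ᵥ x = x := by
  rw [mulVec_mulVec, Units.inv_mul, one_mulVec]

theorem mv_inv (k : GL (Fin 2) F) (x : Fin 2 → F) : k.1 *ᵥ (k⁻¹).1 *ᵥ x = x := by
  rw [mulVec_mulVec, Units.mul_inv, one_mulVec]

theorem R.map (h : R K x y) {g : GL (Fin 2) F} (hg : g ∈ K) : R K (g.1 *ᵥ x) (g.1 *ᵥ y) :=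
  ⟨by rw [D_mul]; exact mul_ne_zero g.det_ne_zero h.1, fun k hk ⟨a, ha⟩ =>
    let ⟨b, hb⟩ := h.2 _ (mul_mem (inv_mem hg) (mul_mem hk hg)) ⟨a, by
      rw [Units.val_mul, Units.val_mul, ← mulVec_mulVec, ← mulVec_mulVec, ha, mulVec_smul, inv_mv]⟩
    ⟨b, by rw [← mulVec_smul, ← hb, Units.val_mul, Units.val_mul, ← mulVec_mulVec, ← mulVec_mulVec, mv_inv]⟩⟩

variable (h1 : ∀ k ∈ K, ∀ x ≠ 0, ∀ c : F, k.1 *ᵥ x = c • x → c * c = k.1.det → k.1 = c • 1)
  (h2 : ∀ x ≠ 0, ∃ k ∈ K, ∃ c : F, k.1 *ᵥ x = c • x ∧ c * c ≠ k.1.det)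

include h2 in
theorem R.uq (h : R K x y) (h' : R K x z) : D y z = 0 :=
  let ⟨k, hk, c, a, b⟩ := h2 x (ne_of h.1)
  let ⟨_, e⟩ := h.2 k hk ⟨c, a⟩
  let ⟨_, e'⟩ := h'.2 k hk ⟨c, a⟩
  eig2 k.det_ne_zero a b e e' h.1 h'.1

include h1 h2

theorem exR (hx : x ≠ 0) : ∃ y, R K x y := by
  obtain ⟨k, hk, c, a, b⟩ := h2 x hx
  obtain ⟨y, d, e, he⟩ := eig3 hx a b
  refine ⟨y, d, fun g hg ⟨c', a'⟩ => ?_⟩
  have m := h1 _ (mul_mem (inv_mem (mul_mem hg hk)) (mul_mem hk hg)) x hx 1 (by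
    rw [Units.val_mul, ← mulVec_mulVec, one_smul]
    conv_rhs => rw [← inv_mv (g * k) x]
    simp only [Units.val_mul, ← mulVec_mulVec, a, a', mulVec_smul, smul_comm c]) (by
    rw [Units.val_mul, det_mul, Units.val_mul k, det_mul, mul_comm k.1.det, ← det_mul, ← det_mul, ← Units.val_mul g,
      Units.inv_mul, det_one, one_mul])
  rw [one_smul, Units.val_eq_one, inv_mul_eq_one] at m
  have m' : k.1 *ᵥ g.1 *ᵥ y = e • g.1 *ᵥ y := by
    rw [mulVec_mulVec, ← Units.val_mul, ← m, Units.val_mul, ← mulVec_mulVec, he, mulVec_smul]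
  refine par (ne_of (D_comm d)) (by_contra fun o => b ?_)
  have k1 := eig1 he m' o
  have := eig_det a he d
  have k2 := eig_det (c := e) (by rw [k1, smul_mulVec, one_mulVec]) he d
  rw [← this, mul_right_cancel₀ (fun o => k.det_ne_zero (by rw [← this, o, mul_zero])) (this.trans k2.symm)]

theorem R.symm (h : R K x y) : R K y x := by
  have hy := ne_of (D_comm h.1)
  obtain ⟨z, hz⟩ := exR h1 h2 hy
  obtain ⟨k, hk, c, a, b⟩ := h2 x (ne_of h.1)
  obtain ⟨e, he⟩ := h.2 k hk ⟨c, a⟩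
  obtain ⟨e', he'⟩ := hz.2 k hk ⟨e, he⟩
  refine hz.par hy (ne_of h.1) (by simp [D, mul_comm]) (by_contra fun o => hz.1 ?_)
  exact eig2 k.det_ne_zero a b he he' h.1 (D_comm o)

end PN
open PN

theorem pn1 (K : Subgroup (GL (Fin 2) F))
    (h1 : ∀ k ∈ K, ∀ x ≠ 0, ∀ c : F, k.1 *ᵥ x = c • x → c * c = k.1.det → k.1 = c • 1)
    (h2 : ∀ x ≠ 0, ∃ k ∈ K, ∃ c : F, k.1 *ᵥ x = c • x ∧ c * c ≠ k.1.det) :
    ringChar F ≠ 2 := fun h => by
  let r : Option F → Fin 2 → F := fun o => o.elim ![1, 0] fun t => ![t, 1]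
  have r0 : ∀ o, r o ≠ 0 := by rintro (_ | t) <;> simp [r]
  have r1 : ∀ o o', D (r o) (r o') = 0 → o = o' := by rintro (_ | t) (_ | t') <;> simp [r, D, sub_eq_zero]
  have r2 : ∀ o, ∃ o', R K (r o) (r o') := fun o => by
    obtain ⟨y, hy⟩ := exR h1 h2 (r0 o)
    by_cases e : y 1 = 0
    · exact ⟨none, hy.par (r0 _) (r0 _) (by simp [D, mul_comm]) (by simp [D, r, e])⟩
    · exact ⟨some (y 0 / y 1), hy.par (r0 _) (r0 _) (by simp [D, mul_comm]) (by simp [D, r, mul_div_cancel₀ _ e])⟩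
  choose f hf using r2
  have two : (2 : F) = 0 := by simpa [h] using ringChar.Nat.cast_ringChar (R := F)
  have := Finset.sum_involution (s := Finset.univ) (f := fun _ : Option F => (1 : F)) (fun o _ => f o)
    (fun _ _ => by linear_combination two) (fun o _ _ e => (hf o).1 (by simp [e, D, mul_comm])) (fun _ _ => Finset.mem_univ _)
    fun o _ => r1 _ _ ((hf _).uq h2 ((hf o).symm h1 h2))
  simp at this

theorem pn2 (K : Subgroup (GL (Fin 2) F)) (hq : 3 ≤ Fintype.card F)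
    (h1 : ∀ k ∈ K, ∀ x ≠ 0, ∀ c : F, k.1 *ᵥ x = c • x → c * c = k.1.det → k.1 = c • 1)
    (h2 : ∀ x ≠ 0, ∀ r : Fˣ, ∃ k ∈ K, ∃ c : F, k.1 *ᵥ x = c • x ∧ c * c = r * k.1.det)
    (hd : ∃ k ∈ K, k.1 0 1 = 0 ∧ k.1 1 0 = 0 ∧ k.1 0 0 ≠ k.1 1 1) :
    ∃ k ∈ K, k.1 0 0 = 0 ∧ k.1 1 1 = 0 := by
  have : Nontrivial Fˣ := Fintype.one_lt_card_iff_nontrivial.1 (by rw [Fintype.card_units]; omega)
  obtain ⟨r, r1⟩ := exists_ne (1 : Fˣ)
  have h3 : ∀ x ≠ 0, ∃ k ∈ K, ∃ c : F, k.1 *ᵥ x = c • x ∧ c * c ≠ k.1.det := fun x hx =>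
    let ⟨k, hk, c, a, b⟩ := h2 x hx r
    ⟨k, hk, c, a, fun e => r1 (Units.ext (mul_right_cancel₀ k.det_ne_zero (by rw [← b, e, Units.val_one, one_mul])))⟩
  obtain ⟨d, hd, d1, d2, d3⟩ := hd
  have dd := d.det_ne_zero
  have e0 : d.1 *ᵥ ![1, 0] = d.1 0 0 • ![1, 0] := funext (Fin.forall_fin_two.2 (by simp [mv, d2]))
  have e1 : d.1 *ᵥ ![0, 1] = d.1 1 1 • ![0, 1] := funext (Fin.forall_fin_two.2 (by simp [mv, d1]))
  have R01 : R K ![1, 0] ![0, 1] := by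
    obtain ⟨y, hy⟩ := exR h1 h3 (x := ![1, 0]) (by simp)
    obtain ⟨e, he⟩ := hy.2 d hd ⟨_, e0⟩
    refine hy.par (by simp) (by simp) (by simp [D]) (eig2 dd e0 (fun o => ?_) he e1 hy.1 (by simp [D]))
    rw [det_fin_two, d1, zero_mul, sub_zero] at dd o
    exact d3 (mul_left_cancel₀ (left_ne_zero_of_mul dd) o)
  have R10 := R01.symm h1 h3
  obtain ⟨y, hy⟩ := exR h1 h3 (x := ![1, 1]) (by simp)
  have hy' := hy.symm h1 h3
  have y0 : y 0 ≠ 0 := fun e => by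
    simpa [D] using R10.uq h3 (hy'.par (x' := ![0, 1]) (y' := ![1, 1]) (by simp) (by simp) (by simp [D, e]) (by simp [D]))
  have y1 : y 1 ≠ 0 := fun e => by
    simpa [D] using R01.uq h3 (hy'.par (x' := ![1, 0]) (y' := ![1, 1]) (by simp) (by simp) (by simp [D, e]) (by simp [D]))
  obtain ⟨k, hk, c, a, b⟩ := h2 ![1, 1] (by simp) (Units.mk0 _ (div_ne_zero y0 y1))
  obtain ⟨e, he⟩ := hy.2 k hk ⟨c, a⟩
  have m := eig_det a he hy.1
  have c0 : c ≠ 0 := fun o => k.det_ne_zero (by rw [← m, o, zero_mul])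
  rw [← m, Units.val_mk0, mul_left_comm, mul_right_inj' c0, div_mul_eq_mul_div, eq_div_iff y1] at b
  have k0 : k.1 0 0 = 0 := mul_right_cancel₀ hy.1 (by
    have a0 := congrFun a 0
    have h0 := congrFun he 0
    simp [mv, D] at a0 h0 ⊢
    exact mul_eq_zero.1 (by linear_combination y 1 * a0 - h0 + b))
  have q := R01.map hk
  have := R10.uq h3 (q.par (x' := ![0, 1]) (by simp) (ne_of (D_comm q.1)) (by simp [D, mv, k0]) (by simp [D, mul_comm]))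
  exact ⟨k, hk, k0, by simpa [D, mv] using this⟩

theorem pn3 (K : Subgroup (GL (Fin 2) F)) (hq : Fintype.card F = 3)
    (h1 : ∀ k ∈ K, ∀ x ≠ 0, ∀ c : F, k.1 *ᵥ x = c • x → c * c = k.1.det → k.1 = c • 1) :
    ∃ D : Subgroup (GL (Fin 2) F), K ≤ D ∧ D ≠ ⊤ ∧
      ∀ y : GL (Fin 2) F, y ≠ 1 → y ^ 3 = 1 → ∀ x, ∃ d ∈ D, ∃ i : ℕ, x = d * y ^ i := by
  have : Fact (Nat.Prime 3) := ⟨Nat.prime_three⟩
  have c : Nat.card (GL (Fin 2) F) = 2 ^ 4 * 3 := by rw [card_GL_field]; simp [hq]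
  have t : (3 : F) = 0 := by simpa [hq] using FiniteField.cast_card_eq_zero F
  have n3 : ¬ 3 ∣ Nat.card K := fun e => by
    obtain ⟨⟨y, hy⟩, o⟩ := exists_prime_orderOf_dvd_card' 3 e
    rw [Subgroup.orderOf_mk] at o
    have y3 : y.1 ^ 3 = 1 := by rw [← Units.val_pow_eq_pow_val, ← o, pow_orderOf_eq_one, Units.val_one]
    have t' : (3 : Matrix (Fin 2) (Fin 2) F) = 0 := by rw [← map_ofNat (algebraMap F _) 3, t, map_zero]
    have : (y.1 - 1).det = 0 := pow_eq_zero_iff three_ne_zero |>.1 (by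
      rw [← det_pow, show (y.1 - 1) ^ 3 = y.1 ^ 3 - 1 - 3 * (y.1 * y.1 - y.1) by noncomm_ring, y3, t']; simp)
    obtain ⟨x, hx, e⟩ := exists_mulVec_eq_zero_iff.2 this
    have d := congrArg det y3
    rw [det_pow, det_one] at d
    have := h1 y hy x hx 1 (by rwa [sub_mulVec, one_mulVec, sub_eq_zero, ← one_smul F x, mulVec_smul, one_smul] at e)
      (by rw [one_mul, eq_comm, ← sub_eq_zero, ← pow_eq_zero_iff three_ne_zero]
          linear_combination d - (y.1.det ^ 2 - y.1.det) * t)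
    rw [one_smul, Units.val_eq_one] at this
    simp [this] at o
  obtain ⟨i, -, hi⟩ := (Nat.dvd_prime_pow Nat.prime_two).1 (((Nat.coprime_comm.1 ((Nat.Prime.coprime_iff_not_dvd Nat.prime_three).2
    n3))).dvd_of_dvd_mul_right (c ▸ K.card_subgroup_dvd_card))
  obtain ⟨S, hS⟩ := (IsPGroup.of_card hi).exists_le_sylow
  have cS : Nat.card S = 2 ^ 4 := by
    rw [S.card_eq_multiplicity, c, Nat.factorization_mul (by norm_num) (by norm_num), Nat.prime_two.factorization_pow,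
      Nat.prime_three.factorization]
    simp
  refine ⟨S, hS, fun e => by rw [e, Subgroup.card_top, c] at cS; omega, fun y y1 y3 x => ?_⟩
  have cy := (Nat.card_zpowers y).trans (orderOf_eq_prime y3 y1)
  obtain ⟨⟨d, z⟩, e, -⟩ := (Subgroup.isComplement'_of_coprime (H := S) (K := Subgroup.zpowers y) (by rw [cS, cy, c])
    (by rw [cS, cy]; norm_num)).existsUnique x
  obtain ⟨i, hi⟩ := mem_powers_iff_mem_zpowers.2 z.2
  exact ⟨d, d.2, i, by rw [← e]; exact congrArg _ hi.symm⟩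

theorem PN.exg {a : ℕ} (ha : a + 2 ≤ n) (hn : 3 ≤ n) {x : Fin 2 → F} (hx : x ≠ 0) :
    ∃ g : PI n F a 2, g.1 ∈ PJ n F {a} ∧ (blk F ha g⁻¹).1 *ᵥ ![1, 0] = x := by
  obtain ⟨z, hz⟩ := exD hx
  obtain ⟨g, hg, e⟩ := exists_blk ha hn (J := {a}) (fun m _ _ => show m = a by omega)
    (GeneralLinearGroup.mkOfDetNeZero !![x 0, z 0; x 1, z 1] (by rwa [det_fin_two_of, mul_comm (z 0)]))
  exact ⟨g⁻¹, inv_mem hg, by rw [inv_inv, e]; exact funext (Fin.forall_fin_two.2 (by simp [mv]))⟩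

theorem pt1 {a : ℕ} (ha : a + 2 ≤ n) (hn : 3 ≤ n) {ω : Ω}
    (h : ∀ g ∈ PJ n F {a}, ∀ u ∈ Us n F (g • ω), u.1 (ix ha 0) (ix ha 1) = 0) :
    ∀ k ∈ Kb F ha {a} ω, ∀ x ≠ 0, ∀ c : F, k.1 *ᵥ x = c • x → c * c = k.1.det →
      k.1 = c • 1 := by
  rintro _ ⟨y, ⟨hy, hy'⟩, rfl⟩ x hx c e d
  obtain ⟨g, hg, rfl⟩ := PN.exg ha hn hx
  have e' : (blk F ha (g * y * g⁻¹)).1 *ᵥ ![1, 0] = c • ![1, 0] := by
    rw [map_mul, map_mul, Units.val_mul, Units.val_mul, ← mulVec_mulVec, ← mulVec_mulVec, e, mulVec_smul, map_inv, mv_inv]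
  have d' : c * c = (blk F ha (g * y * g⁻¹)).1.det := by
    rw [d, map_mul, map_mul, map_inv, Units.val_mul, Units.val_mul, det_units_conj]
  have c0 : c ≠ 0 := fun o => (blk F ha y).det_ne_zero (by rw [← d, o, zero_mul])
  suffices (blk F ha (g * y * g⁻¹)).1 = c • 1 by
    rw [show y = g⁻¹ * (g * y * g⁻¹) * g by group, map_mul, map_mul, Units.val_mul, Units.val_mul, this, map_inv]
    simp
  have fx : (g * y * g⁻¹).1 • g.1 • ω = g.1 • ω := by
    rw [smul_smul, ← Subgroup.coe_mul, inv_mul_cancel_right, Subgroup.coe_mul, mul_smul, show y.1 • ω = ω from hy']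
  have m : (g * y * g⁻¹).1 ∈ PJ n F {a} := mul_mem (mul_mem hg hy) (inv_mem hg)
  generalize g * y * g⁻¹ = b at e' d' fx m
  have b0 : b.1.1 (ix ha 0) (ix ha 0) = c := by simpa [mv, blk_apply] using congrFun e' 0
  have b1 : b.1.1 (ix ha 1) (ix ha 0) = 0 := by simpa [mv, blk_apply] using congrFun e' 1
  have b2 : b.1.1 (ix ha 1) (ix ha 1) = c := by
    simp only [det_fin_two, blk_apply, b0, b1, mul_zero, sub_zero] at d'
    exact (mul_left_cancel₀ c0 d').symm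
  have hb : b.1 ∈ Bo n F := mem_Bo.2 fun i j l => by
    by_cases o : j.1 = a ∧ i.1 = a + 1
    · rwa [show i = ix ha 1 from Fin.ext o.2, show j = ix ha 0 from Fin.ext o.1]
    · exact mem_PJ_one.1 m i j l o
  have pw : ∀ m : ℕ, (b.1 ^ m).1 (ix ha 0) (ix ha 0) = c ^ m ∧
      (b.1 ^ m).1 (ix ha 0) (ix ha 1) * c = m * c ^ m * b.1.1 (ix ha 0) (ix ha 1) := fun m => by
    induction m with
    | zero => simp [one_apply, Fin.ext_iff]
    | succ m ih =>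
      rw [pow_succ, mul_diag (pow_mem hb m) hb, adj_mul rfl (pow_mem hb m) hb, ih.1, b0, b2]
      exact ⟨(pow_succ _ _).symm, by push_cast; linear_combination c * ih.2⟩
  have b3 := (pw (Fintype.card F - 1)).2
  rw [h _ hg _ ⟨pow_mem_Un hb, (stabilizer (GG n F) _).pow_mem fx _⟩, Nat.cast_sub Fintype.card_pos,
    FiniteField.cast_card_eq_zero, FiniteField.pow_card_sub_one_eq_one c c0] at b3
  ext i j
  fin_cases i <;> fin_cases j <;> simp [blk_apply, b0, b1, b2]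
  simpa using b3

theorem pt2 {a : ℕ} (ha : a + 2 ≤ n) (hn : 3 ≤ n) (ω : Ω) {x : Fin 2 → F} (hx : x ≠ 0) :
    ∃ g ∈ PJ n F {a}, ∀ r ∈ Al F (g • ω) (ix ha 0) (ix ha 1),
      ∃ k ∈ Kb F ha {a} ω, ∃ c : F, k.1 *ᵥ x = c • x ∧ c * c = r * k.1.det := by
  obtain ⟨g, hg, rfl⟩ := PN.exg ha hn hx
  refine ⟨g, hg, ?_⟩
  rintro _ ⟨_, ⟨b, hb, rfl⟩, rfl⟩
  have b1 : b.1.1 (ix ha 1) (ix ha 0) = 0 := mem_Bo.1 b.2 _ _ (by simp [Fin.lt_def])
  refine ⟨_, ⟨g⁻¹ * ⟨b.1, Bo_le_PI a 2 b.2⟩ * g, ⟨mul_mem (mul_mem ((PJ n F {a}).inv_mem hg) (Bo_le _ b.2)) hg, ?_⟩, rfl⟩,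
    b.1.1 (ix ha 0) (ix ha 0), ?_, ?_⟩
  · change (g.1⁻¹ * b.1 * g.1) • ω = ω
    rw [mul_smul, mul_smul, show b.1 • g.1 • ω = g.1 • ω from hb, inv_smul_smul]
  · rw [map_mul, map_mul, Units.val_mul, Units.val_mul, ← mulVec_mulVec, ← mulVec_mulVec, map_inv, mv_inv, ← mulVec_smul]
    congr 1
    exact funext (Fin.forall_fin_two.2 (by simp [mv, blk_apply, b1]))
  · rw [map_mul, map_mul, map_inv, Units.val_mul, Units.val_mul, det_units_conj', det_fin_two]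
    have := diag_ne b.2 (ix ha 1)
    simp [blk_apply, b1, dv_val]
    field_simp

end CF.Rk
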