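import Cfsg.Agent.Rk.M1
import Cfsg.Agent.Rk.PN

/-!
Rank 3 actions of `SL_n(2)`: the characters induced from the signs of the panels agree.
-/

set_option autoImplicit false
set_option linter.unusedSectionVars false
open Matrix MulAction Cfsg CF.Char

namespace CF.Rk

variable {n : ℕ} {X : Type*} [MulAction (GG n (ZMod 2)) X]

namespace MV

/-- the graph automorphism -/
def tau : GG 3 (ZMod 2) →* GG 3 (ZMod 2) :=
  MonoidHom.mk' (fun g => ⟨(g⁻¹).1ᵀ.submatrix Fin.revPerm Fin.revPerm, by rw [det_submatrix_equiv_self, det_transpose, (g⁻¹).2]⟩)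
    fun g h => Subtype.ext (by
      change ((g * h)⁻¹).1ᵀ.submatrix _ _ = (g⁻¹).1ᵀ.submatrix _ _ * (h⁻¹).1ᵀ.submatrix _ _
      rw [_root_.mul_inv_rev, val_mul, transpose_mul, submatrix_mul_equiv])

theorem tau_apply (g : GG 3 (ZMod 2)) (i j : Fin 3) : (tau g).1 i j = (g⁻¹).1 j.rev i.rev := rfl

theorem tau_tau (g : GG 3 (ZMod 2)) : tau (tau g) = g := by
  ext i j
  rw [tau_apply, ← map_inv, tau_apply, inv_inv, Fin.rev_rev, Fin.rev_rev]

theorem tr_conj : ∀ a b c d e f g h i : ZMod 2, ∃ p q r s t u : ZMod 2,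
    r * s * r - r * t * q - t * q * r + t * t * p + u * q * q - u * s * p = 1 ∧
    r * b + t * e + u * h = i * t + f * s + c * q ∧ r * c + t * f + u * i = i * u + f * t + c * r ∧
    q * a + s * d + t * g = h * r + e * q + b * p ∧ r * a + t * d + u * g = i * r + f * q + c * p := by
  decide +kernel

theorem tau_conj (g : GG 3 (ZMod 2)) : ∃ m : GG 3 (ZMod 2), tau g = m * g⁻¹ * m⁻¹ := by
  obtain ⟨p, q, r, s, t, u, h0, h1, h2, h3, h4⟩ := tr_conj ((g⁻¹).1 0 0) ((g⁻¹).1 0 1) ((g⁻¹).1 0 2) ((g⁻¹).1 1 0) ((g⁻¹).1 1 1)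
    ((g⁻¹).1 1 2) ((g⁻¹).1 2 0) ((g⁻¹).1 2 1) ((g⁻¹).1 2 2)
  refine ⟨⟨!![r, t, u; q, s, t; p, q, r], by rw [det_fin_three]; exact h0⟩, eq_mul_inv_iff_mul_eq.2 ?_⟩
  ext i j
  change ((tau g).1 * !![r, t, u; q, s, t; p, q, r]) i j = (!![r, t, u; q, s, t; p, q, r] * (g⁻¹).1) i j
  rw [mul_apply, mul_apply, Fin.sum_univ_three, Fin.sum_univ_three]
  simp only [tau_apply]
  generalize (g⁻¹).1 = M at *
  fin_cases i <;> fin_cases j <;> simp [Fin.rev] <;>
    first | ring1 | linear_combination h1 | linear_combination -h1 | linear_combination h2 | linear_combination -h2 |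
      linear_combination h3 | linear_combination -h3 | linear_combination h4 | linear_combination -h4

theorem eps_inv (M : GL (Fin 2) (ZMod 2)) : eps M⁻¹ = eps M := by
  rw [map_inv, inv_eq_iff_mul_eq_one]
  ext
  rw [Units.val_mul, eps_val]
  split_ifs <;> simp

theorem sn_inv {a : ℕ} (h : a + 2 ≤ n) (Y : Subgroup (GG n (ZMod 2))) (hY) (y : Y) : sn h Y hY y⁻¹ = sn h Y hY y := by
  rw [map_inv, sn_apply, ← map_inv, eps_inv]

theorem ep_flip : ∀ a b c d : ZMod 2, ep !![d, b; c, a] = ep !![a, b; c, d] := by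
  simp only [ep, mul_fin_two, one_fin_two, EmbeddingLike.apply_eq_iff_eq, vecCons_inj, and_true]
  decide +kernel

theorem three : (indFun (PJ 3 (ZMod 2) {0}) fun y => (sn (a := 0) (by omega) _ (one_le_PI 0) y : ℂ)) =
    indFun (PJ 3 (ZMod 2) {1}) fun y => (sn (a := 1) le_rfl _ (one_le_PI 1) y : ℂ) := by
  have e : (PJ 3 (ZMod 2) {1}).comap tau = PJ 3 (ZMod 2) {0} := Subgroup.ext fun g => by
    rw [Subgroup.mem_comap, ← inv_mem_iff (x := g), mem_PJ_one, mem_PJ_one]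
    simp only [Fin.forall_fin_succ, tau_apply]
    simp [Fin.rev, and_comm]
  have k := indFun_comap tau (Function.Involutive.surjective tau_tau) (PJ 3 (ZMod 2) {1})
    fun y => (sn (a := 1) le_rfl _ (one_le_PI 1) y : ℂ)
  rw [← indFun_congr e]
  refine Eq.trans (congrArg _ (funext fun y => congrArg _ ?_)) (k.trans (funext fun g => ?_))
  · rw [← sn_inv, sn_apply, sn_apply]
    refine congrArg (Units.map _) ?_
    rw [eta_fin_two (blk _ _ _).1, eta_fin_two (blk _ le_rfl _).1, ← ep_flip]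
    rfl
  obtain ⟨m, e⟩ := tau_conj g
  rw [e, indFun_isClassFunction, indFun_apply, indFun_apply]
  refine congrArg _ (Finset.sum_congr rfl fun x _ => ?_)
  rw [show x⁻¹ * g⁻¹ * x = (x⁻¹ * g * x)⁻¹ by group, extendByZero_apply, extendByZero_apply]
  by_cases o : x⁻¹ * g * x ∈ PJ 3 (ZMod 2) {1}
  · rw [dif_pos o, dif_pos (inv_mem o)]; exact congrArg _ (sn_inv _ _ _ ⟨_, o⟩)
  · rw [dif_neg o, dif_neg (mt inv_mem_iff.1 o)]

end MV

theorem mv {a : ℕ} (ha : a + 2 ≤ n) (hb : a + 1 + 2 ≤ n) :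
    (indFun (PJ n (ZMod 2) {a}) fun y => (sn ha _ (one_le_PI a) y : ℂ)) =
      indFun (PJ n (ZMod 2) {a + 1}) fun y => (sn hb _ (one_le_PI (a + 1)) y : ℂ) := by
  let f : PJ n (ZMod 2) {a, a + 1} →* GG 3 (ZMod 2) := MonoidHom.mk'
    (fun y => ⟨(blk (ZMod 2) (k := 3) hb ⟨y.1, two_le_PI a y.2⟩).1, det_two _⟩) fun y z => Subtype.ext
      (congrArg Units.val (map_mul (blk (ZMod 2) (k := 3) hb) ⟨y.1, two_le_PI a y.2⟩ ⟨z.1, two_le_PI a z.2⟩))
  have fa : ∀ y i j, (f y).1 i j = y.1.1 (ix (k := 3) hb i) (ix (k := 3) hb j) := fun _ _ _ => rfl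
  have sj : Function.Surjective f := fun M => by
    obtain ⟨g, h1, h2⟩ := exists_emb (k := 3) hb M.1 M.2
    refine ⟨⟨g, mem_PJ.2 fun i j ⟨m, a1, a2, a3⟩ => ?_⟩, Subtype.ext (Matrix.ext h1)⟩
    simp only [Set.mem_insert_iff, Set.mem_singleton_iff] at a3
    rw [h2 i j (by omega), if_neg fun e => by rw [e] at a2; omega]
  have e : ∀ c < 2, (PJ n (ZMod 2) {a + c}).subgroupOf (PJ n (ZMod 2) {a, a + 1}) = (PJ 3 (ZMod 2) {c}).comap f :=
    fun c hc => Subgroup.ext fun y => by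
      rw [Subgroup.mem_subgroupOf, Subgroup.mem_comap, mem_PJ_one, mem_PJ_one]
      refine ⟨fun h i j l o => h _ _ (Nat.add_lt_add_left l a) (by simp only [ix_val]; omega), fun h i j l o => ?_⟩
      rw [Fin.lt_def] at l
      by_cases k : a ≤ j.1 ∧ i.1 ≤ a + 2
      · have := h ⟨i.1 - a, by omega⟩ ⟨j.1 - a, by omega⟩ (by simp only [Fin.lt_def]; omega) (by simp only; omega)
        rwa [fa, show ix (k := 3) hb ⟨i.1 - a, _⟩ = i from Fin.ext (by simp only [ix_val]; omega),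
          show ix (k := 3) hb ⟨j.1 - a, _⟩ = j from Fin.ext (by simp only [ix_val]; omega)] at this
      · refine mem_PJ.1 y.2 i j ⟨if j.1 < a then j.1 else i.1 - 1, ?_⟩
        simp only [Set.mem_insert_iff, Set.mem_singleton_iff]
        split_ifs <;> omega
  have := Fintype.ofFinite (PJ n (ZMod 2) {a, a + 1})
  rw [← indFun_indFun _ (PJ n (ZMod 2) {a, a + 1}) (PJ_mono (by simp)),
    ← indFun_indFun (PJ n (ZMod 2) {a + 1}) (PJ n (ZMod 2) {a, a + 1}) (PJ_mono (by simp))]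
  congr 1
  have k0 := indFun_comap f sj (PJ 3 (ZMod 2) {0}) fun y => (sn (a := 0) (by omega) _ (one_le_PI 0) y : ℂ)
  have k1 := indFun_comap f sj (PJ 3 (ZMod 2) {1}) fun y => (sn (a := 1) le_rfl _ (one_le_PI 1) y : ℂ)
  rw [MV.three, ← k1, ← indFun_congr (e 0 two_pos), ← indFun_congr (e 1 one_lt_two)] at k0
  refine Eq.trans (congrArg _ (funext fun y => congrArg _ ?_)) (k0.trans (congrArg _ (funext fun y => congrArg _ ?_))) <;>
    rw [sn_apply, sn_apply] <;> refine congrArg eps (Units.ext (Matrix.ext fun i j => ?_)) <;>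
    rw [blk_apply, blk_apply, fa] <;>
    exact congrArg₂ y.1.1.1 (Fin.ext (by simp only [ix_val]; omega)) (Fin.ext (by simp only [ix_val]; omega))

theorem R3.mv0 (h : R3 n (ZMod 2) X) (hP : ¬ PF n (ZMod 2) X) (h0 : 0 + 2 ≤ n) :
    ∃ ω : X, Gd (sn h0 _ (one_le_PI 0)) ω := by
  have := h.fin
  have k : ∀ (a : ℕ) (ha : a + 2 ≤ n), (∃ ω : X, Gd (sn ha _ (one_le_PI a)) ω) → ∃ ω : X, Gd (sn h0 _ (one_le_PI 0)) ω :=
    fun a => by
      induction a with
      | zero => exact fun _ => id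
      | succ a ih =>
        intro ha e
        refine ih (by omega) (nO_ne_zero.1 fun o => nO_ne_zero.2 e (Nat.cast_injective (R := ℂ) ?_))
        rw [← mk1, ← mv (by omega) ha, mk1, o]
  simp only [PF, not_forall, not_exists, not_and] at hP
  obtain ⟨ω, a, b, hab, hP⟩ := hP
  have ha : a.1 + 2 ≤ n := by omega
  have z : ∀ t : ZMod 2, t = 0 ∨ t = 1 := by decide
  have := pt1 ha (by have := h.n5; omega) (ω := ω) fun g hg u hu => (z _).resolve_right fun e => hP g hg fun t => by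
    rcases z t with rfl | rfl
    · exact ⟨1, one_mem _, one_smul _ _, one_apply_ne fun e => by rw [e] at hab; omega⟩
    · exact ⟨u, hu.1, hu.2, by rwa [show b = ix ha 1 from Fin.ext hab]⟩
  refine k a ha ⟨ω, fun y hy => eps_eq_one.2 ?_⟩
  have := this _ ⟨⟨y.1, one_le_PI _ y.2⟩, ⟨y.2, hy⟩, rfl⟩
  have d := det_two (blk (ZMod 2) ha ⟨y.1, one_le_PI _ y.2⟩)
  change (blk (ZMod 2) ha ⟨y.1, one_le_PI _ y.2⟩).1 * (blk (ZMod 2) ha ⟨y.1, one_le_PI _ y.2⟩).1 *
    (blk (ZMod 2) ha ⟨y.1, one_le_PI _ y.2⟩).1 = 1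
  generalize (blk (ZMod 2) ha ⟨y.1, one_le_PI _ y.2⟩).1 = M at this d
  have c : ∀ M : Matrix (Fin 2) (Fin 2) (ZMod 2), M.det = 1 → M * M * M = 1 ∨ ∃ x ≠ 0, M *ᵥ x = x := by decide +kernel
  refine (c M d).elim id fun ⟨x, hx, e⟩ => ?_
  rw [this x hx 1 (by rwa [one_smul]) (by rw [d, one_mul]), one_smul, mul_one, mul_one]

end CF.Rk
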