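import Cfsg.Agent.Rk.P3a
import Cfsg.Agent.Rk.PN
import Cfsg.Agent.Rk.Pol

/-!
Rank 3 actions of `SL_n(q)`: the case of a large torus is impossible.
-/

set_option autoImplicit false
open Matrix MulAction Cfsg

namespace CF.Rk

variable {n : ℕ} {F : Type*} [Field F] [Fintype F] [DecidableEq F]
  {Ω : Type*} [MulAction (GG n F) Ω]

theorem R3.psi (h : R3 n F Ω) (hq : 3 ≤ Fintype.card F) (hI : Irr n F Ω) (hS : Sep n F Ω)
    (hp : ringChar F = 2 ∨ Full n F Ω) : False := by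
  obtain ⟨ω, hT, hm⟩ := P3.exists_max h
  have hn : 3 ≤ n := by have := h.n5; omega
  refine h.pol (P3.us_triv hI hS hT hm fun a b hab => P3.no_ar h ?_ hab)
    fun ω a b hab => (hI ω a b hab).1
  intro a b hab h0 i j hij
  have ha : a.1 + 2 ≤ n := by have := b.2; omega
  have e0 : ix ha 0 = a := Fin.ext rfl
  have e1 : ix ha 1 = b := Fin.ext hab.symm
  have hne : a ≠ b := Fin.ne_of_val_ne (by omega)
  have h1 := pt1 ha hn (ω := ω) fun g hg u hu => by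
    rw [e0, e1]
    refine P3.zero_all hm hab (fun u hu => ?_) hg hu
    by_contra e
    exact h0 (ar_of_entry hT hI hS hu hne e)
  have h2 : ringChar F ≠ 2 := pn1 _ h1 fun x hx => by
    obtain ⟨g, -, h3⟩ := pt2 ha hn ω hx
    rw [e0, e1] at h3
    obtain ⟨⟨r, hr⟩, r1⟩ := Subgroup.ne_bot_iff_exists_ne_one.1 (hI (g • ω) a b hne).1
    obtain ⟨k, hk, c, c1, c2⟩ := h3 r hr
    refine ⟨k, hk, c, c1, fun e => r1 (Subtype.ext (Units.ext ?_))⟩
    rw [e] at c2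
    exact (mul_eq_right₀ (GeneralLinearGroup.det k).ne_zero).1 c2.symm
  obtain ⟨k, hk, -, k1⟩ := pn2 _ hq h1 (fun x hx r => by
    obtain ⟨g, -, h3⟩ := pt2 ha hn ω hx
    rw [e0, e1, hp.resolve_left h2 _ a b hne] at h3
    exact h3 r (Subgroup.mem_top r)) (by
    obtain ⟨⟨r, hr⟩, r1⟩ := Subgroup.ne_bot_iff_exists_ne_one.1 (hI ω a b hne).1
    obtain ⟨t, ht, rfl⟩ := mem_Al.1 hr
    refine ⟨_, mem_Kb.2 ⟨⟨dg t (P1.prod_Hs ht), Bo_le_PI _ _ (dg_mem t (P1.prod_Hs ht))⟩,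
      ⟨Bo_le _ (dg_mem t (P1.prod_Hs ht)), hT t ht (P1.prod_Hs ht)⟩, rfl⟩, ?_⟩
    simp only [blk_apply, e0, e1, dg_apply, if_neg hne, if_neg hne.symm, if_true, true_and]
    exact fun e => r1 (Subtype.ext (div_eq_one.2 (Units.ext e))))
  obtain ⟨g, ⟨g1, g2⟩, rfl⟩ := mem_Kb.1 hk
  rw [blk_apply, e1] at k1
  exact P3.swap_inv hT hI hS hab g1 g2 k1 hij

end CF.Rk
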