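import Cfsg.Agent.Rk.M2
import Cfsg.Agent.Rk.GR2

/-! Rank 3 actions of `SL_n(q)`: orbits of the line stabiliser, and subgroups with the orbits of a
larger one. -/

set_option autoImplicit false
set_option linter.unusedSectionVars false
open Matrix MulAction Cfsg

namespace CF.Rk
open CF.Char

namespace X5
variable {G : Type*} [Group G] [Fintype G]

theorem ch (Y : Subgroup G) : IsCharacter G (indFun Y fun _ => 1) := char_indFun Y char_const_one

theorem i1 (Y : Subgroup G) : classInner (fun _ : G => (1 : ℂ)) (indFun Y fun _ => 1) = 1 :=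
  (inner_one_ind (1 : Y →* ℂˣ)).trans (if_pos rfl)

theorem mono1 {χ : G → ℂ} (hχ : IsCharacter G χ) {Y Y' : Subgroup G} (h : Y ≤ Y')
    (e : classInner χ (indFun Y' fun _ => 1) ≠ 0) : classInner χ (indFun Y fun _ => 1) ≠ 0 :=
  fun e' => e (inner_ind_mono hχ h 1 e')

theorem mkg (X : Type*) [MulAction G X] [Finite X] (Y : Subgroup G) :
    classInner (fun g => (Nat.card (fixedBy X g) : ℂ)) (indFun Y fun _ => 1) = nB X Y :=
  (M1.mk1g (1 : Y →* ℂˣ)).trans
    (congr_arg _ (Nat.card_congr (Equiv.subtypeUnivEquiv fun _ _ _ => rfl)))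

theorem ch_sub {D P : Subgroup G} (h : D ≤ P) :
    IsCharacter G (indFun D (fun _ => 1) - indFun P fun _ => 1) := by
  classical
  rw [← indFun_indFun D P h, ← indFun_sub]
  refine char_indFun _ (char_sub_of_inner_ne_zero (ch _) irr_one ?_)
  rw [inner_char_comm (ch _) char_const_one, i1]
  exact one_ne_zero

omit [Fintype G] in
theorem nB_eq_iff {X : Type*} [MulAction G X] [Finite X] {D P : Subgroup G} (h : D ≤ P) :
    nB X D = nB X P ↔ ∀ (ω : X), ∀ x ∈ P, ∃ d ∈ D, d • ω = x • ω := by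
  let f : orbitRel.Quotient D X → orbitRel.Quotient P X :=
    Quotient.map' id fun a b ⟨d, e⟩ => ⟨⟨d.1, h d.2⟩, e⟩
  have h1 : Function.Surjective f := fun o => by
    induction o using Quotient.inductionOn'
    exact ⟨Quotient.mk'' _, rfl⟩
  constructor
  · intro e ω x hx
    have h2 := ((Nat.bijective_iff_surjective_and_card f).2 ⟨h1, e⟩).1
    obtain ⟨d, hd⟩ := Quotient.exact' (@h2 (Quotient.mk'' (x • ω)) (Quotient.mk'' ω)
      (Quotient.sound' ⟨⟨x, hx⟩, rfl⟩))
    exact ⟨d.1, d.2, hd⟩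
  · intro e
    refine Nat.card_congr (Equiv.ofBijective f ⟨fun a b e' => ?_, h1⟩)
    induction a using Quotient.inductionOn'
    induction b using Quotient.inductionOn'
    obtain ⟨x, hx⟩ := Quotient.exact' e'
    obtain ⟨d, hd, e1⟩ := e _ x.1 x.2
    exact Quotient.sound' ⟨⟨d, hd⟩, e1.trans hx⟩

end X5

variable {n : ℕ} {F : Type*} [Field F] [Fintype F] [DecidableEq F]
  {Ω : Type*} [MulAction (GG n F) Ω]

theorem char_IP (J : Set ℕ) : IsCharacter _ (IP n F J) := X5.ch _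

theorem CB.nB_eq [Finite Ω] {χ₁ χ₂ : GG n F → ℂ} (c : CB Ω χ₁ χ₂) (J : Set ℕ) :
    (nB Ω (PJ n F J) : ℂ) = 1 + classInner χ₁ (IP n F J) := by
  have h : classInner χ₂ (IP n F J) = 0 := by_contra fun e =>
    X5.mono1 (irr_isCharacter c.i2) (Bo_le J) e (by have := c.p2; rwa [Ib_one] at this)
  rw [← mk1', c.eq, Char.inner_add_left, Char.inner_add_left, X5.i1]
  exact (congr_arg _ h).trans (add_zero _)

theorem R3.x5 (h : R3 n F Ω) (hc : ¬ CA n F Ω) : nB Ω (PJ n F {1}ᶜ) = 1 ∨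
    (nB Ω (PJ n F {1}ᶜ) = 2 ∧ nB Ω (Bo n F) < n.choose 2) := by
  have := h.fin
  have hn := h.n5
  obtain ⟨χ, ψ, c⟩ := h.cb hc
  have c1 := irr_isCharacter c.i1
  obtain ⟨m, hm⟩ := inner_char_eq_nat c1 (char_IP {1}ᶜ)
  have h1 := c.nB_eq {1}ᶜ
  rw [hm] at h1
  by_cases e : m = 0
  · left
    rw [e] at h1
    exact_mod_cast h1
  right
  have e1 : classInner (fun _ => 1) (IP n F {1}ᶜ) = 1 := X5.i1 _
  have e2 : classInner (IP n F {1}ᶜ) (fun _ => 1) = 1 := by
    rw [inner_char_comm (char_IP _) char_const_one, e1]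
  have e3 : classInner (IP n F {1}ᶜ) χ = m := by rw [inner_char_comm (char_IP _) c1, hm]
  have e4 : classInner (fun _ => 1) χ = 0 := inner_irr_ne irr_one c.i1 c.n1.symm
  have e5 : classInner χ (fun _ => 1) = 0 := inner_irr_ne c.i1 irr_one c.n1
  have e6 : classInner (IP n F {1}ᶜ) (IP n F {1}ᶜ) = 3 := by
    rw [gr_kl (by omega) (by omega), show 1 + 1 + 2 - n = 0 by omega]
    norm_num
  have h2 : IsCharacter _ (IP n F {1}ᶜ - (fun _ => 1) - χ) :=
    char_sub_of_inner_ne_zero (char_sub_of_inner_ne_zero (char_IP _) irr_one (by simp [e2])) c.i1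
      (by simpa [Char.inner_sub_left, e3, e4] using e)
  obtain ⟨k, hk⟩ := inner_char_eq_nat h2 h2
  simp only [Char.inner_sub_left, Char.inner_sub_right, e1, e2, e3, e4, e5, e6, hm,
    inner_irr_self c.i1, Char.inner_one_one] at hk
  have h3 : k + 2 * m = 3 := by exact_mod_cast (by linear_combination -hk : (k : ℂ) + 2 * m = 3)
  obtain rfl : m = 1 := by omega
  refine ⟨by exact_mod_cast h1, ?_⟩
  have h4 := X5.mono1 h2 (Bo_le {1}ᶜ) (by
    change classInner _ (IP n F {1}ᶜ) ≠ 0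
    simp only [Char.inner_sub_left, e1, e6, hm]
    norm_num)
  obtain ⟨j, hj⟩ := inner_char_eq_nat h2 (char_IP ∅)
  have h5 : j ≠ 0 := fun e => h4 (hj.trans (by simp [e]))
  have h6 := c.nB_eq ∅
  rw [Char.inner_sub_left, Char.inner_sub_left, gr_B2 (by omega),
    show classInner (fun _ => 1) (IP n F ∅) = 1 from X5.i1 _] at hj
  have h7 : nB Ω (PJ n F ∅) + j = n.choose 2 := by
    exact_mod_cast (by linear_combination h6 - hj : (nB Ω (PJ n F ∅) : ℂ) + j = n.choose 2)
  change nB Ω (PJ n F ∅) < _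
  omega

theorem CB.x5b [Finite Ω] {χ₁ χ₂ : GG n F → ℂ} (c : CB Ω χ₁ χ₂) (hn : 4 ≤ n)
    (h2 : nB Ω (PJ n F {1}ᶜ) = 2) (h1 : nB Ω (PJ n F {0}ᶜ) = 1) :
    χ₁ 1 + (PJ n F {0}ᶜ).index = (PJ n F {1}ᶜ).index := by
  have c1 := irr_isCharacter c.i1
  have e1 := c.nB_eq {1}ᶜ
  have e0 := c.nB_eq {0}ᶜ
  rw [h2] at e1
  rw [h1] at e0
  have a1 : classInner χ₁ (IP n F {1}ᶜ) = 1 := by push_cast at e1; linear_combination -e1
  have a0 : classInner χ₁ (IP n F {0}ᶜ) = 0 := by push_cast at e0; linear_combination -e0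
  have h3 : χ₁ + IP n F {0}ᶜ - IP n F {1}ᶜ = 0 := by
    rw [← Char.inner_self_eq_zero]
    simp only [Char.inner_sub_left, Char.inner_sub_right, Char.inner_add_left, Char.inner_add_right,
      inner_char_comm (char_IP _) c1, a0, a1, inner_irr_self c.i1]
    rw [gr_kl (by omega) (by omega), gr_kl (by omega) (by omega), gr_kl (by omega) (by omega),
      gr_kl (by omega) (by omega), show 0 + 0 + 2 - n = 0 by omega, show 0 + 1 + 2 - n = 0 by omega,
      show 1 + 1 + 2 - n = 0 by omega]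
    norm_num
  have := congrFun h3 1
  simp only [IP, Pi.sub_apply, Pi.add_apply, indFun_one, mul_one, Pi.zero_apply] at this
  exact sub_eq_zero.1 this

theorem R3.x6 (h : R3 n F Ω) (hc : ¬ CA n F Ω) {ω₀ : Ω} {b : Fin n → Ch F} (hb : b ∈ Es n F ω₀)
    (h1 : ¬ Cst b) {D P : Subgroup (GG n F)} (hD : D ≤ P)
    (hv : ∀ g : GG n F, ∀ x ∈ P, ∃ d ∈ D, g⁻¹ * (d⁻¹ * x) * g ∈ Un n F) (ω : Ω) :
    ∀ x ∈ P, ∃ d ∈ D, d • ω = x • ω := by
  have := h.fin
  obtain ⟨χ, ψ, c⟩ := h.cb hc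
  have h2 := X5.ch_sub hD
  have h3 : classInner (indFun (Un n F) fun _ => 1)
      (indFun D (fun _ => 1) - indFun P fun _ => 1) = 0 := by
    rw [show (indFun (Un n F) fun _ => 1) = _ from funext (Clifford.indFun_one_eq_card_fixedBy _),
      Char.inner_sub_right, X5.mkg, X5.mkg, (X5.nB_eq_iff hD).2 fun o x hx => ?_, sub_self]
    induction o using QuotientGroup.induction_on with
    | H g =>
      obtain ⟨d, hd, e⟩ := hv g x hx
      exact ⟨d, hd, QuotientGroup.eq.2 (by simpa [mul_assoc] using e)⟩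
  have h4 : ∀ {φ}, IsIrrCharacter _ φ → classInner φ (indFun (Un n F) fun _ => 1) ≠ 0 →
      classInner φ (indFun D (fun _ => 1) - indFun P fun _ => 1) = 0 := fun hφ e =>
    (irr_common hφ (X5.ch _) h2 h3).resolve_left e
  have h5 : ∀ {φ} {b : Fin n → Ch F}, IsIrrCharacter _ φ → classInner φ (Ib b) ≠ 0 →
      classInner φ (indFun (Un n F) fun _ => 1) ≠ 0 := fun {φ b} hφ e e' =>
    e (inner_ind_mono (irr_isCharacter hφ) Un_le (mu b) (by
      rw [← e']
      congr 2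
      funext y
      rw [mu_apply, Finset.prod_eq_one, Units.val_one]
      intro i _
      rw [show dv n F (Subgroup.inclusion Un_le y) i = 1 from Units.ext ((mem_Un.1 y.2).2 i),
        map_one]))
  refine (X5.nB_eq_iff hD).1 ?_ ω
  have h6 : classInner (pc n F Ω) (indFun D (fun _ => 1) - indFun P fun _ => 1) = 0 := by
    rw [c.eq, Char.inner_add_left, Char.inner_add_left, h4 irr_one (by simp [X5.i1]),
      h4 c.i1 (h5 c.i1 c.p1), h4 c.i2 (h5 c.i2 (c.chi2 hb h1).1)]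
    simp
  rw [Char.inner_sub_right, mk1', mk1', sub_eq_zero] at h6
  exact_mod_cast h6

end CF.Rk
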