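import Cfsg.Agent.Rk.PN
import Cfsg.Agent.Rk.X5
import Cfsg.Agent.Rk.E0

/-!
Rank 3 actions of `SL_n(q)`: every panel is full or parabolic.
-/

set_option autoImplicit false
set_option linter.unusedSectionVars false
open Matrix MulAction Cfsg

namespace CF.Rk

variable {n : ℕ} {F : Type*} [Field F] [Fintype F] [DecidableEq F]
  {Ω : Type*} [MulAction (GG n F) Ω]

namespace PF

theorem ent (hI : Irr n F Ω) {ω : Ω} {a b : Fin n} (hab : b.1 = a.1 + 1) (h : ¬ Top F ω a b) :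
    ∀ u ∈ Us n F ω, u.1 a b = 0 := by
  let S : AddSubgroup F :=
    { carrier := {t | ∃ u ∈ Us n F ω, u.1 a b = t}
      zero_mem' := ⟨1, one_mem _, by simp [one_apply, Fin.ext_iff, hab]⟩
      add_mem' := by
        rintro _ _ ⟨u, hu, rfl⟩ ⟨v, hv, rfl⟩
        refine ⟨u * v, mul_mem hu hv, ?_⟩
        rw [adj_mul hab (Un_le hu.1) (Un_le hv.1), (mem_Un.1 hu.1).2, (mem_Un.1 hv.1).2]
        ring
      neg_mem' := by
        rintro _ ⟨u, hu, rfl⟩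
        refine ⟨u⁻¹, inv_mem hu, ?_⟩
        have := adj_mul hab (Un_le hu.1) (Un_le (inv_mem hu.1))
        rw [mul_inv_cancel, (mem_Un.1 hu.1).2, (mem_Un.1 (inv_mem hu.1)).2, val_one,
          one_apply_ne (by simp [Fin.ext_iff, hab])] at this
        linear_combination -this }
  rcases (hI ω a b (by simp [Fin.ext_iff, hab])).2 S (by
    rintro _ ⟨_, ⟨g, hg, rfl⟩, rfl⟩ _ ⟨u, hu, rfl⟩
    refine ⟨g * u * g⁻¹, (show g.1 • ω = ω from hg) ▸ conj_Us g.2 hu, ?_⟩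
    have := adj_conj hab g.2 hu.1
    refine (eq_div_of_mul_eq (diag_ne g.2 b) this).trans ?_
    simp [dv_val, div_mul_eq_mul_div]) with e | e
  · exact fun u hu => AddSubgroup.mem_bot.1 (e ▸ (⟨u, hu, rfl⟩ : u.1 a b ∈ S))
  · refine absurd (fun t => ?_) h
    obtain ⟨u, hu, e⟩ : t ∈ S := e ▸ AddSubgroup.mem_top t
    exact ⟨u, hu.1, hu.2, e⟩

theorem key (hn : 3 ≤ n) (hI : Irr n F Ω) (h : ¬ PF n F Ω) :
    ∃ (ω : Ω) (a : ℕ) (ha : a + 2 ≤ n), ∀ k ∈ Kb F ha {a} ω, ∀ x ≠ 0, ∀ c : F,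
      k.1 *ᵥ x = c • x → c * c = k.1.det → k.1 = c • 1 := by
  unfold PF at h
  push Not at h
  obtain ⟨ω, a, b, hab, h⟩ := h
  have ha : a.1 + 2 ≤ n := by omega
  obtain rfl : b = ix ha 1 := Fin.ext hab
  exact ⟨ω, a, ha, pt1 ha hn fun g hg => ent hI hab (h g hg)⟩

end PF

theorem R3.pf2 (h : R3 n F Ω) (hp : ringChar F = 2) (hI : Irr n F Ω) : PF n F Ω := by
  have hn := h.n5
  by_contra hc
  obtain ⟨ω, a, ha, h1⟩ := PF.key (by omega) hI hc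
  refine pn1 _ h1 (fun x hx => ?_) hp
  obtain ⟨g, -, hg⟩ := pt2 (F := F) ha (by omega) ω hx
  obtain ⟨⟨r, hr⟩, h2⟩ := Subgroup.ne_bot_iff_exists_ne_one.1
    (hI (g • ω) (ix ha 0) (ix ha 1) ((ix_inj ha).ne (by decide))).1
  obtain ⟨k, hk, c, e1, e2⟩ := hg r hr
  refine ⟨k, hk, c, e1, fun e => h2 (Subtype.ext (Units.ext ?_))⟩
  exact (mul_eq_right₀ (GeneralLinearGroup.det k).ne_zero).1 (e2.symm.trans e)

theorem R3.pf3 (h : R3 n F Ω) (hc : ¬ CA n F Ω) (hq : Fintype.card F = 3) (hf : Full n F Ω)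
    {ω₀ : Ω} {b : Fin n → Ch F} (hb : b ∈ Es n F ω₀) (h1 : ¬ Cst b) : PF n F Ω := by
  have hn := h.n5
  by_contra hP
  obtain ⟨ω, a, ha, h2⟩ := PF.key (by omega) (full_irr hq.ge hf) hP
  obtain ⟨D, d1, d2, d3⟩ := pn3 _ hq h2
  have h3 : (3 : F) = 0 := by simpa [hq] using FiniteField.cast_card_eq_zero F
  have key := h.x6 hc hb h1
    (D := (D.comap (blk F ha)).map (PI n F a 2).subtype ⊓ PJ n F {a}) inf_le_right
    (fun g x hx => ?_) ω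
  · refine d2 (top_unique fun M _ => ?_)
    obtain ⟨x, hx, rfl⟩ := exists_blk ha (by omega) (J := {a})
      (fun m _ _ => by rw [Set.mem_singleton_iff]; omega) M
    obtain ⟨_, ⟨⟨d, hd, rfl⟩, hd'⟩, e⟩ := key x hx
    have h4 : blk F ha (d⁻¹ * x) ∈ D := d1 (mem_Kb.2 ⟨_, ⟨(PJ n F {a}).mul_mem ((PJ n F {a}).inv_mem hd') hx, by
      change (d.1⁻¹ * x.1) • ω = ω
      rw [mul_smul, ← e]
      exact inv_smul_smul d.1 ω⟩, rfl⟩)
    simpa using mul_mem hd h4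
  obtain ⟨u, hu, w, c, hc, rfl⟩ := bruhat g
  obtain ⟨i, j, hij, h4, h5⟩ : ∃ (i j : Fin 2) (_ : i ≠ j), w⁻¹ (ix ha i) < w⁻¹ (ix ha j) ∧
      xr ((ix_inj ha).ne ‹_›) (1 : F) ∈ PJ n F {a} := by
    have e : ∀ (i j : Fin 2) (h : i ≠ j), xr ((ix_inj ha).ne h) (1 : F) ∈ PJ n F {a} :=
      fun i j h => mem_PJ_one.2 fun k l e1 e2 => by
        rw [xr_apply, if_neg e1.ne', if_neg, add_zero]
        rintro ⟨rfl, rfl⟩
        simp only [Fin.lt_def, ix_val] at e1 e2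
        omega
    rcases lt_or_gt_of_ne (w⁻¹.injective.ne ((ix_inj ha).ne (show (0 : Fin 2) ≠ 1 by decide)))
      with e' | e'
    · exact ⟨0, 1, by decide, e', e 0 1 (by decide)⟩
    · exact ⟨1, 0, by decide, e', e 1 0 (by decide)⟩
  set z := xr ((ix_inj ha).ne hij) (1 : F) with hz
  have hu' := Bo_le {a} (Un_le hu)
  have h6 : u * z * u⁻¹ ∈ PJ n F {a} := mul_mem (mul_mem hu' h5) (inv_mem hu')
  have h7 : (wd F w)⁻¹ * z * wd F w ∈ Un n F := by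
    have e := wd_conj_xr (F := F) w h4.ne ((sg F w (w⁻¹ (ix ha i)))⁻¹.1 * sg F w (w⁻¹ (ix ha j)))
    have e' : (wd F w)⁻¹ * z * wd F w = xr h4.ne
        ((sg F w (w⁻¹ (ix ha i)))⁻¹.1 * sg F w (w⁻¹ (ix ha j))) := by
      rw [mul_assoc, inv_mul_eq_iff_eq_mul, ← eq_mul_inv_iff_mul_eq, e, hz]
      simp [mul_assoc]
    exact e' ▸ xr_mem h4 _
  let y : PI n F a 2 := ⟨_, one_le_PI a h6⟩
  obtain ⟨d, hd, m, e⟩ := d3 (blk F ha y) (fun e => by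
    have e1 : y = ⟨u, one_le_PI a hu'⟩ * ⟨z, one_le_PI a h5⟩ * ⟨u, one_le_PI a hu'⟩⁻¹ := rfl
    rw [e1, map_mul, map_mul, map_inv, conj_eq_one_iff] at e
    have := congrArg (fun M : GL (Fin 2) F => M.1 i j) e
    simp [blk_apply, hz, xr_apply, hij, (ix_inj ha).eq_iff] at this) (by
    rw [← map_pow, ← map_one (blk F ha)]
    refine congrArg _ (Subtype.ext ?_)
    change (u * z * u⁻¹) ^ 3 = 1
    rw [conj_pow, conj_eq_one_iff, pow_three, hz, xr_mul, xr_mul, ← xr_zero ((ix_inj ha).ne hij)]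
    congr 1
    linear_combination h3) (blk F ha ⟨x, one_le_PI a hx⟩)
  refine ⟨x * ((u * z * u⁻¹) ^ m)⁻¹, ⟨⟨⟨x, one_le_PI a hx⟩ * (y ^ m)⁻¹, ?_, rfl⟩,
    (PJ n F {a}).mul_mem hx ((PJ n F {a}).inv_mem (pow_mem h6 m))⟩, ?_⟩
  · change blk F ha _ ∈ D
    simpa [e] using hd
  · have h8 := conj_Un (inv_mem hc) (pow_mem h7 m)
    have e1 : ((wd F w)⁻¹ * z * wd F w) ^ m = (wd F w)⁻¹ * z ^ m * wd F w := by
      simpa using conj_pow (a := (wd F w)⁻¹) (b := z) (i := m)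
    rw [e1] at h8
    convert h8 using 1
    rw [conj_pow]
    group

end CF.Rk
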