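import Cfsg.Agent.Rk.X3
import Cfsg.Agent.Rk.X5
import Cfsg.Agent.Rk.E1

/-! Rank 3 actions of `SL_n(q)`: the field with four elements. -/

set_option autoImplicit false
open Matrix MulAction Cfsg

namespace CF.Rk

variable {n : ℕ} {F : Type*} [Field F] [Fintype F] [DecidableEq F]
  {Ω : Type*} [MulAction (GG n F) Ω]

theorem R3.q4 (h : R3 n F Ω) (hc : ¬ CA n F Ω) (hq : Fintype.card F = 4) (hf : ¬ Full n F Ω) :
    False := by
  have := h.fin
  have n5 := h.n5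
  simp only [Full, not_forall] at hf
  obtain ⟨ω, a, b, hab, e⟩ := hf
  obtain ⟨c, -, e⟩ := SetLike.exists_of_lt (lt_top_iff_ne_top.2 e)
  obtain ⟨ν, h1, hb⟩ := dual_Al hab e
  have h1 : ν ≠ 1 := fun e => h1 (by simp [e])
  have h3 : ν ^ 3 = 1 := MonoidHom.ext fun x => by
    rw [MonoidHom.pow_apply, ← map_pow, show 3 = Fintype.card Fˣ by rw [Fintype.card_units, hq], pow_card_eq_one, map_one]
    rfl
  obtain ⟨k, ω', k'⟩ := h.x4 hc hab h1 h3 hb
  have lo : n.choose 2 ≤ nB Ω (Bo n F) := by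
    have k : ∀ s : {s : Sym2 (Fin n) // ¬ s.IsDiag}, ∃ (c d : Fin n) (ω : Ω), c ≠ d ∧ s.1 = s(c, d) ∧ rt c d ν ∈ Es n F ω := by
      rintro ⟨⟨c, d⟩, e⟩
      exact (k c d e).elim fun ω k => ⟨c, d, ω, e, rfl, k⟩
    choose c d w k1 k2 k3 using k
    have := Nat.card_le_card_of_injective (fun s => (Quotient.mk'' (w s) : orbitRel.Quotient (Bo n F) Ω)) fun s t e => by
      obtain ⟨g, hg⟩ := Quotient.exact' e
      refine Subtype.ext ((k2 s).trans ((h.e1d hc (k1 s) (k1 t) h1 h3 (k3 s) ?_).trans (k2 t).symm))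
      rw [← show g.1 • w t = w s from hg, Es, Hs_smul g.2]
      exact k3 t
    rwa [Nat.card_eq_fintype_card, Sym2.card_subtype_not_diag, Fintype.card_fin] at this
  obtain ⟨-, tr⟩ := nB_eq_one.1 ((h.x5 hc).resolve_right fun e => e.2.not_ge lo)
  have h0 : 0 + 2 ≤ n := by omega
  have hi : nB Ω (Bo n F) ≤ Nat.card (Option F) := Nat.card_le_card_of_surjective (fun t : Option F =>
      (Quotient.mk'' (t.elim ω' fun t => (wd F (Equiv.swap (ix h0 0) (ix h0 1)) * xr ((ix_inj h0).ne zero_ne_one) t) • ω') :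
        orbitRel.Quotient (Bo n F) Ω)) (Quotient.ind' fun x => by
    obtain ⟨g, hg, rfl⟩ := tr ω' x
    obtain ⟨m, hm, e⟩ := exists_blk h0 (by omega) (J := {0}) (fun m _ _ => by simp; omega) (blk F h0 ⟨g, line_le_PI hg⟩)
    have l : m.1⁻¹ * g ∈ PJ n F {1}ᶜ := mul_mem (inv_mem (PJ_mono (by simp) hm)) hg
    obtain ⟨y, hy, e'⟩ := k' (m.1⁻¹ * g) (mem_PJ.2 fun i j ⟨r, a1, a2, a3⟩ => by
      by_cases c : i.1 = 1
      · have : blk F h0 (m⁻¹ * ⟨g, line_le_PI hg⟩) = 1 := by rw [map_mul, map_inv, e, inv_mul_cancel]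
        obtain rfl : i = ix h0 1 := Fin.ext c
        obtain rfl : j = ix h0 0 := Fin.ext (by simp at a2 ⊢; omega)
        exact congrArg (·.1 1 0) this
      · exact mem_PJ.1 l i j ⟨1, by simp at a3; omega, by omega, by simp⟩)
    have e2 : g • ω' = (m.1 * y) • ω' := by rw [mul_smul, e', ← mul_smul, mul_inv_cancel_left]
    rcases bruhat_one (a := ix h0 0) (b := ix h0 1) rfl (mul_mem hm (Bo_le _ hy)) with c | ⟨u, hu, _, t, c⟩
    · exact ⟨none, cl_iff_mk.1 ⟨_, c, e2.symm⟩⟩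
    · exact ⟨some t, cl_iff_mk.1 ⟨u, hu, by rw [e2, c, mul_assoc, mul_smul]; rfl⟩⟩)
  rw [Nat.card_eq_fintype_card, Fintype.card_option, hq] at hi
  exact absurd ((Nat.choose_le_choose 2 n5).trans (lo.trans hi)) (by decide)

end CF.Rk
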