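import Cfsg.Agent.Rk.B

/-! Rank 3 actions of `SL_n(q)`: transfer to the prime field with two elements. -/

set_option autoImplicit false
open Matrix MulAction Cfsg

namespace CF.Rk

variable {n : ℕ} {F : Type*} [Field F] [Fintype F] [DecidableEq F]
  {Ω : Type*} [MulAction (GG n F) Ω]

theorem R3.t2 (h : R3 n F Ω) (hq : Fintype.card F = 2) :
    ∃ _ : MulAction (GG n (ZMod 2)) Ω, R3 n (ZMod 2) Ω := by
  let e := ZMod.ringEquivOfPrime F Nat.prime_two hq
  let φ : GG n (ZMod 2) ≃* GG n F := MonoidHom.toMulEquiv (SpecialLinearGroup.map (e : ZMod 2 →+* F))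
    (SpecialLinearGroup.map (e.symm : F →+* ZMod 2)) (by ext; simp) (by ext; simp)
  let this := MulAction.compHom Ω φ.toMonoidHom
  have s : ∀ (g : GG n (ZMod 2)) (ω : Ω), g • ω = φ g • ω := fun _ _ => rfl
  refine ⟨this, h.n5, h.fin, ⟨fun a b => ?_⟩, fun ω => (φ.comapSubgroup.isCoatom_iff _).2 (h.co ω), fun ω => ?_, h.ne,
    fun ω W k => ?_⟩
  · obtain ⟨g, hg⟩ := h.tr.exists_smul_eq a b
    exact ⟨φ.symm g, by rw [s, φ.apply_symm_apply, hg]⟩
  · rw [← h.rk ω]
    refine Nat.card_congr (Quotient.congrRight fun a b => ⟨fun ⟨g, k⟩ => ⟨⟨φ g, g.2⟩, k⟩, fun ⟨g, k⟩ =>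
      ⟨⟨φ.symm g, by rw [mem_stabilizer_iff, s, φ.apply_symm_apply]; exact g.2⟩, ?_⟩⟩)
    exact ((s _ _).trans (by rw [φ.apply_symm_apply]; rfl)).trans k
  · let W' : Submodule F (Fin n → F) :=
      { carrier := {v | e.symm ∘ v ∈ W}
        add_mem' := fun a b => by change _ ∈ W; convert W.add_mem a b using 1; ext; simp
        zero_mem' := by change _ ∈ W; convert zero_mem W using 1; ext; simp
        smul_mem' := fun c _ a => by change _ ∈ W; convert W.smul_mem (e.symm c) a using 1; ext; simp }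
    have m : ∀ v, v ∈ W ↔ e ∘ v ∈ W' := fun v => by
      change _ ↔ e.symm ∘ e ∘ v ∈ W
      simp [Function.comp_def]
    refine (h.irr ω W' fun g hg v hv => ?_).imp (fun c : W' = ⊥ => eq_bot_iff.2 fun v hv => ?_)
      fun c : W' = ⊤ => eq_top_iff.2 fun v _ => (m v).2 (c.ge trivial)
    · have := k (φ.symm g) (by rw [s, φ.apply_symm_apply, hg]) _ hv
      change e.symm ∘ (g.1 *ᵥ v) ∈ W
      convert this using 1
      ext i
      exact (e.symm : F →+* ZMod 2).map_mulVec g.1 v i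
    · have := c.le ((m v).1 hv)
      exact funext fun i => e.map_eq_zero_iff.1 (congrFun this i)

end CF.Rk
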