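import Cfsg.Agent.Rk.C

/-! Rank 3 actions of `SL_n(q)`: doubly transitive actions of the symmetric group. -/

set_option autoImplicit false
open MulAction Cfsg

namespace CF.Rk

open Equiv

variable {n : ℕ}

namespace W3

theorem two {G Γ : Type*} [Group G] [MulAction G Γ] [Finite Γ]
    (h2 : Nat.card (orbitRel.Quotient G (Γ × Γ)) ≤ 2) {x x' y y' : Γ} (h : x ≠ x') (k : y ≠ y') :
    ∃ w : G, w • x = y ∧ w • x' = y' := by
  classical
  have := Fintype.ofFinite (orbitRel.Quotient G (Γ × Γ))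
  have d : ∀ {u v : Γ}, u ≠ v → (Quotient.mk'' (u, v) : orbitRel.Quotient G (Γ × Γ)) ≠ Quotient.mk'' (x, x) :=
    fun n e => let ⟨_, q⟩ := Quotient.exact' e; n ((congrArg Prod.fst q).symm.trans (congrArg Prod.snd q))
  by_contra q
  have := Finset.card_le_univ ({Quotient.mk'' (y, y'), Quotient.mk'' (x, x'), Quotient.mk'' (x, x)} :
    Finset (orbitRel.Quotient G (Γ × Γ)))
  rw [Finset.card_eq_three.2 ⟨_, _, _, fun e => let ⟨w, e⟩ := orbitRel_apply.1 (Quotient.exact' e)
    q ⟨w, congrArg Prod.fst e, congrArg Prod.snd e⟩, d k, d h, rfl⟩, ← Nat.card_eq_fintype_card] at this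
  omega

variable {Γ : Type*} [MulAction (Perm (Fin n)) Γ]

/-- the transposition fixes the point -/
def T (γ : Γ) (x y : Fin n) : Prop := swap x y • γ = γ

theorem T.refl (γ : Γ) (x : Fin n) : T γ x x := by rw [T, swap_self]; exact one_smul _ _

theorem T.symm {γ : Γ} {x y : Fin n} (h : T γ x y) : T γ y x := by rwa [T, swap_comm]

theorem T_smul (w : Perm (Fin n)) {γ : Γ} {x y : Fin n} : T (w • γ) (w x) (w y) ↔ T γ x y := by
  rw [T, T, swap_apply_apply, mul_smul, mul_smul, inv_smul_smul, smul_left_cancel_iff]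

theorem T_inv (w : Perm (Fin n)) {γ : Γ} {x y : Fin n} : T (w⁻¹ • γ) x y ↔ T γ (w x) (w y) := by
  rw [← T_smul w, smul_inv_smul]

theorem T.trans {γ : Γ} {x y z : Fin n} (h : T γ x y) (k : T γ y z) : T γ x z := by
  by_cases a : z = x
  · exact a ▸ T.refl γ z
  by_cases b : z = y
  · exact b ▸ h
  have := (T_smul (swap x y)).2 k
  rwa [h, swap_apply_right, swap_apply_of_ne_of_ne a b] at this

/-- the points agree outside at most `k` coordinates -/
def P (n k : ℕ) [MulAction (Perm (Fin n)) Γ] (u v : Γ) : Prop :=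
  ∃ S : Finset (Fin n), S.card ≤ k ∧ ∀ x ∉ S, ∀ z : Fin n, T u x z ↔ T v x z

theorem P.all [Finite Γ] (h2 : Nat.card (orbitRel.Quotient (Perm (Fin n)) (Γ × Γ)) ≤ 2) {k : ℕ} {x y : Γ}
    (h : P n k x y) (ne : x ≠ y) (u v : Γ) : P n k u v := by
  by_cases e : u = v
  · exact ⟨∅, Nat.zero_le _, fun _ _ _ => e ▸ Iff.rfl⟩
  obtain ⟨w, rfl, rfl⟩ := two h2 ne e
  obtain ⟨S, c, h⟩ := h
  refine ⟨S.map w.toEmbedding, by rwa [Finset.card_map], fun a ha z => ?_⟩
  obtain ⟨a, rfl⟩ := w.surjective a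
  obtain ⟨z, rfl⟩ := w.surjective z
  rw [T_smul, T_smul]
  exact h a (fun q => ha (Finset.mem_map_of_mem _ q)) z

theorem core [Finite Γ] (hn : 5 ≤ n) (h2 : Nat.card (orbitRel.Quotient (Perm (Fin n)) (Γ × Γ)) ≤ 2)
    {γ : Γ} {a b c d : Fin n} (hab : a ≠ b) (hcd : c ≠ d) (hac : a ≠ c) (had : a ≠ d) (hbc : b ≠ c)
    (hbd : b ≠ d) (A : ∀ x, T γ a x ↔ x = a ∨ x = c) (B : ∀ x, T γ b x ↔ x = b ∨ x = d) : False := by
  obtain ⟨e, -, he⟩ := Finset.exists_mem_notMem_of_card_lt_card (s := {a, b, c, d}) (t := Finset.univ)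
    (Finset.card_le_four.trans_lt (by simp; omega))
  simp only [Finset.mem_insert, Finset.mem_singleton, not_or] at he
  obtain ⟨ea, eb, ec, ed⟩ := he
  have ac := (A c).2 (.inr rfl)
  have bd := (B d).2 (.inr rfl)
  have n1 : ¬ T γ b c := fun h => ((B c).1 h).elim hbc.symm hcd
  have n2 : ¬ T γ e d := fun h => ((B e).1 (bd.trans h.symm)).elim eb ed
  have n3 : ¬ T γ e c := fun h => ((A e).1 (ac.trans h.symm)).elim ea ec
  obtain ⟨S, cS, h⟩ := P.all h2 (k := 4) (x := γ) (y := (swap a b)⁻¹ • γ) ⟨{a, b, c, d}, Finset.card_le_four,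
    fun x hx z => by
      simp only [Finset.mem_insert, Finset.mem_singleton, not_or] at hx
      have p : ¬ T γ x a := fun h => ((A x).1 h.symm).elim hx.1 hx.2.2.1
      have q : ¬ T γ x b := fun h => ((B x).1 h.symm).elim hx.2.1 hx.2.2.2
      rw [T_inv, swap_apply_of_ne_of_ne hx.1 hx.2.1, swap_apply_def]
      split_ifs with u v
      exacts [u ▸ iff_of_false p q, v ▸ iff_of_false q p, Iff.rfl]⟩
    (fun q => ((A b).1 (eq_inv_smul_iff.1 q)).elim hab.symm hbc) γ ((swap a b * swap b e)⁻¹ • γ)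
  simp only [T_inv, Perm.mul_apply] at h
  have t1 : swap a b (swap b e a) = b := by rw [swap_apply_of_ne_of_ne hab (Ne.symm ea), swap_apply_left]
  have t2 : swap a b (swap b e b) = e := by rw [swap_apply_left, swap_apply_of_ne_of_ne ea eb]
  have t3 : swap a b (swap b e c) = c := by
    rw [swap_apply_of_ne_of_ne hbc.symm (Ne.symm ec), swap_apply_of_ne_of_ne hac.symm hbc.symm]
  have t4 : swap a b (swap b e d) = d := by
    rw [swap_apply_of_ne_of_ne hbd.symm (Ne.symm ed), swap_apply_of_ne_of_ne had.symm hbd.symm]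
  have t5 : swap a b (swap b e e) = a := by rw [swap_apply_right, swap_apply_right]
  have : ({e, a, b, c, d} : Finset (Fin n)) ⊆ S := by
    simp only [Finset.insert_subset_iff, Finset.singleton_subset_iff]
    refine ⟨?_, ?_, ?_, ?_, ?_⟩ <;> by_contra q
    · exact n3 ((h _ q c).2 (by rwa [t5, t3]))
    · exact n1 (t1 ▸ t3 ▸ (h _ q c).1 ac)
    · exact n2 (t2 ▸ t4 ▸ (h _ q d).1 bd)
    · exact n1 (T.symm (t1 ▸ t3 ▸ (h _ q a).1 ac.symm))
    · exact n2 (T.symm (t2 ▸ t4 ▸ (h _ q b).1 bd.symm))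
  have := Finset.card_le_card this
  rw [Finset.card_insert_of_notMem (by simp [*]), Finset.card_insert_of_notMem (by simp [*]),
    Finset.card_insert_of_notMem (by simp [*]), Finset.card_pair hcd] at this
  omega

end W3

open W3

theorem w3 {Γ : Type*} [MulAction (Equiv.Perm (Fin n)) Γ] [Finite Γ] (hn : 5 ≤ n)
    [IsPretransitive (Equiv.Perm (Fin n)) Γ]
    (h2 : Nat.card (orbitRel.Quotient (Equiv.Perm (Fin n)) (Γ × Γ)) ≤ 2)
    (hl : ∃ (γ : Γ) (a b : Fin n), a ≠ b ∧ Equiv.swap a b • γ = γ) {γ : Γ} {a b c d : Fin n}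
    (hab : a ≠ b) (hcd : c ≠ d) (hac : a ≠ c) (had : a ≠ d) (hbc : b ≠ c) (hbd : b ≠ d)
    (e : Equiv.swap a b • γ = Equiv.swap c d • γ) : Equiv.swap a b • γ = γ := by
  by_contra nab
  have ncd : ¬ T γ c d := fun h => nab (e.trans h)
  have k : ∀ {x y}, T γ x y → T γ (swap a b (swap c d x)) (swap a b (swap c d y)) := fun h => by
    have := (T_smul (swap a b * swap c d)).2 h
    rwa [mul_smul, ← e, smul_smul, swap_mul_self, one_smul] at this
  have ka : swap a b (swap c d a) = b := by rw [swap_apply_of_ne_of_ne hac had, swap_apply_left]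
  have kb : swap a b (swap c d b) = a := by rw [swap_apply_of_ne_of_ne hbc hbd, swap_apply_right]
  have kc : swap a b (swap c d c) = d := by rw [swap_apply_left, swap_apply_of_ne_of_ne had.symm hbd.symm]
  have kd : swap a b (swap c d d) = c := by rw [swap_apply_right, swap_apply_of_ne_of_ne hac.symm hbc.symm]
  have A : ∀ x, T γ a x → x = a ∨ x = c ∨ x = d := fun x h => by
    by_contra! q
    have := k h
    rw [ka, swap_apply_of_ne_of_ne q.2.1 q.2.2, swap_apply_of_ne_of_ne q.1 fun r => nab (r ▸ h :)] at this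
    exact nab (h.trans this.symm)
  have B : ∀ x, T γ b x → x = b ∨ x = c ∨ x = d := fun x h => by
    by_contra! q
    have := k h
    rw [kb, swap_apply_of_ne_of_ne q.2.1 q.2.2, swap_apply_of_ne_of_ne (fun r => nab (by rw [r] at h; exact h.symm)) q.1] at this
    exact nab (this.trans h.symm)
  by_cases ac : T γ a c
  · have bd := ka ▸ kc ▸ k ac
    exact core hn h2 hab hcd hac had hbc hbd
      (fun x => ⟨fun h => (A x h).imp_right (·.resolve_right fun r => ncd (ac.symm.trans (r ▸ h))),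
        by rintro (rfl | rfl); exacts [T.refl _ _, ac]⟩)
      fun x => ⟨fun h => (B x h).imp_right (·.resolve_left fun r => ncd ((bd.symm.trans (r ▸ h)).symm)),
        by rintro (rfl | rfl); exacts [T.refl _ _, bd]⟩
  by_cases ad : T γ a d
  · have bc := ka ▸ kd ▸ k ad
    exact core hn h2 hab hcd.symm had hac hbd hbc
      (fun x => ⟨fun h => (A x h).imp_right (·.resolve_left fun r => ac (r ▸ h)),
        by rintro (rfl | rfl); exacts [T.refl _ _, ad]⟩)
      fun x => ⟨fun h => (B x h).imp_right (·.resolve_right fun r => ncd (bc.symm.trans (r ▸ h))),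
        by rintro (rfl | rfl); exacts [T.refl _ _, bc]⟩
  have A' : ∀ x, T γ a x → x = a := fun x h =>
    (A x h).resolve_right (·.elim (fun r => ac (r ▸ h)) fun r => ad (r ▸ h))
  have B' : ∀ x, T γ b x → x = b := fun x h => (B x h).resolve_right
    (·.elim (fun r => ad (by simpa only [r, kb, kc] using k h)) fun r => ac (by simpa only [r, kb, kd] using k h))
  have s : ∀ x y, T γ x y → T γ (swap a b x) (swap a b y) := fun x y h => by
    by_cases q : x = y
    · exact q ▸ T.refl _ _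
    rwa [swap_apply_of_ne_of_ne (by rintro rfl; exact q (A' y h).symm) (by rintro rfl; exact q (B' y h).symm),
      swap_apply_of_ne_of_ne (by rintro rfl; exact q (A' x h.symm)) (by rintro rfl; exact q (B' x h.symm))]
  obtain ⟨γ₀, x, y, hxy, f⟩ := hl
  obtain ⟨w, hw⟩ := isConj_iff.1 (Perm.isConj_swap hxy hab)
  obtain ⟨S, cS, h⟩ := P.all h2 (k := 0) (x := γ) (y := (swap a b)⁻¹ • γ) ⟨∅, le_rfl, fun x _ z => by
    rw [T_inv]; exact ⟨s _ _, fun h => by simpa using s _ _ h⟩⟩ (fun q => nab (eq_inv_smul_iff.1 q)) (w • γ₀) γ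
  refine nab ((h a (by simp [Finset.card_eq_zero.1 (Nat.le_zero.1 cS)]) b).1 ?_)
  rw [T, ← hw, mul_smul, mul_smul, inv_smul_smul, f]

theorem w3' {Γ : Type*} [MulAction (Equiv.Perm (Fin n)) Γ] [Finite Γ]
    (h2 : Nat.card (orbitRel.Quotient (Equiv.Perm (Fin n)) (Γ × Γ)) ≤ 2) (f : Γ → ℤˣ)
    (hf : ∀ (γ : Γ) (a b : Fin n), b.1 = a.1 + 1 → f (Equiv.swap a b • γ) = -f γ) (γ : Γ)
    {a b c d : Fin n} (hab : a ≠ b) (hcd : c ≠ d) :
    Equiv.swap a b • γ = Equiv.swap c d • γ := by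
  have k : ∀ (w : Perm (Fin n)) γ, f (w • γ) = Perm.sign w * f γ := fun w => by
    have hw : w ∈ YJ n Set.univ := YJ_univ ▸ Subgroup.mem_top w
    rw [YJ_eq_closure] at hw
    induction hw using Subgroup.closure_induction with
    | mem x hx =>
      obtain ⟨a, b, e, -, rfl⟩ := hx
      intro γ
      rw [hf γ a b e, Perm.sign_swap (by simp only [ne_eq, Fin.ext_iff]; omega), neg_one_mul]
    | one => simp
    | mul x y _ _ p q => intro γ; rw [mul_smul, p, q, map_mul, mul_assoc]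
    | inv x _ p => intro γ; rw [Perm.sign_inv, ← smul_inv_smul x γ, p, inv_smul_smul, ← mul_assoc]; simp
  have p := k (swap a b) γ
  have q := k (swap c d) γ
  rw [Perm.sign_swap ‹_›] at p q
  have ne : ∀ u : ℤˣ, u ≠ -1 * u := by decide
  by_contra e
  obtain ⟨w, u, v⟩ := two h2 (x := γ) (x' := swap a b • γ) (fun r => ne _ (by rwa [← r] at p)) e
  have := k w (swap a b • γ)
  rw [v, p, q, mul_left_comm, ← k, u, p] at this
  exact ne _ this

end CF.Rk
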