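import Cfsg.Agent.Rk.W4a
import Cfsg.Agent.Rk.N
import Cfsg.Agent.Rk.W3

/-!
Rank 3 actions of `SL_n(q)`: the Weyl group argument.
-/

set_option autoImplicit false
set_option linter.unusedSectionVars false
open Matrix MulAction Cfsg

namespace CF.Rk

variable {n : ℕ} {F : Type*} [Field F] [Fintype F] [DecidableEq F]
  {Ω : Type*} [MulAction (GG n F) Ω]

open W0 W1

theorem R3.ws (h : R3 n F Ω) (hc : ¬ CA n F Ω) (hP : PF n F Ω) (hA : A2 n F Ω) : False := by
  obtain ⟨φ, hφ⟩ := w1 hP hA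
  have := h.fin
  have := h.tr
  have := h.ne
  have n5 := h.n5
  let := MulAction.compHom (orbitRel.Quotient (Bo n F) Ω) φ
  have o := w_orb hP φ hφ
  have hφ' : ∀ (ω : Ω) (a b : Fin n), b.1 = a.1 + 1 → Top F ω a b →
      Equiv.swap a b • cl n F ω = cl n F (wd F (Equiv.swap a b) • ω) := hφ
  have h2 := h.w8 hc fun J => W4.nB_eq J (o J)
  have : IsPretransitive (Equiv.Perm (Fin n)) (orbitRel.Quotient (Bo n F) Ω) := ⟨fun x y => by
    induction x using Quotient.inductionOn' with | h x => ?_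
    induction y using Quotient.inductionOn' with | h y => ?_
    obtain ⟨g, e⟩ := exists_smul_eq (GG n F) x y
    obtain ⟨w, -, e⟩ := (o Set.univ x y).1 ⟨g, by rw [PJ_univ]; trivial, e⟩
    exact ⟨w, e⟩⟩
  obtain ⟨ω, m⟩ := Finite.exists_max fun ω : Ω => Nat.card (Us n F ω)
  have T : ∀ a b : Fin n, b.1 = a.1 + 1 → Top F ω a b := fun a b hab => w_max hP hab fun g _ => m _
  by_cases hl : ∃ (γ : orbitRel.Quotient (Bo n F) Ω) (a b : Fin n), a ≠ b ∧ Equiv.swap a b • γ = γ
  · refine h.w_end hc ω (W4.all hA (fun y a b c d hab hcd hf h1 h2' => (w2 hP hab hcd hf h1 h2').resolve_right fun e => e.2 ?_) T)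
    simp only [Fin.lt_def] at hf
    rw [← cl_eq, ← hφ' y a b hab h1]
    refine (w3 n5 h2 hl (c := c) (d := d) ?_ ?_ ?_ ?_ ?_ ?_ (by rw [hφ' y a b hab h1, hφ' y c d hcd h2', cl_eq.2 e.1])).symm <;>
      simp only [ne_eq, Fin.ext_iff] <;> omega
  have q := Fintype.one_lt_card (α := F)
  have nl : ∀ (y : Ω) (a b : Fin n), b.1 = a.1 + 1 → Top F y a b →
      Nat.card (Us n F y) = Fintype.card F * Nat.card (Us n F (wd F (Equiv.swap a b) • y)) := fun y a b hab t =>
    w_card hab t fun e => hl ⟨cl n F y, a, b, by simp only [ne_eq, Fin.ext_iff]; omega, (hφ' y a b hab t).trans (cl_eq.2 e).symm⟩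
  have cd : ∀ {y y' : Ω}, cl n F y = cl n F y' → Nat.card (Us n F y') = Nat.card (Us n F y) := fun e => by
    obtain ⟨g, hg, rfl⟩ := cl_eq.1 e
    exact card_Us_smul hg _
  let f : orbitRel.Quotient (Bo n F) Ω → ℤˣ := Quotient.lift (fun y => (-1) ^ Nat.log (Fintype.card F) (Nat.card (Us n F y)))
    fun y y' e => by rw [cd (Quotient.sound e)]
  have hf : ∀ (γ : orbitRel.Quotient (Bo n F) Ω) (a b : Fin n), b.1 = a.1 + 1 → f (Equiv.swap a b • γ) = -f γ := fun γ a b hab => by
    induction γ using Quotient.inductionOn' with | h x => ?_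
    obtain ⟨y, t, k⟩ := cases hP hab x
    have e : f (cl n F y) = -f (cl n F (wd F (Equiv.swap a b) • y)) := by
      change (-1 : ℤˣ) ^ Nat.log _ (Nat.card (Us n F y)) = -(-1) ^ Nat.log _ (Nat.card (Us n F (wd F (Equiv.swap a b) • y)))
      rw [nl y a b hab t, mul_comm, Nat.log_mul_base q Nat.card_pos.ne', pow_succ, mul_neg_one]
    have := k 1 (one_mem _)
    rw [one_smul] at this
    change f (_ • cl n F x) = -f (cl n F x)
    rcases this with k | k <;> rw [k]
    · rw [hφ' y a b hab t, e, neg_neg]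
    · rw [← hφ' y a b hab t, smul_smul, Equiv.swap_mul_self, one_smul, hφ' y a b hab t, e]
  let a : Fin n := ⟨0, by omega⟩
  let b : Fin n := ⟨1, by omega⟩
  let c : Fin n := ⟨2, by omega⟩
  have e1 : Equiv.swap a b c = c := Equiv.swap_apply_of_ne_of_ne (by simp [a, c]) (by simp [b, c])
  have t := (w_top2 (a := a) (b := b) (c := c) rfl rfl (hA ω a b c rfl rfl (T a b rfl) (T b c rfl))
    ((swap_mem_YJ (a := a) (b := b) rfl).2 (by simp))).2 (by simp [e1]; simp [a, c])
  have e := w3' h2 f hf (cl n F (wd F (Equiv.swap a b) • ω)) (a := a) (b := b) (c := b) (d := c) (by simp [a, b]) (by simp [b, c])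
  rw [hφ' _ b c rfl t, ← hφ' ω a b rfl (T a b rfl), smul_smul, Equiv.swap_mul_self, one_smul] at e
  have := m (wd F (Equiv.swap a b) • ω)
  rw [nl _ b c rfl t, cd e] at this
  have : 0 < Nat.card (Us n F ω) := Nat.card_pos
  nlinarith

end CF.Rk
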