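import Cfsg.Agent.Rk.X5
import Cfsg.Agent.Rk.D

/-! Rank 3 actions of `SL_n(2)`: the constituent induced from the sign on a line. -/

set_option autoImplicit false
open Matrix MulAction Cfsg

namespace CF.Rk
open CF.Char

variable {n : ℕ}

namespace X7

theorem eps_xr (h0 : 0 + 2 ≤ n) {a b : Fin n} (hab : a ≠ b) (hm : xr hab 1 ∈ PI n (ZMod 2) 0 2) :
    eps (blk (ZMod 2) h0 ⟨_, hm⟩) = 1 ↔ a.1 + b.1 ≠ 1 := by
  have hab' : a.1 ≠ b.1 := fun e => hab (Fin.ext e)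
  have e : (blk (ZMod 2) h0 ⟨_, hm⟩).1 =
      !![1, if a.1 = 0 ∧ b.1 = 1 then 1 else 0; if a.1 = 1 ∧ b.1 = 0 then 1 else 0, 1] := by
    ext i j
    rw [blk_apply, xr_apply]
    fin_cases i <;> fin_cases j <;> simp [Fin.ext_iff] <;> omega
  rw [eps_eq_one, e]
  split_ifs with e1 e2 e2
  · omega
  · exact iff_of_false (by decide) (by omega)
  · exact iff_of_false (by decide) (by omega)
  · exact iff_of_true (by decide) (by omega)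

theorem key (h0 : 0 + 2 ≤ n) (w : Equiv.Perm (Fin n)) : ∃ (a b : Fin n) (h : a < b),
    (w a).1 + (w b).1 = 1 ∧ xr (w.injective.ne h.ne) (1 : ZMod 2) ∈ PJ n (ZMod 2) {0} ∧
      (wd (ZMod 2) w)⁻¹ * xr (w.injective.ne h.ne) 1 * wd (ZMod 2) w = xr h.ne 1 := by
  obtain ⟨a, b, h, e⟩ : ∃ a b : Fin n, a < b ∧ (w a).1 + (w b).1 = 1 := by
    rcases lt_trichotomy (w.symm ⟨0, by omega⟩) (w.symm ⟨1, by omega⟩) with h | h | h
    · exact ⟨_, _, h, by simp⟩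
    · simpa using h
    · exact ⟨_, _, h, by simp⟩
  refine ⟨a, b, h, e, mem_PJ_one.2 fun i j e1 e2 => ?_, ?_⟩
  · rw [xr_apply, if_neg e1.ne', if_neg, add_zero]
    rintro ⟨rfl, rfl⟩
    rw [Fin.lt_def] at e1
    omega
  · have h1 : ∀ x y : (ZMod 2)ˣ, (x : ZMod 2) * 1 * (y⁻¹).1 = 1 := by decide
    have := wd_conj_xr (F := ZMod 2) w h.ne 1
    rw [h1] at this
    rw [← this]
    group

theorem orth (h0 : 0 + 2 ≤ n) : classInner (indFun (PJ n (ZMod 2) {0})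
    fun y => (sn h0 _ (one_le_PI 0) y : ℂ)) (IP n (ZMod 2) ∅) = 0 := by
  refine mk0 _ (1 : PJ n (ZMod 2) ∅ →* ℂˣ) fun g hg => ?_
  obtain ⟨u, hu, w, b, hb, rfl⟩ := bruhat g
  obtain ⟨a, c, h, e1, e2, e3⟩ := key h0 w
  exact (eps_xr h0 _ (one_le_PI 0 e2)).1 ((M2.cp_iff (Bo_le _ (Un_le hu)) hb).1 hg ⟨_, e2⟩
    (by rw [e3]; exact Un_le (xr_mem h 1))) e1

theorem zero_le_line : PJ n (ZMod 2) {0} ≤ PJ n (ZMod 2) {1}ᶜ := PJ_mono (by simp)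

theorem crit (h0 : 0 + 2 ≤ n) {g : GG n (ZMod 2)} (hg : g ∉ PJ n (ZMod 2) {1}ᶜ) :
    ¬ Cp (sn h0 _ (one_le_PI 0)) (sn h0 _ (one_le_PI 0)) g := fun hc => by
  obtain ⟨u, hu, w, b, hb, rfl⟩ := bruhat g
  obtain ⟨a, c, h, e1, e2, e3⟩ := key h0 w
  have h1 : xr h.ne (1 : ZMod 2) ∈ PJ n (ZMod 2) {0} := Bo_le _ (Un_le (xr_mem h 1))
  have h2 := (M2.cp_iff (Bo_le _ (Un_le hu)) (Bo_le _ hb)).1 hc ⟨_, e2⟩ (by rw [e3]; exact h1)
  simp only [e3, sn_apply] at h2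
  have h3 : a.1 + c.1 = 1 := by_contra fun e =>
    (eps_xr h0 _ (one_le_PI 0 e2)).1 (h2.trans ((eps_xr h0 _ (one_le_PI 0 h1)).2 e)) e1
  refine hg (mul_mem (mul_mem (Bo_le _ (Un_le hu)) (wd_mem_PJ.2 (mem_YJ.2 fun j m a1 a2 e => ?_)))
    (Bo_le _ hb))
  rw [Set.mem_singleton_iff] at e
  rw [Fin.lt_def] at h
  have : j = a ∨ j = c := by simp only [Fin.ext_iff]; omega
  rcases this with rfl | rfl <;> omega

end X7

theorem R3.x7 {X : Type*} [MulAction (GG n (ZMod 2)) X] (h : R3 n (ZMod 2) X)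
    (hc : ¬ CA n (ZMod 2) X) (h0 : 0 + 2 ≤ n) (hs : ∃ ω : X, Gd (sn h0 _ (one_le_PI 0)) ω) :
    ∃ ω : X, Gd (sn h0 _ line_le_PI) ω ∧
      (∀ g ∈ PJ n (ZMod 2) {1}ᶜ, Cl n (ZMod 2) {0} ω (g • ω)) ∧
      (nB X (PJ n (ZMod 2) {1}ᶜ) = 2 → nB X (PJ n (ZMod 2) {0}ᶜ) = 1 → ¬ 16 ∣ Nat.card X) := by
  have := h.fin
  have hn := h.n5
  obtain ⟨χ, ψ, c⟩ := h.cb hc
  have h1 : ∀ {φ}, IsIrrCharacter _ φ → classInner φ (IP n (ZMod 2) ∅) ≠ 0 → classInner φ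
      (indFun (PJ n (ZMod 2) {0}) fun y => (sn h0 _ (one_le_PI 0) y : ℂ)) = 0 := fun hφ e =>
    (irr_common hφ (char_ind_lin _) (char_IP _) (X7.orth h0)).resolve_right e
  have h2 := mk1 (Ω := X) _ (sn h0 _ (one_le_PI 0))
  rw [c.eq, Char.inner_add_left, Char.inner_add_left,
    h1 irr_one (by rw [IP, X5.i1]; exact one_ne_zero), h1 c.i1 (Ib_one (n := n) (F := ZMod 2) ▸ c.p1),
    zero_add, zero_add] at h2
  obtain ⟨k, hk⟩ := c.dg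
  rcases lemD (Bo_le _) X7.zero_le_line (sn h0 _ line_le_PI) (fun g hg => X7.crit h0 hg) c.i2
    (fun e => Nat.cast_ne_zero.2 (nO_ne_zero.2 hs) (h2.symm.trans e)) with ⟨j, hj⟩ | ⟨e1, e2⟩
  · rw [hj, ZMod.ringChar_zmod_n] at hk
    have : 2 * j + 1 = 2 * k := by exact_mod_cast hk
    omega
  have h3 : nO X _ (sn h0 _ (one_le_PI 0)) = 1 := by exact_mod_cast h2.symm.trans e2
  have h4 := mk1 (Ω := X) _ (sn h0 _ line_le_PI)
  rw [← e1, c.eq, Char.inner_add_left, Char.inner_add_left, inner_irr_ne irr_one c.i2 c.n2.symm,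
    inner_irr_ne c.i1 c.i2 c.ne, inner_irr_self c.i2, zero_add, zero_add] at h4
  obtain ⟨ω, hω⟩ := nO_ne_zero.1 (fun e => by simp [e] at h4 : nO X _ (sn h0 _ line_le_PI) ≠ 0)
  have h5 : ∀ {ω : X}, Gd (sn h0 _ line_le_PI) ω → Gd (sn h0 _ (one_le_PI 0)) ω :=
    fun hω y hy => hω ⟨y.1, X7.zero_le_line y.2⟩ hy
  refine ⟨ω, hω, fun g hg => nO_one_conj h3 (h5 hω) (h5 (hω.smul hg)), fun a2 a1 ⟨m, hm⟩ => ?_⟩
  have h6 := c.x5b (by omega) a2 a1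
  have h7 := c.toDc.card
  have h8 := congrFun e1 1
  rw [indFun_one, map_one, Units.val_one, mul_one] at h8
  have h9 : Nat.card X + (PJ n (ZMod 2) {0}ᶜ).index = 1 + 2 * (PJ n (ZMod 2) {1}ᶜ).index := by
    exact_mod_cast (by linear_combination h7 + h6 + h8 : (Nat.card X : ℂ) +
      (PJ n (ZMod 2) {0}ᶜ).index = 1 + 2 * (PJ n (ZMod 2) {1}ᶜ).index)
  have i1 := index_P1 (n := n) (F := ZMod 2) (by omega)
  have i2 := index_P2 (n := n) (F := ZMod 2) (k := 1) (by omega) (Or.inl rfl)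
  obtain ⟨r, rfl⟩ : ∃ r, n = r + 5 := ⟨n - 5, by omega⟩
  rw [ZMod.card, show r + 5 - 1 = r + 4 from rfl, pow_add, pow_add] at i2
  rw [ZMod.card, pow_add] at i1
  obtain ⟨x, hx⟩ : ∃ x, 2 ^ r = x + 1 := ⟨2 ^ r - 1, by have := Nat.two_pow_pos r; omega⟩
  rw [hx] at i1 i2
  rw [show (x + 1) * 2 ^ 5 - 1 = 32 * x + 31 by omega, show (x + 1) * 2 ^ 4 - 1 = 16 * x + 15 by omega,
    show (32 * x + 31) * (16 * x + 15) = 512 * (x * x) + 976 * x + 465 by ring] at i2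
  omega

end CF.Rk
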