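import Cfsg.Agent.Rk.H2
import Cfsg.Agent.Rk.FA
import Cfsg.Agent.Rk.W4
import Cfsg.Agent.Rk.A2
import Cfsg.Agent.Rk.MV
import Cfsg.Agent.Rk.X7
import Cfsg.Agent.Rk.B2
import Cfsg.Agent.Rk.T2
import Cfsg.Agent.Rk.P3
import Cfsg.Agent.Rk.PF
import Cfsg.Agent.Rk.Q4

/-! Rank 3 actions of `SL_n(q)`, `n ≥ 5`: the point stabilisers are reducible. -/

set_option autoImplicit false
open Matrix MulAction Cfsg

namespace CF.Rk

variable {n : ℕ} {F : Type*} [Field F] [Fintype F] [DecidableEq F]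
  {Ω : Type*} [MulAction (GG n F) Ω]

theorem R3.main2 {X : Type*} [MulAction (GG n (ZMod 2)) X] (h : R3 n (ZMod 2) X) : False := by
  by_cases hc : CA n (ZMod 2) X
  · exact h.h2 hc
  by_cases hP : PF n (ZMod 2) X
  · exact h.ws hc hP (h.a2 (by simp) hP (full_two (by simp)))
  have h0 : 0 + 2 ≤ n := by have := h.n5; omega
  obtain ⟨ω, h1, h2, h3⟩ := h.x7 hc h0 (h.mv0 hP h0)
  rcases h.x5 hc with e | ⟨e, -⟩
  · exact h.b2c hc h0 h1 h2 e
  · exact h3 e (h.b2a e.le) (h.b2b h0 h1 h2 (h.b2a e.le))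

theorem R3.main (h : R3 n F Ω) : False := by
  by_cases h2 : Fintype.card F = 2
  · obtain ⟨_, h'⟩ := h.t2 h2
    exact h'.main2
  have hq : 3 ≤ Fintype.card F := by have := Fintype.one_lt_card (α := F); omega
  by_cases hf : Full n F Ω
  · have hI := full_irr hq hf
    by_cases hs : Sep n F Ω
    · exact h.psi hq hI hs (Or.inr hf)
    have hc : ¬ CA n F Ω := fun hc => hs (h.e2a hc hq hf)
    obtain ⟨e, ω, b, hb, h1⟩ := h.e1c hc hq hf hs
    have hP : PF n F Ω := by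
      rcases e with e | e
      · exact h.pf3 hc e hf hb h1
      · exact h.pf2 (FiniteField.even_card_iff_char_two.2 (by rw [e])) hI
    exact h.ws hc hP (h.a2 (by omega) hP hf)
  by_cases hc : CA n F Ω
  · exact h.fa hc hf
  by_cases hp : ringChar F = 2
  · by_cases h4 : Fintype.card F = 4
    · exact h.q4 hc h4 hf
    · exact h.psi hq (h.e1b hc hp h4 hf).1 (h.e1b hc hp h4 hf).2 (Or.inl hp)
  · refine hf fun ω a b hab => top_unique fun c _ => by_contra fun e => ?_
    obtain ⟨ν, h1, h3⟩ := dual_Al hab e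
    exact h.x3 hc hp hab (fun e' => h1 (by simp [e'])) (h.e1a hc hab h3) ω h3

end CF.Rk
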