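import Cfsg.Agent.Rk.C
import Cfsg.Agent.Char.More

/-! Rank 3 actions of `SL_n(q)`: the Young characters span the class functions. -/

set_option autoImplicit false
open Matrix MulAction Cfsg

namespace CF.Rk

open CF.Char Equiv.Perm

variable {n : ℕ}

namespace N

theorem ct_eq {α : Type*} [Fintype α] [DecidableEq α] (w : Equiv.Perm α) :
    w.cycleType = (w.cycleFactorsFinset.image support).1.map Finset.card := by
  rw [Finset.image_val_of_injOn, Multiset.map_map, cycleType_def]
  intro p hp q hq e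
  ext a
  by_cases h : a ∈ p.support
  · rw [(mem_cycleFactorsFinset_iff.1 hp).2 a h, (mem_cycleFactorsFinset_iff.1 hq).2 a (e ▸ h)]
  · rw [notMem_support.1 h, notMem_support.1 (e ▸ h)]

theorem img_le {α : Type*} [Fintype α] [DecidableEq α] {w y : Equiv.Perm α} (h : w.SameCycle = y.SameCycle) :
    w.cycleFactorsFinset.image support ⊆ y.cycleFactorsFinset.image support := fun S hS => by
  obtain ⟨p, hp, rfl⟩ := Finset.mem_image.1 hS
  obtain ⟨x, hx⟩ := (mem_cycleFactorsFinset_iff.1 hp).1.nonempty_support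
  have k := mem_cycleFactorsFinset_support_le hp hx
  have k' : x ∈ y.support := mem_support.2 fun e => mem_support.1 k
    ((h ▸ (SameCycle.refl w x).apply_right : y.SameCycle x (w x)).eq_of_left e).symm
  refine Finset.mem_image.2 ⟨_, cycleOf_mem_cycleFactorsFinset_iff.2 k', ?_⟩
  ext a
  rw [cycle_is_cycleOf hx hp, mem_support_cycleOf_iff, mem_support_cycleOf_iff, h, and_iff_left k, and_iff_left k']

theorem conj_of {α : Type*} [Fintype α] [DecidableEq α] {w y : Equiv.Perm α} (h : w.SameCycle = y.SameCycle) :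
    IsConj w y := by
  rw [isConj_iff_cycleType_eq, ct_eq, ct_eq, (img_le h).antisymm (img_le h.symm)]

theorem exists_J (g : Fin n → ℕ) (hg : Monotone g) : ∃ J, ∀ y, y ∈ YJ n J ↔ ∀ i, g (y i) = g i := by
  let J : Set ℕ := {m | ∀ a b : Fin n, a.1 = m → b.1 = m + 1 → g a = g b}
  have k : ∀ d (a b : Fin n), b.1 = a.1 + d → (∀ m, a.1 ≤ m → m < b.1 → m ∈ J) → g a = g b := by
    intro d
    induction d with
    | zero => intro a b e _; rw [Fin.ext e.symm]
    | succ d ih =>
      intro a b e h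
      exact (ih a ⟨a.1 + d, by omega⟩ rfl fun m h1 h2 => h m h1 (by simp only at h2; omega)).trans
        (h (a.1 + d) (by omega) (by omega) _ _ rfl e)
  refine ⟨J, fun y => ⟨fun h i => ?_, fun h => mem_YJ.2 fun j m h1 h2 a b ha hb => ?_⟩⟩
  · rcases le_total i.1 (y i).1 with l | l
    · exact (k _ _ _ (Nat.add_sub_cancel' l).symm (mem_YJ.1 h i)).symm
    · exact k _ _ _ (Nat.add_sub_cancel' l).symm (mem_YJ' h i)
  · exact (hg (Fin.le_def.2 (by omega))).antisymm ((hg (show b ≤ y j from Fin.le_def.2 (by omega))).trans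
      ((h j).le.trans (hg (Fin.le_def.2 (by omega)))))

variable {G : Type*} [Group G] [Fintype G]

open _root_.Classical in
/-- a multiple of the indicator function of a class -/
noncomputable def D (g : G) : G → ℂ := fun x => ∑ h : G, if h * x * h⁻¹ = g then 1 else 0

theorem D_conj {g g' : G} (e : IsConj g g') : D g = D g' := by
  classical
  obtain ⟨c, rfl⟩ := isConj_iff.1 e
  ext x
  exact Fintype.sum_equiv (Equiv.mulLeft c) _ _ fun h => if_congr (by
    rw [Equiv.coe_mulLeft, _root_.mul_inv_rev, ← mul_assoc, mul_left_inj, mul_assoc c, mul_assoc c, mul_right_inj])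
    rfl rfl

theorem sum_D {φ : G → ℂ} (h : IsClassFunction G φ) : ∑ g, φ g • D g = (Fintype.card G : ℂ) • φ := by
  ext x
  simp only [Finset.sum_apply, Pi.smul_apply, D, smul_eq_mul, Finset.mul_sum, mul_ite, mul_one, mul_zero]
  rw [Finset.sum_comm]
  refine (Finset.sum_congr rfl fun a _ => (Finset.sum_eq_single (a * x * a⁻¹) (fun b _ e => if_neg e.symm)
    (by simp)).trans ((if_pos rfl).trans (h x a))).trans (by simp)

open _root_.Classical in
/-- the size of the orbit relation -/
noncomputable def sz (w : Equiv.Perm (Fin n)) : ℕ :=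
  (Finset.univ.filter fun p : Fin n × Fin n => w.SameCycle p.1 p.2).card

theorem D_mem (w : Equiv.Perm (Fin n)) : D w ∈ Submodule.span ℂ (Set.range (IY n)) := by
  classical
  induction hk : sz w using Nat.strong_induction_on generalizing w with
  | _ k ih =>
  let f : Fin n → ℕ := fun i => Fintype.equivFin (Quotient (SameCycle.setoid w)) ⟦i⟧
  let σ := Tuple.sort f
  obtain ⟨J, hJ⟩ := exists_J _ (Tuple.monotone_sort f)
  set w' := σ⁻¹ * w * σ⁻¹⁻¹ with hw
  have hf : ∀ a b, (f ∘ σ) a = (f ∘ σ) b ↔ w'.SameCycle a b := fun a b => by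
    rw [hw, sameCycle_conj, inv_inv]
    exact Fin.val_inj.trans ((Equiv.apply_eq_iff_eq _).trans Quotient.eq)
  have l : sz w' ≤ k := hk ▸ Finset.card_le_card_of_injOn (Prod.map σ σ) (fun p hp => by
    have := (Finset.mem_filter.1 hp).2
    rw [hw, sameCycle_conj, inv_inv] at this
    exact Finset.mem_filter.2 ⟨Finset.mem_univ _, this⟩) (σ.injective.prodMap σ.injective).injOn
  have c := indFun_isClassFunction (YJ n J) fun _ => (1 : ℂ)
  have ne : IY n J w' ≠ 0 := fun e => by
    have := card_mul_indFun_one (YJ n J) w'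
    rw [show indFun _ _ w' = 0 from e, mul_zero, eq_comm, Nat.cast_eq_zero] at this
    exact Nat.card_ne_zero.2 ⟨⟨1, by
      simpa using (hJ w').2 fun i => (hf _ _).2 (SameCycle.refl _ _).apply_left⟩, inferInstance⟩ this
  have m : ∑ g, IY n J g • D g ∈ Submodule.span ℂ (Set.range (IY n)) :=
    sum_D c ▸ Submodule.smul_mem _ _ (Submodule.subset_span ⟨J, rfl⟩)
  rw [← Finset.sum_filter_add_sum_filter_not _ (IsConj w'), Submodule.add_mem_iff_left _
    (Submodule.sum_mem _ fun g hg => ?_), Finset.sum_congr rfl (g := fun _ => IY n J w' • D w') fun g hg => by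
      have e := (Finset.mem_filter.1 hg).2
      rw [← D_conj e, show IY n J g = _ from (classFun_of_isConj c e).symm]; rfl,
    Finset.sum_const, ← Nat.cast_smul_eq_nsmul ℂ, Submodule.smul_mem_iff _ (Nat.cast_ne_zero.2
      (Finset.card_ne_zero.2 ⟨w', Finset.mem_filter.2 ⟨Finset.mem_univ _, IsConj.refl _⟩⟩)), Submodule.smul_mem_iff _ ne] at m
  · rwa [D_conj (isConj_iff.2 ⟨_, hw.symm⟩)]
  by_cases z : IY n J g = 0
  · rw [z, zero_smul]; exact zero_mem _
  obtain ⟨x, hx⟩ : ∃ x, x * g * x⁻¹ ∈ YJ n J := by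
    by_contra! h
    exact z (indFun_eq_zero_of_not_conj _ _ h)
  have s : ∀ a b, (x * g * x⁻¹).SameCycle a b → w'.SameCycle a b := by
    rintro a _ ⟨i, rfl⟩
    exact (hf _ _).1 ((hJ _).1 (zpow_mem hx i) a).symm
  rw [D_conj (isConj_iff.2 ⟨x, rfl⟩)]
  refine Submodule.smul_mem _ _ (ih _ (lt_of_lt_of_le (Finset.card_lt_card ⟨fun p hp => ?_, fun h => ?_⟩) l) _ rfl)
  · simpa using s _ _ (by simpa using hp)
  · refine (Finset.mem_filter.1 hg).2 ((conj_of (funext₂ fun a b => propext ⟨fun k => ?_, s a b⟩)).trans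
      (isConj_iff.2 ⟨x, rfl⟩).symm)
    simpa using h (x := (a, b)) (by simpa using k)

end N

theorem span_young {γ : Equiv.Perm (Fin n) → ℂ} (h : IsClassFunction _ γ) :
    γ ∈ Submodule.span ℂ (Set.range (IY n)) := by
  rw [← Submodule.smul_mem_iff _ (Nat.cast_ne_zero.2 Fintype.card_ne_zero :
    (Fintype.card (Equiv.Perm (Fin n)) : ℂ) ≠ 0), ← N.sum_D h]
  exact Submodule.sum_mem _ fun g _ => Submodule.smul_mem _ _ (N.D_mem g)

end CF.Rk
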