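import Cfsg.Agent.Rk.N1
import Cfsg.Agent.Rk.M1

/-! Rank 3 actions of `SL_n(q)`: transfer to the symmetric group. -/

set_option autoImplicit false
open Matrix MulAction Cfsg

namespace CF.Rk

open CF.Char
open scoped ComplexConjugate

variable {n : ℕ} {F : Type*} [Field F] [Fintype F] [DecidableEq F]
  {Ω : Type*} [MulAction (GG n F) Ω]


theorem CB.p2J {χ₁ χ₂ : GG n F → ℂ} (c : CB Ω χ₁ χ₂) (J : Set ℕ) :
    classInner χ₂ (IP n F J) = 0 :=
  inner_ind_mono (irr_isCharacter c.i2) (Bo_le J) 1 (Ib_one (n := n) (F := F) ▸ c.p2 :)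

theorem CB.x8g [Finite Ω] {χ₁ χ₂ : GG n F → ℂ} (c : CB Ω χ₁ χ₂) (gram : ∀ J J',
      classInner (IP n F J) (IP n F J') = classInner (IY n J) (IY n J')) {γ : Equiv.Perm (Fin n) → ℂ}
    (hγ : IsClassFunction _ γ) (e : ∀ J, classInner γ (IY n J) = (nB Ω (PJ n F J) : ℂ) - 1) :
    (classInner γ γ).re ≤ 1 := by
  obtain ⟨a, ha⟩ := Finsupp.mem_span_range_iff_exists_finsupp.1 (span_young hγ)
  set Φ := a.sum fun J z => z • IP n F J with hΦ
  have k1 : ∀ J, classInner χ₁ (IP n F J) = classInner γ (IY n J) := fun J => by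
    have := mk1' (Ω := Ω) (PJ n F J)
    rw [c.eq, Char.inner_add_left, Char.inner_add_left, ← Char.inner_conj_symm, inner_indFun_one_one, map_one,
      show classInner χ₂ (indFun _ _) = 0 from c.p2J J, add_zero] at this
    rw [e, ← this, add_sub_cancel_left]; rfl
  have k2 : classInner χ₁ Φ = classInner γ γ := by
    conv_rhs => enter [2]; rw [← ha]
    simp only [hΦ, Finsupp.sum, Char.inner_sum_right, Char.inner_smul_right, k1]
  have k3 : classInner Φ Φ = classInner γ γ := by
    conv_rhs => rw [← ha]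
    simp only [hΦ, Finsupp.sum, Char.inner_sum_right, Char.inner_smul_right, Char.inner_sum_left, Char.inner_smul_left, gram]
  obtain ⟨r, hr⟩ : ∃ r : ℝ, classInner γ γ = r := ⟨_, Complex.ext rfl (Char.inner_self_im γ)⟩
  have k4 := inner_self_re_nonneg (Φ - (r : ℂ) • χ₁)
  rw [Char.inner_sub_left, Char.inner_sub_right, Char.inner_sub_right, Char.inner_smul_left, Char.inner_smul_left, Char.inner_smul_right,
    Char.inner_smul_right, ← Char.inner_conj_symm χ₁ Φ, k2, k3, inner_irr_self c.i1, hr, Complex.conj_ofReal] at k4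
  rw [hr]
  norm_cast at k4 ⊢
  nlinarith

theorem CB.w8 (h : R3 n F Ω) {χ₁ χ₂ : GG n F → ℂ} (c : CB Ω χ₁ χ₂) (gram : ∀ J J',
      classInner (IP n F J) (IP n F J') = classInner (IY n J) (IY n J')) {Γ : Type*} [Finite Γ]
    [MulAction (Equiv.Perm (Fin n)) Γ] (e : ∀ J, nB Γ (YJ n J) = nB Ω (PJ n F J)) :
    Nat.card (orbitRel.Quotient (Equiv.Perm (Fin n)) (Γ × Γ)) ≤ 2 := by
  classical
  set π : Equiv.Perm (Fin n) → ℂ := fun g => Nat.card (fixedBy Γ g) with hπ
  have cπ : IsClassFunction _ π := char_isClassFunction (char_fixedBy Γ)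
  have k : ∀ Y, classInner π (indFun Y fun _ => 1) = nB Γ Y := fun Y =>
    (inner_indFun_right Y _ cπ).trans (inner_fixedBy_one Γ)
  have k1 : classInner π (fun _ => 1) = 1 := by
    have := k ⊤
    rw [show (indFun ⊤ fun _ => 1) = _ from indFun_top (classFun_const 1), ← YJ_univ, e, PJ_univ,
      (nB_eq_one (Y := ⊤)).2 ⟨h.ne, fun x y => let ⟨g, q⟩ := h.tr.exists_smul_eq x y; ⟨g, trivial, q⟩⟩] at this
    exact this.trans Nat.cast_one
  have := h.fin
  have := c.x8g gram (classFun_sub cπ (classFun_const 1)) fun J => by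
    rw [Char.inner_sub_left, IY, k, e, ← Char.inner_conj_symm, inner_indFun_one_one, map_one]
  rw [Char.inner_sub_left, Char.inner_sub_right, Char.inner_sub_right, inner_one_one, ← Char.inner_conj_symm π fun _ => 1, k1, map_one,
    inner_fixedBy_fixedBy] at this
  simp only [Complex.sub_re, Complex.natCast_re, Complex.one_re] at this
  exact_mod_cast (by linarith : (Nat.card (orbitRel.Quotient (Equiv.Perm (Fin n)) (Γ × Γ)) : ℝ) ≤ 2)

end CF.Rk
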