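import Cfsg.Agent.Rk.C

/-!
Rank 3 actions of `SL_n(q)`: diagonal lifts of the torus part and extraction of root groups.
-/

set_option autoImplicit false
open Matrix MulAction Cfsg

namespace CF.Rk

variable {n : ℕ} {F : Type*} [Field F]

namespace P1

/-- Entries vanish below the `k`-th superdiagonal. -/
def Lv (k : ℕ) (N : Matrix (Fin n) (Fin n) F) : Prop := ∀ i j : Fin n, j.1 < i.1 + k → N i j = 0

theorem Lv.mul {k l : ℕ} {N M : Matrix (Fin n) (Fin n) F} (h : Lv k N) (h' : Lv l M) :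
    Lv (k + l) (N * M) := fun i j e => by
  rw [mul_apply]
  refine Finset.sum_eq_zero fun m _ => ?_
  by_cases e1 : m.1 < i.1 + k
  · rw [h _ _ e1, zero_mul]
  · rw [h' _ _ (by omega), mul_zero]

theorem Lv.add {k : ℕ} {N M : Matrix (Fin n) (Fin n) F} (h : Lv k N) (h' : Lv k M) :
    Lv k (N + M) := fun i j e => by rw [Matrix.add_apply, h _ _ e, h' _ _ e, add_zero]

theorem lv_Bo {g : GG n F} (h : g ∈ Bo n F) : Lv 0 g.1 := fun i j e => mem_Bo.1 h i j e

theorem lv_Un {g : GG n F} (h : g ∈ Un n F) : Lv 1 (g.1 - 1) := fun i j e => by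
  rw [Matrix.sub_apply, one_apply]
  split_ifs with e1
  · subst e1; rw [(mem_Un.1 h).2, sub_self]
  · rw [mem_Bo.1 (Un_le h) i j (Fin.lt_def.2 (by have := Fin.val_ne_of_ne e1; omega)), sub_zero]

theorem Lv.conj {m : ℕ} {E : Matrix (Fin n) (Fin n) F} (h : Lv m E) {x y : GG n F}
    (hx : x ∈ Un n F) (hy : y ∈ Un n F) : Lv (m + 1) (x.1 * E * y.1 - E) := by
  have e : x.1 * E * y.1 - E = (x.1 - 1) * E * y.1 + E * (y.1 - 1) := by noncomm_ring
  rw [e]
  refine Lv.add ?_ (h.mul (lv_Un hy))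
  have := ((lv_Un hx).mul h).mul (lv_Bo (Un_le hy))
  rwa [add_zero, add_comm] at this

/-- The low entries of a conjugate of a commutator with a diagonal element. -/
theorem comm_entry {m : ℕ} {w x : GG n F} (hw : w ∈ Un n F) (hx : x ∈ Un n F)
    (h : Lv m (w.1 - 1)) (t : Fin n → Fˣ) (e) (i j : Fin n) (hij : j.1 < i.1 + (m + 1)) :
    ((x * (dg t e * w * (dg t e)⁻¹ * w⁻¹) * x⁻¹).1 - 1) i j =
      (t i * (t j)⁻¹.1 - 1) * (w.1 - 1) i j := by
  have h0 : ∀ i j, ((dg t e * w * (dg t e)⁻¹).1 - w.1) i j =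
      (t i * (t j)⁻¹.1 - 1) * (w.1 - 1) i j := fun i j => by
    rw [Matrix.sub_apply, dg_conj, Matrix.sub_apply, one_apply]
    split_ifs with e1
    · subst e1
      rw [(mem_Un.1 hw).2]
      simp
    · ring
  have h1 : Lv m ((dg t e * w * (dg t e)⁻¹).1 - w.1) := fun i j e1 => by
    rw [h0, h i j e1, mul_zero]
  have h2 := h1.conj hx (mul_mem (inv_mem hw) (inv_mem hx)) i j hij
  have e2 : (x * (dg t e * w * (dg t e)⁻¹ * w⁻¹) * x⁻¹).1 - 1 =
      x.1 * ((dg t e * w * (dg t e)⁻¹).1 - w.1) * (w⁻¹ * x⁻¹).1 := by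
    have a1 : x * (dg t e * w * (dg t e)⁻¹ * w⁻¹) * x⁻¹ =
        x * (dg t e * w * (dg t e)⁻¹) * (w⁻¹ * x⁻¹) := by group
    have a2 : x * w * (w⁻¹ * x⁻¹) = 1 := by group
    rw [mul_sub, sub_mul, ← val_mul, ← val_mul, ← val_mul, ← val_mul, a1, a2, val_one]
  rw [e2, ← h0]
  rw [Matrix.sub_apply] at h2
  exact sub_eq_zero.1 h2

theorem comm_mem {w : GG n F} (hw : w ∈ Un n F) (t : Fin n → Fˣ) (e) :
    dg t e * w * (dg t e)⁻¹ * w⁻¹ ∈ Un n F := mul_mem (conj_Un (dg_mem t e) hw) (inv_mem hw)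

/-- Clearing the entries level by level. -/
theorem climb (S : GG n F → Prop) (k : ℕ)
    (step : ∀ (u : GG n F) (m : ℕ) (a b : Fin n), S u → k ≤ m → Lv m (u.1 - 1) →
      b.1 = a.1 + m → (u.1 - 1) a b ≠ 0 → ∃ u', S u' ∧ (u'.1 - 1) a b = 0 ∧
        ∀ i j : Fin n, j.1 < i.1 + (m + 1) → (u.1 - 1) i j = 0 → (u'.1 - 1) i j = 0)
    {u : GG n F} (hu : S u) (hk : Lv k (u.1 - 1)) : S 1 := by
  classical
  have h1 : ∀ m, k ≤ m → ∀ (c : ℕ) (u : GG n F), S u → Lv m (u.1 - 1) →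
      (Finset.univ.filter fun p : Fin n × Fin n =>
        p.2.1 = p.1.1 + m ∧ (u.1 - 1) p.1 p.2 ≠ 0).card = c →
      ∃ u', S u' ∧ Lv (m + 1) (u'.1 - 1) := by
    intro m hm c
    induction c using Nat.strong_induction_on with
    | _ c ih =>
      intro u hu hl hc
      by_cases h : Lv (m + 1) (u.1 - 1)
      · exact ⟨u, hu, h⟩
      simp only [Lv, not_forall] at h
      obtain ⟨a, b, e1, e2⟩ := h
      have e3 : b.1 = a.1 + m := by
        by_contra e3
        exact e2 (hl a b (by omega))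
      obtain ⟨u', s1, s2, s3⟩ := step u m a b hu hm hl e3 e2
      refine ih _ ?_ u' s1 (fun i j e => s3 i j (by omega) (hl i j e)) rfl
      rw [← hc]
      refine Finset.card_lt_card ⟨fun p hp => ?_, fun hp => ?_⟩
      · rw [Finset.mem_filter] at hp ⊢
        exact ⟨hp.1, hp.2.1, fun e => hp.2.2 (s3 _ _ (by omega) e)⟩
      · have := hp (Finset.mem_filter.2 ⟨Finset.mem_univ (a, b), e3, e2⟩)
        exact (Finset.mem_filter.1 this).2.2 s2
  have h2 : ∀ d, ∃ u', S u' ∧ Lv (k + d) (u'.1 - 1) := by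
    intro d
    induction d with
    | zero => exact ⟨u, hu, hk⟩
    | succ d ih =>
      obtain ⟨u', a1, a2⟩ := ih
      exact h1 (k + d) (by omega) _ u' a1 a2 rfl
  obtain ⟨u', a1, a2⟩ := h2 n
  have e : u' = 1 := Subtype.ext (sub_eq_zero.1 (by
    ext i j
    exact a2 i j (by have := j.2; omega)))
  exact e ▸ a1

theorem dg_conj_xr (t : Fin n → Fˣ) (e) {a b : Fin n} (h : a ≠ b) (s : F) :
    dg t e * xr h s * (dg t e)⁻¹ = xr h (t a * s * (t b)⁻¹.1) := by
  ext i j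
  rw [dg_conj, xr_apply, xr_apply]
  by_cases e1 : i = j
  · subst e1
    have : ¬(a = i ∧ b = i) := fun e => h (e.1.trans e.2.symm)
    simp [this]
  · by_cases e2 : a = i ∧ b = j
    · obtain ⟨rfl, rfl⟩ := e2
      simp [e1]
    · simp [e1, e2]

theorem xr_comm {a b c : Fin n} (h1 : a ≠ b) (h2 : b ≠ c) (h : a ≠ c) (s : F) :
    xr h1 s * xr h2 1 = xr h s * (xr h2 1 * xr h1 s) := by
  ext i j
  simp only [xr_mul', xr_apply]
  have := h1.symm
  have := h2.symm
  have := h.symm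
  by_cases e1 : i = a
  · subst e1
    by_cases e2 : j = c
    · subst e2; simp [*]
    · have := Ne.symm e2
      by_cases e3 : j = b
      · subst e3; simp [*]
      · have := Ne.symm e3
        simp [*]
  · have := Ne.symm e1
    by_cases e2 : i = b
    · subst e2
      by_cases e3 : j = c
      · subst e3; simp [*]
      · have := Ne.symm e3
        simp [*]
    · have := Ne.symm e2
      simp [*]

variable {Ω : Type*} [MulAction (GG n F) Ω]

theorem prod_Hs {ω : Ω} {t : Fin n → Fˣ} (h : t ∈ Hs n F ω) : ∏ i, t i = 1 := by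
  obtain ⟨g, -, rfl⟩ := mem_Hs.1 h
  exact prod_dv g

theorem ar_of_xr {ω : Ω} (hT : Tor n F ω) (hI : Irr n F Ω) {a b : Fin n} (h : a ≠ b) {s : F}
    (hs : s ≠ 0) (e : xr h s • ω = ω) : Ar F ω a b := by
  let S : AddSubgroup F :=
    { carrier := {s | xr h s ∈ stabilizer (GG n F) ω}
      add_mem' := fun {x y} hx hy => by
        change xr h (x + y) ∈ stabilizer (GG n F) ω
        rw [← xr_mul]
        exact mul_mem hx hy
      zero_mem' := by
        change xr h (0 : F) ∈ stabilizer (GG n F) ω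
        rw [xr_zero]
        exact one_mem _
      neg_mem' := fun {x} hx => by
        change xr h (-x) ∈ stabilizer (GG n F) ω
        rw [← xr_inv]
        exact inv_mem hx }
  rcases (hI ω a b h).2 S (fun c hc x hx => by
    obtain ⟨t, ht, rfl⟩ := mem_Al.1 hc
    have h1 : dg t (prod_Hs ht) ∈ stabilizer (GG n F) ω := hT t ht _
    have h2 := mul_mem (mul_mem h1 hx) (inv_mem h1)
    rw [dg_conj_xr] at h2
    change xr h _ ∈ stabilizer (GG n F) ω
    convert h2 using 2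
    rw [div_eq_mul_inv, Units.val_mul]
    ring) with h1 | h1
  · have : s ∈ S := e
    rw [h1] at this
    exact absurd this hs
  · exact ⟨h, fun t => (h1 ▸ AddSubgroup.mem_top t : t ∈ S)⟩

/-- A nonzero entry on the lowest level gives a root group. -/
theorem ar_low {ω : Ω} (hT : Tor n F ω) (hI : Irr n F Ω) (hS : Sep n F Ω) {u : GG n F}
    (hu : u ∈ Us n F ω) {m : ℕ} (hl : Lv m (u.1 - 1)) {a b : Fin n} (hab : b.1 = a.1 + m)
    (h : (u.1 - 1) a b ≠ 0) : Ar F ω a b := by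
  have hlt : a < b := by
    by_contra e
    exact h (lv_Un hu.1 a b (by have := Fin.le_def.1 (not_lt.1 e); omega))
  have key := climb (fun w => w ∈ Un n F ∧ (w.1 - 1) a b = 0 ∧ ∃ s : F, s ≠ 0 ∧
      xr hlt.ne s * w ∈ stabilizer (GG n F) ω) m (u := xr hlt.ne (-u.1 a b) * u) ?_ ?_ ?_
  · obtain ⟨-, -, s, s1, s2⟩ := key
    rw [mul_one] at s2
    exact ar_of_xr hT hI _ s1 s2
  · rintro w l c d ⟨w1, w2, s, s1, s2⟩ hm wl hcd hw
    have hcd' : c < d := by
      by_contra e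
      exact hw (lv_Un w1 c d (by have := Fin.le_def.1 (not_lt.1 e); omega))
    obtain ⟨t, ht, t1, t2⟩ := hS ω c d a b hcd'.ne hlt.ne (fun e => by
      rcases Sym2.eq_iff.1 e with ⟨rfl, rfl⟩ | ⟨rfl, rfl⟩
      · exact hw w2
      · exact lt_asymm hlt hcd')
    have hx := xr_mem hlt s
    have ce := comm_entry w1 hx wl t (prod_Hs ht)
    refine ⟨_, ⟨conj_Un (Un_le hx) (comm_mem w1 t (prod_Hs ht)), ?_,
      (t a * (t b)⁻¹.1 - 1) * s, mul_ne_zero (fun e => t2 ?_) s1, ?_⟩, ?_, fun i j e1 e2 => ?_⟩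
    · rw [ce _ _ (by omega), w2, mul_zero]
    · rw [sub_eq_zero, Units.mul_inv_eq_one] at e
      exact Units.ext e
    · have h1 : dg t (prod_Hs ht) ∈ stabilizer (GG n F) ω := hT t ht _
      have h2 := mul_mem (mul_mem (mul_mem h1 s2) (inv_mem h1)) (inv_mem s2)
      have h3 : xr hlt.ne ((t a * (t b)⁻¹.1 - 1) * s) =
          dg t (prod_Hs ht) * xr hlt.ne s * (dg t (prod_Hs ht))⁻¹ * (xr hlt.ne s)⁻¹ := by
        rw [dg_conj_xr, xr_inv, xr_mul]
        congr 1
        ring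
      rw [h3]
      convert h2 using 1
      group
    · rw [ce _ _ (by omega), t1]
      simp
    · rw [ce _ _ e1, e2, mul_zero]
  · refine ⟨mul_mem (xr_mem hlt _) hu.1, ?_, u.1 a b, fun e => h ?_, ?_⟩
    · rw [Matrix.sub_apply, xr_mul', if_pos rfl, (mem_Un.1 hu.1).2, one_apply, if_neg hlt.ne]
      ring
    · rw [Matrix.sub_apply, e, one_apply, if_neg hlt.ne, sub_zero]
    · rw [← mul_assoc, xr_mul, add_neg_cancel, xr_zero, one_mul]
      exact hu.2
  · intro i j e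
    have := hl i j e
    rw [Matrix.sub_apply] at this ⊢
    rw [xr_mul']
    split_ifs with e1
    · subst e1
      rw [mem_Bo.1 (Un_le hu.1) b j (Fin.lt_def.2 (by omega)), mul_zero, add_zero, this]
    · rw [add_zero, this]

/-- Reduction to root elements. -/
theorem red {ω : Ω} (P Q : GG n F → Prop)
    (hP : ∀ u (a b : Fin n) (h : a ≠ b) (s : F), Ar F ω a b → P u → P (xr h s * u))
    (hQ : ∀ u (a b : Fin n) (h : a ≠ b) (s : F), Ar F ω a b → Q u → Q (xr h s * u))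
    (h1 : Q 1)
    (hA : ∀ u ∈ Un n F, ∀ (m : ℕ) (a b : Fin n), P u → Lv m (u.1 - 1) → b.1 = a.1 + m →
      (u.1 - 1) a b ≠ 0 → Ar F ω a b)
    {u : GG n F} (hu : u ∈ Un n F) (h : P u) : Q u := by
  by_contra h0
  refine (climb (fun w => w ∈ Un n F ∧ P w ∧ ¬ Q w) 1 ?_ ⟨hu, h, h0⟩ (lv_Un hu)).2.2 h1
  rintro w m a b ⟨w1, w2, w3⟩ hm wl hab hw
  have hlt : a < b := Fin.lt_def.2 (by omega)
  have ha := hA w w1 m a b w2 wl hab hw
  refine ⟨xr hlt.ne (-w.1 a b) * w, ⟨mul_mem (xr_mem hlt _) w1, hP _ _ _ _ _ ha w2, fun e => w3 ?_⟩,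
    ?_, fun i j e1 e2 => ?_⟩
  · have := hQ _ _ _ hlt.ne (w.1 a b) ha e
    rwa [← mul_assoc, xr_mul, add_neg_cancel, xr_zero, one_mul] at this
  · rw [Matrix.sub_apply, xr_mul', if_pos rfl, (mem_Un.1 w1).2, one_apply, if_neg hlt.ne]
    ring
  · rw [Matrix.sub_apply] at e2 ⊢
    rw [xr_mul']
    split_ifs with e3
    · subst e3
      by_cases e4 : j = b
      · subst e4
        exact absurd e2 hw
      · have := Fin.val_ne_of_ne e4
        rw [mem_Bo.1 (Un_le w1) b j (Fin.lt_def.2 (by omega)), mul_zero, add_zero, e2]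
    · rw [add_zero, e2]

end P1

open P1

variable [Fintype F] [DecidableEq F] {Ω : Type*} [MulAction (GG n F) Ω]

theorem exists_tor (ω : Ω) : ∃ u ∈ Un n F, Tor n F (u • ω) := by
  classical
  let A : Subgroup (Bo n F) := (stabilizer (GG n F) ω).subgroupOf (Bo n F)
  let φ : A →* (Fin n → Fˣ) := (dv n F).comp A.subtype
  have hp : (ringChar F).Prime := CharP.char_is_prime F _
  have : Fact (ringChar F).Prime := ⟨hp⟩
  have h1 : ¬ ringChar F ∣ φ.ker.index := fun e => by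
    rw [Subgroup.index_ker] at e
    have e1 := e.trans (Subgroup.card_subgroup_dvd_card φ.range)
    rw [Nat.card_fun, Nat.card_units, Nat.card_eq_fintype_card] at e1
    have e2 := (ringChar.spec F _).2 (hp.dvd_of_dvd_pow e1)
    rw [Nat.cast_sub Fintype.card_pos, FiniteField.cast_card_eq_zero] at e2
    simp at e2
  have h2 : IsPGroup (ringChar F) φ.ker := by
    let f : φ.ker →* Un n F :=
      { toFun := fun x => ⟨x.1.1.1, x.1.1, x.2, rfl⟩
        map_one' := rfl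
        map_mul' := fun _ _ => rfl }
    exact Un_pgroup.of_injective f fun x y e =>
      Subtype.ext (Subtype.ext (Subtype.ext (congr_arg (fun z : Un n F => z.1) e)))
  obtain ⟨k, hk⟩ := IsPGroup.iff_card.1 h2
  obtain ⟨H, hH⟩ := Subgroup.exists_right_complement'_of_coprime (N := φ.ker)
    (by rw [hk]; exact Nat.Coprime.pow_left _ ((Nat.Prime.coprime_iff_not_dvd hp).2 h1))
  have : Fintype H := Fintype.ofFinite _
  have h3 : (Fintype.card H : F) ≠ 0 := fun e => h1 (by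
    rw [hH.symm.index_eq_card, Nat.card_eq_fintype_card]
    exact (ringChar.spec F _).1 e)
  let d : H → GG n F := fun x => dg (φ x.1) (prod_dv _)
  have hd : ∀ x y : H, d (x * y) = d x * d y := fun x y => by
    simp only [d, dg_dg]
    congr 1
    exact map_mul φ _ _
  have hU : ∀ x : H, x.1.1.1 * (d x)⁻¹ ∈ Un n F := fun x => by
    obtain ⟨u, hu, e⟩ := exists_un x.1.1.2
    rw [← mul_inv_eq_iff_eq_mul] at e
    exact e ▸ hu
  let M : Matrix (Fin n) (Fin n) F := (Fintype.card H : F)⁻¹ • ∑ x : H, (x.1.1.1 * (d x)⁻¹).1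
  have m1 : M.BlockTriangular id := fun i j e => by
    simp only [M, Matrix.smul_apply, Matrix.sum_apply]
    rw [Finset.sum_eq_zero fun x _ => mem_Bo.1 (Un_le (hU x)) i j e, smul_zero]
  have m2 : ∀ a, M a a = 1 := fun a => by
    simp only [M, Matrix.smul_apply, Matrix.sum_apply]
    rw [Finset.sum_congr rfl fun x _ => (mem_Un.1 (hU x)).2 a]
    simp [h3]
  let v : GG n F := ⟨M, by rw [det_of_isUpperTriangular m1]; simp [m2]⟩
  have hv : v ∈ Un n F := mem_Un.2 ⟨mem_Bo'.2 m1, m2⟩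
  have h4 : ∀ x : H, x.1.1.1 * v = v * d x := fun x => by
    apply Subtype.ext
    change x.1.1.1.1 * M = M * (d x).1
    simp only [M, Matrix.mul_smul, Matrix.smul_mul, Finset.mul_sum, Finset.sum_mul]
    congr 1
    rw [← Equiv.sum_comp (Equiv.mulLeft x) fun y : H => (y.1.1.1 * (d y)⁻¹).1 * (d x).1]
    refine Finset.sum_congr rfl fun y _ => ?_
    rw [← val_mul, ← val_mul, Equiv.coe_mulLeft, hd]
    congr 1
    change _ = x.1.1.1 * y.1.1.1 * _ * _
    group
  refine ⟨v⁻¹, inv_mem hv, fun t ht e => ?_⟩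
  rw [Hs_smul (Un_le (inv_mem hv))] at ht
  obtain ⟨g, hg, rfl⟩ := mem_Hs.1 ht
  obtain ⟨⟨x, y⟩, e1⟩ := (hH.existsUnique (⟨g, hg⟩ : A)).exists
  have e2 : φ y.1 = dv n F g := by
    have := congr_arg φ e1
    rwa [map_mul, x.2, one_mul] at this
  have e3 : dg (dv n F g) e = d y := by simp only [d, e2]
  have e4 : y.1.1.1 • ω = ω := y.1.2
  rw [e3, ← mul_smul, show d y * v⁻¹ = v⁻¹ * y.1.1.1 by
    rw [mul_inv_eq_iff_eq_mul, mul_assoc, h4, inv_mul_cancel_left], mul_smul, e4]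

omit [Fintype F] [DecidableEq F] in
theorem Ar.trans {ω : Ω} {a b c : Fin n} (h1 : Ar F ω a b) (h2 : Ar F ω b c) (h : a ≠ c) :
    Ar F ω a c := by
  obtain ⟨e1, h1⟩ := h1
  obtain ⟨e2, h2⟩ := h2
  refine ⟨h, fun s => ?_⟩
  have := congr_arg (· • ω) (xr_comm e1 e2 h s)
  simp only [mul_smul, h1, h2] at this
  exact this.symm

omit [Fintype F] [DecidableEq F] in
theorem ar_of_entry {ω : Ω} (hT : Tor n F ω) (hI : Irr n F Ω) (hS : Sep n F Ω) {u : GG n F}
    (hu : u ∈ Us n F ω) {a b : Fin n} (hab : a ≠ b) (h : u.1 a b ≠ 0) : Ar F ω a b := by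
  refine (red (ω := ω) (fun u => u • ω = ω) (fun u => ∀ i j, u.1 i j ≠ 0 → i = j ∨ Ar F ω i j)
    ?_ ?_ ?_ ?_ hu.1 hu.2 a b h).resolve_left hab
  · intro u a b h s ha hu
    rw [mul_smul, hu, ha.2]
  · intro u a b h s ha hu i j e
    by_cases e1 : u.1 i j = 0
    · rw [xr_mul', e1, zero_add] at e
      split_ifs at e with e2
      · subst e2
        rcases hu b j (right_ne_zero_of_mul e) with rfl | e3
        · exact Or.inr ha
        · by_cases e4 : i = j
          · exact Or.inl e4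
          · exact Or.inr (ha.trans e3 e4)
      · exact absurd rfl e
    · exact hu i j e1
  · intro i j e
    by_contra e1
    exact e (by rw [val_one, one_apply, if_neg fun e2 => e1 (Or.inl e2)])
  · intro u hu m a b h1 hl hab h
    exact ar_low hT hI hS ⟨hu, h1⟩ hl hab h

omit [Fintype F] [DecidableEq F] in
theorem lemN {ω : Ω} (hT : Tor n F ω) (hI : Irr n F Ω) (hS : Sep n F Ω) {u : GG n F}
    (hu : u ∈ Un n F) (h : ∀ t ∈ Hs n F ω, ∀ e, (dg t e * u * (dg t e)⁻¹ * u⁻¹) • ω = ω) :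
    u • ω = ω := by
  refine red (ω := ω) (fun u => ∀ t ∈ Hs n F ω, ∀ e, (dg t e * u * (dg t e)⁻¹ * u⁻¹) • ω = ω)
    (fun u => u • ω = ω) ?_ ?_ (one_smul _ _) ?_ hu h
  · intro u a b h s ha hu t ht e
    have h1 : dg t e ∈ stabilizer (GG n F) ω := hT t ht e
    have h2 : xr h s ∈ stabilizer (GG n F) ω := ha.2 s
    have h3 : _ ∈ stabilizer (GG n F) ω := hu t ht e
    have h4 := mul_mem (mul_mem (mul_mem (mul_mem h1 h2) (inv_mem h1)) h3) (inv_mem h2)
    change _ ∈ stabilizer (GG n F) ω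
    convert h4 using 1
    group
  · intro u a b h s ha hu
    rw [mul_smul, hu, ha.2]
  · intro u hu m a b h1 hl hab h
    have hlt : a < b := by
      by_contra e
      exact h (lv_Un hu a b (by have := Fin.le_def.1 (not_lt.1 e); omega))
    obtain ⟨⟨c, hc⟩, c1⟩ := Subgroup.ne_bot_iff_exists_ne_one.1 (hI ω a b hlt.ne).1
    obtain ⟨t, ht, rfl⟩ := mem_Al.1 hc
    have ce := comm_entry hu (one_mem _) hl t (prod_Hs ht) a b (by omega)
    rw [one_mul, inv_one, mul_one, Matrix.sub_apply, one_apply, if_neg hlt.ne, sub_zero] at ce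
    refine ar_of_entry hT hI hS ⟨comm_mem hu t (prod_Hs ht), h1 t ht _⟩ hlt.ne ?_
    rw [ce]
    refine mul_ne_zero (fun e => c1 (Subtype.ext ?_)) h
    rw [sub_eq_zero, Units.mul_inv_eq_one] at e
    exact div_eq_one.2 (Units.ext e)

end CF.Rk
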