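import Cfsg.Agent.Rk.P1
import Cfsg.Agent.Rk.QY

/-!
Rank 3 actions of `SL_n(q)`: the set of root groups in a stabiliser normalised by a large torus.
-/

set_option autoImplicit false
open Matrix MulAction Cfsg

namespace CF.Rk.P3

open P1

variable {n : ℕ} {F : Type*} [Field F] {Ω : Type*} [MulAction (GG n F) Ω]

theorem wd_conj_dg (w : Equiv.Perm (Fin n)) (t : Fin n → Fˣ) (e) :
    ∃ e', (wd F w)⁻¹ * dg t e * wd F w = dg (t ∘ w) e' := by
  obtain ⟨e', h⟩ := dg_wd w t e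
  exact ⟨e', by rw [mul_assoc, h, inv_mul_cancel_left]⟩

theorem anti_Bo {a b : Fin n} (hab : b.1 = a.1 + 1) {g : GG n F} (hg : g ∈ PJ n F {a.1})
    (h0 : g.1 b b = 0) : g * wd F (Equiv.swap a b) ∈ Bo n F := mem_Bo.2 fun i j e => by
  rw [val_mul, mul_wd]
  refine mul_eq_zero_of_left ?_ _
  have e' := Fin.lt_def.1 e
  by_cases e1 : j = a
  · subst e1
    rw [Equiv.swap_apply_left]
    by_cases e2 : i = b
    · rw [e2, h0]
    · have := Fin.val_ne_of_ne e2
      exact mem_PJ_one.1 hg _ _ (Fin.lt_def.2 (by omega)) (by omega)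
  · have := Fin.val_ne_of_ne e1
    by_cases e2 : j = b
    · subst e2
      rw [Equiv.swap_apply_right]
      exact mem_PJ_one.1 hg _ _ (Fin.lt_def.2 (by omega)) (by omega)
    · rw [Equiv.swap_apply_of_ne_of_ne e1 e2]
      exact mem_PJ_one.1 hg _ _ e (by omega)

theorem dg_comm (r t : Fin n → Fˣ) (e0 e) : dg r e0 * dg t e = dg t e * dg r e0 := by
  rw [dg_dg, dg_dg]
  congr 1
  exact mul_comm _ _

theorem hs_comp {ω : Ω} (hT : Tor n F ω) {u : GG n F} (hu : u ∈ Un n F) {r : Fin n → Fˣ} {e0}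
    {s : Equiv.Perm (Fin n)} (hk : u * dg r e0 * (wd F s)⁻¹ ∈ stabilizer (GG n F) ω)
    {t : Fin n → Fˣ} (ht : t ∈ Hs n F ω) : t ∘ s ∈ Hs n F ω := by
  obtain ⟨a0, a1⟩ := wd_conj_dg s t (prod_Hs ht)
  have a5 : dg t (prod_Hs ht) ∈ stabilizer (GG n F) ω := hT t ht _
  have a4 := mul_mem (mul_mem hk a5) (inv_mem hk)
  have a3 : u * dg r e0 * (wd F s)⁻¹ * dg t (prod_Hs ht) * (u * dg r e0 * (wd F s)⁻¹)⁻¹ =
      u * dg (t ∘ s) a0 * u⁻¹ :=
    calc _ = u * (dg r e0 * ((wd F s)⁻¹ * dg t (prod_Hs ht) * wd F s)) * (dg r e0)⁻¹ * u⁻¹ := by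
          group
      _ = _ := by rw [a1, dg_comm]; group
  rw [a3] at a4
  have a6 := Un_le hu
  refine mem_Hs.2 ⟨⟨_, mul_mem (mul_mem a6 (dg_mem (t ∘ s) a0)) (inv_mem a6)⟩, a4, ?_⟩
  ext i
  have a7 := mul_diag a6 (inv_mem a6) i
  rw [mul_inv_cancel, val_one, one_apply_eq, (mem_Un.1 hu).2, one_mul] at a7
  rw [dv_val, mul_diag (mul_mem a6 (dg_mem (t ∘ s) a0)) (inv_mem a6), ← a7, mul_one,
    mul_diag a6 (dg_mem _ _), (mem_Un.1 hu).2, one_mul, dg_apply, if_pos rfl]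

theorem un_mem {ω : Ω} (hT : Tor n F ω) (hI : Irr n F Ω) (hS : Sep n F Ω) {u : GG n F}
    (hu : u ∈ Un n F) {r : Fin n → Fˣ} {e0} {s : Equiv.Perm (Fin n)} (hs : ∀ i, s (s i) = i)
    (hk : u * dg r e0 * (wd F s)⁻¹ ∈ stabilizer (GG n F) ω) : u • ω = ω :=
  lemN hT hI hS hu fun t ht e => by
    have a0 : ∏ i, (t ∘ s) i = 1 := (Equiv.prod_comp s t).trans e
    obtain ⟨e', a1⟩ := wd_conj_dg s (t ∘ s) a0
    have a5 : dg ((t ∘ s) ∘ s) e' = dg t e := by
      congr 1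
      exact funext fun i => congr_arg t (hs i)
    rw [a5] at a1
    have a2 : dg (t ∘ s) a0 ∈ stabilizer (GG n F) ω := hT _ (hs_comp hT hu hk ht) _
    have a3 : dg t e ∈ stabilizer (GG n F) ω := hT _ ht _
    have a4 := mul_mem a3 (mul_mem (mul_mem hk (inv_mem a2)) (inv_mem hk))
    have a6 : u * dg r e0 * (wd F s)⁻¹ * (dg (t ∘ s) a0)⁻¹ * (u * dg r e0 * (wd F s)⁻¹)⁻¹ =
        u * (dg t e)⁻¹ * u⁻¹ :=
      calc _ = u * (dg r e0 * ((wd F s)⁻¹ * dg (t ∘ s) a0 * wd F s) * (dg r e0)⁻¹)⁻¹ * u⁻¹ := by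
            group
        _ = _ := by rw [a1, dg_comm]; group
    rw [a6, ← mul_assoc, ← mul_assoc] at a4
    exact a4

/-- An antidiagonal element in the stabiliser makes the set of root groups symmetric. -/
theorem swap_inv {ω : Ω} (hT : Tor n F ω) (hI : Irr n F Ω) (hS : Sep n F Ω) {a b : Fin n}
    (hab : b.1 = a.1 + 1) {g : GG n F} (hg : g ∈ PJ n F {a.1}) (hk : g • ω = ω)
    (h0 : g.1 b b = 0) {i j : Fin n} (h : Ar F ω i j) :
    Ar F ω (Equiv.swap a b i) (Equiv.swap a b j) := by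
  have hk' : g ∈ stabilizer (GG n F) ω := hk
  obtain ⟨u, hu, r, e0, e⟩ : ∃ u ∈ Un n F, ∃ r e0,
      g * wd F (Equiv.swap a b) = u * dg r e0 := by
    obtain ⟨u, hu, e⟩ := exists_un (anti_Bo hab hg h0)
    exact ⟨u, hu, _, _, e⟩
  rw [← eq_mul_inv_iff_mul_eq] at e
  rw [e] at hk'
  have h3 : u ∈ stabilizer (GG n F) ω := un_mem hT hI hS hu (Equiv.swap_apply_self a b) hk'
  generalize Equiv.swap a b = s at hk' ⊢
  have a1 := mul_mem (inv_mem hk') h3
  obtain ⟨hij, h⟩ := h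
  have h6 : xr hij ((r i : F) * 1 * (r j)⁻¹.1) ∈ stabilizer (GG n F) ω := h _
  have h5 := mul_mem (mul_mem a1 h6) (inv_mem a1)
  have h7 : ∀ x y z : GG n F, (u * y * z⁻¹)⁻¹ * u * (y * x * y⁻¹) * ((u * y * z⁻¹)⁻¹ * u)⁻¹ =
      z * x * z⁻¹ := fun x y z => by group
  rw [← dg_conj_xr r e0 hij 1, h7, wd_conj_xr] at h5
  exact ar_of_xr hT hI (s.injective.ne hij)
    (mul_ne_zero (mul_ne_zero (Units.ne_zero _) one_ne_zero) (Units.ne_zero _)) h5

variable [Fintype F] [DecidableEq F]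

theorem no_ar (h : R3 n F Ω) {ω : Ω}
    (inv : ∀ a b : Fin n, b.1 = a.1 + 1 → ¬ Ar F ω a b → ∀ i j, Ar F ω i j →
      Ar F ω (Equiv.swap a b i) (Equiv.swap a b j)) {a b : Fin n} (hab : a < b) :
    ¬ Ar F ω a b := by
  classical
  have h1 : ∀ a b : Fin n, b.1 = a.1 + 1 → ¬ Ar F ω a b := by
    by_contra h0
    have h0' : ∃ m, ∃ a b : Fin n, a.1 = m ∧ b.1 = a.1 + 1 ∧ Ar F ω a b := by
      simp only [not_forall, not_not] at h0
      obtain ⟨a, b, e1, e2⟩ := h0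
      exact ⟨_, a, b, rfl, e1, e2⟩
    obtain ⟨j, j', e0, e1, e2⟩ := Nat.find_spec h0'
    have e3 : ∀ a b : Fin n, b.1 = a.1 + 1 → a.1 < j.1 → ¬ Ar F ω a b := fun a b e4 e5 e6 =>
      Nat.find_min h0' (e0 ▸ e5) ⟨a, b, rfl, e4, e6⟩
    have h2 : ∀ d (a : Fin n), a.1 + d = j.1 → Ar F ω a j' := by
      intro d
      induction d with
      | zero => intro a e; rwa [show a = j from Fin.ext e]
      | succ d ih =>
        intro a e
        have := j.2
        let a' : Fin n := ⟨a.1 + 1, by omega⟩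
        have := inv a a' rfl (e3 a a' rfl (by omega)) _ _ (ih a' (by simp only [a']; omega))
        rwa [Equiv.swap_apply_right, Equiv.swap_apply_of_ne_of_ne
          (Fin.ne_of_val_ne (by omega)) (Fin.ne_of_val_ne (by simp only [a']; omega))] at this
    have h3 : ∀ d (b : Fin n), b.1 = j.1 + 1 + d → ∀ a : Fin n, a.1 ≤ j.1 → Ar F ω a b := by
      intro d
      induction d with
      | zero =>
        intro b e a e'
        rw [show b = j' from Fin.ext (by omega)]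
        exact h2 (j.1 - a.1) a (by omega)
      | succ d ih =>
        intro b e a e'
        have := b.2
        let b' : Fin n := ⟨j.1 + 1 + d, by omega⟩
        have h4 := ih b' rfl a e'
        by_cases h5 : Ar F ω b' b
        · exact h4.trans h5 (Fin.ne_of_val_ne (by omega))
        · have := inv b' b (by simp only [b']; omega) h5 _ _ h4
          rwa [Equiv.swap_apply_left, Equiv.swap_apply_of_ne_of_ne
            (Fin.ne_of_val_ne (by simp only [b']; omega)) (Fin.ne_of_val_ne (by omega))] at this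
    refine h.qy ω (Finset.univ.filter fun i => i.1 ≤ j.1) ⟨j, by simp⟩ (fun e => ?_)
      fun a ha b hb => ?_
    · have := e ▸ Finset.mem_univ j'
      simp only [Finset.mem_filter] at this
      omega
    · simp only [Finset.mem_filter, Finset.mem_univ, true_and] at ha hb
      exact h3 (b.1 - (j.1 + 1)) b (by omega) a ha
  have h2 : ∀ d (b : Fin n), b.1 = a.1 + 1 + d → ¬ Ar F ω a b := by
    intro d
    induction d with
    | zero => exact fun b e => h1 a b e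
    | succ d ih =>
      intro b e h3
      have := b.2
      let b' : Fin n := ⟨a.1 + 1 + d, by omega⟩
      have e1 : b.1 = b'.1 + 1 := by simp only [b']; omega
      have := inv b' b e1 (h1 _ _ e1) _ _ h3
      rw [Equiv.swap_apply_right, Equiv.swap_apply_of_ne_of_ne
        (Fin.ne_of_val_ne (by simp only [b']; omega)) (Fin.ne_of_val_ne (by omega))] at this
      exact ih b' rfl this
  exact h2 (b.1 - (a.1 + 1)) b (by have := Fin.lt_def.1 hab; omega)

omit [DecidableEq F] in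
theorem zero_all {ω : Ω} (hm : ∀ ω' : Ω, Nat.card (Us n F ω') ≤ Nat.card (Us n F ω))
    {a b : Fin n} (hab : b.1 = a.1 + 1) (h : ∀ u ∈ Us n F ω, u.1 a b = 0) {g : GG n F}
    (hg : g ∈ PJ n F {a.1}) {u : GG n F} (hu : u ∈ Us n F (g • ω)) : u.1 a b = 0 := by
  classical
  let f : Us n F ω → Us n F (g • ω) := fun x => ⟨g * x * g⁻¹,
    (conj_Q1 hab hg x.2.1 (h _ x.2)).1, by
      have e : x.1 • ω = ω := x.2.2
      change (g * x * g⁻¹) • g • ω = _
      rw [mul_smul, inv_smul_smul, mul_smul, e]⟩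
  have hf : Function.Injective f := fun x y e => by
    have := congr_arg Subtype.val e
    simp only [f, mul_left_inj, mul_right_inj] at this
    exact Subtype.ext this
  obtain ⟨x, e⟩ := (hf.bijective_of_nat_card_le (hm _)).2 ⟨u, hu⟩
  rw [← show g * x * g⁻¹ = u from congr_arg Subtype.val e]
  exact (conj_Q1 hab hg x.2.1 (h _ x.2)).2

omit [DecidableEq F] in
theorem exists_max (h : R3 n F Ω) :
    ∃ ω : Ω, Tor n F ω ∧ ∀ ω' : Ω, Nat.card (Us n F ω') ≤ Nat.card (Us n F ω) := by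
  classical
  have := h.fin
  have := h.ne
  obtain ⟨ω, hω⟩ := Finite.exists_max fun ω : Ω => Nat.card (Us n F ω)
  obtain ⟨u, hu, h1⟩ := exists_tor (n := n) (F := F) ω
  exact ⟨_, h1, fun ω' => by rw [card_Us_smul (Un_le hu)]; exact hω ω'⟩

omit [DecidableEq F] in
theorem us_triv (hI : Irr n F Ω) (hS : Sep n F Ω) {ω : Ω} (hT : Tor n F ω)
    (hm : ∀ ω' : Ω, Nat.card (Us n F ω') ≤ Nat.card (Us n F ω))
    (h1 : ∀ a b : Fin n, a < b → ¬ Ar F ω a b) (ω' : Ω) (u : GG n F) (hu : u ∈ Un n F)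
    (e : u • ω' = ω') : u = 1 := by
  have h2 : Us n F ω = ⊥ := (Subgroup.eq_bot_iff_forall _).2 fun u hu => by
    ext i j
    rw [val_one, one_apply]
    rcases lt_trichotomy i j with e | e | e
    · rw [if_neg e.ne]
      by_contra e1
      exact h1 i j e (ar_of_entry hT hI hS hu e.ne e1)
    · rw [if_pos e, e, (mem_Un.1 hu.1).2]
    · rw [if_neg e.ne', mem_Bo.1 (Un_le hu.1) i j e]
  have h3 := hm ω'
  rw [h2, Subgroup.card_bot] at h3
  exact (Subgroup.eq_bot_iff_forall _).1 (Subgroup.card_le_one_iff_eq_bot _ |>.1 h3) u ⟨hu, e⟩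

end CF.Rk.P3
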