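import Cfsg.Agent.Rk.C

/-!
Rank 3 actions of `SL_n(q)`: panels.
-/

set_option autoImplicit false
set_option linter.unusedSectionVars false
open Matrix MulAction Cfsg

namespace CF.Rk

variable {n : ℕ} {F : Type*} [Field F] [Fintype F] [DecidableEq F]
  {Ω : Type*} [MulAction (GG n F) Ω]

namespace W0

theorem cl_smul {g : GG n F} (hg : g ∈ Bo n F) (ω : Ω) : Cl n F ∅ ω (g • ω) := ⟨g, hg, rfl⟩

theorem cl_P {J : Set ℕ} {g : GG n F} (hg : g ∈ PJ n F J) (ω : Ω) : Cl n F J ω (g • ω) := ⟨g, hg, rfl⟩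

theorem up {J : Set ℕ} {ω ω' : Ω} (h : Cl n F ∅ ω ω') : Cl n F J ω ω' := h.mono (Set.empty_subset _)

theorem s_mem {a b : Fin n} (hab : b.1 = a.1 + 1) : wd F (Equiv.swap a b) ∈ PJ n F {a.1} :=
  wd_mem_PJ.2 ((swap_mem_YJ hab).2 rfl)

theorem cl_wd (w w' : Equiv.Perm (Fin n)) (ω : Ω) :
    Cl n F ∅ (wd F (w * w') • ω) (wd F w • wd F w' • ω) := by
  obtain ⟨t, ht, e⟩ := wd_mul (F := F) w w'
  refine ⟨wd F (w * w') * dg t ht * (wd F (w * w'))⁻¹, conj_wd_Bo.2 fun i j h => ?_, ?_⟩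
  · rw [dg_apply, if_neg fun e' => by rw [e'] at h; exact lt_irrefl _ h]
  · rw [smul_smul, smul_smul, inv_mul_cancel_right, e]

/-- the entry at `(a, b)` -/
noncomputable def ent {a b : Fin n} (hab : b.1 = a.1 + 1) (ω : Ω) : Us n F ω →* Multiplicative F :=
  MonoidHom.mk' (fun u => Multiplicative.ofAdd (u.1.1 a b)) fun u v => by
    rw [← ofAdd_add, Subgroup.coe_mul, adj_mul hab (Un_le u.2.1) (Un_le v.2.1), (mem_Un.1 u.2.1).2, (mem_Un.1 v.2.1).2,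
      one_mul, mul_one, add_comm]

theorem card_ker {a b : Fin n} (hab : b.1 = a.1 + 1) {g : GG n F} (hg : g ∈ PJ n F {a.1}) (ω : Ω) :
    Nat.card (ent (F := F) hab (g • ω)).ker = Nat.card (ent (F := F) hab ω).ker := by
  have k : ∀ g ∈ PJ n F {a.1}, ∀ ω ω' : Ω, g • ω = ω' →
      Nat.card (ent (F := F) hab ω).ker ≤ Nat.card (ent (F := F) hab ω').ker := by
    rintro g hg ω _ rfl
    refine Nat.card_le_card_of_injective (fun u => ⟨⟨g * u.1.1 * g⁻¹, (conj_Q1 hab hg u.1.2.1 u.2).1, ?_⟩,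
      (conj_Q1 hab hg u.1.2.1 u.2).2⟩) fun u v e => ?_
    · change _ • _ = _
      rw [smul_smul, inv_mul_cancel_right, mul_smul, show u.1.1 • ω = ω from u.1.2.2]
    · exact Subtype.ext (Subtype.ext (mul_left_cancel (mul_right_cancel (congrArg (·.1.1) e))))
  exact le_antisymm (k _ (inv_mem hg) _ _ (inv_smul_smul g ω)) (k g hg _ _ rfl)

theorem card_Us {a b : Fin n} (hab : b.1 = a.1 + 1) (ω : Ω) :
    Nat.card (Us n F ω) = Nat.card (ent (F := F) hab ω).range * Nat.card (ent (F := F) hab ω).ker := by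
  rw [← Subgroup.index_ker, Subgroup.index_mul_card]

theorem top_iff {a b : Fin n} (hab : b.1 = a.1 + 1) {ω : Ω} : Top F ω a b ↔ (ent (F := F) hab ω).range = ⊤ := by
  rw [MonoidHom.range_eq_top]
  exact ⟨fun h t => let ⟨u, h1, h2, h3⟩ := h t.toAdd; ⟨⟨u, h1, h2⟩, congrArg Multiplicative.ofAdd h3⟩,
    fun h t => let ⟨u, e⟩ := h (Multiplicative.ofAdd t); ⟨u.1, u.2.1, u.2.2, e⟩⟩

theorem card_top {a b : Fin n} (hab : b.1 = a.1 + 1) {ω : Ω} (h : Top F ω a b) :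
    Nat.card (Us n F ω) = Fintype.card F * Nat.card (ent (F := F) hab ω).ker := by
  rw [card_Us hab, (top_iff hab).1 h, Subgroup.card_top, Nat.card_eq_fintype_card, Fintype.card_multiplicative]

theorem blk3 {a : ℕ} {v : Equiv.Perm (Fin n)} (hv : v ∈ YJ n {a, a + 1}) {i : Fin n} (h1 : a ≤ i.1) (h2 : i.1 ≤ a + 2) :
    a ≤ (v i).1 ∧ (v i).1 ≤ a + 2 := by
  refine ⟨by_contra fun e => ?_, by_contra fun e => ?_⟩
  · have := mem_YJ' hv i (v i).1 le_rfl (by omega)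
    simp only [Set.mem_insert_iff, Set.mem_singleton_iff] at this
    omega
  · have := mem_YJ.1 hv i (a + 2) h2 (by omega)
    simp only [Set.mem_insert_iff, Set.mem_singleton_iff] at this
    omega

end W0
open W0

theorem w_step {ω : Ω} {a b : Fin n} (hab : b.1 = a.1 + 1) (h : Top F ω a b) {g : GG n F}
    (hg : g ∈ Bo n F) :
    Cl n F ∅ (wd F (Equiv.swap a b) • ω) (wd F (Equiv.swap a b) • g • ω) := by
  obtain ⟨u, hu, h1, h2⟩ := h (-(g.1 a b / g.1 a a))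
  refine ⟨_, swap_conj_Bo hab (mul_mem hg (Un_le hu)) ?_, ?_⟩
  · rw [adj_mul hab hg (Un_le hu), h2, (mem_Un.1 hu).2]
    have := diag_ne hg a
    field_simp
    ring
  · rw [smul_smul, inv_mul_cancel_right, mul_smul, mul_smul, h1]

theorem W0.out {ω : Ω} {a b : Fin n} (hab : b.1 = a.1 + 1) (h : Top F ω a b) {g : GG n F}
    (hg : g ∈ PJ n F {a.1}) (h0 : g ∉ Bo n F) : Cl n F ∅ (wd F (Equiv.swap a b) • ω) (g • ω) := by
  obtain ⟨x, hx, hne, t, rfl⟩ := (bruhat_one hab hg).resolve_left h0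
  rw [mul_smul, mul_smul]
  exact (w_step hab h (Un_le (xr_mem (Fin.lt_def.2 (by omega)) t))).trans (cl_smul hx _)

theorem w_two {ω : Ω} {a b : Fin n} (hab : b.1 = a.1 + 1) (h : Top F ω a b) {g : GG n F}
    (hg : g ∈ PJ n F {a.1}) :
    Cl n F ∅ ω (g • ω) ∨ Cl n F ∅ (wd F (Equiv.swap a b) • ω) (g • ω) :=
  (em (g ∈ Bo n F)).imp (fun e => cl_smul e ω) (W0.out hab h hg)

theorem W0.two {ω ω' : Ω} {a b : Fin n} (hab : b.1 = a.1 + 1) (h : Top F ω a b) (c : Cl n F {a.1} ω ω') :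
    Cl n F ∅ ω ω' ∨ Cl n F ∅ (wd F (Equiv.swap a b) • ω) ω' :=
  let ⟨_, hg, e⟩ := c
  e ▸ w_two hab h hg

/-- A nonzero entry on the opposite side gives an element outside `B`. -/
theorem W0.fix {ω : Ω} {a b : Fin n} (hab : b.1 = a.1 + 1) {u : GG n F} (hu : u ∈ Un n F) (h1 : u • ω = ω)
    (h2 : u.1 a b ≠ 0) : ∃ k ∈ PJ n F {a.1}, k ∉ Bo n F ∧
      k • wd F (Equiv.swap a b) • ω = wd F (Equiv.swap a b) • ω :=
  ⟨_, mul_mem (mul_mem (s_mem hab) (Bo_le _ (Un_le hu))) (inv_mem (s_mem hab)), fun e =>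
    h2 (conj_wd_Bo.1 e a b (by simp [Fin.lt_def, hab])), by rw [smul_smul, inv_mul_cancel_right, mul_smul, h1]⟩

theorem W0.ss (a b : Fin n) (ω : Ω) : Cl n F ∅ ω (wd F (Equiv.swap a b) • wd F (Equiv.swap a b) • ω) := by
  simpa [wd_one] using cl_wd (F := F) (Equiv.swap a b) (Equiv.swap a b) ω

theorem W0.conj {ω ω' : Ω} {a : ℕ} (c : Cl n F ∅ ω ω') (h : ∃ k ∈ PJ n F {a}, k ∉ Bo n F ∧ k • ω = ω) :
    ∃ k ∈ PJ n F {a}, k ∉ Bo n F ∧ k • ω' = ω' := by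
  obtain ⟨y, hy, rfl⟩ := c
  obtain ⟨k, h1, h2, h3⟩ := h
  exact ⟨y * k * y⁻¹, mul_mem (mul_mem (Bo_le _ hy) h1) (inv_mem (Bo_le _ hy)), fun e => h2
    ((Subgroup.mul_mem_cancel_left _ hy).1 ((Subgroup.mul_mem_cancel_right _ (inv_mem hy)).1 e)), by
      rw [smul_smul, inv_mul_cancel_right, mul_smul, h3]⟩

theorem W0.loop {ω : Ω} {a b : Fin n} (hab : b.1 = a.1 + 1) (h : Top F ω a b) {u : GG n F}
    (hu : u ∈ Us n F (wd F (Equiv.swap a b) • ω)) (h2 : u.1 a b ≠ 0) : Cl n F ∅ ω (wd F (Equiv.swap a b) • ω) := by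
  obtain ⟨k, h1, h2, h3⟩ := W0.conj (W0.ss a b ω).symm (W0.fix hab hu.1 hu.2 h2)
  exact (h3 ▸ W0.out hab h h1 h2).symm

theorem w_loop {ω : Ω} {a b : Fin n} (hab : b.1 = a.1 + 1) (h : Top F ω a b)
    (h' : Top F (wd F (Equiv.swap a b) • ω) a b) : Cl n F ∅ ω (wd F (Equiv.swap a b) • ω) :=
  let ⟨_, h1, h2, h3⟩ := h' 1
  W0.loop hab h ⟨h1, h2⟩ (h3.trans_ne one_ne_zero)

theorem w_card {ω : Ω} {a b : Fin n} (hab : b.1 = a.1 + 1) (h : Top F ω a b)
    (h' : ¬ Cl n F ∅ ω (wd F (Equiv.swap a b) • ω)) :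
    Nat.card (Us n F ω) = Fintype.card F * Nat.card (Us n F (wd F (Equiv.swap a b) • ω)) := by
  rw [card_top hab h, ← card_ker hab (s_mem hab), (Subgroup.eq_top_iff' (ent hab _).ker).2 fun u => by_contra fun e =>
    h' (W0.loop hab h u.2 e), Subgroup.card_top]

theorem w_max (hP : PF n F Ω) {ω : Ω} {a b : Fin n} (hab : b.1 = a.1 + 1)
    (h : ∀ g ∈ PJ n F {a.1}, Nat.card (Us n F (g • ω)) ≤ Nat.card (Us n F ω)) :
    Top F ω a b := by
  obtain ⟨g, hg, t⟩ := hP ω a b hab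
  have := h g hg
  rw [card_top hab t, card_ker hab hg, card_Us hab ω] at this
  refine (top_iff hab).2 (Subgroup.eq_top_of_le_card _ ?_)
  rw [Nat.card_eq_fintype_card, Fintype.card_multiplicative]
  exact Nat.le_of_mul_le_mul_right this Nat.card_pos

theorem w_top2 {ω : Ω} {a b c : Fin n} (hab : b.1 = a.1 + 1) (hbc : c.1 = b.1 + 1)
    (h : Top2 F ω a b c) {v : Equiv.Perm (Fin n)} (hv : v ∈ YJ n {a.1, b.1}) :
    (v⁻¹ a < v⁻¹ b → Top F (wd F v • ω) a b) ∧ (v⁻¹ b < v⁻¹ c → Top F (wd F v • ω) b c) := by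
  rw [hab] at hv
  have k : ∀ i j : Fin n, a.1 ≤ i.1 → i < j → j.1 ≤ a.1 + 2 → v i < v j → Top F (wd F v • ω) (v i) (v j) := fun i j h1 h2 h3 h4 t => by
    let f : Fin n → Fin n → F := fun x y => if x = i ∧ y = j then (sg F v i)⁻¹.1 * t * sg F v j else 0
    obtain ⟨u, hu, e, e1, e2, e3⟩ := h (f a b) (f b c) (f a c)
    have m : ∀ x y : Fin n, a.1 ≤ x.1 → x < y → y.1 ≤ a.1 + 2 → u.1 x y = f x y := fun x y k1 k2 k3 => by
      rw [Fin.lt_def] at k2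
      obtain ⟨rfl, rfl⟩ | ⟨rfl, rfl⟩ | ⟨rfl, rfl⟩ : (x = a ∧ y = b) ∨ (x = b ∧ y = c) ∨ (x = a ∧ y = c) := by
        simp only [Fin.ext_iff]; omega
      exacts [e1, e2, e3]
    refine ⟨wd F v * u * (wd F v)⁻¹, mem_Un.2 ⟨conj_wd_Bo.2 fun x y k => ?_, fun x => ?_⟩, ?_, ?_⟩
    · rcases lt_trichotomy x y with l | rfl | l
      · have j2 : ∀ m, x.1 ≤ m → m < y.1 → m = a.1 ∨ m = a.1 + 1 := fun m m1 m2 => (lt_or_ge m (v x).1).elim
          (mem_YJ.1 hv x m m1) fun m3 => mem_YJ' hv y m (le_trans k.le m3) m2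
        have l' := Fin.lt_def.1 l
        have := j2 x.1 le_rfl l'
        have := j2 (y.1 - 1) (by omega) (by omega)
        rw [m x y (by omega) l (by omega)]
        exact if_neg fun e => by rw [e.1, e.2] at k; exact k.not_gt h4
      · exact absurd k (lt_irrefl _)
      · exact mem_Bo.1 (Un_le hu) _ _ l
    · obtain ⟨x, rfl⟩ := v.surjective x
      rw [wd_conj, (mem_Un.1 hu).2, mul_one, Units.mul_inv]
    · rw [smul_smul, inv_mul_cancel_right, mul_smul, e]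
    · rw [wd_conj, m i j h1 h2 h3]
      simp [f, ← mul_assoc]
  have q := fun (x : Fin n) h1 h2 => blk3 (inv_mem hv) (i := x) h1 h2
  refine ⟨fun l => ?_, fun l => ?_⟩
  · simpa using k _ _ (q a le_rfl (by omega)).1 l (q b (by omega) (by omega)).2 (by simp [Fin.lt_def, hab])
  · simpa using k _ _ (q b (by omega) (by omega)).1 l (q c (by omega) (by omega)).2 (by simp [Fin.lt_def, hbc])

theorem w2 (hP : PF n F Ω) {ω : Ω} {a b c d : Fin n} (hab : b.1 = a.1 + 1) (hcd : d.1 = c.1 + 1)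
    (hf : b < c ∨ d < a) (h1 : Top F ω a b) (h2 : Top F ω c d) :
    Top F (wd F (Equiv.swap c d) • ω) a b ∨
      (Cl n F ∅ (wd F (Equiv.swap a b) • ω) (wd F (Equiv.swap c d) • ω) ∧
        ¬ Cl n F ∅ ω (wd F (Equiv.swap a b) • ω)) := by
  simp only [Fin.lt_def] at hf
  refine or_iff_not_imp_left.2 fun nt => ?_
  have A : ∀ g ∈ PJ n F {a.1}, g ∉ Bo n F →
      Cl n F {c.1} (wd F (Equiv.swap a b) • ω) (g • wd F (Equiv.swap c d) • ω) := fun g hg g0 => by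
    obtain ⟨x, hx, hne, t, rfl⟩ := (bruhat_one hab hg).resolve_left g0
    have m := (conj_Q1 hcd (inv_mem (s_mem hcd)) (xr_mem (F := F) (Fin.lt_def.2 (show a.1 < b.1 by omega)) t) (by
      rw [xr_apply, if_neg (by simp only [Fin.ext_iff]; omega), if_neg (by simp only [Fin.ext_iff]; omega), add_zero])).1
    have e : Equiv.swap c d * Equiv.swap a b = Equiv.swap a b * Equiv.swap c d := by
      rw [Equiv.mul_swap_eq_swap_mul, Equiv.swap_apply_of_ne_of_ne, Equiv.swap_apply_of_ne_of_ne] <;>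
        simp only [ne_eq, Fin.ext_iff] <;> omega
    refine (up (w_step hab h1 (Un_le m))).trans ((cl_P (s_mem hcd) _).trans (up ((cl_wd _ _ _).symm.trans ?_)))
    rw [e]
    refine (cl_wd _ _ _).trans ?_
    simp only [inv_inv, mul_smul, smul_inv_smul]
    exact cl_smul hx _
  obtain ⟨g, hg, t⟩ := hP (wd F (Equiv.swap c d) • ω) a b hab
  have n2 : ¬ Cl n F ∅ (g • wd F (Equiv.swap c d) • ω) (wd F (Equiv.swap c d) • ω) := fun e => nt (e.top hab t)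
  obtain ⟨u, u1, u2, u3⟩ := t 1
  obtain ⟨k, k1, k2, k3⟩ := W0.conj ((W0.two hab t (cl_P hg _).symm).resolve_left n2) (W0.fix hab u1 u2 (u3.trans_ne one_ne_zero))
  have c1 := (cl_P (s_mem hcd) ω).trans (k3 ▸ A k k1 k2).symm
  have n1 : ¬ Cl n F ∅ ω (wd F (Equiv.swap a b) • ω) := fun e => by
    have c2 := (W0.two hcd h2 (c1.trans (A g hg fun m => n2 (cl_smul m _).symm))).resolve_right fun e => n2 e.symm
    exact nt (((W0.two hab h1 ((up c2).trans (cl_P hg _).symm)).elim id e.trans).top hab h1)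
  exact ⟨((W0.two hcd h2 c1).resolve_left n1).symm, n1⟩

end CF.Rk
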