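import Cfsg.Agent.Rk.W0
import Cfsg.Agent.Fisch.SymCox

/-!
Rank 3 actions of `SL_n(q)`: the Weyl group acts on the orbits of the Borel subgroup.
-/

set_option autoImplicit false
set_option linter.unusedSectionVars false
open Matrix MulAction Cfsg

namespace CF.Rk

variable {n : ℕ} {F : Type*} [Field F] [Fintype F] [DecidableEq F]
  {Ω : Type*} [MulAction (GG n F) Ω]

open W0

namespace W1

variable (n F) in
/-- the class of a point -/
abbrev cl (ω : Ω) : orbitRel.Quotient (Bo n F) Ω := Quotient.mk'' ω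

theorem cl_eq {ω ω' : Ω} : cl n F ω = cl n F ω' ↔ Cl n F ∅ ω ω' := (cl_iff_mk (J := ∅)).symm

/-- the reflection at a node -/
def Sg (σ : Equiv.Perm (orbitRel.Quotient (Bo n F) Ω)) (a b : Fin n) : Prop :=
  σ * σ = 1 ∧ ∀ ω : Ω, Top F ω a b → σ (cl n F ω) = cl n F (wd F (Equiv.swap a b) • ω)

theorem cases (hP : PF n F Ω) {a b : Fin n} (hab : b.1 = a.1 + 1) (ω : Ω) : ∃ y, Top F y a b ∧ ∀ g ∈ PJ n F {a.1},
    cl n F (g • ω) = cl n F y ∨ cl n F (g • ω) = cl n F (wd F (Equiv.swap a b) • y) :=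
  let ⟨_, hh, t⟩ := hP ω a b hab
  ⟨_, t, fun _ hg => (W0.two hab t ((cl_P hh ω).symm.trans (cl_P hg ω))).imp (fun e => (cl_eq.2 e).symm) fun e => (cl_eq.2 e).symm⟩

theorem exists_sg (hP : PF n F Ω) {a b : Fin n} (hab : b.1 = a.1 + 1) :
    ∃ σ : Equiv.Perm (orbitRel.Quotient (Bo n F) Ω), Sg σ a b := by
  let R : orbitRel.Quotient (Bo n F) Ω → orbitRel.Quotient (Bo n F) Ω → Prop := fun γ γ' => ∃ y, Top F y a b ∧
    ((γ = cl n F y ∧ γ' = cl n F (wd F (Equiv.swap a b) • y)) ∨ (γ = cl n F (wd F (Equiv.swap a b) • y) ∧ γ' = cl n F y))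
  have st : ∀ {y y' : Ω}, Top F y a b → Cl n F ∅ y y' → Cl n F ∅ (wd F (Equiv.swap a b) • y) (wd F (Equiv.swap a b) • y') := by
    rintro y _ t ⟨g, hg, rfl⟩
    exact w_step hab t hg
  have mx : ∀ {y y' : Ω}, Top F y a b → Top F y' a b → Cl n F ∅ (wd F (Equiv.swap a b) • y) y' →
      Cl n F ∅ y (wd F (Equiv.swap a b) • y') := fun t t' e =>
    have l := w_loop hab t (e.symm.top hab t')
    l.trans (st t (l.trans e))
  have uq : ∀ γ γ₁ γ₂, R γ γ₁ → R γ γ₂ → γ₁ = γ₂ := by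
    rintro γ _ _ ⟨y, t, ⟨rfl, rfl⟩ | ⟨rfl, rfl⟩⟩ ⟨y', t', ⟨e, rfl⟩ | ⟨e, rfl⟩⟩ <;> rw [cl_eq] at e ⊢
    · exact st t e
    · exact (mx t' t e.symm).symm
    · exact mx t t' e
    · refine (W0.two hab t ((cl_P (s_mem hab) y).trans ((up e).trans (cl_P (s_mem hab) y').symm))).elim id fun l => ?_
      exact (w_loop hab t (l.symm.top hab t')).trans l
  have ex : ∀ γ, ∃ γ', R γ γ' := fun γ => by
    induction γ using Quotient.inductionOn' with | h ω => ?_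
    obtain ⟨y, t, k⟩ := cases hP hab ω
    have := k 1 (one_mem _)
    rw [one_smul] at this
    exact this.elim (fun e => ⟨_, y, t, .inl ⟨e, rfl⟩⟩) fun e => ⟨_, y, t, .inr ⟨e, rfl⟩⟩
  choose f hf using ex
  have iv : Function.Involutive f := fun γ => uq _ _ _ (hf _) (let ⟨y, t, k⟩ := hf γ; ⟨y, t, k.symm.imp And.symm And.symm⟩)
  exact ⟨iv.toPerm f, Equiv.ext iv, fun ω t => uq _ _ _ (hf _) ⟨ω, t, .inl ⟨rfl, rfl⟩⟩⟩

variable {σ τ : Equiv.Perm (orbitRel.Quotient (Bo n F) Ω)} {a b c d : Fin n}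

theorem Sg.inv (s : Sg σ a b) (γ : orbitRel.Quotient (Bo n F) Ω) : σ (σ γ) = γ := Equiv.congr_fun s.1 γ

theorem Sg.two (s : Sg σ a b) (hP : PF n F Ω) (hab : b.1 = a.1 + 1) {g : GG n F} (hg : g ∈ PJ n F {a.1}) (ω : Ω) :
    cl n F (g • ω) = cl n F ω ∨ cl n F (g • ω) = σ (cl n F ω) := by
  obtain ⟨y, t, k⟩ := cases hP hab ω
  have := k 1 (one_mem _)
  rw [one_smul] at this
  rcases this with e | e <;> rw [e]
  · rw [s.2 y t]; exact k g hg
  · rw [← s.2 y t, s.inv, s.2 y t]; exact (k g hg).symm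

theorem Sg.cl (s : Sg σ a b) (hP : PF n F Ω) (hab : b.1 = a.1 + 1) {ω ω' : Ω} (e : σ (cl n F ω) = cl n F ω') :
    Cl n F {a.1} ω ω' := by
  obtain ⟨h, hh, t⟩ := hP ω a b hab
  rcases s.two hP hab hh ω with k | k
  · rw [← k, s.2 _ t] at e
    exact (cl_P hh ω).trans ((cl_P (s_mem hab) _).trans (up (cl_eq.1 e)))
  · exact (cl_P hh ω).trans (up (cl_eq.1 (k.trans e)))

theorem orb (hP : PF n F Ω) {J : Set ℕ} (S : orbitRel.Quotient (Bo n F) Ω → Prop)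
    (h : ∀ a b : Fin n, b.1 = a.1 + 1 → a.1 ∈ J → ∃ σ, Sg σ a b ∧ ∀ γ, S γ → S (σ γ)) {ω ω' : Ω} (c : Cl n F J ω ω')
    (s : S (cl n F ω)) : S (cl n F ω') := by
  obtain ⟨g, hg, rfl⟩ := c
  have k : ∀ g : GG n F, (g ∈ Bo n F ∨ ∃ a ∈ J, a + 1 < n ∧ g ∈ PJ n F {a}) → ∀ ω, S (cl n F ω) → S (cl n F (g • ω)) := by
    rintro g (hg | ⟨a, ha, l, hg⟩) ω s
    · exact cl_eq.2 (cl_smul hg ω) ▸ s
    obtain ⟨σ, s1, s2⟩ := h ⟨a, by omega⟩ ⟨a + 1, l⟩ rfl ha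
    rcases s1.two hP rfl hg ω with e | e <;> rw [e]
    exacts [s, s2 _ s]
  rw [PJ_eq_closure] at hg
  induction hg using Subgroup.closure_induction'' generalizing ω with
  | mem g hg => exact k g hg ω s
  | inv_mem g hg => exact k _ (hg.imp inv_mem fun ⟨a, h1, h2, h3⟩ => ⟨a, h1, h2, inv_mem h3⟩) ω s
  | one => rwa [one_smul]
  | mul g g' _ _ ih ih' => rw [mul_smul]; exact ih (ih' s)

theorem exists_max (J : Set ℕ) (ω : Ω) : ∃ ω', Cl n F J ω' ω ∧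
    ∀ g ∈ PJ n F J, Nat.card (Us n F (g • ω')) ≤ Nat.card (Us n F ω') :=
  let ⟨g, hg, h⟩ := Set.exists_max_image (PJ n F J : Set (GG n F)) (fun g => Nat.card (Us n F (g • ω))) (Set.toFinite _)
    ⟨1, one_mem _⟩
  ⟨_, (cl_P hg ω).symm, fun g' hg' => by rw [smul_smul]; exact h _ (mul_mem hg' hg)⟩

/-- a relation between two reflections can be tested at a point which is full for both -/
theorem rel (hP : PF n F Ω) (hab : b.1 = a.1 + 1) (hcd : d.1 = c.1 + 1) (s : Sg σ a b) (t : Sg τ c d)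
    (S : orbitRel.Quotient (Bo n F) Ω → Prop) (h1 : ∀ γ, S γ → S (σ γ)) (h2 : ∀ γ, S γ → S (τ γ))
    (h : ∀ ω, Top F ω a b → Top F ω c d → S (cl n F ω)) (γ : orbitRel.Quotient (Bo n F) Ω) : S γ := by
  induction γ using Quotient.inductionOn' with | h ω => ?_
  obtain ⟨y, e, m⟩ := exists_max (n := n) (F := F) {a.1, c.1} ω
  refine orb hP S (fun x z hx k => ?_) e (h y (w_max hP hab fun g hg => m g (PJ_mono (by simp) hg))
    (w_max hP hcd fun g hg => m g (PJ_mono (by simp) hg)))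
  rcases k with k | k
  · obtain rfl : x = a := Fin.ext k
    obtain rfl : z = b := Fin.ext (by omega)
    exact ⟨σ, s, h1⟩
  · obtain rfl : x = c := Fin.ext k
    obtain rfl : z = d := Fin.ext (by omega)
    exact ⟨τ, t, h2⟩

theorem far (hP : PF n F Ω) (hab : b.1 = a.1 + 1) (hcd : d.1 = c.1 + 1) (hf : b < c) (s : Sg σ a b) (t : Sg τ c d) :
    Commute σ τ := by
  refine Equiv.ext (rel hP hab hcd s t (fun γ => σ (τ γ) = τ (σ γ)) (fun γ e => ?_) (fun γ e => ?_) fun ω h1 h2 => ?_)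
  · rw [← e, s.inv, s.inv]
  · rw [e, t.inv, t.inv]
  have k : cl n F (wd F (Equiv.swap a b) • ω) = cl n F (wd F (Equiv.swap c d) • ω) → σ (τ (cl n F ω)) = τ (σ (cl n F ω)) :=
    fun e => by rw [← s.2 ω h1, ← t.2 ω h2] at e; rw [← e, s.inv, e, t.inv]
  rcases w2 hP hab hcd (.inl hf) h1 h2 with e | e
  swap
  · exact k (cl_eq.2 e.1)
  rcases w2 hP hcd hab (.inr hf) h2 h1 with e' | e'
  swap
  · exact k (cl_eq.2 e'.1).symm
  rw [Fin.lt_def] at hf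
  have m : Equiv.swap c d * Equiv.swap a b = Equiv.swap a b * Equiv.swap c d := by
    rw [Equiv.mul_swap_eq_swap_mul, Equiv.swap_apply_of_ne_of_ne, Equiv.swap_apply_of_ne_of_ne] <;>
      simp only [ne_eq, Fin.ext_iff] <;> omega
  rw [s.2 ω h1, t.2 ω h2, s.2 _ e, t.2 _ e', ← cl_eq.2 (cl_wd _ _ ω), ← cl_eq.2 (cl_wd _ _ ω), m]

theorem adj (hP : PF n F Ω) (hA : A2 n F Ω) (hab : b.1 = a.1 + 1) (hbc : c.1 = b.1 + 1) (s : Sg σ a b) (t : Sg τ b c) :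
    σ * τ * σ = τ * σ * τ := by
  refine Equiv.ext (rel hP hab hbc s t (fun γ => σ (τ (σ γ)) = τ (σ (τ γ))) (fun γ e => ?_) (fun γ e => ?_) fun ω h1 h2 => ?_)
  · rw [s.inv, e, t.inv]
  · rw [t.inv, ← e, s.inv]
  have T := fun v hv => w_top2 hab hbc (hA ω a b c hab hbc h1 h2) (v := v) hv
  have m1 : Equiv.swap a b ∈ YJ n {a.1, b.1} := (swap_mem_YJ hab).2 (by simp)
  have m2 : Equiv.swap b c ∈ YJ n {a.1, b.1} := (swap_mem_YJ hbc).2 (by simp)
  have e1 : Equiv.swap a b c = c := Equiv.swap_apply_of_ne_of_ne (by simp only [ne_eq, Fin.ext_iff]; omega)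
    (by simp only [ne_eq, Fin.ext_iff]; omega)
  have e2 : Equiv.swap b c a = a := Equiv.swap_apply_of_ne_of_ne (by simp only [ne_eq, Fin.ext_iff]; omega)
    (by simp only [ne_eq, Fin.ext_iff]; omega)
  have l1 : a < b := Fin.lt_def.2 (by omega)
  have l2 : b < c := Fin.lt_def.2 (by omega)
  have l3 := l1.trans l2
  rw [s.2 ω h1, t.2 ω h2, t.2 _ ((T _ m1).2 (by simpa [e1] using l3)), s.2 _ ((T _ m2).1 (by simpa [e2] using l3)),
    ← cl_eq.2 (cl_wd _ _ ω), ← cl_eq.2 (cl_wd _ _ ω), s.2 _ ((T _ (mul_mem m2 m1)).1 (by simpa [e1, e2] using l2)),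
    t.2 _ ((T _ (mul_mem m1 m2)).2 (by simpa [e1, e2] using l1)), ← cl_eq.2 (cl_wd _ _ ω), ← cl_eq.2 (cl_wd _ _ ω),
    ← mul_assoc, ← mul_assoc, Equiv.swap_mul_swap_mul_swap, Equiv.swap_comm b c, Equiv.swap_comm a b, Equiv.swap_mul_swap_mul_swap,
    Equiv.swap_comm] <;> simp only [ne_eq, Fin.ext_iff] <;> omega

end W1
open W1

theorem w1 (hP : PF n F Ω) (hA : A2 n F Ω) :
    ∃ φ : Equiv.Perm (Fin n) →* Equiv.Perm (orbitRel.Quotient (Bo n F) Ω),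
      ∀ (ω : Ω) (a b : Fin n), b.1 = a.1 + 1 → Top F ω a b →
        φ (Equiv.swap a b) (Quotient.mk'' ω) = Quotient.mk'' (wd F (Equiv.swap a b) • ω) := by
  rcases n with _ | n
  · exact ⟨1, fun _ a => a.elim0⟩
  choose f hf using fun i : Fin n => exists_sg hP (a := i.castSucc) (b := i.succ) rfl
  obtain ⟨φ, h⟩ := Fisch.sym_exists_hom n f (fun i => (hf i).1)
    (fun i j e => far hP rfl rfl (Fin.lt_def.2 e) (hf i) (hf j)) fun i j e =>
      adj hP hA (c := j.succ) rfl (by simp [← e]) (hf i) (by rw [show i.succ = j.castSucc from Fin.ext e]; exact hf j)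
  refine ⟨φ, fun ω a b hab t => ?_⟩
  have l : a.1 < n := by omega
  obtain rfl : b = (⟨a.1, l⟩ : Fin n).succ := Fin.ext hab
  exact (Equiv.congr_fun (h ⟨a.1, l⟩) _).trans ((hf ⟨a.1, l⟩).2 ω t)

theorem w_orb (hP : PF n F Ω) (φ : Equiv.Perm (Fin n) →* Equiv.Perm (orbitRel.Quotient (Bo n F) Ω))
    (hφ : ∀ (ω : Ω) (a b : Fin n), b.1 = a.1 + 1 → Top F ω a b →
        φ (Equiv.swap a b) (Quotient.mk'' ω) = Quotient.mk'' (wd F (Equiv.swap a b) • ω))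
    (J : Set ℕ) (ω ω' : Ω) :
    Cl n F J ω ω' ↔ ∃ w ∈ YJ n J, φ w (Quotient.mk'' ω) = Quotient.mk'' ω' := by
  have s : ∀ a b : Fin n, b.1 = a.1 + 1 → Sg (φ (Equiv.swap a b)) a b := fun a b hab =>
    ⟨by rw [← map_mul, Equiv.swap_mul_self, map_one], fun ω => hφ ω a b hab⟩
  refine ⟨fun c => orb hP (fun γ => ∃ w ∈ YJ n J, φ w (Quotient.mk'' ω) = γ) (fun a b hab ha => ⟨_, s a b hab, ?_⟩) c
    ⟨1, one_mem _, by rw [map_one]; rfl⟩, ?_⟩
  · rintro _ ⟨w, hw, rfl⟩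
    exact ⟨_, mul_mem ((swap_mem_YJ hab).2 ha) hw, by rw [map_mul]; rfl⟩
  rintro ⟨w, hw, e⟩
  rw [YJ_eq_closure] at hw
  induction hw using Subgroup.closure_induction generalizing ω ω' with
  | mem w hw =>
    obtain ⟨a, b, hab, ha, rfl⟩ := hw
    exact ((s a b hab).cl hP hab e).mono (Set.singleton_subset_iff.2 ha)
  | one => rw [map_one] at e; exact up (cl_eq.1 e)
  | mul w w' _ _ ih ih' =>
    obtain ⟨y, hy⟩ := Quotient.exists_rep (φ w' (Quotient.mk'' ω))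
    rw [map_mul, Equiv.Perm.mul_apply, ← hy] at e
    exact (ih' _ _ hy.symm).trans (ih _ _ e)
  | inv w _ ih =>
    rw [map_inv, Equiv.Perm.inv_eq_iff_eq] at e
    exact (ih _ _ e.symm).symm

end CF.Rk
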