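import Cfsg.Agent.Rk.W1
import Cfsg.Agent.Rk.QY

/-!
Rank 3 actions of `SL_n(q)`: a point all of whose Weyl translates are full.
-/

set_option autoImplicit false
set_option linter.unusedSectionVars false
open Matrix MulAction Cfsg

namespace CF.Rk

variable {n : ℕ} {F : Type*} [Field F] [Fintype F] [DecidableEq F]
  {Ω : Type*} [MulAction (GG n F) Ω]

open W0 W1

theorem R3.w_end (h : R3 n F Ω) (hc : ¬ CA n F Ω) (ω : Ω)
    (hT : ∀ (w : Equiv.Perm (Fin n)) (a b : Fin n), b.1 = a.1 + 1 → w⁻¹ a < w⁻¹ b →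
      Top F (wd F w • ω) a b) : False := by
  have k : ∀ w : Equiv.Perm (Fin n), ∀ g ∈ Bo n F, Cl n F ∅ (wd F w • ω) (wd F w • g • ω) := fun w g hg => by
    induction e : ninv w using Nat.strong_induction_on generalizing w with | _ m ih => ?_
    by_cases w1 : w = 1
    · rw [w1, wd_one, one_smul, one_smul]; exact cl_smul hg ω
    obtain ⟨a, b, hab, -, l⟩ := exists_desc (J := Set.univ) (by rw [YJ_univ]; trivial) w1
    obtain ⟨y, hy, e'⟩ := ih _ (by rw [← e, ← ninv_down hab l]; omega) (Equiv.swap a b * w) rfl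
    have s := w_step hab (hT (Equiv.swap a b * w) a b hab (by simpa using l)) hy
    rw [e'] at s
    have c := fun x : Ω => cl_wd (F := F) (Equiv.swap a b) (Equiv.swap a b * w) x
    rw [← mul_assoc, Equiv.swap_mul_self, one_mul] at c
    exact (c _).trans (s.trans (c _).symm)
  let M : Subgroup (GG n F) :=
    { carrier := {g | ∀ x : GG n F, Cl n F ∅ (x • ω) ((x * g) • ω)}
      mul_mem' := fun {g g'} hg hg' x => (hg x).trans (mul_assoc x g g' ▸ hg' (x * g))
      one_mem' := fun x => by rw [mul_one]; exact .refl _ _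
      inv_mem' := fun {g} hg x => by simpa using (hg (x * g⁻¹)).symm }
  have hB : Bo n F ≤ M := fun g hg x => by
    obtain ⟨u, hu, w, b, hb, rfl⟩ := bruhat x
    simp only [mul_assoc u, mul_assoc (wd F w), mul_smul u, mul_smul (wd F w)]
    exact ((k w b hb).trans (cl_smul (Un_le hu) _)).symm.trans ((k w _ (mul_mem hb hg)).trans (cl_smul (Un_le hu) _))
  obtain ⟨u, hu, u0⟩ := h.not_Un ω
  have e := (h.co ω).2 M (lt_of_le_of_ne (fun g (hg : g • ω = ω) x => by rw [mul_smul, hg]; exact .refl _ _)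
    fun e => u0 (e.ge (hB (Un_le hu))))
  have := h.tr
  have c : ∀ x, Cl n F ∅ ω x := fun x => by
    obtain ⟨g, rfl⟩ := exists_smul_eq (GG n F) ω x
    simpa using (e.ge (Subgroup.mem_top g) : g ∈ M) 1
  exact hc fun x y => (c x).symm.trans (c y)

namespace W4

theorem all (hA : A2 n F Ω) (H : ∀ (ω : Ω) (a b c d : Fin n), b.1 = a.1 + 1 → d.1 = c.1 + 1 → b < c ∨ d < a → Top F ω a b →
    Top F ω c d → Top F (wd F (Equiv.swap c d) • ω) a b) {ω : Ω} (h0 : ∀ a b : Fin n, b.1 = a.1 + 1 → Top F ω a b)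
    (w : Equiv.Perm (Fin n)) (a b : Fin n) (hab : b.1 = a.1 + 1) (l : w⁻¹ a < w⁻¹ b) : Top F (wd F w • ω) a b := by
  induction e : ninv w using Nat.strong_induction_on generalizing w a b with | _ m ih => ?_
  by_cases w1 : w = 1
  · rw [w1, wd_one, one_smul]; exact h0 a b hab
  obtain ⟨c, d, hcd, -, l'⟩ := exists_desc (J := Set.univ) (by rw [YJ_univ]; trivial) w1
  have lt : ninv (Equiv.swap c d * w) < m := by rw [← e, ← ninv_down hcd l']; omega
  have cl : ∀ v : Equiv.Perm (Fin n), Top F (wd F v⁻¹ • wd F (v * w) • ω) a b → Top F (wd F w • ω) a b := fun v t =>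
    (inv_mul_cancel_left v w ▸ cl_wd v⁻¹ (v * w) ω).symm.top hab t
  by_cases hf : b < c ∨ d < a
  · have hf' := hf
    simp only [Fin.lt_def] at hf'
    have e1 : Equiv.swap c d a = a := Equiv.swap_apply_of_ne_of_ne (by simp only [ne_eq, Fin.ext_iff]; omega)
      (by simp only [ne_eq, Fin.ext_iff]; omega)
    have e2 : Equiv.swap c d b = b := Equiv.swap_apply_of_ne_of_ne (by simp only [ne_eq, Fin.ext_iff]; omega)
      (by simp only [ne_eq, Fin.ext_iff]; omega)
    exact cl (Equiv.swap c d) (H _ a b c d hab hcd hf (ih _ lt _ a b hab (by simpa [e1, e2] using l) rfl)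
      (ih _ lt _ c d hcd (by simpa using l') rfl))
  have ne : a ≠ c := by
    rintro rfl
    obtain rfl : b = d := Fin.ext (by omega)
    exact l.not_gt l'
  obtain ⟨x, y, z, hxy, hyz, k⟩ : ∃ x y z : Fin n, y.1 = x.1 + 1 ∧ z.1 = y.1 + 1 ∧
      ((a = x ∧ b = y ∧ c = y) ∨ (a = y ∧ b = z ∧ c = x)) := by
    simp only [Fin.lt_def, ne_eq, Fin.ext_iff] at hf ne
    by_cases o : b.1 = c.1
    · exact ⟨a, b, d, hab, by omega, .inl ⟨rfl, rfl, Fin.ext o.symm⟩⟩
    · exact ⟨c, a, b, by omega, hab, .inr ⟨rfl, rfl, rfl⟩⟩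
  obtain ⟨v, hv, hm⟩ := Set.exists_min_image (YJ n {x.1, y.1} : Set _) (fun v => ninv (v * w)) (Set.toFinite _) ⟨1, one_mem _⟩
  have up : ∀ p q : Fin n, q.1 = p.1 + 1 → p.1 ∈ ({x.1, y.1} : Set ℕ) → (v * w)⁻¹ p < (v * w)⁻¹ q := fun p q hpq hp =>
    lt_of_le_of_ne (not_lt.1 fun o => by
      have := hm _ (mul_mem ((swap_mem_YJ hpq).2 hp) hv)
      rw [mul_assoc, ← ninv_down hpq o] at this
      omega) fun o => by rw [(v * w)⁻¹.injective o] at hpq; omega
  have u1 := up x y hxy (by simp)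
  have u2 := up y z hyz (by simp)
  have lt' := (hm _ ((swap_mem_YJ hcd).2 (by rcases k with k | k <;> simp [k.2.2]))).trans_lt lt
  have T := w_top2 hxy hyz (hA _ x y z hxy hyz (ih _ lt' _ x y hxy u1 rfl) (ih _ lt' _ y z hyz u2 rfl)) (inv_mem hv)
  have o : v a < v b := by
    rw [hxy] at hv
    have b1 := blk3 hv (i := a) (by rcases k with k | k <;> rw [k.1] <;> omega) (by rcases k with k | k <;> rw [k.1] <;> omega)
    have b2 := blk3 hv (i := b) (by rcases k with k | k <;> rw [k.2.1] <;> omega) (by rcases k with k | k <;> rw [k.2.1] <;> omega)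
    have l2 : (v * w)⁻¹ (v a) < (v * w)⁻¹ (v b) := by simpa using l
    generalize v a = p, v b = q at b1 b2 l2
    have u3 := u1.trans u2
    have hp : x = p ∨ y = p ∨ z = p := by simp only [Fin.ext_iff]; omega
    have hq : x = q ∨ y = q ∨ z = q := by simp only [Fin.ext_iff]; omega
    rcases hp with e1 | e1 | e1 <;> rcases hq with e2 | e2 | e2 <;> rw [← e1, ← e2] at l2 ⊢ <;> omega
  refine cl v ?_
  rcases k with ⟨rfl, rfl, -⟩ | ⟨rfl, rfl, -⟩
  exacts [T.1 o, T.2 o]

theorem nB_eq [MulAction (Equiv.Perm (Fin n)) (orbitRel.Quotient (Bo n F) Ω)] (J : Set ℕ)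
    (h : ∀ ω ω' : Ω, Cl n F J ω ω' ↔ ∃ w ∈ YJ n J, w • cl n F ω = cl n F ω') :
    nB (orbitRel.Quotient (Bo n F) Ω) (YJ n J) = nB Ω (PJ n F J) := by
  have k : ∀ ω ω' : Ω, orbitRel (PJ n F J) Ω ω ω' ↔ orbitRel (YJ n J) _ (cl n F ω) (cl n F ω') := fun ω ω' => by
    rw [← Quotient.eq'', eq_comm, ← cl_iff_mk, h, orbitRel_apply]
    exact ⟨fun ⟨w, hw, e⟩ => ⟨⟨w, hw⟩, e⟩, fun ⟨w, e⟩ => ⟨w.1, w.2, e⟩⟩
  refine (Nat.card_congr (Equiv.ofBijective (Quotient.map' (cl n F) fun ω ω' => (k ω ω').1) ⟨fun x y => ?_, fun x => ?_⟩)).symm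
  · induction x using Quotient.inductionOn'
    induction y using Quotient.inductionOn'
    exact fun e => Quotient.sound' ((k _ _).2 (Quotient.exact' e))
  · induction x using Quotient.inductionOn' with | h x => ?_
    induction x using Quotient.inductionOn' with | h x => ?_
    exact ⟨Quotient.mk'' x, rfl⟩

end W4

end CF.Rk
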