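import Cfsg.Agent.Rk.D
import Cfsg.Agent.Rk.M2
import Cfsg.Agent.Rk.GR2
import Cfsg.Agent.Rk.E0

/-! Rank 3 actions of `SL_n(q)`: root characters of order two and three. -/

set_option autoImplicit false
open Matrix MulAction Cfsg

namespace CF.Rk
open CF.Char

variable {n : ℕ} {F : Type*} [Field F]

namespace X3

/-- The determinant of a diagonal block. -/
noncomputable def bd {a k : ℕ} (h : a + k ≤ n) {Y : Subgroup (GG n F)} (hY : Y ≤ PI n F a k) :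
    Y →* Fˣ := (GeneralLinearGroup.det.comp (blk F h)).comp (Subgroup.inclusion hY)

theorem bd_Bo {a k : ℕ} (h : a + k ≤ n) {Y : Subgroup (GG n F)} (hY : Y ≤ PI n F a k)
    (h1 : Bo n F ≤ Y) (y : Bo n F) :
    bd h hY (Subgroup.inclusion h1 y) = ∏ i, dv n F y (ix h i) := by
  apply Units.ext
  rw [Units.coe_prod]
  exact det_of_isUpperTriangular (M := (blk F h ⟨y, hY (h1 y.2)⟩).1) fun i j e =>
    mem_Bo.1 y.2 _ _ (Fin.lt_def.2 (Nat.add_lt_add_left e a))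

theorem fix {A : Type*} [CommGroup A] (h : 5 ≤ n) {a b : Fin n} {ν c : A}
    {w : Equiv.Perm (Fin n)} (e : ∀ i, E0.rt' a b ν i = c * E0.rt' a b ν (w i)) (i : Fin n) :
    E0.rt' a b ν i = E0.rt' a b ν (w i) := by
  obtain ⟨j, h1, h2, h3, h4⟩ := E0.out4 h a b (w.symm a) (w.symm b)
  have := e j
  rw [E0.rt_o h1 h2, E0.rt_o (fun k => h3 (by simp [← k])) (fun k => h4 (by simp [← k])),
    mul_one] at this
  rw [e i, ← this, one_mul]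

theorem ne_one {A : Type*} [CommGroup A] {a b : Fin n} {ν : A} (h1 : ν ≠ 1) (i : Fin n) :
    E0.rt' a b ν i ≠ 1 ↔ i = a ∨ i = b := by
  rcases E0.rt_cases a b ν i with ⟨e, k⟩ | ⟨e, k⟩ | ⟨e, e', k⟩ <;> rw [k] <;> simp [*]

theorem fix' (h : 5 ≤ n) {a b : Fin n} {ν c : Ch F} {w : Equiv.Perm (Fin n)}
    (e : ∀ i, rt a b ν i = c * rt a b ν (w i)) (i : Fin n) :
    E0.rt' a b ν i = E0.rt' a b ν (w i) :=
  have e' : ∀ i, E0.rt' a b ν i = c * E0.rt' a b ν (w i) := e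
  fix h e' i

variable [Fintype F] [DecidableEq F] {Ω : Type*} [MulAction (GG n F) Ω]

theorem Ib_rt {a b c d : Fin n} (hab : a ≠ b) (hcd : c ≠ d) (ν : Ch F) :
    Ib (rt a b ν) = Ib (rt c d ν) := Ib_eqv (E0.eqv_move (A := Ch F) hab hcd ν)

theorem core {χ₁ χ₂ : GG n F → ℂ} (c : CB Ω χ₁ χ₂) {J : Set ℕ} (η : PJ n F J →* ℂˣ)
    {b : Fin n → Ch F} (e : η.comp (Subgroup.inclusion (Bo_le J)) = mu b)
    (hw : ∀ (w : Equiv.Perm (Fin n)) (d : Ch F), (∀ i, b i = d * b (w i)) → w ∈ YJ n J)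
    (hb : classInner χ₂ (Ib b) ≠ 0) :
    χ₂ = indFun (PJ n F J) (fun y => η y) ∧ classInner χ₂ (Ib b) = 1 ∧ ringChar F = 2 := by
  have hp := CharP.char_is_prime F (ringChar F)
  obtain ⟨k, hk⟩ := c.dg
  have := lemD le_rfl (Bo_le J) η (fun g hg h => hg (by
    obtain ⟨u, hu, w, y, hy, rfl⟩ := bruhat g
    rw [e, M2.cp_iff (Un_le hu) hy, cp_wd] at h
    obtain ⟨d, hd⟩ := h
    exact mul_mem (mul_mem (Bo_le J (Un_le hu)) (wd_mem_PJ.2 (hw w d hd))) (Bo_le J hy))) c.i2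
    (by rw [e]; exact hb)
  rw [e] at this
  rcases this with ⟨l, hl⟩ | ⟨h1, h2⟩
  · rw [hl] at hk
    have e3 : ringChar F * l + 1 = ringChar F * k := by exact_mod_cast hk
    exact absurd (Nat.dvd_one.1 ((Nat.dvd_add_right ⟨l, rfl⟩).1 ⟨_, e3⟩)) hp.ne_one
  · refine ⟨h1, h2, ?_⟩
    obtain ⟨l, hl⟩ := index_mod (n := n) (F := F) J
    rw [h1, indFun_one, hl, map_one, Units.val_one, mul_one] at hk
    have e3 : ringChar F * l + 2 = ringChar F * k := by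
      have : 1 + ringChar F * l + 1 = ringChar F * k := by exact_mod_cast hk
      omega
    exact (Nat.prime_dvd_prime_iff_eq hp Nat.prime_two).1 ((Nat.dvd_add_right ⟨l, rfl⟩).1 ⟨_, e3⟩)

theorem two (h : 5 ≤ n) {χ₁ χ₂ : GG n F → ℂ} (c : CB Ω χ₁ χ₂) {ν : Ch F} (h1 : ν ≠ 1)
    (h2 : ν ^ 2 = 1) (hb : classInner χ₂ (Ib (rt ⟨0, by omega⟩ ⟨1, by omega⟩ ν)) ≠ 0) :
    ringChar F = 2 := by
  refine (core c (ν.comp (bd (show 0 + 2 ≤ n by omega) line_le_PI)) (MonoidHom.ext fun y => ?_)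
    (fun w d hd => mem_YJ_compl.2 fun j => ?_) hb).2.2
  · rw [MonoidHom.comp_apply, MonoidHom.comp_apply, bd_Bo, mu_apply, E0.prod_rt (by simp),
      Fin.prod_univ_two, map_mul, map_div, eq_div_iff_mul_eq', mul_assoc]
    have := DFunLike.congr_fun h2 (dv n F y ⟨1, by omega⟩)
    rw [MonoidHom.pow_apply, pow_two] at this
    exact (congrArg _ this).trans (mul_one _)
  · have := ((ne_one (A := Ch F) h1 j).symm.trans
      (fix' h hd j).congr_left.not).trans (ne_one (A := Ch F) h1 (w j))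
    simp only [Fin.ext_iff] at this
    omega

theorem three (h : 5 ≤ n) {χ₁ χ₂ : GG n F → ℂ} (c : CB Ω χ₁ χ₂) {ν : Ch F} (h1 : ν ≠ 1)
    (h3 : ν ^ 3 = 1) (hb : classInner χ₂ (Ib (rt ⟨0, by omega⟩ ⟨1, by omega⟩ ν)) ≠ 0) :
    ∃ η : PJ n F {0, 1}ᶜ →* ℂˣ, η.comp (Subgroup.inclusion (Bo_le _)) =
      mu (rt ⟨0, by omega⟩ ⟨1, by omega⟩ ν) ∧ χ₂ = indFun (PJ n F {0, 1}ᶜ) (fun y => η y) ∧
      classInner χ₂ (Ib (rt ⟨0, by omega⟩ ⟨1, by omega⟩ ν)) = 1 ∧ ringChar F = 2 := by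
  have e : (ν.comp (bd (show 0 + 1 ≤ n by omega) (PJ_le_PI (J := {0, 1}ᶜ) fun m hm => by
      simp only [Set.mem_compl_iff, Set.mem_insert_iff, Set.mem_singleton_iff] at hm; omega) /
      bd (show 1 + 1 ≤ n by omega) (PJ_le_PI (J := {0, 1}ᶜ) fun m hm => by
      simp only [Set.mem_compl_iff, Set.mem_insert_iff, Set.mem_singleton_iff] at hm; omega))).comp
      (Subgroup.inclusion (Bo_le _)) = mu (rt ⟨0, by omega⟩ ⟨1, by omega⟩ ν) :=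
    MonoidHom.ext fun y => by
      rw [MonoidHom.comp_apply, MonoidHom.comp_apply, MonoidHom.div_apply, bd_Bo, bd_Bo, mu_apply,
        E0.prod_rt (by simp), Fin.prod_univ_one, Fin.prod_univ_one]
      rfl
  refine ⟨_, e, core c _ e (fun w d hd => mem_YJ.2 fun j m a1 a2 => ?_) hb⟩
  have h2 := E0.ne_inv (E0.sq_ne h1 h3)
  have k := fix' h hd j
  simp only [Set.mem_compl_iff, Set.mem_insert_iff, Set.mem_singleton_iff]
  rcases E0.rt_cases (⟨0, by omega⟩ : Fin n) ⟨1, by omega⟩ ν j with ⟨a, b⟩ | ⟨a, b⟩ | ⟨a, a', b⟩ <;>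
    rcases E0.rt_cases (⟨0, by omega⟩ : Fin n) ⟨1, by omega⟩ ν (w j) with
      ⟨c, d⟩ | ⟨c, d⟩ | ⟨c, c', d⟩ <;> rw [b, d] at k <;>
    simp only [Ne, Fin.ext_iff] at a c <;>
    first | omega | exact absurd k h2 | exact absurd k h1 | exact absurd (inv_eq_one.1 k) h1 |
      (simp only [Ne, Fin.ext_iff] at a'; omega)

end X3

variable [Fintype F] [DecidableEq F] {Ω : Type*} [MulAction (GG n F) Ω]

theorem R3.x3 (h : R3 n F Ω) (hc : ¬ CA n F Ω) (hp : ringChar F ≠ 2) {a b : Fin n} (hab : a ≠ b)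
    {ν : Ch F} (h1 : ν ≠ 1) (h2 : ν ^ 2 = 1 ∨ ν ^ 3 = 1) (ω : Ω) : rt a b ν ∉ Es n F ω := by
  intro hb
  have := h.fin
  have := h.n5
  obtain ⟨χ, ψ, d⟩ := h.cb hc
  have k := (d.chi2 hb (E0.rt_ncst (A := Ch F) h.n5 a b h1)).1
  rw [X3.Ib_rt (c := ⟨0, by omega⟩) (d := ⟨1, by omega⟩) hab (by simp)] at k
  rcases h2 with e | e
  · exact hp (X3.two h.n5 d h1 e k)
  · obtain ⟨_, -, -, -, e'⟩ := X3.three h.n5 d h1 e k
    exact hp e'

theorem R3.x4 (h : R3 n F Ω) (hc : ¬ CA n F Ω) {a b : Fin n} (hab : a ≠ b) {ν : Ch F}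
    (h1 : ν ≠ 1) (h3 : ν ^ 3 = 1) {ω : Ω} (hb : rt a b ν ∈ Es n F ω) :
    (∀ c d : Fin n, c ≠ d → ∃ ω' : Ω, rt c d ν ∈ Es n F ω') ∧
      ∃ ω' : Ω, ∀ g ∈ PJ n F {0, 1}ᶜ, Cl n F ∅ ω' (g • ω') := by
  have := h.fin
  have := h.n5
  refine ⟨fun c d hcd => inner_pc_Ib.1 ?_, ?_⟩
  · rw [← X3.Ib_rt hab hcd]
    exact inner_pc_Ib.2 ⟨ω, hb⟩
  obtain ⟨χ, ψ, d⟩ := h.cb hc
  have k := d.chi2 hb (E0.rt_ncst (A := Ch F) h.n5 a b h1)
  have k0 := inner_one_Ib (b := rt a b ν) (E0.rt_ncst (A := Ch F) h.n5 a b h1)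
  rw [X3.Ib_rt (c := ⟨0, by omega⟩) (d := ⟨1, by omega⟩) hab (by simp)] at k k0
  obtain ⟨η, e1, e2, e3, -⟩ := X3.three h.n5 d h1 h3 k.1
  have e4 := mk1 (Ω := Ω) _ (mu (rt (⟨0, by omega⟩ : Fin n) ⟨1, by omega⟩ ν))
  rw [← Ib, d.eq, Char.inner_add_left, Char.inner_add_left, k0, k.2, e3, zero_add, zero_add] at e4
  have e5 := mk1 (Ω := Ω) _ η
  rw [← e2, d.eq, Char.inner_add_left, Char.inner_add_left, inner_irr_ne irr_one d.i2 d.n2.symm,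
    inner_irr_ne d.i1 d.i2 d.ne, inner_irr_self d.i2, zero_add, zero_add] at e5
  obtain ⟨x, hx⟩ := nO_ne_zero.1 (show nO Ω _ η ≠ 0 by
    rw [← Nat.cast_ne_zero (R := ℂ), ← e5]; exact one_ne_zero)
  have r : ∀ y : Ω, Gd η y → Gd (mu (rt (⟨0, by omega⟩ : Fin n) ⟨1, by omega⟩ ν)) y :=
    fun y hy z hz => e1 ▸ hy (Subgroup.inclusion (Bo_le _) z) hz
  exact ⟨x, fun g hg => nO_one_conj (by exact_mod_cast e4.symm) (r _ hx) (r _ (hx.smul hg))⟩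

end CF.Rk
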