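import Cfsg.Agent.Rk.X5

/-! Rank 3 actions of `PSL_n(q)`: reduction to irreducible point stabilisers. -/

set_option autoImplicit false
set_option linter.unusedSectionVars false
open Matrix MulAction Cfsg

namespace CF.Rk.Z

theorem rank_hom {G H Ω : Type*} [Group G] [Group H] [MulAction G Ω] [MulAction H Ω]
    (f : H →* G) (hf : Function.Surjective f) (e : ∀ (h : H) (ω : Ω), h • ω = f h • ω) (ω : Ω) :
    nB Ω (stabilizer H ω) = nB Ω (stabilizer G ω) := by
  refine Nat.card_congr (Quotient.congr (Equiv.refl Ω) fun a b => ⟨?_, ?_⟩)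
  · rintro ⟨⟨h, hh⟩, rfl⟩
    exact ⟨⟨f h, (e h ω).symm.trans hh⟩, (e h b).symm⟩
  · rintro ⟨⟨g, hg⟩, rfl⟩
    obtain ⟨h, rfl⟩ := hf g
    exact ⟨⟨h, (e h ω).trans hg⟩, e h b⟩

theorem rank_smul {G Ω : Type*} [Group G] [MulAction G Ω] (g : G) (ω : Ω) :
    nB Ω (stabilizer G (g • ω)) = nB Ω (stabilizer G ω) := by
  refine (Nat.card_congr (Quotient.congr (toPerm g) fun a b => ⟨?_, ?_⟩)).symm
  · rintro ⟨⟨h, hh⟩, rfl⟩
    refine ⟨⟨g * h * g⁻¹, ?_⟩, ?_⟩
    · rw [mem_stabilizer_iff, smul_smul, inv_mul_cancel_right, mul_smul, hh]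
    · change (g * h * g⁻¹) • g • b = g • h • b
      rw [smul_smul, inv_mul_cancel_right, mul_smul]
  · rintro ⟨⟨h, hh⟩, e⟩
    refine ⟨⟨g⁻¹ * h * g, ?_⟩, ?_⟩
    · rw [mem_stabilizer_iff, mul_smul, mul_smul, hh, inv_smul_smul]
    · change (g⁻¹ * h * g) • b = a
      rw [mul_smul, mul_smul, show h • g • b = g • a from e, inv_smul_smul]

variable {n : ℕ} {F : Type*} [Field F]

theorem exists_std (W : Submodule F (Fin n → F)) (hn : 0 < n) :
    ∃ g : GG n F, ∀ v, v ∈ W ↔ ∀ i : Fin n, Module.finrank F W ≤ i.1 → (g • v) i = 0 := by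
  have hk : Module.finrank F W ≤ n := W.finrank_le.trans (by simp)
  set k := Module.finrank F W with hk'
  let V : Submodule F (Fin n → F) :=
    { carrier := {v | ∀ i : Fin n, k ≤ i.1 → v i = 0}
      zero_mem' := fun _ _ => rfl
      add_mem' := fun ha hb i e => by simp [ha i e, hb i e]
      smul_mem' := fun c v hv i e => by simp [hv i e] }
  let e : V ≃ₗ[F] (Fin k → F) :=
    { toFun := fun v j => v.1 (Fin.castLE hk j)
      invFun := fun u => ⟨fun i => if h : i.1 < k then u ⟨i, h⟩ else 0, fun i e => dif_neg (by omega)⟩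
      map_add' := fun _ _ => rfl
      map_smul' := fun _ _ => rfl
      left_inv := fun v => Subtype.ext (funext fun i => by
        dsimp only
        split_ifs with h
        · rfl
        · exact (v.2 i (by omega)).symm)
      right_inv := fun u => funext fun j => by simp }
  let f : W ≃ₗ[F] V := LinearEquiv.ofFinrankEq _ _ (by rw [e.finrank_eq, ← hk']; simp)
  obtain ⟨φ, hφ⟩ := Submodule.exists_linearEquiv_restrict_eq f
  have h1 : ∀ v, v ∈ W ↔ φ v ∈ V := fun v => ⟨fun h => hφ ⟨v, h⟩ ▸ (f ⟨v, h⟩).2, fun h => by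
    obtain ⟨w, hw⟩ := f.surjective ⟨_, h⟩
    rw [← φ.injective ((hφ w).symm.trans (congr_arg Subtype.val hw))]
    exact w.2⟩
  have h2 : (LinearMap.toMatrix' φ.toLinearMap).det ≠ 0 := by
    rw [LinearMap.det_toMatrix']
    exact φ.isUnit_det'.ne_zero
  let c : Fin n → F := Function.update 1 ⟨0, hn⟩ (LinearMap.toMatrix' φ.toLinearMap).det⁻¹
  have h3 : ∀ i, c i ≠ 0 := fun i => by
    simp only [c, Function.update_apply]
    split_ifs
    · exact inv_ne_zero h2
    · exact one_ne_zero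
  refine ⟨⟨diagonal c * LinearMap.toMatrix' φ.toLinearMap, by
    rw [det_mul, det_diagonal, Finset.prod_update_of_mem (Finset.mem_univ _)]
    simp only [Pi.one_apply, Finset.prod_const_one, mul_one]
    exact inv_mul_cancel₀ h2⟩, fun v => (h1 v).trans (forall₂_congr fun i _ => ?_)⟩
  change _ ↔ ((diagonal c * LinearMap.toMatrix' φ.toLinearMap) *ᵥ v) i = 0
  rw [← mulVec_mulVec, mulVec_diagonal, LinearMap.toMatrix'_mulVec, mul_eq_zero, or_iff_right (h3 i)]
  rfl

variable [Fintype F] [DecidableEq F]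

theorem red {X : Type*} [MulAction (GG n F) X] [Finite X] [IsPretransitive (GG n F) X] (hn : 5 ≤ n)
    {ω : X} (co : ∀ ω : X, IsCoatom (stabilizer (GG n F) ω))
    (rk : ∀ ω : X, nB X (stabilizer (GG n F) ω) = 3) {W : Submodule F (Fin n → F)}
    (hW : ∀ g : GG n F, g • ω = ω → ∀ v ∈ W, g • v ∈ W) (h0 : W ≠ ⊥) (h1 : W ≠ ⊤) :
    Nat.card X * ((Fintype.card F ^ 2 - 1) * (Fintype.card F - 1)) =
      (Fintype.card F ^ n - 1) * (Fintype.card F ^ (n - 1) - 1) := by
  obtain ⟨g, hg⟩ := exists_std W (by omega)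
  obtain ⟨k, hk⟩ : ∃ k, Module.finrank F W = k + 1 :=
    Nat.exists_eq_succ_of_ne_zero fun e => h0 (Submodule.finrank_eq_zero.1 e)
  have hk' : k + 1 < n := by simpa [hk] using Submodule.finrank_lt h1
  rw [hk] at hg
  have h2 : stabilizer (GG n F) (g • ω) ≤ PJ n F {k}ᶜ := fun x hx => mem_PJ.2 fun a b ⟨m, a1, a2, a3⟩ => by
    obtain rfl : m = k := by simpa using a3
    have e1 : g⁻¹ • (Pi.single b 1 : Fin n → F) ∈ W := (hg _).2 fun i e => by
      rw [smul_inv_smul, Pi.single_eq_of_ne]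
      rintro rfl
      omega
    have e2 := (hg _).1 (hW (g⁻¹ * x * g) (by
      rw [mul_smul, mul_smul, show x • g • ω = g • ω from hx, inv_smul_smul]) _ e1) a (by omega)
    rw [mul_smul, mul_smul, smul_inv_smul, smul_inv_smul, smul_vec] at e2
    simpa using e2
  have h3 : PJ n F {k}ᶜ ≠ ⊤ := fun e => by
    have := (swap_mem_YJ (a := ⟨k, by omega⟩) (b := ⟨k + 1, hk'⟩) rfl).1
      ((wd_mem_PJ (F := F) (J := {k}ᶜ)).1 (e ▸ Subgroup.mem_top _))
    exact this rfl
  have h4 : stabilizer (GG n F) (g • ω) = PJ n F {k}ᶜ :=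
    (h2.eq_or_lt.resolve_right fun e => h3 ((co _).2 _ e))
  have h5 : pc n F X = IP n F {k}ᶜ := by
    classical
    have := Fintype.ofFinite X
    funext x
    rw [IP, ← h4, Clifford.indFun_stabilizer_one, pc, Nat.card_eq_fintype_card, Fintype.card_subtype]
    simp [orbit_eq_univ]
  have h6 := mk1' (Ω := X) (PJ n F {k}ᶜ)
  rw [h5, ← h4, rk, h4] at h6
  have h7 : min k k + 2 - (k + k + 2 - n) = 3 := by exact_mod_cast (gr_kl hk' hk').symm.trans h6
  rw [← index_P2 (n := n) (k := k) (by omega) (by omega), ← h4, index_stabilizer_of_transitive]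

theorem final_of {G X : Type*} [Group G] [MulAction G X] [Fintype X]
    {F : Type*} [Field F] [Fintype F] [DecidableEq F] (n : ℕ) (hn : 5 ≤ n)
    (e : G ≃* Matrix.ProjectiveSpecialLinearGroup (Fin n) F) (hprim : IsPreprimitive G X) (x : X)
    (h3 : Nat.card (orbitRel.Quotient (stabilizer G x) X) = 3)
    (main : ∀ _ : MulAction (GG n F) X, ¬ R3 n F X) :
    Fintype.card X * ((Fintype.card F ^ 2 - 1) * (Fintype.card F - 1)) =
      (Fintype.card F ^ n - 1) * (Fintype.card F ^ (n - 1) - 1) := by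
  let f : GG n F →* G := e.symm.toMonoidHom.comp (QuotientGroup.mk' _)
  have hf : Function.Surjective f := e.symm.surjective.comp (QuotientGroup.mk'_surjective _)
  let this : MulAction (GG n F) X := MulAction.compHom X f
  have e1 : ∀ (g : GG n F) (ω : X), g • ω = f g • ω := fun _ _ => rfl
  have tr : IsPretransitive (GG n F) X := ⟨fun a b => by
    obtain ⟨g, hg⟩ := exists_smul_eq G a b
    obtain ⟨g, rfl⟩ := hf g
    exact ⟨g, hg⟩⟩
  have : Nontrivial (orbitRel.Quotient (stabilizer G x) X) :=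
    Finite.one_lt_card_iff_nontrivial.1 (by omega)
  have : Nontrivial X := Quotient.mk''_surjective.nontrivial (β := orbitRel.Quotient (stabilizer G x) X)
  have co : ∀ ω : X, IsCoatom (stabilizer (GG n F) ω) := fun ω => by
    rw [show stabilizer (GG n F) ω = (stabilizer G ω).comap f from rfl]
    exact Subgroup.isCoatom_comap_of_surjective hf
      ((isCoatom_stabilizer_iff_preprimitive G ω).2 hprim)
  have rk : ∀ ω : X, nB X (stabilizer (GG n F) ω) = 3 := fun ω => by
    obtain ⟨g, rfl⟩ := exists_smul_eq G x ω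
    rw [rank_hom f hf e1, rank_smul]
    exact h3
  by_cases h : ∀ (ω : X) (W : Submodule F (Fin n → F)),
      (∀ g : GG n F, g • ω = ω → ∀ v ∈ W, g • v ∈ W) → W = ⊥ ∨ W = ⊤
  · exact absurd ⟨hn, inferInstance, tr, co, rk, ⟨x⟩, h⟩ (main _)
  push Not at h
  obtain ⟨ω, W, h1, h2, h4⟩ := h
  rw [← Nat.card_eq_fintype_card]
  exact red hn co rk h1 h2 h4

end CF.Rk.Z
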